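import Mathlib
import Cfsg.Agent.Lib.H85.AbPerm

/-!
Largest abelian groups of even permutations: splitting off an orbit.
-/

set_option autoImplicit false
set_option linter.unusedSimpArgs false
set_option linter.unusedVariables false
set_option linter.style.haveILetI false
set_option linter.unusedSectionVars false

open Equiv MulAction H85.AbPerm

namespace H86.AltAb

universe u

variable {X : Type u} [Fintype X] [DecidableEq X]

/-- the part of `A` moving only points of `p` -/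
def pt (A : Subgroup (Perm X)) (p : X → Prop) [DecidablePred p] : Subgroup (Perm {x // p x}) :=
  A.comap (Perm.ofSubtype (p := p))

theorem mem_pt {A : Subgroup (Perm X)} {p : X → Prop} [DecidablePred p] {g : Perm {x // p x}} :
    g ∈ pt A p ↔ Perm.ofSubtype g ∈ A := Iff.rfl

theorem pt_comm {A : Subgroup (Perm X)} (hA : IsMulCommutative A) (p : X → Prop) [DecidablePred p] :
    IsMulCommutative (pt A p) := by
  refine ⟨⟨?_⟩⟩
  rintro ⟨a, ha⟩ ⟨b, hb⟩
  apply Subtype.ext
  apply Perm.ofSubtype_injective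
  have := congrArg Subtype.val (hA.is_comm.comm ⟨_, ha⟩ ⟨_, hb⟩)
  show Perm.ofSubtype (a * b) = Perm.ofSubtype (b * a)
  rw [map_mul, map_mul]
  exact this

theorem pt_even {A : Subgroup (Perm X)} (hs : ∀ a ∈ A, Perm.sign a = 1) (p : X → Prop) [DecidablePred p] :
    ∀ a ∈ pt A p, Perm.sign a = 1 := by
  intro a ha
  rw [← Perm.sign_ofSubtype]
  exact hs _ ha

theorem split (A : Subgroup (Perm X)) (hA : IsMulCommutative A) (x : X)
    [DecidablePred fun y => y ∈ orbit A x] [DecidablePred fun y => ¬ y ∈ orbit A x]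
    (h : Nat.card A = Nat.card (orbit A x) * f (Nat.card X - Nat.card (orbit A x))) :
    (∀ a ∈ A, ∃ b ∈ pt A (fun y => y ∈ orbit A x), ∃ c ∈ pt A (fun y => ¬ y ∈ orbit A x),
      a = Perm.ofSubtype b * Perm.ofSubtype c) ∧
    Nat.card (pt A (fun y => ¬ y ∈ orbit A x)) = f (Nat.card X - Nat.card (orbit A x)) ∧
    (∀ y : {y // y ∈ orbit A x}, Function.Bijective (fun a : pt A (fun y => y ∈ orbit A x) => a.1 y)) := by
  classical
  letI : CommGroup A := { mul_comm := fun a b => hA.is_comm.comm a b }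
  have hcc := card_compl (A := A) x
  have hcardq : Nat.card {y : X // ¬ y ∈ orbit A x} = Nat.card X - Nat.card (orbit A x) := by omega
  have hmpos : 0 < Nat.card (orbit A x) := by
    have : Nonempty (orbit A x) := ⟨⟨x, mem_orbit_self x⟩⟩
    exact Nat.card_pos
  have hK : Nat.card (stabilizer A x) = f (Nat.card X - Nat.card (orbit A x)) := by
    rw [card_eq (A := A) x] at h
    exact Nat.eq_of_mul_eq_mul_left hmpos h
  have hinv : ∀ a : A, ∀ y, (a.1 y ∈ orbit A x) ↔ y ∈ orbit A x := by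
    intro a y
    constructor
    · intro hy
      by_contra hn
      exact compl_stable a hn hy
    · intro hy
      exact mem_orbit_of_mem_orbit a hy
  have hinvq : ∀ a : A, ∀ y, (¬ a.1 y ∈ orbit A x) ↔ ¬ y ∈ orbit A x := fun a y => not_congr (hinv a y)
  let r : A →* Perm {y // ¬ y ∈ orbit A x} :=
    { toFun := fun a => a.1.subtypePerm (hinvq a)
      map_one' := rfl
      map_mul' := fun a b => rfl }
  have hr : ∀ (a : A) (y : {y // ¬ y ∈ orbit A x}), (r a y).1 = a.1 y.1 := fun a y => rfl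
  have hfix : ∀ k : A, k ∈ stabilizer A x → ∀ y ∈ orbit A x, k.1 y = y := fun k hk y hy => comm_fix hk hy
  have hRcomm : IsMulCommutative r.range := by
    refine ⟨⟨?_⟩⟩
    rintro ⟨_, a, rfl⟩ ⟨_, b, rfl⟩
    apply Subtype.ext
    show r a * r b = r b * r a
    rw [← map_mul, ← map_mul, mul_comm]
  have hRle : Nat.card r.range ≤ f (Nat.card X - Nat.card (orbit A x)) := by
    rw [← hcardq]
    exact perm_le r.range hRcomm
  -- r restricted to the stabilizer is onto the range
  let rk : stabilizer A x → r.range := fun k => ⟨r k.1, k.1, rfl⟩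
  have hrk : Function.Injective rk := by
    intro k l hkl
    have h1 : r k.1 = r l.1 := congrArg Subtype.val hkl
    apply Subtype.ext
    apply Subtype.ext
    ext y
    by_cases hy : y ∈ orbit A x
    · rw [hfix k.1 k.2 y hy, hfix l.1 l.2 y hy]
    · have h2 := congrArg (fun g : Perm {y // ¬ y ∈ orbit A x} => (g ⟨y, hy⟩).1) h1
      exact h2
  have hrkb : Function.Bijective rk := by
    apply hrk.bijective_of_nat_card_le
    rw [hK]
    exact hRle
  have hof : ∀ k : A, k ∈ stabilizer A x → Perm.ofSubtype (r k) = k.1 := by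
    intro k hk
    exact Perm.ofSubtype_subtypePerm (hinvq k) (fun y hy hn => hy (hfix k hk y hn))
  have hRpt : ∀ a : A, r a ∈ pt A (fun y => ¬ y ∈ orbit A x) := by
    intro a
    obtain ⟨k, hk⟩ := hrkb.2 ⟨r a, a, rfl⟩
    have h1 : r k.1 = r a := congrArg Subtype.val hk
    rw [← h1, mem_pt, hof k.1 k.2]
    exact k.1.2
  have hptR : ∀ c ∈ pt A (fun y => ¬ y ∈ orbit A x), c ∈ r.range := by
    intro c hc
    refine ⟨⟨Perm.ofSubtype c, hc⟩, ?_⟩
    exact Perm.subtypePerm_ofSubtype c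
  have hpteq : pt A (fun y => ¬ y ∈ orbit A x) = r.range := by
    apply le_antisymm
    · exact fun c hc => hptR c hc
    · rintro _ ⟨a, rfl⟩
      exact hRpt a
  have hsplit : ∀ a ∈ A, ∃ b ∈ pt A (fun y => y ∈ orbit A x), ∃ c ∈ pt A (fun y => ¬ y ∈ orbit A x),
      a = Perm.ofSubtype b * Perm.ofSubtype c := by
    intro a ha
    have hc := hRpt ⟨a, ha⟩
    rw [mem_pt] at hc
    set d : Perm X := a * (Perm.ofSubtype (r ⟨a, ha⟩))⁻¹ with hd
    have hdA : d ∈ A := A.mul_mem ha (A.inv_mem hc)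
    have hda : a = d * Perm.ofSubtype (r ⟨a, ha⟩) := by rw [hd, inv_mul_cancel_right]
    have hdfix : ∀ y, d y ≠ y → y ∈ orbit A x := by
      intro y hy
      by_contra hn
      apply hy
      -- y = ofSubtype (r a) z
      have h3 : d (Perm.ofSubtype (r ⟨a, ha⟩) ((r ⟨a, ha⟩)⁻¹ ⟨y, hn⟩ : {y // ¬ y ∈ orbit A x})) =
          a ((r ⟨a, ha⟩)⁻¹ ⟨y, hn⟩ : {y // ¬ y ∈ orbit A x}) := by
        rw [← Perm.mul_apply, ← hda]
      have h4 : Perm.ofSubtype (r ⟨a, ha⟩) ((r ⟨a, ha⟩)⁻¹ ⟨y, hn⟩ : {y // ¬ y ∈ orbit A x}) = y := by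
        rw [Perm.ofSubtype_apply_coe, ← Perm.mul_apply, mul_inv_cancel]
        rfl
      have h5 : a ((r ⟨a, ha⟩)⁻¹ ⟨y, hn⟩ : {y // ¬ y ∈ orbit A x}) = y := by
        have h6 := hr ⟨a, ha⟩ ((r ⟨a, ha⟩)⁻¹ ⟨y, hn⟩)
        rw [← Perm.mul_apply, mul_inv_cancel] at h6
        exact h6.symm
      rw [h4, h5] at h3
      exact h3
    have hdof : Perm.ofSubtype (d.subtypePerm (hinv ⟨d, hdA⟩)) = d :=
      Perm.ofSubtype_subtypePerm _ hdfix
    refine ⟨d.subtypePerm (hinv ⟨d, hdA⟩), ?_, r ⟨a, ha⟩, hRpt _, ?_⟩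
    · rw [mem_pt, hdof]
      exact hdA
    · rw [hdof]
      exact hda
  refine ⟨hsplit, ?_, ?_⟩
  · rw [hpteq]
    apply le_antisymm hRle
    rw [← hK]
    exact Nat.card_le_card_of_injective rk hrk
  · -- transitivity
    have htrans : ∀ y z : {y // y ∈ orbit A x}, ∃ b ∈ pt A (fun y => y ∈ orbit A x), b y = z := by
      intro y z
      obtain ⟨a, ha⟩ : ∃ a : A, a.1 y.1 = z.1 := by
        obtain ⟨b, hb⟩ := y.2
        obtain ⟨c, hc⟩ := z.2
        refine ⟨c * b⁻¹, ?_⟩
        have hb' : b.1 x = y.1 := hb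
        have hc' : c.1 x = z.1 := hc
        show (c.1 * b.1⁻¹) y.1 = z.1
        rw [← hb', ← hc', Perm.mul_apply, ← Perm.mul_apply b.1⁻¹, inv_mul_cancel]
        rfl
      obtain ⟨b, hb, c, hc, habc⟩ := hsplit a.1 a.2
      refine ⟨b, hb, ?_⟩
      apply Subtype.ext
      rw [← ha, habc, Perm.mul_apply, Perm.ofSubtype_apply_of_not_mem c (not_not.mpr y.2),
        Perm.ofSubtype_apply_coe]
    intro y
    constructor
    · rintro ⟨a, ha⟩ ⟨b, hb⟩ hab
      apply Subtype.ext
      ext z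
      obtain ⟨c, hc, hcz⟩ := htrans y z
      have hcomm := (pt_comm hA (fun y => y ∈ orbit A x)).is_comm.comm
      have e1 : a * c = c * a := congrArg Subtype.val (hcomm ⟨a, ha⟩ ⟨c, hc⟩)
      have e2 : b * c = c * b := congrArg Subtype.val (hcomm ⟨b, hb⟩ ⟨c, hc⟩)
      have hab' : a y = b y := hab
      rw [← hcz, ← Perm.mul_apply, ← Perm.mul_apply, e1, e2, Perm.mul_apply, Perm.mul_apply, hab']
    · intro z
      obtain ⟨b, hb, hbz⟩ := htrans y z
      exact ⟨⟨b, hb⟩, hbz⟩

end H86.AltAb
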