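import Mathlib
import Cfsg.Agent.Lib.H86.AltAb

/-!
Largest abelian groups of even permutations: numerics and small orbits.
-/

set_option autoImplicit false
set_option linter.unusedSimpArgs false
set_option linter.unusedVariables false
set_option linter.style.haveILetI false
set_option linter.unusedSectionVars false

open Equiv MulAction H85.AbPerm

namespace H86.AltAb2

universe u v

theorem red (m n : ℕ) (hm : 5 ≤ m) : m * f n < (m - 3) * f (n + 3) := by
  obtain ⟨-, -, h3, -⟩ := small n
  obtain ⟨j, rfl⟩ : ∃ j, m = j + 5 := ⟨m - 5, by omega⟩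
  have e : j + 5 - 3 = j + 2 := by omega
  rw [e]
  have h1 := f_pos n
  nlinarith [Nat.mul_le_mul_left (j + 2) h3, Nat.zero_le (j * f n)]

theorem num0 (k m n : ℕ) (h0 : m ≠ 0) (h3 : m ≠ 3) (hmn : n + m = 3 * k) : m * f n < 3 ^ k := by
  by_cases h5 : 5 ≤ m
  · have h1 := red m n h5
    have h2 := mul_le (m - 3) (n + 3)
    have e : n + 3 + (m - 3) = 3 * k := by omega
    rw [e, f_three] at h2
    omega
  · obtain h | h | h : m = 1 ∨ m = 2 ∨ m = 4 := by omega
    · subst h
      obtain ⟨j, rfl⟩ : ∃ j, k = j + 1 := ⟨k - 1, by omega⟩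
      have : n = 3 * j + 2 := by omega
      rw [this, f_three_two, pow_succ]
      have := pow_pos (show 0 < 3 by norm_num) j
      omega
    · subst h
      obtain ⟨j, rfl⟩ : ∃ j, k = j + 1 := ⟨k - 1, by omega⟩
      rcases Nat.eq_zero_or_pos j with hj | hj
      · subst hj
        have : n = 1 := by omega
        rw [this]; decide
      · obtain ⟨i, rfl⟩ : ∃ i, j = i + 1 := ⟨j - 1, by omega⟩
        have : n = 3 * (i + 1) + 1 := by omega
        rw [this, f_three_one, pow_succ, pow_succ]
        have := pow_pos (show 0 < 3 by norm_num) i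
        omega
    · subst h
      obtain ⟨j, rfl⟩ : ∃ j, k = j + 2 := ⟨k - 2, by omega⟩
      have : n = 3 * j + 2 := by omega
      rw [this, f_three_two, pow_succ, pow_succ]
      have := pow_pos (show 0 < 3 by norm_num) j
      omega

theorem num1 (k m n : ℕ) (h0 : m ≠ 0) (h2 : m ≠ 2) (h3 : m ≠ 3) (h4 : m ≠ 4)
    (hmn : n + m = 3 * (k + 1) + 1) : m * f n < 4 * 3 ^ k := by
  by_cases h5 : 5 ≤ m
  · have h1 := red m n h5
    have h2 := mul_le (m - 3) (n + 3)
    have e : n + 3 + (m - 3) = 3 * (k + 1) + 1 := by omega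
    rw [e, f_three_one] at h2
    omega
  · have h : m = 1 := by omega
    subst h
    have : n = 3 * (k + 1) := by omega
    rw [this, f_three, pow_succ]
    have := pow_pos (show 0 < 3 by norm_num) k
    omega

theorem num2 (k m n : ℕ) (h0 : m ≠ 0) (h2 : m ≠ 2) (h3 : m ≠ 3) (h4 : m ≠ 4)
    (hmn : n + m = 3 * (k + 2) + 2) : m * f n < 16 * 3 ^ k := by
  have hpos := pow_pos (show 0 < 3 by norm_num) k
  by_cases h7 : 7 ≤ m
  · have h1 := red m n (by omega)
    have h2 := num (k + 2) (m - 3) (n + 3) (by omega) (by omega) (by omega) (by omega) (by omega)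
    simp only [Nat.add_sub_cancel] at h2
    omega
  · obtain h | h | h : m = 1 ∨ m = 5 ∨ m = 6 := by omega
    · subst h
      have : n = 3 * ((k + 1) + 1) + 1 := by omega
      rw [this, f_three_one, pow_succ]
      omega
    · subst h
      have : n = 3 * (k + 1) := by omega
      rw [this, f_three, pow_succ]
      omega
    · subst h
      have : n = 3 * k + 2 := by omega
      rw [this, f_three_two]
      omega

/-- all orbits of length three -/
theorem three_dvd {X : Type u} [Fintype X] [DecidableEq X] (A : Subgroup (Perm X))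
    (h : ∀ x : X, Nat.card (orbit A x) = 3) : 3 ∣ Nat.card X := by
  classical
  have h1 := MulAction.selfEquivSigmaOrbits A X
  rw [Nat.card_congr h1, Nat.card_sigma]
  apply Finset.dvd_sum
  intro ω _
  have h2 : Nat.card (orbit A (Quotient.out ω)) = 3 := h _
  rw [h2]

set_option maxRecDepth 20000 in
theorem perm4 : ∀ g : Perm (Fin 4), Perm.sign g = 1 → g ^ 4 = 1 → g ^ 2 = 1 := by decide

set_option maxRecDepth 20000 in
theorem card4 : Fintype.card {g : Perm (Fin 4) // Perm.sign g = 1 ∧ g ^ 2 = 1} = 4 := by decide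
theorem card3 : Fintype.card {g : Perm (Fin 3) // Perm.sign g = 1 ∧ g ^ 3 = 1} = 3 := by decide

theorem even4 {O : Type u} [Fintype O] [DecidableEq O] (h : Fintype.card O = 4) (g : Perm O)
    (h1 : Perm.sign g = 1) (h2 : g ^ 4 = 1) : g ^ 2 = 1 := by
  have e : O ≃ Fin 4 := Fintype.equivFinOfCardEq h
  have h3 := perm4 (e.permCongrHom g) (by
    have : e.permCongrHom g = e.permCongr g := rfl
    rw [this, Perm.sign_permCongr]; exact h1) (by rw [← map_pow, h2, map_one])
  rw [← map_pow] at h3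
  exact e.permCongrHom.injective (by rw [h3, map_one])

theorem cardS {O : Type u} [Fintype O] [DecidableEq O] {m c : ℕ} (h : Fintype.card O = m)
    (hc : Fintype.card {g : Perm (Fin m) // Perm.sign g = 1 ∧ g ^ c = 1} = m) :
    Nat.card {g : Perm O // Perm.sign g = 1 ∧ g ^ c = 1} = m := by
  have e : O ≃ Fin m := Fintype.equivFinOfCardEq h
  rw [← hc, ← Nat.card_eq_fintype_card]
  apply Nat.card_congr
  refine (e.permCongrHom.toEquiv).subtypeEquiv ?_
  intro g
  show _ ↔ Perm.sign (e.permCongr g) = 1 ∧ (e.permCongrHom g) ^ c = 1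
  rw [Perm.sign_permCongr, ← map_pow]
  constructor
  · rintro ⟨h1, h2⟩
    exact ⟨h1, by rw [h2, map_one]⟩
  · rintro ⟨h1, h2⟩
    exact ⟨h1, e.permCongrHom.injective (by rw [h2, map_one])⟩

/-- conjugation of regular groups -/
theorem reg_conj {O : Type u} {O' : Type v} (A : Subgroup (Perm O)) (B : Subgroup (Perm O')) (x : O) (y : O')
    (hA : Function.Bijective (fun a : A => a.1 x)) (hB : Function.Bijective (fun b : B => b.1 y))
    (φ : A ≃* B) : ∃ e : O ≃ O', ∀ a ∈ A, e.permCongr a ∈ B := by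
  let eA := Equiv.ofBijective _ hA
  let eB := Equiv.ofBijective _ hB
  let e : O ≃ O' := eA.symm.trans (φ.toEquiv.trans eB)
  have he : ∀ a : A, e (a.1 x) = (φ a).1 y := by
    intro a
    show eB (φ (eA.symm (a.1 x))) = _
    have : eA.symm (a.1 x) = a := eA.symm_apply_eq.mpr rfl
    rw [this]
    rfl
  refine ⟨e, ?_⟩
  intro a ha
  have h1 : e.permCongr a = (φ ⟨a, ha⟩).1 := by
    ext z
    rw [Equiv.permCongr_apply]
    obtain ⟨b, hb⟩ := hA.2 (e.symm z)
    have hb' : b.1 x = e.symm z := hb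
    have hz : z = (φ b).1 y := by rw [← he, hb', e.apply_symm_apply]
    rw [← hb', ← Perm.mul_apply]
    have h2 := he (⟨a, ha⟩ * b)
    rw [map_mul] at h2
    rw [hz]
    exact h2
  rw [h1]
  exact (φ ⟨a, ha⟩).2

/-- combining equivalences -/
def comb {X : Type u} {Y : Type v} (p : X → Prop) (q : Y → Prop) [DecidablePred p] [DecidablePred q]
    (e1 : {x // p x} ≃ {y // q y}) (e2 : {x // ¬ p x} ≃ {y // ¬ q y}) : X ≃ Y :=
  (Equiv.sumCompl p).symm.trans ((Equiv.sumCongr e1 e2).trans (Equiv.sumCompl q))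

section comb
variable {X : Type u} {Y : Type v} (p : X → Prop) (q : Y → Prop) [DecidablePred p] [DecidablePred q]
    (e1 : {x // p x} ≃ {y // q y}) (e2 : {x // ¬ p x} ≃ {y // ¬ q y})

theorem comb_pos (x : {x // p x}) : comb p q e1 e2 x = e1 x := by
  simp [comb, Equiv.sumCompl_symm_apply_of_pos x.2]

theorem comb_neg (x : {x // ¬ p x}) : comb p q e1 e2 x = e2 x := by
  simp [comb, Equiv.sumCompl_symm_apply_of_neg x.2]

theorem comb_symm_pos (y : {y // q y}) : (comb p q e1 e2).symm y = e1.symm y := by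
  rw [Equiv.symm_apply_eq, comb_pos, e1.apply_symm_apply]

theorem comb_symm_neg (y : {y // ¬ q y}) : (comb p q e1 e2).symm y = e2.symm y := by
  rw [Equiv.symm_apply_eq, comb_neg, e2.apply_symm_apply]

theorem comb_of_pos (b : Perm {x // p x}) :
    (comb p q e1 e2).permCongr (Perm.ofSubtype b) = Perm.ofSubtype (e1.permCongr b) := by
  ext y
  rw [Equiv.permCongr_apply]
  by_cases hy : q y
  · rw [Perm.ofSubtype_apply_of_mem _ hy, comb_symm_pos p q e1 e2 ⟨y, hy⟩, Perm.ofSubtype_apply_coe,
      comb_pos, Equiv.permCongr_apply]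
  · rw [Perm.ofSubtype_apply_of_not_mem _ hy, comb_symm_neg p q e1 e2 ⟨y, hy⟩,
      Perm.ofSubtype_apply_of_not_mem _ (e2.symm ⟨y, hy⟩).2, comb_neg, e2.apply_symm_apply]

theorem comb_of_neg [DecidablePred fun x => ¬ p x] [DecidablePred fun y => ¬ q y] (b : Perm {x // ¬ p x}) :
    (comb p q e1 e2).permCongr (Perm.ofSubtype b) = Perm.ofSubtype (e2.permCongr b) := by
  ext y
  rw [Equiv.permCongr_apply]
  by_cases hy : q y
  · rw [Perm.ofSubtype_apply_of_not_mem (p := fun y => ¬ q y) _ (not_not.mpr hy),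
      comb_symm_pos p q e1 e2 ⟨y, hy⟩,
      Perm.ofSubtype_apply_of_not_mem (p := fun x => ¬ p x) _ (not_not.mpr (e1.symm ⟨y, hy⟩).2),
      comb_pos, e1.apply_symm_apply]
  · rw [Perm.ofSubtype_apply_of_mem (p := fun y => ¬ q y) _ hy, comb_symm_neg p q e1 e2 ⟨y, hy⟩, Perm.ofSubtype_apply_coe,
      comb_neg, Equiv.permCongr_apply]

end comb

end H86.AltAb2
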