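import Mathlib
import Cfsg.Agent.Lib.H86.AltAb2

/-!
Largest abelian groups of even permutations: uniqueness.
-/

set_option autoImplicit false
set_option linter.unusedSimpArgs false
set_option linter.unusedVariables false
set_option linter.style.haveILetI false
set_option linter.unusedSectionVars false

open Equiv MulAction H85.AbPerm H86.AltAb H86.AltAb2

namespace H86.AltAb3

universe u v

section iso
variable {O : Type u} [Fintype O] [DecidableEq O] (C : Subgroup (Perm O)) (y : O)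
  (hC : Function.Bijective (fun c : C => c.1 y)) (hs : ∀ c ∈ C, Perm.sign c = 1)
include hC

theorem card_reg : Nat.card C = Fintype.card O := by
  rw [Nat.card_congr (Equiv.ofBijective _ hC), Nat.card_eq_fintype_card]

include hs

theorem exp4 (h4 : Fintype.card O = 4) : ∀ c ∈ C, c ^ 2 = 1 := by
  intro c hc
  apply even4 h4 c (hs c hc)
  have h1 : (⟨c, hc⟩ : C) ^ Nat.card C = 1 := pow_card_eq_one'
  rw [card_reg C y hC, h4] at h1
  exact congrArg Subtype.val h1

theorem klein (h4 : Fintype.card O = 4) : IsKleinFour C := by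
  refine ⟨by rw [card_reg C y hC, h4], ?_⟩
  have h1 : Monoid.exponent C ∣ 2 := by
    rw [Monoid.exponent_dvd_iff_forall_pow_eq_one]
    intro c
    exact Subtype.ext (exp4 C y hC hs h4 c.1 c.2)
  rcases (Nat.dvd_prime Nat.prime_two).mp h1 with h | h
  · exfalso
    rw [Monoid.exp_eq_one_iff] at h
    have h2 := card_reg C y hC
    rw [h4] at h2
    have h3 : Nat.card C ≤ 1 := Finite.card_le_one_iff_subsingleton.mpr h
    omega
  · exact h

/-- the regular groups in question are normal in the symmetric group -/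
theorem conj_mem (h34 : Fintype.card O = 3 ∨ Fintype.card O = 4) (h : Perm O) :
    ∀ c ∈ C, h * c * h⁻¹ ∈ C := by
  obtain ⟨e, he1, he2⟩ : ∃ e : ℕ, (∀ c ∈ C, c ^ e = 1) ∧
      Nat.card {g : Perm O // Perm.sign g = 1 ∧ g ^ e = 1} = Nat.card C := by
    rcases h34 with h3 | h4
    · refine ⟨3, ?_, ?_⟩
      · intro c hc
        have h1 : (⟨c, hc⟩ : C) ^ Nat.card C = 1 := pow_card_eq_one'
        rw [card_reg C y hC, h3] at h1
        exact congrArg Subtype.val h1
      · rw [cardS h3 card3, card_reg C y hC, h3]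
    · refine ⟨2, exp4 C y hC hs h4, ?_⟩
      rw [cardS h4 card4, card_reg C y hC, h4]
  let j : C → {g : Perm O // Perm.sign g = 1 ∧ g ^ e = 1} := fun c => ⟨c.1, hs c.1 c.2, he1 c.1 c.2⟩
  have hj : Function.Injective j := by
    intro a b hab
    have h1 : (j a).1 = (j b).1 := by rw [hab]
    exact Subtype.ext h1
  have hjb := hj.bijective_of_nat_card_le he2.le
  intro c hc
  obtain ⟨d, hd⟩ := hjb.2 ⟨h * c * h⁻¹, by
    rw [map_mul, map_mul, hs c hc, map_inv, mul_one, mul_inv_cancel], by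
    rw [conj_pow, he1 c hc, mul_one, mul_inv_cancel]⟩
  have : d.1 = h * c * h⁻¹ := congrArg Subtype.val hd
  rw [← this]
  exact d.2

end iso

theorem iso_reg {O : Type u} {O' : Type v} [Fintype O] [DecidableEq O] [Fintype O'] [DecidableEq O']
    (C : Subgroup (Perm O)) (D : Subgroup (Perm O')) (x : O) (y : O')
    (hC : Function.Bijective (fun c : C => c.1 x)) (hD : Function.Bijective (fun c : D => c.1 y))
    (hCs : ∀ c ∈ C, Perm.sign c = 1) (hDs : ∀ c ∈ D, Perm.sign c = 1)
    (h34 : Fintype.card O = 3 ∨ Fintype.card O = 4) (hOO : Fintype.card O = Fintype.card O') :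
    Nonempty (C ≃* D) := by
  rcases h34 with h3 | h4
  · haveI : Fact (Nat.Prime 3) := ⟨Nat.prime_three⟩
    exact ⟨mulEquivOfPrimeCardEq (p := 3) (by rw [card_reg C x hC, h3])
      (by rw [card_reg D y hD, ← hOO, h3])⟩
  · haveI := klein C x hC hCs h4
    haveI := klein D y hD hDs (by rw [← hOO, h4])
    exact IsKleinFour.nonempty_mulEquiv

theorem step {X : Type u} {Y : Type v} [Fintype X] [DecidableEq X] [Fintype Y] [DecidableEq Y]
    (A : Subgroup (Perm X)) (B : Subgroup (Perm Y)) (hA : IsMulCommutative A) (hB : IsMulCommutative B)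
    (hAs : ∀ a ∈ A, Perm.sign a = 1) (hBs : ∀ b ∈ B, Perm.sign b = 1) (x : X) (y : Y) (m : ℕ)
    (hm : m = 3 ∨ m = 4) (hx : Nat.card (orbit A x) = m) (hy : Nat.card (orbit B y) = m)
    (hcA : Nat.card A = m * f (Nat.card X - m)) (hcB : Nat.card B = m * f (Nat.card Y - m))
    [DecidablePred fun z => z ∈ orbit A x] [DecidablePred fun z => ¬ z ∈ orbit A x]
    [DecidablePred fun z => z ∈ orbit B y] [DecidablePred fun z => ¬ z ∈ orbit B y]
    (hrec : ∃ e2 : {z // ¬ z ∈ orbit A x} ≃ {z // ¬ z ∈ orbit B y},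
      ∀ c ∈ pt A (fun z => ¬ z ∈ orbit A x), e2.permCongr c ∈ pt B (fun z => ¬ z ∈ orbit B y)) :
    ∃ e : X ≃ Y, ∀ a ∈ A, e.permCongr a ∈ B := by
  obtain ⟨sA1, sA2, sA3⟩ := split A hA x (by rw [hx]; exact hcA)
  obtain ⟨sB1, sB2, sB3⟩ := split B hB y (by rw [hy]; exact hcB)
  obtain ⟨e2, he2⟩ := hrec
  have hcardx : Fintype.card {z // z ∈ orbit A x} = m := by
    rw [← hx, Nat.card_eq_fintype_card]
  have hcardy : Fintype.card {z // z ∈ orbit B y} = m := by
    rw [← hy, Nat.card_eq_fintype_card]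
  have h34 : Fintype.card {z // z ∈ orbit A x} = 3 ∨ Fintype.card {z // z ∈ orbit A x} = 4 := by
    rw [hcardx]; exact hm
  obtain ⟨φ⟩ := iso_reg _ _ ⟨x, mem_orbit_self x⟩ ⟨y, mem_orbit_self y⟩ (sA3 _) (sB3 _)
    (pt_even hAs _) (pt_even hBs _) h34 (by rw [hcardx, hcardy])
  obtain ⟨e1, he1⟩ := reg_conj _ _ ⟨x, mem_orbit_self x⟩ ⟨y, mem_orbit_self y⟩ (sA3 _) (sB3 _) φ
  refine ⟨comb (fun z => z ∈ orbit A x) (fun z => z ∈ orbit B y) e1 e2, ?_⟩
  intro a ha
  obtain ⟨b, hb, c, hc, rfl⟩ := sA1 a ha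
  have h1 : (comb (fun z => z ∈ orbit A x) (fun z => z ∈ orbit B y) e1 e2).permCongr
      (Perm.ofSubtype b * Perm.ofSubtype c) =
      Perm.ofSubtype (e1.permCongr b) * Perm.ofSubtype (e2.permCongr c) := by
    rw [← comb_of_pos (fun z => z ∈ orbit A x) (fun z => z ∈ orbit B y) e1 e2,
      ← comb_of_neg (fun z => z ∈ orbit A x) (fun z => z ∈ orbit B y) e1 e2]
    exact map_mul (comb (fun z => z ∈ orbit A x) (fun z => z ∈ orbit B y) e1 e2).permCongrHom _ _
  rw [h1]
  exact B.mul_mem (he1 b hb) (he2 c hc)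

/-- an odd permutation normalizing the group -/
theorem odd_norm {X : Type u} [Fintype X] [DecidableEq X]
    (A : Subgroup (Perm X)) (hA : IsMulCommutative A)
    (hAs : ∀ a ∈ A, Perm.sign a = 1) (x : X) (m : ℕ)
    (hm : m = 3 ∨ m = 4) (hx : Nat.card (orbit A x) = m)
    (hcA : Nat.card A = m * f (Nat.card X - m)) :
    ∃ h : Perm X, Perm.sign h = -1 ∧ ∀ a ∈ A, h * a * h⁻¹ ∈ A := by
  classical
  obtain ⟨sA1, sA2, sA3⟩ := split A hA x (by rw [hx]; exact hcA)
  have hcardx : Fintype.card {z // z ∈ orbit A x} = m := by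
    rw [← hx, Nat.card_eq_fintype_card]
  have h34 : Fintype.card {z // z ∈ orbit A x} = 3 ∨ Fintype.card {z // z ∈ orbit A x} = 4 := by
    rw [hcardx]; exact hm
  obtain ⟨u, v, huv⟩ : ∃ u v : {z // z ∈ orbit A x}, u ≠ v := by
    apply Fintype.exists_pair_of_one_lt_card
    rw [hcardx]; omega
  refine ⟨Perm.ofSubtype (swap u v), ?_, ?_⟩
  · rw [Perm.sign_ofSubtype, Perm.sign_swap huv]
  · intro a ha
    obtain ⟨b, hb, c, hc, rfl⟩ := sA1 a ha
    have h1 := conj_mem _ ⟨x, mem_orbit_self x⟩ (sA3 _) (pt_even hAs _) h34 (swap u v) b hb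
    have hcomm : Commute (Perm.ofSubtype (swap u v)) (Perm.ofSubtype c : Perm X) := by
      apply Perm.Disjoint.commute
      intro z
      by_cases hz : z ∈ orbit A x
      · right
        exact Perm.ofSubtype_apply_of_not_mem (p := fun z => ¬ z ∈ orbit A x) c (not_not.mpr hz)
      · left
        exact Perm.ofSubtype_apply_of_not_mem _ hz
    have h2 : Perm.ofSubtype (swap u v) * (Perm.ofSubtype b * Perm.ofSubtype c) *
        (Perm.ofSubtype (swap u v))⁻¹ =
        Perm.ofSubtype (swap u v * b * (swap u v)⁻¹) * (Perm.ofSubtype c : Perm X) := by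
      rw [map_mul, map_mul, map_inv]
      have h3 := hcomm.inv_left.eq
      calc _ = Perm.ofSubtype (swap u v) * Perm.ofSubtype b *
          (Perm.ofSubtype c * (Perm.ofSubtype (swap u v))⁻¹) := by group
        _ = _ := by rw [← h3]; group
    rw [h2]
    exact A.mul_mem h1 hc

theorem orbit_bound {X : Type u} [Fintype X] [DecidableEq X] (A : Subgroup (Perm X))
    (hA : IsMulCommutative A) (x : X) : ∃ n' : ℕ, n' + Nat.card (orbit A x) = Nat.card X ∧
      Nat.card A ≤ Nat.card (orbit A x) * f n' ∧ Nat.card (orbit A x) ≠ 0 := by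
  have h1 := perm_le_orbit A hA x
  letI : CommGroup A := { mul_comm := fun a b => hA.is_comm.comm a b }
  have h2 := card_compl (A := A) x
  refine ⟨Nat.card {y : X // y ∉ orbit A x}, h2, ?_, ?_⟩
  · have h3 : Nat.card {y : X // y ∉ orbit A x} = Nat.card X - Nat.card (orbit A x) := by omega
    rw [h3]
    exact h1
  · have : Nonempty (orbit A x) := ⟨⟨x, mem_orbit_self x⟩⟩
    exact Nat.card_pos.ne'

theorem orbit0 {X : Type u} [Fintype X] [DecidableEq X] (A : Subgroup (Perm X)) (hA : IsMulCommutative A)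
    (k : ℕ) (hX : Nat.card X = 3 * k) (hcA : Nat.card A = 3 ^ k) (x : X) : Nat.card (orbit A x) = 3 := by
  obtain ⟨n', h1, h2, h3⟩ := orbit_bound A hA x
  by_contra hne
  have := num0 k _ n' h3 hne (by omega)
  omega

theorem orbit1 {X : Type u} [Fintype X] [DecidableEq X] (A : Subgroup (Perm X)) (hA : IsMulCommutative A)
    (hs : ∀ a ∈ A, Perm.sign a = 1)
    (k : ℕ) (hX : Nat.card X = 3 * (k + 1) + 1) (hcA : Nat.card A = 4 * 3 ^ k) :
    ∃ x : X, Nat.card (orbit A x) = 4 := by
  by_contra hcon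
  push Not at hcon
  have h3 : ∀ x : X, Nat.card (orbit A x) = 3 := by
    intro x
    by_contra hne
    obtain ⟨n', h1, h2, h3⟩ := orbit_bound A hA x
    have hne2 : Nat.card (orbit A x) ≠ 2 := by
      intro h
      have h4 := half A hA hs x h
      rw [hX, f_three_one, hcA] at h4
      have := pow_pos (show 0 < 3 by norm_num) k
      omega
    have := num1 k _ n' h3 hne2 hne (hcon x) (by omega)
    omega
  have := three_dvd A h3
  omega

theorem orbit2 {X : Type u} [Fintype X] [DecidableEq X] (A : Subgroup (Perm X)) (hA : IsMulCommutative A)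
    (hs : ∀ a ∈ A, Perm.sign a = 1)
    (k : ℕ) (hX : Nat.card X = 3 * (k + 2) + 2) (hcA : Nat.card A = 16 * 3 ^ k) :
    ∃ x : X, Nat.card (orbit A x) = 4 := by
  by_contra hcon
  push Not at hcon
  have h3 : ∀ x : X, Nat.card (orbit A x) = 3 := by
    intro x
    by_contra hne
    obtain ⟨n', h1, h2, h3⟩ := orbit_bound A hA x
    have hne2 : Nat.card (orbit A x) ≠ 2 := by
      intro h
      have h4 := half A hA hs x h
      rw [hX, f_three_two, hcA, pow_succ, pow_succ] at h4
      have := pow_pos (show 0 < 3 by norm_num) k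
      omega
    have := num2 k _ n' h3 hne2 hne (hcon x) (by omega)
    omega
  have := three_dvd A h3
  omega

/-- uniqueness statement -/
def T (n M : ℕ) : Prop := ∀ (X Y : Type) [Fintype X] [DecidableEq X] [Fintype Y] [DecidableEq Y]
  (A : Subgroup (Perm X)) (B : Subgroup (Perm Y)), Nat.card X = n → Nat.card Y = n →
  IsMulCommutative A → IsMulCommutative B → (∀ a ∈ A, Perm.sign a = 1) → (∀ b ∈ B, Perm.sign b = 1) →
  Nat.card A = M → Nat.card B = M → ∃ e : X ≃ Y, ∀ a ∈ A, e.permCongr a ∈ B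

theorem card_rest {X : Type u} [Fintype X] [DecidableEq X] (A : Subgroup (Perm X)) (hA : IsMulCommutative A)
    (x : X) {m : ℕ} (hx : Nat.card (orbit A x) = m) :
    Nat.card {z // ¬ z ∈ orbit A x} = Nat.card X - m := by
  letI : CommGroup A := { mul_comm := fun a b => hA.is_comm.comm a b }
  have h2 := card_compl (A := A) x
  omega

theorem T_step {n n' m M M' : ℕ} (hm : m = 3 ∨ m = 4) (hn : n - m = n') (hf : f n' = M') (hM : M = m * M')
    (hT : T n' M')
    (hex : ∀ (X : Type) [Fintype X] [DecidableEq X] (A : Subgroup (Perm X)), Nat.card X = n →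
      IsMulCommutative A → (∀ a ∈ A, Perm.sign a = 1) → Nat.card A = M → ∃ x : X, Nat.card (orbit A x) = m) :
    T n M := by
  classical
  intro X Y _ _ _ _ A B hX hY hA hB hAs hBs hcA hcB
  obtain ⟨x, hx⟩ := hex X A hX hA hAs hcA
  obtain ⟨y, hy⟩ := hex Y B hY hB hBs hcB
  have hcA' : Nat.card A = m * f (Nat.card X - m) := by rw [hX, hn, hf, hcA, hM]
  have hcB' : Nat.card B = m * f (Nat.card Y - m) := by rw [hY, hn, hf, hcB, hM]
  obtain ⟨sA1, sA2, sA3⟩ := split A hA x (by rw [hx]; exact hcA')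
  obtain ⟨sB1, sB2, sB3⟩ := split B hB y (by rw [hy]; exact hcB')
  apply step A B hA hB hAs hBs x y m hm hx hy hcA' hcB'
  apply hT
  · rw [card_rest A hA x hx, hX, hn]
  · rw [card_rest B hB y hy, hY, hn]
  · exact pt_comm hA _
  · exact pt_comm hB _
  · exact pt_even hAs _
  · exact pt_even hBs _
  · rw [sA2, hx, hX, hn, hf]
  · rw [sB2, hy, hY, hn, hf]

theorem T0 (k : ℕ) : T (3 * k) (3 ^ k) := by
  induction k with
  | zero =>
    intro X Y _ _ _ _ A B hX hY hA hB hAs hBs hcA hcB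
    haveI : IsEmpty X := by
      rw [← Fintype.card_eq_zero_iff, ← Nat.card_eq_fintype_card]; simpa using hX
    haveI : IsEmpty Y := by
      rw [← Fintype.card_eq_zero_iff, ← Nat.card_eq_fintype_card]; simpa using hY
    refine ⟨Equiv.equivOfIsEmpty X Y, ?_⟩
    intro a ha
    have : (Equiv.equivOfIsEmpty X Y).permCongr a = 1 := Subsingleton.elim _ _
    rw [this]
    exact B.one_mem
  | succ k ih =>
    apply T_step (m := 3) (n' := 3 * k) (M' := 3 ^ k) (Or.inl rfl) (by omega) (f_three k)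
      (by rw [pow_succ]; ring) ih
    intro X _ _ A hX hA hAs hcA
    have : Nonempty X := by
      rw [← Fintype.card_pos_iff, ← Nat.card_eq_fintype_card, hX]
      omega
    obtain ⟨x⟩ := this
    exact ⟨x, orbit0 A hA (k + 1) hX hcA x⟩

theorem T1 (k : ℕ) : T (3 * (k + 1) + 1) (4 * 3 ^ k) := by
  apply T_step (m := 4) (n' := 3 * k) (M' := 3 ^ k) (Or.inr rfl) (by omega) (f_three k) rfl (T0 k)
  intro X _ _ A hX hA hAs hcA
  exact orbit1 A hA hAs k hX hcA

theorem T2 (k : ℕ) : T (3 * (k + 2) + 2) (16 * 3 ^ k) := by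
  apply T_step (m := 4) (n' := 3 * (k + 1) + 1) (M' := 4 * 3 ^ k) (Or.inr rfl) (by omega) (f_three_one k)
    (by ring) (T1 k)
  intro X _ _ A hX hA hAs hcA
  exact orbit2 A hA hAs k hX hcA

end H86.AltAb3
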