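import Mathlib
import Cfsg.Agent.Lib.H86.AltAb3
import Cfsg.Agent.S2504

/-!
Largest abelian subgroups of the alternating groups are conjugate.
-/

set_option autoImplicit false
set_option linter.unusedSimpArgs false
set_option linter.unusedVariables false
set_option linter.style.haveILetI false
set_option linter.unusedSectionVars false

open Equiv MulAction H85.AbPerm H86.AltAb H86.AltAb2 H86.AltAb3
open scoped Pointwise

namespace H86.AltAb4

variable {n : ℕ}

/-- image in the symmetric group -/
def up (A : Subgroup (alternatingGroup (Fin n))) : Subgroup (Perm (Fin n)) :=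
  A.map (alternatingGroup (Fin n)).subtype

theorem up_even (A : Subgroup (alternatingGroup (Fin n))) : ∀ a ∈ up A, Perm.sign a = 1 := by
  rintro _ ⟨a, -, rfl⟩
  exact a.2

theorem up_card (A : Subgroup (alternatingGroup (Fin n))) : Nat.card (up A) = Nat.card A :=
  Nat.card_congr (A.equivMapOfInjective _ Subtype.val_injective).symm.toEquiv

theorem up_comm (A : Subgroup (alternatingGroup (Fin n))) (hA : IsMulCommutative A) :
    IsMulCommutative (up A) := H85.AbPerm.map_comm _ _ hA

theorem mem_up {A : Subgroup (alternatingGroup (Fin n))} {a : alternatingGroup (Fin n)} :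
    (a : Perm (Fin n)) ∈ up A ↔ a ∈ A := by
  constructor
  · rintro ⟨b, hb, hba⟩
    have : b = a := Subtype.ext hba
    rwa [← this]
  · intro h
    exact ⟨a, h, rfl⟩

theorem finish_even (A B : Subgroup (alternatingGroup (Fin n))) (hcard : Nat.card A = Nat.card B)
    (e : Perm (Fin n)) (he : Perm.sign e = 1) (h : ∀ a ∈ up A, e * a * e⁻¹ ∈ up B) :
    ∃ g : alternatingGroup (Fin n), B = MulAut.conj g • A := by
  refine ⟨⟨e, he⟩, ?_⟩
  symm
  apply Subgroup.eq_of_le_of_card_ge
  · rintro _ ⟨a, ha, rfl⟩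
    have h1 := h a (mem_up.mpr ha)
    rw [← mem_up]
    exact h1
  · rw [← hcard]
    exact (Nat.card_congr (Subgroup.equivSMul (MulAut.conj (⟨e, he⟩ : alternatingGroup (Fin n))) A).symm.toEquiv).ge

theorem finish (A B : Subgroup (alternatingGroup (Fin n))) (hcard : Nat.card A = Nat.card B)
    (e : Fin n ≃ Fin n) (he : ∀ a ∈ up A, e.permCongr a ∈ up B)
    (hodd : ∃ h : Perm (Fin n), Perm.sign h = -1 ∧ ∀ a ∈ up A, h * a * h⁻¹ ∈ up A) :
    ∃ g : alternatingGroup (Fin n), B = MulAut.conj g • A := by
  have he' : ∀ a ∈ up A, (e : Perm (Fin n)) * a * (e : Perm (Fin n))⁻¹ ∈ up B := by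
    intro a ha
    have h1 := he a ha
    have h2 : e.permCongr a = (e : Perm (Fin n)) * a * (e : Perm (Fin n))⁻¹ := by
      ext x
      rfl
    rwa [h2] at h1
  rcases Int.units_eq_one_or (Perm.sign (e : Perm (Fin n))) with h | h
  · exact finish_even A B hcard e h he'
  · obtain ⟨k, hk, hkA⟩ := hodd
    apply finish_even A B hcard ((e : Perm (Fin n)) * k)
    · rw [map_mul, h, hk]; norm_num
    · intro a ha
      have h3 := he' _ (hkA a ha)
      have h4 : (e : Perm (Fin n)) * k * a * ((e : Perm (Fin n)) * k)⁻¹ =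
          (e : Perm (Fin n)) * (k * a * k⁻¹) * (e : Perm (Fin n))⁻¹ := by group
      rw [h4]
      exact h3

theorem card_eq_of_max {S : Set ℕ} {M : ℕ} (h : IsGreatest S M) {c : ℕ} (hc : c ∈ S)
    (hmax : ∀ d ∈ S, d ≤ c) : c = M := le_antisymm (h.2 hc) (hmax M h.1)

/-- Sylow conjugacy -/
theorem sylow_conj {G : Type*} [Group G] [Finite G] (p : ℕ) [Fact p.Prime] (A B : Subgroup G) {k : ℕ}
    (hk : (Nat.card G).factorization p = k) (hA : Nat.card A = p ^ k) (hB : Nat.card B = p ^ k) :
    ∃ g : G, B = MulAut.conj g • A := by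
  let P : Sylow p G := Sylow.ofCard A (by rw [hA, hk])
  let Q : Sylow p G := Sylow.ofCard B (by rw [hB, hk])
  obtain ⟨g, hg⟩ := MulAction.exists_smul_eq G P Q
  refine ⟨g, ?_⟩
  have h1 : ((g • P : Sylow p G) : Subgroup G) = (Q : Subgroup G) := by rw [hg]
  exact h1.symm

theorem big (n : ℕ) (hn : 6 ≤ n)
    (A B : Subgroup (alternatingGroup (Fin n))) (hA : IsMulCommutative A) (hB : IsMulCommutative B)
    (hAmax : ∀ C : Subgroup (alternatingGroup (Fin n)), IsMulCommutative C → Nat.card C ≤ Nat.card A)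
    (hBmax : ∀ C : Subgroup (alternatingGroup (Fin n)), IsMulCommutative C → Nat.card C ≤ Nat.card B) :
    ∃ g : alternatingGroup (Fin n), B = MulAut.conj g • A := by
  have hAS : Nat.card A ∈ {c : ℕ | ∃ A : Subgroup (alternatingGroup (Fin n)), IsMulCommutative A ∧ Nat.card A = c} :=
    ⟨A, hA, rfl⟩
  have hBS : Nat.card B ∈ {c : ℕ | ∃ A : Subgroup (alternatingGroup (Fin n)), IsMulCommutative A ∧ Nat.card A = c} :=
    ⟨B, hB, rfl⟩
  have hAM : ∀ d ∈ {c : ℕ | ∃ A : Subgroup (alternatingGroup (Fin n)), IsMulCommutative A ∧ Nat.card A = c},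
      d ≤ Nat.card A := by
    rintro _ ⟨C, hC, rfl⟩; exact hAmax C hC
  have hBM : ∀ d ∈ {c : ℕ | ∃ A : Subgroup (alternatingGroup (Fin n)), IsMulCommutative A ∧ Nat.card A = c},
      d ≤ Nat.card B := by
    rintro _ ⟨C, hC, rfl⟩; exact hBmax C hC
  obtain ⟨j, h | h | h⟩ : ∃ j, n = 3 * (j + 2) ∨ n = 3 * (j + 2) + 1 ∨ n = 3 * (j + 2) + 2 :=
    ⟨(n - 6) / 3, by omega⟩
  · subst h
    obtain ⟨k1, -, -⟩ := Cfsg.Agent.S2504.result (j + 2) (by omega)
    have cA := card_eq_of_max k1 hAS hAM
    have cB := card_eq_of_max k1 hBS hBM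
    have hX : Nat.card (Fin (3 * (j + 2))) = 3 * (j + 2) := Nat.card_fin _
    obtain ⟨e, he⟩ := T0 (j + 2) (Fin (3 * (j + 2))) (Fin (3 * (j + 2))) (up A) (up B) hX hX (up_comm A hA)
      (up_comm B hB) (up_even A) (up_even B) (by rw [up_card, cA]) (by rw [up_card, cB])
    apply finish A B (by rw [cA, cB]) e he
    have hx := orbit0 (up A) (up_comm A hA) (j + 2) hX (by rw [up_card, cA]) ⟨0, by omega⟩
    apply odd_norm (up A) (up_comm A hA) (up_even A) _ 3 (Or.inl rfl) hx
    rw [up_card, cA, hX]
    have : 3 * (j + 2) - 3 = 3 * (j + 1) := by omega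
    rw [this, f_three, pow_succ]
    ring
  · subst h
    obtain ⟨-, k1, -⟩ := Cfsg.Agent.S2504.result (j + 2) (by omega)
    have cA := card_eq_of_max k1 hAS hAM
    have cB := card_eq_of_max k1 hBS hBM
    have e1 : j + 2 - 1 = j + 1 := by omega
    rw [e1] at cA cB
    have hX : Nat.card (Fin (3 * (j + 2) + 1)) = 3 * (j + 1 + 1) + 1 := Nat.card_fin _
    obtain ⟨e, he⟩ := T1 (j + 1) (Fin (3 * (j + 2) + 1)) (Fin (3 * (j + 2) + 1)) (up A) (up B) hX hX (up_comm A hA)
      (up_comm B hB) (up_even A) (up_even B) (by rw [up_card, cA]) (by rw [up_card, cB])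
    apply finish A B (by rw [cA, cB]) e he
    obtain ⟨x, hx⟩ := orbit1 (up A) (up_comm A hA) (up_even A) (j + 1) hX (by rw [up_card, cA])
    apply odd_norm (up A) (up_comm A hA) (up_even A) x 4 (Or.inr rfl) hx
    rw [up_card, cA, hX]
    have : 3 * (j + 1 + 1) + 1 - 4 = 3 * (j + 1) := by omega
    rw [this, f_three]
  · subst h
    obtain ⟨-, -, k1⟩ := Cfsg.Agent.S2504.result (j + 2) (by omega)
    have cA := card_eq_of_max k1 hAS hAM
    have cB := card_eq_of_max k1 hBS hBM
    have e1 : j + 2 - 2 = j := by omega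
    rw [e1] at cA cB
    have hX : Nat.card (Fin (3 * (j + 2) + 2)) = 3 * (j + 2) + 2 := Nat.card_fin _
    obtain ⟨e, he⟩ := T2 j (Fin (3 * (j + 2) + 2)) (Fin (3 * (j + 2) + 2)) (up A) (up B) hX hX (up_comm A hA)
      (up_comm B hB) (up_even A) (up_even B) (by rw [up_card, cA]) (by rw [up_card, cB])
    apply finish A B (by rw [cA, cB]) e he
    obtain ⟨x, hx⟩ := orbit2 (up A) (up_comm A hA) (up_even A) j hX (by rw [up_card, cA])
    apply odd_norm (up A) (up_comm A hA) (up_even A) x 4 (Or.inr rfl) hx
    rw [up_card, cA, hX]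
    have : 3 * (j + 2) + 2 - 4 = 3 * (j + 1) + 1 := by omega
    rw [this, f_three_one]
    ring

theorem six5 : ∀ g : Perm (Fin 5), Perm.sign g = 1 → g ^ 6 = 1 → g ^ 2 = 1 ∨ g ^ 3 = 1 := by decide +kernel

theorem main (n : ℕ)
    (A B : Subgroup (alternatingGroup (Fin n))) (hA : IsMulCommutative A) (hB : IsMulCommutative B)
    (hAmax : ∀ C : Subgroup (alternatingGroup (Fin n)), IsMulCommutative C → Nat.card C ≤ Nat.card A)
    (hBmax : ∀ C : Subgroup (alternatingGroup (Fin n)), IsMulCommutative C → Nat.card C ≤ Nat.card B) :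
    ∃ g : alternatingGroup (Fin n), B = MulAut.conj g • A := by
  by_cases h6 : 6 ≤ n
  · exact big n h6 A B hA hB hAmax hBmax
  have hbd : ∀ C : Subgroup (alternatingGroup (Fin n)), IsMulCommutative C → Nat.card C ≤ f n := by
    intro C hC
    have := perm_le (up C) (up_comm C hC)
    rwa [up_card, Nat.card_fin] at this
  obtain h | h | h | h | h | h : n = 0 ∨ n = 1 ∨ n = 2 ∨ n = 3 ∨ n = 4 ∨ n = 5 := by omega
  · subst h
    haveI : Subsingleton (alternatingGroup (Fin 0)) := inferInstance
    exact ⟨1, Subsingleton.elim _ _⟩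
  · subst h
    haveI : Subsingleton (alternatingGroup (Fin 1)) := inferInstance
    exact ⟨1, Subsingleton.elim _ _⟩
  · subst h
    haveI : Subsingleton (alternatingGroup (Fin 2)) := by
      apply Fintype.card_le_one_iff_subsingleton.mp
      decide
    exact ⟨1, Subsingleton.elim _ _⟩
  · subst h
    have hc : Nat.card (alternatingGroup (Fin 3)) = 3 := by rw [Nat.card_eq_fintype_card]; decide
    have htop : IsMulCommutative (⊤ : Subgroup (alternatingGroup (Fin 3))) := by
      refine ⟨⟨?_⟩⟩
      rintro ⟨a, -⟩ ⟨b, -⟩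
      apply Subtype.ext
      exact (by decide : ∀ a b : alternatingGroup (Fin 3), a * b = b * a) a b
    have key : ∀ C : Subgroup (alternatingGroup (Fin 3)),
        (∀ D : Subgroup (alternatingGroup (Fin 3)), IsMulCommutative D → Nat.card D ≤ Nat.card C) → C = ⊤ := by
      intro C hC
      apply Subgroup.eq_top_of_le_card
      have := hC ⊤ htop
      rwa [Subgroup.card_top] at this
    rw [key A hAmax, key B hBmax]
    refine ⟨1, ?_⟩
    rw [map_one, one_smul]
  · subst h
    have hc : Nat.card (alternatingGroup (Fin 4)) = 12 := by rw [Nat.card_eq_fintype_card]; decide +kernel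
    haveI : Fact (Nat.Prime 2) := ⟨Nat.prime_two⟩
    have hfac : (Nat.card (alternatingGroup (Fin 4))).factorization 2 = 2 := by
      rw [hc]
      have : (12 : ℕ) = 2 ^ 2 * 3 := by norm_num
      rw [this, Nat.factorization_mul (by norm_num) (by norm_num), Nat.factorization_pow]
      simp [Nat.Prime.factorization Nat.prime_two, Nat.Prime.factorization Nat.prime_three]
    obtain ⟨P⟩ : Nonempty (Sylow 2 (alternatingGroup (Fin 4))) := inferInstance
    have hP : Nat.card (P : Subgroup (alternatingGroup (Fin 4))) = 4 := by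
      have := P.card_eq_multiplicity
      rw [hfac] at this
      exact this
    have hPc : IsMulCommutative (P : Subgroup (alternatingGroup (Fin 4))) := by
      have : Nat.card (P : Subgroup (alternatingGroup (Fin 4))) = 2 ^ 2 := by rw [hP]; norm_num
      refine ⟨⟨?_⟩⟩
      exact (IsPGroup.commGroupOfCardEqPrimeSq this).mul_comm
    have key : ∀ C : Subgroup (alternatingGroup (Fin 4)), IsMulCommutative C →
        (∀ D : Subgroup (alternatingGroup (Fin 4)), IsMulCommutative D → Nat.card D ≤ Nat.card C) →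
        Nat.card C = 2 ^ 2 := by
      intro C hC hm
      have h1 := hm _ hPc
      have h2 := hbd C hC
      have h3 : f 4 = 4 := rfl
      rw [hP] at h1
      omega
    exact sylow_conj 2 A B hfac (key A hA hAmax) (key B hB hBmax)
  · subst h
    have hc : Nat.card (alternatingGroup (Fin 5)) = 60 := by rw [Nat.card_eq_fintype_card]; decide +kernel
    haveI : Fact (Nat.Prime 5) := ⟨Nat.prime_five⟩
    have hfac : (Nat.card (alternatingGroup (Fin 5))).factorization 5 = 1 := by
      rw [hc]
      have : (60 : ℕ) = 5 ^ 1 * (2 ^ 2 * 3) := by norm_num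
      rw [this, Nat.factorization_mul (by norm_num) (by norm_num), Nat.factorization_pow,
        Nat.factorization_mul (by norm_num) (by norm_num), Nat.factorization_pow]
      simp [Nat.Prime.factorization Nat.prime_two, Nat.Prime.factorization Nat.prime_three,
        Nat.Prime.factorization Nat.prime_five]
    obtain ⟨P⟩ : Nonempty (Sylow 5 (alternatingGroup (Fin 5))) := inferInstance
    have hP : Nat.card (P : Subgroup (alternatingGroup (Fin 5))) = 5 := by
      have := P.card_eq_multiplicity
      rw [hfac] at this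
      exact this
    have hPc : IsMulCommutative (P : Subgroup (alternatingGroup (Fin 5))) := by
      haveI : IsCyclic (P : Subgroup (alternatingGroup (Fin 5))) := isCyclic_of_prime_card hP
      exact ⟨⟨(IsCyclic.commGroup).mul_comm⟩⟩
    have key : ∀ C : Subgroup (alternatingGroup (Fin 5)), IsMulCommutative C →
        (∀ D : Subgroup (alternatingGroup (Fin 5)), IsMulCommutative D → Nat.card D ≤ Nat.card C) →
        Nat.card C = 5 ^ 1 := by
      intro C hC hm
      have h1 := hm _ hPc
      have h2 := hbd C hC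
      have h3 : f 5 = 6 := rfl
      rw [hP] at h1
      have h4 : Nat.card C ≠ 6 := by
        intro h6
        obtain ⟨a, ha⟩ := exists_prime_orderOf_dvd_card' (G := C) 2 (by rw [h6]; norm_num)
        obtain ⟨b, hb⟩ := exists_prime_orderOf_dvd_card' (G := C) 3 (by rw [h6]; norm_num)
        have hab : a * b = b * a := hC.is_comm.comm a b
        have ha2 : a ^ 2 = 1 := by rw [← ha, pow_orderOf_eq_one]
        have hb3 : b ^ 3 = 1 := by rw [← hb, pow_orderOf_eq_one]
        have h7 : ((a * b : C) : Perm (Fin 5)) ^ 6 = 1 := by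
          have : (a * b) ^ 6 = 1 := by rw [← h6]; exact pow_card_eq_one'
          exact congrArg (fun z : C => ((z : alternatingGroup (Fin 5)) : Perm (Fin 5))) this
        have hmul2 : (a * b) ^ 2 = b ^ 2 := by
          rw [(show Commute a b from hab).mul_pow, ha2, one_mul]
        have hmul3 : (a * b) ^ 3 = a := by
          rw [(show Commute a b from hab).mul_pow, hb3, mul_one, pow_succ, ha2, one_mul]
        rcases six5 _ ((a * b : C) : alternatingGroup (Fin 5)).2 h7 with h8 | h8
        · have h9 : (a * b) ^ 2 = 1 := Subtype.ext (Subtype.ext h8)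
          rw [hmul2] at h9
          have := orderOf_dvd_of_pow_eq_one h9
          rw [hb] at this
          omega
        · have h9 : (a * b) ^ 3 = 1 := Subtype.ext (Subtype.ext h8)
          rw [hmul3] at h9
          rw [h9, orderOf_one] at ha
          omega
      omega
    exact sylow_conj 5 A B hfac (key A hA hAmax) (key B hB hBmax)

end H86.AltAb4
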