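import Mathlib
import Cfsg.Prelude.Def_GeometricClasses

set_option autoImplicit false
set_option linter.unusedSimpArgs false
set_option linter.unusedVariables false
set_option linter.style.haveILetI false
set_option linter.unusedSectionVars false

/-!
Extension-field subgroups of `GL_n(F)`: if `K₀ < K` are field subalgebras of the matrix algebra and
`2 [K₀ : F] < n`, the normaliser of `K` does not contain all the square zero perturbations `1 + x`
with `x` commuting with `K₀`.
-/

namespace H86.ExtField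

open Matrix

variable {F : Type*} [Field F] {n : ℕ}

local notation "Mat" => Matrix (Fin n) (Fin n) F

theorem exists_vec (hn : 0 < n) : ∃ v : Fin n → F, v ≠ 0 :=
  ⟨fun _ => 1, fun h => by simpa using congrFun h ⟨0, hn⟩⟩

/-- square zero matrices commuting with `K₀`, of small rank, adapted to a vector -/
theorem exists_sq_zero (K0 : Subalgebra F Mat)
    (hinv : ∀ x ∈ K0, x ≠ 0 → ∃ y ∈ K0, x * y = 1)
    (hdim : Module.finrank F K0 < n) (v : Fin n → F) (hv : v ≠ 0) :
    ∃ x : Mat, x * x = 0 ∧ (∀ k ∈ K0, k * x = x * k) ∧ x.rank ≤ Module.finrank F K0 ∧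
      (∃ w, x.mulVec w = v) ∧ (∀ w, ∃ l ∈ K0, x.mulVec w = l.mulVec v) := by
  classical
  haveI : Nontrivial K0 := by
    refine ⟨⟨0, 1, fun h => ?_⟩⟩
    have h1 : (0 : Mat) = 1 := congrArg Subtype.val h
    have h2 := congrArg (fun M : Mat => M.mulVec v) h1
    simp at h2
    exact hv h2.symm
  have hu : ∀ a : K0, IsUnit a ∨ a = 0 := by
    intro a
    by_cases ha : a = 0
    · exact Or.inr ha
    · left
      have ha' : (a : Mat) ≠ 0 := fun h => ha (Subtype.ext h)
      obtain ⟨y, hy, hxy⟩ := hinv a a.2 ha'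
      have h1 : a * ⟨y, hy⟩ = 1 := Subtype.ext hxy
      have h2 : (⟨y, hy⟩ : K0) * a = 1 := by
        apply Subtype.ext
        exact mul_eq_one_comm.mp hxy
      exact ⟨⟨a, ⟨y, hy⟩, h1, h2⟩, rfl⟩
  letI : DivisionRing K0 := DivisionRing.ofIsUnitOrEqZero hu
  let φ : K0 →+* Module.End F (Fin n → F) :=
    ((Matrix.toLinAlgEquiv' (R := F) (n := Fin n)).toAlgHom.comp K0.val).toRingHom
  letI : Module K0 (Fin n → F) := Module.compHom _ φ
  have hsm : ∀ (k : K0) (w : Fin n → F), k • w = (k : Mat).mulVec w := by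
    intro k w
    rfl
  -- the F-linear map K0 → V
  let ev : K0 →ₗ[F] (Fin n → F) :=
    { toFun := fun k => (k : Mat).mulVec v
      map_add' := by intro a b; simp [Matrix.add_mulVec]
      map_smul' := by intro c a; simp [Matrix.smul_mulVec] }
  have hlt : (Submodule.span K0 {v}) < ⊤ := by
    rw [lt_top_iff_ne_top]
    intro h
    have hs : Function.Surjective ev := by
      intro w
      have : w ∈ Submodule.span K0 {v} := by rw [h]; trivial
      obtain ⟨k, hk⟩ := Submodule.mem_span_singleton.mp this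
      exact ⟨k, hk⟩
    haveI : Module.Finite F K0 := inferInstance
    have := LinearMap.finrank_le_finrank_of_surjective (f := ev) hs
    simp at this
    omega
  obtain ⟨f, hf0, hfk⟩ := Submodule.exists_le_ker_of_lt_top _ hlt
  have hfv : f v = 0 := hfk (Submodule.mem_span_singleton_self v)
  obtain ⟨w0, hw0⟩ : ∃ w, f w ≠ 0 := by
    by_contra h
    push Not at h
    exact hf0 (LinearMap.ext h)
  have hfs : ∀ (k : K0) (w : Fin n → F), f ((k : Mat).mulVec w) = k * f w := fun k w => f.map_smul k w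
  have hFsm : ∀ (c : F) (w : Fin n → F), f (c • w) = c • f w := by
    intro c w
    have h1 : c • w = ((algebraMap F K0 c : K0) : Mat).mulVec w := by
      simp [Algebra.algebraMap_eq_smul_one, Matrix.smul_mulVec]
    rw [h1, hfs]
    apply Subtype.ext
    simp [Algebra.algebraMap_eq_smul_one]
  let X : (Fin n → F) →ₗ[F] (Fin n → F) :=
    { toFun := fun w => (f w : Mat).mulVec v
      map_add' := by intro a b; simp [Matrix.add_mulVec]
      map_smul' := by intro c a; simp [hFsm, Matrix.smul_mulVec] }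
  have hX : ∀ w, (LinearMap.toMatrix' X).mulVec w = (f w : Mat).mulVec v := by
    intro w
    rw [← Matrix.toLin'_apply, Matrix.toLin'_toMatrix']
    rfl
  refine ⟨LinearMap.toMatrix' X, ?_, ?_, ?_, ?_, ?_⟩
  · apply Matrix.toLin'.injective
    refine LinearMap.ext fun w => ?_
    rw [Matrix.toLin'_apply, ← Matrix.mulVec_mulVec, hX, hX]
    have : f ((f w : Mat).mulVec v) = 0 := by
      rw [hfs, hfv, mul_zero]
    rw [this]
    simp
  · intro k hk
    apply Matrix.toLin'.injective
    refine LinearMap.ext fun w => ?_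
    rw [Matrix.toLin'_apply, Matrix.toLin'_apply, ← Matrix.mulVec_mulVec, ← Matrix.mulVec_mulVec, hX, hX]
    have h := hfs (⟨k, hk⟩ : K0) w
    have h' : ((f (k.mulVec w) : K0) : Mat) = k * (f w : Mat) := congrArg Subtype.val h
    rw [h', Matrix.mulVec_mulVec]
  · rw [Matrix.rank]
    have hle : LinearMap.range (LinearMap.toMatrix' X).mulVecLin ≤ LinearMap.range ev := by
      rintro _ ⟨w, rfl⟩
      exact ⟨f w, (hX w).symm⟩
    exact (Submodule.finrank_mono hle).trans (LinearMap.finrank_range_le ev)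
  · refine ⟨(((f w0)⁻¹ : K0) : Mat).mulVec w0, ?_⟩
    rw [hX, hfs]
    have : (f w0)⁻¹ * f w0 = 1 := inv_mul_cancel₀ hw0
    rw [this]
    simp
  · intro w
    exact ⟨f w, (f w).2, hX w⟩

theorem one_add_pow (x : Mat) (hx : x * x = 0) (k : ℕ) : (1 + x) ^ k = 1 + (k : F) • x := by
  induction k with
  | zero => simp
  | succ k ih =>
    rw [pow_succ, ih]
    simp only [mul_add, add_mul, one_mul, mul_one, smul_mul_assoc, hx, smul_zero, add_zero]
    push_cast
    rw [add_smul, one_smul]
    abel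

theorem det_one_add [Fintype F] (x : Mat) (hx : x * x = 0) : (1 + x).det = 1 := by
  obtain ⟨p, hp⟩ := CharP.exists F
  haveI := hp
  have hpp : p.Prime := (CharP.char_is_prime_or_zero F p).resolve_right (by
    intro h0
    exact CharP.char_ne_zero_of_finite F p h0)
  haveI : Fact p.Prime := ⟨hpp⟩
  have h1 := one_add_pow x hx p
  rw [CharP.cast_eq_zero, zero_smul, add_zero] at h1
  have h2 := congrArg Matrix.det h1
  rw [Matrix.det_pow, Matrix.det_one] at h2
  apply frobenius_inj F p
  simpa [frobenius_def] using h2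

/-- The key statement. -/
theorem key [Fintype F] (K0 K : Subalgebra F Mat)
    (hinv0 : ∀ x ∈ K0, x ≠ 0 → ∃ y ∈ K0, x * y = 1) (hle : K0 ≤ K)
    (hcomm : ∀ x ∈ K, ∀ y ∈ K, x * y = y * x)
    (hinv : ∀ x ∈ K, x ≠ 0 → ∃ y ∈ K, x * y = 1)
    (hdim : 2 * Module.finrank F K0 < n)
    (hnorm : ∀ (x : Mat) (g : GL (Fin n) F), x * x = 0 → (∀ k ∈ K0, k * x = x * k) →
      (g : Mat) = 1 + x → ((g⁻¹ : GL (Fin n) F) : Mat) = 1 - x → (g : Mat).det = 1 →
      ∀ k ∈ K, (g : Mat) * k * ((g⁻¹ : GL (Fin n) F) : Mat) ∈ K) : K ≤ K0 := by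
  intro a ha
  obtain ⟨v, hv⟩ := exists_vec (F := F) (n := n) (by omega)
  obtain ⟨x, hx2, hxc, hxr, ⟨w, hw⟩, hl⟩ := exists_sq_zero K0 hinv0 (by omega) v hv
  have e1 : (1 + x) * (1 - x) = 1 := by
    simp only [mul_sub, add_mul, one_mul, mul_one, hx2, add_zero, sub_zero]
    abel
  have e2 : (1 - x) * (1 + x) = 1 := by
    simp only [mul_add, sub_mul, one_mul, mul_one, hx2, add_zero, sub_zero]
    abel
  let g : GL (Fin n) F := ⟨1 + x, 1 - x, e1, e2⟩
  have hd := hnorm x g hx2 hxc rfl rfl (det_one_add x hx2) a ha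
  have hd' : (1 + x) * a * (1 - x) ∈ K := hd
  have hdd : (1 + x) * a * (1 - x) - a ∈ K := K.sub_mem hd' ha
  have hrank : ((1 + x) * a * (1 - x) - a).rank < n := by
    have he : (1 + x) * a * (1 - x) - a = x * (a - a * x) + (-a) * x := by
      simp only [mul_sub, sub_mul, add_mul, one_mul, mul_one, neg_mul, mul_assoc]
      abel
    rw [he]
    have h0 : (x * (a - a * x) + -a * x).rank ≤ (x * (a - a * x)).rank + (-a * x).rank := by
      simp only [Matrix.rank]
      have : LinearMap.range (x * (a - a * x) + -a * x).mulVecLin ≤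
          LinearMap.range (x * (a - a * x)).mulVecLin ⊔ LinearMap.range (-a * x).mulVecLin := by
        rintro _ ⟨u, rfl⟩
        rw [Matrix.mulVecLin_add]
        exact Submodule.add_mem_sup ⟨u, rfl⟩ ⟨u, rfl⟩
      exact (Submodule.finrank_mono this).trans (Submodule.finrank_add_le_finrank_add_finrank _ _)
    have h1 := Matrix.rank_mul_le_left x (a - a * x)
    have h2 := Matrix.rank_mul_le_right (-a) x
    omega
  have hzero : (1 + x) * a * (1 - x) - a = 0 := by
    by_contra hne
    obtain ⟨y, hy, hxy⟩ := hinv _ hdd hne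
    have h1 : (((1 + x) * a * (1 - x) - a) * y).rank ≤ ((1 + x) * a * (1 - x) - a).rank :=
      Matrix.rank_mul_le_left _ _
    rw [hxy] at h1
    rw [Matrix.rank_one] at h1
    simp at h1
    omega
  have hcom : (1 + x) * a = a * (1 + x) := by
    have h1 : (1 + x) * a * (1 - x) = a := sub_eq_zero.mp hzero
    calc (1 + x) * a = (1 + x) * a * ((1 - x) * (1 + x)) := by rw [e2, mul_one]
      _ = ((1 + x) * a * (1 - x)) * (1 + x) := by simp only [mul_assoc]
      _ = a * (1 + x) := by rw [h1]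
  have hcx : x * a = a * x := by
    simpa [add_mul, mul_add] using hcom
  obtain ⟨l, hl0, hl1⟩ := hl (a.mulVec w)
  have h2 : a.mulVec v = l.mulVec v := by
    rw [← hl1, Matrix.mulVec_mulVec, hcx, ← Matrix.mulVec_mulVec, hw]
  have h3 : a = l := by
    by_contra hne
    have h4 : a - l ∈ K := K.sub_mem ha (hle hl0)
    obtain ⟨y, hy, hxy⟩ := hinv _ h4 (sub_ne_zero.mpr hne)
    have h5 : y * (a - l) = 1 := mul_eq_one_comm.mp hxy
    have h6 : (y * (a - l)).mulVec v = 0 := by
      rw [← Matrix.mulVec_mulVec, Matrix.sub_mulVec, h2, sub_self, Matrix.mulVec_zero]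
    rw [h5] at h6
    simp at h6
    exact hv h6
  rw [h3]
  exact hl0

/-- A generator of the multiplicative group of a field subalgebra. -/
theorem exists_gen [Fintype F] (r : ℕ) (K : Subalgebra F Mat) (hn : 0 < n)
    (hK : Cfsg.Geo.IsFieldSubalgebra r K) :
    ∃ g : Mat, g ∈ K ∧ ∀ m : ℕ, g ^ m = 1 ↔ (Fintype.card F ^ r - 1) ∣ m := by
  classical
  haveI : Nonempty (Fin n) := ⟨⟨0, hn⟩⟩
  haveI : Nontrivial K := by
    refine ⟨⟨0, 1, fun h => ?_⟩⟩
    have h1 : (0 : Mat) = 1 := congrArg Subtype.val h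
    exact zero_ne_one h1
  have hu : ∀ a : K, IsUnit a ∨ a = 0 := by
    intro a
    by_cases ha : a = 0
    · exact Or.inr ha
    · left
      have ha' : (a : Mat) ≠ 0 := fun h => ha (Subtype.ext h)
      obtain ⟨y, hy, hxy⟩ := hK.inv a a.2 ha'
      have h1 : a * ⟨y, hy⟩ = 1 := Subtype.ext hxy
      have h2 : (⟨y, hy⟩ : K) * a = 1 := Subtype.ext (mul_eq_one_comm.mp hxy)
      exact ⟨⟨a, ⟨y, hy⟩, h1, h2⟩, rfl⟩
  letI : Field K :=
    { DivisionRing.ofIsUnitOrEqZero hu with
      mul_comm := fun a b => Subtype.ext (hK.comm a a.2 b b.2) }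
  haveI : Finite K := inferInstance
  haveI : Fintype K := Fintype.ofFinite K
  have hcard : Nat.card K = Fintype.card F ^ r := by
    rw [Module.natCard_eq_pow_finrank (K := F) (V := K), hK.finrank_eq, Nat.card_eq_fintype_card]
  obtain ⟨u, hu⟩ := IsCyclic.exists_generator (α := Kˣ)
  have ho : orderOf u = Fintype.card F ^ r - 1 := by
    rw [orderOf_eq_card_of_forall_mem_zpowers hu, Nat.card_units, hcard]
  refine ⟨((u : K) : Mat), (u : K).2, fun m => ?_⟩
  rw [← ho, orderOf_dvd_iff_pow_eq_one]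
  constructor
  · intro h
    apply Units.ext
    apply Subtype.ext
    simpa using h
  · intro h
    have h1 : ((u ^ m : Kˣ) : K) = 1 := by rw [h]; rfl
    have h2 := congrArg Subtype.val h1
    simpa using h2

theorem exists_mid [Fintype F] (r : ℕ) (K : Subalgebra F Mat) (hn : 0 < n)
    (hK : Cfsg.Geo.IsFieldSubalgebra r K) (hr1 : 1 < r) (hrp : ¬ r.Prime) :
    ∃ K0 : Subalgebra F Mat, K0 ≤ K ∧ ¬ K ≤ K0 ∧ ¬ K0 ≤ ⊥ ∧
      (∀ x ∈ K0, x ≠ 0 → ∃ y ∈ K0, x * y = 1) ∧
      Cfsg.Geo.subalgebraNormalizer K ≤ Cfsg.Geo.subalgebraNormalizer K0 := by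
  classical
  haveI : Nonempty (Fin n) := ⟨⟨0, hn⟩⟩
  obtain ⟨p, hp⟩ := CharP.exists F
  haveI := hp
  have hpp : p.Prime := (CharP.char_is_prime_or_zero F p).resolve_right (by
    intro h0
    exact CharP.char_ne_zero_of_finite F p h0)
  haveI : Fact p.Prime := ⟨hpp⟩
  obtain ⟨e, -, he⟩ := FiniteField.card F p
  set q := Fintype.card F with hq
  have hq1 : 1 < q := Fintype.one_lt_card
  set l := r.minFac with hl
  have hlp : l.Prime := Nat.minFac_prime (by omega)
  have hlr : l < r := lt_of_le_of_ne (Nat.minFac_le (by omega)) (fun h => hrp (h ▸ hlp))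
  obtain ⟨g, hgK, hg⟩ := exists_gen r K hn hK
  rw [← hq] at hg
  have hql : q ^ l = p ^ ((e : ℕ) * l) := by rw [he, pow_mul]
  have hlt : q ^ l < q ^ r := Nat.pow_lt_pow_right hq1 hlr
  have hlt1 : q < q ^ l := by
    calc q = q ^ 1 := (pow_one q).symm
      _ < q ^ l := Nat.pow_lt_pow_right hq1 hlp.one_lt
  have hscal : ∀ c : F, c ^ (q ^ l) = c := by
    intro c
    rw [hq]
    exact FiniteField.pow_card_pow l c
  let K0 : Subalgebra F Mat :=
    { carrier := {a | a ∈ K ∧ a ^ (q ^ l) = a}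
      mul_mem' := by
        rintro a b ⟨ha, ha'⟩ ⟨hb, hb'⟩
        refine ⟨K.mul_mem ha hb, ?_⟩
        have hc : Commute a b := hK.comm a ha b hb
        rw [hc.mul_pow, ha', hb']
      add_mem' := by
        rintro a b ⟨ha, ha'⟩ ⟨hb, hb'⟩
        refine ⟨K.add_mem ha hb, ?_⟩
        have hc : Commute a b := hK.comm a ha b hb
        rw [hql] at ha' hb' ⊢
        rw [add_pow_char_pow_of_commute p _ hc, ha', hb']
      algebraMap_mem' := by
        intro c
        refine ⟨K.algebraMap_mem c, ?_⟩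
        rw [← map_pow, hscal] }
  have hmem : ∀ a : Mat, a ∈ K0 ↔ a ∈ K ∧ a ^ (q ^ l) = a := fun a => Iff.rfl
  have hgu : IsUnit g := by
    have h0 : 0 < q ^ r - 1 := by omega
    have h1 : g ^ (q ^ r - 1) = 1 := (hg _).mpr dvd_rfl
    exact IsUnit.of_pow_eq_one h1 (by omega)
  have hK0K : K0 ≤ K := fun a ha => ha.1
  refine ⟨K0, hK0K, ?_, ?_, ?_, ?_⟩
  · intro h
    have h1 := (h hgK).2
    have h2 : g ^ (q ^ l - 1) = 1 := by
      apply hgu.mul_left_cancel
      rw [mul_one, ← pow_succ', Nat.sub_add_cancel (by omega)]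
      exact h1
    have h3 := Nat.le_of_dvd (by omega) ((hg _).mp h2)
    omega
  · intro h
    have hd : (q ^ l - 1) ∣ (q ^ r - 1) := by
      have : l ∣ r := Nat.minFac_dvd r
      obtain ⟨c, hc⟩ := this
      rw [hc, pow_mul]
      simpa using Nat.sub_dvd_pow_sub_pow (q ^ l) 1 c
    obtain ⟨m, hm⟩ := hd
    have ha0 : g ^ m ∈ K0 := by
      refine ⟨K.pow_mem hgK m, ?_⟩
      have h1 : (g ^ m) ^ (q ^ l - 1) = 1 := by
        rw [← pow_mul, mul_comm, ← hm]
        exact (hg _).mpr dvd_rfl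
      calc (g ^ m) ^ (q ^ l) = (g ^ m) ^ (q ^ l - 1) * g ^ m := by
            rw [← pow_succ, Nat.sub_add_cancel (by omega)]
        _ = g ^ m := by rw [h1, one_mul]
    obtain ⟨c, hc⟩ := Algebra.mem_bot.mp (h ha0)
    have hc0 : c ≠ 0 := by
      intro h0
      rw [h0, map_zero] at hc
      exact (hgu.pow m).ne_zero hc.symm
    have h2 : (g ^ m) ^ (q - 1) = 1 := by
      rw [← hc, ← map_pow, hq, FiniteField.pow_card_sub_one_eq_one c hc0, map_one]
    rw [← pow_mul, hg, hm, mul_comm (q ^ l - 1) m] at h2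
    have hm0 : 0 < m := by
      rcases Nat.eq_zero_or_pos m with h0 | h0
      · rw [h0] at hm; omega
      · exact h0
    have h3 := Nat.le_of_dvd (by omega) (Nat.dvd_of_mul_dvd_mul_left hm0 h2)
    omega
  · rintro x ⟨hx, hx'⟩ hx0
    obtain ⟨y, hy, hxy⟩ := hK.inv x hx hx0
    refine ⟨y, ⟨hy, ?_⟩, hxy⟩
    have hc : Commute x y := hK.comm x hx y hy
    have hyx : y * x = 1 := mul_eq_one_comm.mp hxy
    have h1 : x ^ (q ^ l) * y ^ (q ^ l) = 1 := by rw [← hc.mul_pow, hxy, one_pow]
    rw [hx'] at h1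
    calc y ^ (q ^ l) = (y * x) * y ^ (q ^ l) := by rw [hyx, one_mul]
      _ = y * (x * y ^ (q ^ l)) := by rw [mul_assoc]
      _ = y := by rw [h1, mul_one]
  · intro g hg k
    have h1 := hg k
    have hpow : ∀ m : ℕ, ((g : Mat) * k * ((g⁻¹ : GL (Fin n) F) : Mat)) ^ m =
        (g : Mat) * k ^ m * ((g⁻¹ : GL (Fin n) F) : Mat) := by
      intro m
      induction m with
      | zero => simp
      | succ m ih =>
        rw [pow_succ, ih, pow_succ]
        have : ((g⁻¹ : GL (Fin n) F) : Mat) * (g : Mat) = 1 := by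
          rw [← Units.val_mul, inv_mul_cancel, Units.val_one]
        calc (g : Mat) * k ^ m * ((g⁻¹ : GL (Fin n) F) : Mat) * ((g : Mat) * k * ((g⁻¹ : GL (Fin n) F) : Mat))
            = (g : Mat) * k ^ m * (((g⁻¹ : GL (Fin n) F) : Mat) * (g : Mat)) * k *
              ((g⁻¹ : GL (Fin n) F) : Mat) := by simp only [mul_assoc]
          _ = _ := by rw [this, mul_one]; simp only [mul_assoc]
    rw [hmem, hmem, h1, hpow]
    constructor
    · rintro ⟨ha, hb⟩
      exact ⟨ha, by rw [hb]⟩
    · rintro ⟨ha, hb⟩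
      refine ⟨ha, ?_⟩
      have e1 : ((g⁻¹ : GL (Fin n) F) : Mat) * (g : Mat) = 1 := by
        rw [← Units.val_mul, inv_mul_cancel, Units.val_one]
      have h2 := congrArg (fun M : Mat => ((g⁻¹ : GL (Fin n) F) : Mat) * M * (g : Mat)) hb
      simp only [mul_assoc, e1, mul_one] at h2
      rw [← mul_assoc, ← mul_assoc, e1, one_mul, one_mul] at h2
      exact h2

/-- Extension field normalisers of composite degree are not maximal. -/
theorem composite_not_maximal [Fintype F] (r : ℕ) (hr1 : 1 < r) (hrp : ¬ r.Prime) (hrn : r ∣ n)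
    (hlt : r < n) (K : Subalgebra F Mat) (hK : Cfsg.Geo.IsFieldSubalgebra r K) :
    ∃ K0 : Subalgebra F Mat, Cfsg.Geo.subalgebraNormalizer K ≤ Cfsg.Geo.subalgebraNormalizer K0 ∧
      ¬ (Cfsg.Geo.subalgebraNormalizer K0 ⊓ Cfsg.Geo.specialLinear (Fin n) F ≤
        Cfsg.Geo.subalgebraNormalizer K) ∧
      ¬ (Cfsg.Geo.specialLinear (Fin n) F ≤ Cfsg.Geo.subalgebraNormalizer K0) := by
  classical
  have hn : 0 < n := by omega
  haveI : Nonempty (Fin n) := ⟨⟨0, hn⟩⟩
  obtain ⟨K0, hle, hnle, hnb, hinv0, hN⟩ := exists_mid r K hn hK hr1 hrp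
  have h2r : 2 * r ≤ n := by
    obtain ⟨c, hc⟩ := hrn
    have : 2 ≤ c := by
      rcases Nat.lt_or_ge c 2 with h | h
      · interval_cases c <;> omega
      · exact h
    rw [hc]; nlinarith
  have hdet : ∀ g : GL (Fin n) F, (g : Mat).det = 1 → g ∈ Cfsg.Geo.specialLinear (Fin n) F := by
    intro g hg
    show Matrix.GeneralLinearGroup.det g = 1
    apply Units.ext
    simpa using hg
  refine ⟨K0, hN, ?_, ?_⟩
  · intro h
    apply hnle
    apply key K0 K hinv0 hle hK.comm hK.inv
    · have h1 : Module.finrank F K0 < Module.finrank F K := by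
        have hlt' : (Subalgebra.toSubmodule K0) < (Subalgebra.toSubmodule K) := by
          refine lt_of_le_of_ne hle ?_
          intro he
          apply hnle
          intro a ha
          have : a ∈ Subalgebra.toSubmodule K := ha
          rw [← he] at this
          exact this
        exact Submodule.finrank_lt_finrank_of_lt hlt'
      rw [hK.finrank_eq] at h1
      omega
    · intro x g hx hxc hg hgi hd k hk
      have hgN : g ∈ Cfsg.Geo.subalgebraNormalizer K0 := by
        have hc : ∀ k ∈ K0, (g : Mat) * k * ((g⁻¹ : GL (Fin n) F) : Mat) = k := by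
          intro k hk
          have h1 : (g : Mat) * k = k * (g : Mat) := by
            rw [hg, add_mul, mul_add, one_mul, mul_one, hxc k hk]
          rw [h1, mul_assoc, ← Units.val_mul, mul_inv_cancel, Units.val_one, mul_one]
        intro k
        constructor
        · intro hk
          rw [hc k hk]; exact hk
        · intro hk
          have h2 := hc _ hk
          have e1 : ((g⁻¹ : GL (Fin n) F) : Mat) * (g : Mat) = 1 := by
            rw [← Units.val_mul, inv_mul_cancel, Units.val_one]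
          have e2 : (g : Mat) * ((g⁻¹ : GL (Fin n) F) : Mat) = 1 := by
            rw [← Units.val_mul, mul_inv_cancel, Units.val_one]
          have h3 := congrArg (fun M : Mat => ((g⁻¹ : GL (Fin n) F) : Mat) * M * (g : Mat)) h2
          have h4 : (g : Mat) * k * ((g⁻¹ : GL (Fin n) F) : Mat) = k := by
            have h5 : ((g⁻¹ : GL (Fin n) F) : Mat) * ((g : Mat) * ((g : Mat) * k * ((g⁻¹ : GL (Fin n) F) : Mat)) * ((g⁻¹ : GL (Fin n) F) : Mat)) * (g : Mat) = (g : Mat) * k * ((g⁻¹ : GL (Fin n) F) : Mat) := by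
              calc _ = (((g⁻¹ : GL (Fin n) F) : Mat) * (g : Mat)) * ((g : Mat) * k * ((g⁻¹ : GL (Fin n) F) : Mat)) * (((g⁻¹ : GL (Fin n) F) : Mat) * (g : Mat)) := by
                    simp only [mul_assoc]
                _ = _ := by rw [e1, one_mul, mul_one]
            have h6 : ((g⁻¹ : GL (Fin n) F) : Mat) * ((g : Mat) * k * ((g⁻¹ : GL (Fin n) F) : Mat)) * (g : Mat) = k := by
              calc _ = (((g⁻¹ : GL (Fin n) F) : Mat) * (g : Mat)) * k * (((g⁻¹ : GL (Fin n) F) : Mat) * (g : Mat)) := by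
                    simp only [mul_assoc]
                _ = _ := by rw [e1, one_mul, mul_one]
            rw [h5, h6] at h3
            exact h3
          rw [← h4]; exact hk
      exact (h ⟨hgN, hdet g hd⟩ k).mp hk
  · intro h
    apply hnb
    apply key ⊥ K0
    · intro x hx hx0
      obtain ⟨c, hc⟩ := Algebra.mem_bot.mp hx
      have hc0 : c ≠ 0 := by
        rintro rfl
        apply hx0
        rw [← hc, map_zero]
      refine ⟨algebraMap F Mat c⁻¹, Subalgebra.algebraMap_mem _ _, ?_⟩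
      rw [← hc, ← map_mul, mul_inv_cancel₀ hc0, map_one]
    · exact bot_le
    · intro x hx y hy
      exact hK.comm x (hle hx) y (hle hy)
    · exact hinv0
    · rw [Subalgebra.finrank_bot]
      omega
    · intro x g hx hxc hg hgi hd k hk
      exact ((h (hdet g hd)) k).mp hk

end H86.ExtField
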