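import Mathlib
import Cfsg.Prelude.Def_Transfer
import Cfsg.Agent.Lib.H44.LSHeis

set_option autoImplicit false
set_option linter.unusedSimpArgs false
set_option linter.unusedVariables false
set_option linter.style.haveILetI false
set_option linter.unusedSectionVars false

/-!
Order bound for a finite elementary abelian `r`-group on which an extraspecial `p`-group acts faithfully.
-/

open scoped commutatorElement

namespace H86.ExtraDim

variable {E : Type*} [Group E] [Finite E] {V : Type*} [AddCommGroup V] [Finite V]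

/-- the subring generated by the action -/
abbrev RR (ρ : E →* AddMonoid.End V) : Subring (AddMonoid.End V) := Subring.closure (Set.range ρ)

/-- an element of the acting group as an element of the ring -/
def el (ρ : E →* AddMonoid.End V) (e : E) : RR ρ := ⟨ρ e, Subring.subset_closure ⟨e, rfl⟩⟩

theorem el_smul (ρ : E →* AddMonoid.End V) (e : E) (v : V) : el ρ e • v = ρ e v := rfl

theorem comm_of_central (ρ : E →* AddMonoid.End V) (z : E) (hz : ∀ e, z * e = e * z) (a : RR ρ) (v : V) :
    ρ z (a • v) = a • ρ z v := by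
  have : ∀ a ∈ RR ρ, ρ z * a = a * ρ z := by
    intro a ha
    have h1 : RR ρ ≤ Subring.centralizer {ρ z} := by
      rw [Subring.closure_le]
      rintro _ ⟨e, rfl⟩
      rw [SetLike.mem_coe, Subring.mem_centralizer_iff]
      rintro _ rfl
      rw [← map_mul, ← map_mul, hz]
    have h2 := h1 ha
    rw [Subring.mem_centralizer_iff] at h2
    exact h2 _ rfl
  exact congrArg (fun f : AddMonoid.End V => f v) (this a.1 a.2)

/-- simple submodule without fixed points of a central element of order `p` -/
theorem exists_simple (ρ : E →* AddMonoid.End V) {p r : ℕ} (hp : p.Prime) (hr : r.Prime) (hpr : p ≠ r)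
    (hV : ∀ v : V, r • v = 0) (z : E) (hz : ∀ e, z * e = e * z) (hzp : z ^ p = 1) (hz1 : ρ z ≠ 1) :
    ∃ U : Submodule (RR ρ) V, IsSimpleModule (RR ρ) U ∧ ∀ u ∈ U, ρ z u = u → u = 0 := by
  classical
  let W : Submodule (RR ρ) V :=
    { carrier := {v | ∃ u, v = ρ z u - u}
      add_mem' := by
        rintro a b ⟨u, rfl⟩ ⟨w, rfl⟩
        exact ⟨u + w, by rw [map_add]; abel⟩
      zero_mem' := ⟨0, by simp⟩
      smul_mem' := by
        rintro a _ ⟨u, rfl⟩
        exact ⟨a • u, by rw [comm_of_central ρ z hz, smul_sub]⟩ }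
  have hW : W ≠ ⊥ := by
    intro h
    apply hz1
    ext v
    have : ρ z v - v ∈ W := ⟨v, rfl⟩
    rw [h, Submodule.mem_bot] at this
    exact sub_eq_zero.mp this
  haveI : Finite (RR ρ) := by
    haveI : Finite (AddMonoid.End V) :=
      Finite.of_injective (fun f : AddMonoid.End V => (f : V → V)) DFunLike.coe_injective
    infer_instance
  haveI : IsArtinian (RR ρ) V := inferInstance
  haveI : IsAtomic (Submodule (RR ρ) V) := inferInstance
  obtain h | ⟨U, hU, hUW⟩ := eq_bot_or_exists_atom_le W
  · exact absurd h hW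
  · refine ⟨U, (isSimpleModule_iff_isAtom).mpr hU, ?_⟩
    intro u hu hzu
    obtain ⟨w, rfl⟩ := hUW hu
    have hpow : ∀ k : ℕ, (ρ z ^ k) (ρ z w - w) = ρ z w - w := by
      intro k
      induction k with
      | zero => rfl
      | succ k ih =>
        rw [pow_succ]
        show (ρ z ^ k) (ρ z (ρ z w - w)) = _
        rw [hzu, ih]
    have hsum : ∀ k : ℕ, (ρ z ^ k) w = w + k • (ρ z w - w) := by
      intro k
      induction k with
      | zero => simp
      | succ k ih =>
        have h1 : (ρ z ^ (k + 1)) w = (ρ z ^ k) (ρ z w - w) + (ρ z ^ k) w := by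
          rw [← map_add, sub_add_cancel, pow_succ]
          rfl
        rw [h1, hpow, ih, add_smul, one_smul]
        abel
    have h1 : p • (ρ z w - w) = 0 := by
      have h2 := hsum p
      rw [← map_pow, hzp, map_one] at h2
      have h3 : w = w + p • (ρ z w - w) := h2
      exact (left_eq_add.mp h3)
    have h2 : r • (ρ z w - w) = 0 := hV _
    have hco : Nat.Coprime p r := (Nat.coprime_primes hp hr).mpr hpr
    have h3 : addOrderOf (ρ z w - w) ∣ 1 := by
      rw [← hco]
      exact Nat.dvd_gcd (addOrderOf_dvd_of_nsmul_eq_zero h1) (addOrderOf_dvd_of_nsmul_eq_zero h2)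
    exact AddMonoid.addOrderOf_eq_one_iff.mp (Nat.dvd_one.mp h3)

/-- the main bound -/
theorem main {p r : ℕ} [hp : Fact p.Prime] [hr : Fact r.Prime] (hpr : p ≠ r)
    (hE : Cfsg.IsExtraspecial p E) (w : ℕ) (hEc : Nat.card E = p ^ (2 * w + 1))
    (ρ : E →* AddMonoid.End V) (hρ : Function.Injective ρ) (hV : ∀ v : V, r • v = 0)
    (n : ℕ) (hn : 1 ≤ n) (hmin : ∀ k : ℕ, 1 ≤ k → p ∣ r ^ k - 1 → n ≤ k) :
    r ^ (n * p ^ w) ≤ Nat.card V := by
  classical
  have hZc : Nat.card (Subgroup.center E) = p := hE.2
  obtain ⟨z, hz⟩ : ∃ z : Subgroup.center E, z ≠ 1 := by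
    haveI : Nontrivial (Subgroup.center E) := by
      rw [← Finite.one_lt_card_iff_nontrivial, hZc]; exact hp.out.one_lt
    exact exists_ne 1
  have hzz : ∀ e : E, (z : E) * e = e * z := fun e => (Subgroup.mem_center_iff.mp z.2 e).symm
  have hzp : (z : E) ^ p = 1 := by
    have : z ^ p = 1 := by rw [← hZc]; exact pow_card_eq_one'
    exact congrArg Subtype.val this
  have hz1 : ρ (z : E) ≠ 1 := by
    intro h
    rw [← map_one ρ] at h
    exact hz (Subtype.ext (hρ h))
  obtain ⟨U, hU, hfix⟩ := exists_simple ρ hp.out hr.out hpr hV z hzz hzp hz1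
  haveI := hU
  haveI : Finite U := inferInstance
  haveI : Nontrivial U := IsSimpleModule.nontrivial (RR ρ) U
  haveI : Finite (Module.End (RR ρ) U) := by
    apply Finite.of_injective (fun f : Module.End (RR ρ) U => (f : U → U))
    intro f g h
    exact LinearMap.ext fun x => congrFun h x
  letI : Field (Module.End (RR ρ) U) := littleWedderburn (Module.End (RR ρ) U)
  haveI : FiniteDimensional (Module.End (RR ρ) U) U := Module.finite_iff_finite.mpr inferInstance
  -- the central character
  let c0 : Subgroup.center E → Module.End (RR ρ) U := fun c =>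
    { toFun := fun u => el ρ (c : E) • u
      map_add' := fun a b => smul_add _ _ _
      map_smul' := fun a u => by
        apply Subtype.ext
        exact comm_of_central ρ (c : E) (fun e => (Subgroup.mem_center_iff.mp c.2 e).symm) a u.1 }
  let c1 : Subgroup.center E →* Module.End (RR ρ) U :=
    { toFun := c0
      map_one' := by
        apply LinearMap.ext
        intro u
        apply Subtype.ext
        show ρ ((1 : Subgroup.center E) : E) u.1 = u.1
        rw [Subgroup.coe_one, map_one]
        rfl
      map_mul' := fun a b => by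
        apply LinearMap.ext
        intro u
        apply Subtype.ext
        show ρ ((a * b : Subgroup.center E) : E) u.1 = ρ (a : E) (ρ (b : E) u.1)
        rw [Subgroup.coe_mul, map_mul]
        rfl }
  let χ : Subgroup.center E →* (Module.End (RR ρ) U)ˣ := c1.toHomUnits
  have hχ : ∀ (c : Subgroup.center E) (u : U), (((χ c : (Module.End (RR ρ) U)ˣ) : Module.End (RR ρ) U) u : V) = ρ (c : E) u :=
    fun c u => rfl
  have hχz : χ z ≠ 1 := by
    intro h
    obtain ⟨u, hu⟩ := exists_ne (0 : U)
    apply hu
    apply Subtype.ext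
    apply hfix u.1 u.2
    rw [← hχ, h]
    rfl
  have hχinj : Function.Injective χ := by
    rw [injective_iff_map_eq_one]
    intro c hc
    by_contra hne
    have hprime : (Nat.card (Subgroup.center E)).Prime := by rw [hZc]; exact hp.out
    haveI : Fact (Nat.card (Subgroup.center E)).Prime := ⟨hprime⟩
    have hker : χ.ker = ⊤ := by
      rcases Subgroup.eq_bot_or_eq_top_of_prime_card χ.ker with h | h
      · exfalso
        have : c ∈ χ.ker := hc
        rw [h, Subgroup.mem_bot] at this
        exact hne this
      · exact h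
    exact hχz (by
      have : z ∈ χ.ker := by rw [hker]; trivial
      exact this)
  -- the action on U
  let τ : E →* Module.End (Module.End (RR ρ) U) U :=
    { toFun := fun e =>
        { toFun := fun u => el ρ e • u
          map_add' := fun a b => smul_add _ _ _
          map_smul' := fun f u => (f.map_smul (el ρ e) u).symm }
      map_one' := by
        apply LinearMap.ext
        intro u
        apply Subtype.ext
        show ρ 1 u.1 = u.1
        rw [map_one]
        rfl
      map_mul' := fun a b => by
        apply LinearMap.ext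
        intro u
        apply Subtype.ext
        show ρ (a * b) u.1 = ρ a (ρ b u.1)
        rw [map_mul]
        rfl }
  have hτ : ∀ (e : E) (u : U), (τ e u : V) = ρ e u := fun e u => rfl
  -- the quotient by the center
  have hcomm : ∀ x y : E, ⁅x, y⁆ ∈ Subgroup.center E := fun x y =>
    hE.1.2.2.le (Subgroup.commutator_mem_commutator (Subgroup.mem_top x) (Subgroup.mem_top y))
  letI : CommGroup (E ⧸ Subgroup.center E) :=
    { (inferInstance : Group (E ⧸ Subgroup.center E)) with
      mul_comm := by
        intro a b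
        induction a using QuotientGroup.induction_on with | _ x => ?_
        induction b using QuotientGroup.induction_on with | _ y => ?_
        rw [← QuotientGroup.mk_mul, ← QuotientGroup.mk_mul, QuotientGroup.eq]
        have h1 := hcomm y⁻¹ x⁻¹
        rw [commutatorElement_def] at h1
        simpa [mul_assoc] using h1 }
  let s : E ⧸ Subgroup.center E → E := fun b => Quotient.out b
  have hs : ∀ b, (s b : E ⧸ Subgroup.center E) = b := fun b => Quotient.out_eq b
  let κ : E → E → Subgroup.center E := fun x y => ⟨⁅x, y⁆, hcomm x y⟩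
  have hκ : ∀ x y, ((κ x y : Subgroup.center E) : E) = ⁅x, y⁆ := fun x y => rfl
  have hcen : ∀ (c : Subgroup.center E) (x : E), x * c = c * x := fun c x =>
    Subgroup.mem_center_iff.mp c.2 x
  have hκm : ∀ x x' y, κ (x * x') y = κ x y * κ x' y := by
    intro x x' y
    apply Subtype.ext
    rw [Subgroup.coe_mul, hκ, hκ, hκ]
    have h1 : ⁅x * x', y⁆ = x * ⁅x', y⁆ * x⁻¹ * ⁅x, y⁆ := by
      simp only [commutatorElement_def]; group
    have h2 : x * ⁅x', y⁆ = ⁅x', y⁆ * x := hcen (κ x' y) x
    rw [h1, h2, mul_inv_cancel_right]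
    exact (hcen (κ x' y) _).symm
  have hκc : ∀ (c : Subgroup.center E) y, κ c y = 1 := by
    intro c y
    apply Subtype.ext
    rw [hκ, commutatorElement_def, ← hcen c y, mul_inv_cancel_right, mul_inv_cancel]
    rfl
  have hsm : ∀ b b', ∃ a : Subgroup.center E, s (b * b') = s b * s b' * a := by
    intro b b'
    have h1 : ((s b * s b' : E) : E ⧸ Subgroup.center E) = (s (b * b') : E) := by
      rw [hs, QuotientGroup.mk_mul, hs, hs]
    rw [QuotientGroup.eq] at h1
    exact ⟨⟨_, h1⟩, (mul_inv_cancel_left _ _).symm⟩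
  let θ : (E ⧸ Subgroup.center E) → ((E ⧸ Subgroup.center E) →* (Module.End (RR ρ) U)ˣ) := fun i =>
    MonoidHom.mk' (fun b => χ (κ (s b) (s i))) (by
      intro b b'
      obtain ⟨a, ha⟩ := hsm b b'
      rw [← map_mul, ha, hκm, hκm, hκc, mul_one])
  have hθ : ∀ i b, θ i b = χ (κ (s b) (s i)) := fun i b => rfl
  have hθinj : Function.Injective θ := by
    intro i i' h
    rw [← hs i, ← hs i', QuotientGroup.eq, Subgroup.mem_center_iff]
    intro x
    have h1 := congrArg (fun f : (E ⧸ Subgroup.center E) →* (Module.End (RR ρ) U)ˣ =>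
      f ((x⁻¹ : E) : E ⧸ Subgroup.center E)) h
    simp only [hθ] at h1
    have h2 := hχinj h1
    obtain ⟨c, hc⟩ : ∃ c : Subgroup.center E, s ((x⁻¹ : E) : E ⧸ Subgroup.center E) = x⁻¹ * c := by
      have h1 := (hs ((x⁻¹ : E) : E ⧸ Subgroup.center E)).symm
      rw [QuotientGroup.eq] at h1
      exact ⟨⟨_, h1⟩, (mul_inv_cancel_left _ _).symm⟩
    rw [hc, hκm, hκm, hκc, hκc, mul_one, mul_one] at h2
    have h3 := congrArg Subtype.val h2
    rw [hκ, hκ, commutatorElement_def, commutatorElement_def, inv_inv] at h3
    have h4 : s i * x * (s i)⁻¹ = s i' * x * (s i')⁻¹ := by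
      have := mul_left_cancel (a := x⁻¹) (b := s i * x * (s i)⁻¹) (c := s i' * x * (s i')⁻¹) (by
        simpa [mul_assoc] using h3)
      exact this
    have h5 : s i * x = s i' * x * (s i')⁻¹ * s i := by
      rw [← h4, inv_mul_cancel_right]
    rw [show x * ((s i)⁻¹ * s i') = (s i)⁻¹ * s i' * x ↔ s i' * x * (s i')⁻¹ * s i = s i * x from ?_]
    · exact h5.symm
    · constructor
      · intro h
        have : x * ((s i)⁻¹ * s i') = (s i)⁻¹ * (s i' * x) := by rw [h]; group
        have h6 : s i * (x * ((s i)⁻¹ * s i')) = s i' * x := by rw [this]; group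
        rw [← h6]; group
      · intro h
        have h6 : s i' * x = s i * x * (s i)⁻¹ * s i' := by rw [← h]; group
        calc x * ((s i)⁻¹ * s i') = (s i)⁻¹ * (s i * x * (s i)⁻¹ * s i') := by group
          _ = (s i)⁻¹ * s i' * x := by rw [← h6]; group
  have hcardB : Nat.card (E ⧸ Subgroup.center E) = p ^ (2 * w) := by
    have h1 := Subgroup.card_eq_card_quotient_mul_card_subgroup (Subgroup.center E)
    rw [hEc, hZc, pow_succ] at h1
    exact (Nat.eq_of_mul_eq_mul_right hp.out.pos h1).symm
  -- characteristic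
  have hr0 : ((r : ℕ) : Module.End (RR ρ) U) = 0 := by
    apply LinearMap.ext
    intro u
    apply Subtype.ext
    have h1 : (((r : ℕ) : Module.End (RR ρ) U) u) = r • u := by
      rw [Module.End.natCast_apply]
    rw [h1]
    exact hV u.1
  obtain ⟨r', hr'⟩ := CharP.exists (Module.End (RR ρ) U)
  have hr'1 : r' ∣ r := (CharP.cast_eq_zero_iff _ r' r).mp hr0
  have hr'2 : r' = r := by
    rcases (Nat.dvd_prime hr.out).mp hr'1 with h | h
    · exfalso
      have := (CharP.cast_eq_zero_iff (Module.End (RR ρ) U) r' 1).mpr (by rw [h])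
      rw [Nat.cast_one] at this
      exact one_ne_zero this
    · exact h
  subst hr'2
  haveI := hr'
  haveI : Fintype (Module.End (RR ρ) U) := Fintype.ofFinite _
  obtain ⟨m, -, hm⟩ := FiniteField.card (Module.End (RR ρ) U) r'
  have hm' : Nat.card (Module.End (RR ρ) U) = r' ^ (m : ℕ) := by rw [Nat.card_eq_fintype_card, hm]
  have hnm : n ≤ m := by
    apply hmin m m.2
    rw [← hm', ← Nat.card_units]
    have h1 : orderOf (χ z) = p := by
      apply orderOf_eq_prime
      · rw [← map_pow]
        have : z ^ p = 1 := Subtype.ext hzp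
        rw [this, map_one]
      · exact hχz
    rw [← h1]
    exact orderOf_dvd_natCard (χ z)
  -- the Heisenberg bound
  have hB0 : ((Nat.card (E ⧸ Subgroup.center E) : ℕ) : Module.End (RR ρ) U) ≠ 0 := by
    rw [hcardB, Ne, CharP.cast_eq_zero_iff _ r']
    intro h
    exact hpr ((Nat.prime_dvd_prime_iff_eq hr.out hp.out).mp (hr.out.dvd_of_dvd_pow h)).symm
  letI iC : CommGroup (Subgroup.center E) :=
    { (Subgroup.toGroup (Subgroup.center E)) with
      mul_comm := fun a b => Subtype.ext (hcen b a) }
  have hW : H44.LSWeights.wt (A := Subgroup.center E) (τ.comp (Subgroup.center E).subtype) χ = ⊤ := by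
    rw [eq_top_iff]
    intro u _ c
    rfl
  have hbound := H44.LSHeis.heis (A := Subgroup.center E) τ (Subgroup.center E).subtype χ (by
      rw [hW]
      exact top_ne_bot) hB0 s (fun b a => hcen a (s b)) (fun b b' => hsm b b') θ (by
      intro b i
      refine ⟨κ (s b) (s i), ?_, rfl⟩
      show s b * s i = ⁅s b, s i⁆ * (s i * s b)
      rw [commutatorElement_def]; group) 1 (by
      intro χ'
      haveI : Subsingleton {i : E ⧸ Subgroup.center E // θ i = χ'} :=
        ⟨fun a b => Subtype.ext (hθinj (a.2.trans b.2.symm))⟩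
      exact Finite.card_le_one_iff_subsingleton.mpr inferInstance)
  rw [hW, finrank_top, mul_one, hcardB] at hbound
  set d := Module.finrank (Module.End (RR ρ) U) U with hd
  have hpd : p ^ w ≤ d := by
    by_contra hlt
    push Not at hlt
    have : d ^ 2 < (p ^ w) ^ 2 := Nat.pow_lt_pow_left hlt (by norm_num)
    rw [← pow_mul, mul_comm w 2] at this
    omega
  have hU1 : Nat.card U = (r' ^ (m : ℕ)) ^ d := by
    rw [← hm', hd]
    exact Module.natCard_eq_pow_finrank (K := Module.End (RR ρ) U) (V := U)
  calc r' ^ (n * p ^ w) ≤ r' ^ ((m : ℕ) * d) :=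
        Nat.pow_le_pow_right hr.out.pos (Nat.mul_le_mul hnm hpd)
    _ = Nat.card U := by rw [hU1, pow_mul]
    _ ≤ Nat.card V := Nat.card_le_card_of_injective (fun u : U => (u : V)) Subtype.val_injective

end H86.ExtraDim
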