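import Mathlib

/-!
The odd product graph on a class of involutions: a criterion for diameter two.
-/

set_option autoImplicit false
set_option linter.unusedSimpArgs false
set_option linter.unusedVariables false
set_option linter.style.haveILetI false
set_option linter.unusedSectionVars false

namespace H86.OddGraph

universe u

theorem diam_two {α : Type u} (Γ : SimpleGraph α)
    (h : ∀ x y, x ≠ y → ¬ Γ.Adj x y → ∃ z, Γ.Adj x z ∧ Γ.Adj z y) (x0 y0 : α) (hne : x0 ≠ y0)
    (hn : ¬ Γ.Adj x0 y0) : Γ.Connected ∧ Γ.diam = 2 := by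
  have hle : ∀ u v, Γ.edist u v ≤ 2 := by
    intro u v
    by_cases huv : u = v
    · subst huv
      simp
    by_cases hadj : Γ.Adj u v
    · exact (SimpleGraph.Walk.edist_le (SimpleGraph.Walk.cons hadj SimpleGraph.Walk.nil)).trans (by simp)
    · obtain ⟨z, h1, h2⟩ := h u v huv hadj
      refine (SimpleGraph.Walk.edist_le (SimpleGraph.Walk.cons h1 (SimpleGraph.Walk.cons h2
        SimpleGraph.Walk.nil))).trans ?_
      simp
  have hed : Γ.ediam ≤ 2 := SimpleGraph.ediam_le_of_edist_le hle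
  have htop : Γ.ediam ≠ ⊤ := ne_top_of_le_ne_top (by simp) hed
  haveI : Nonempty α := ⟨x0⟩
  have hcon : Γ.Connected := SimpleGraph.connected_of_ediam_ne_top htop
  refine ⟨hcon, ?_⟩
  apply le_antisymm
  · have : Γ.ediam.toNat ≤ (2 : ℕ∞).toNat := ENat.toNat_le_toNat hed (by simp)
    exact this
  · have h1 := SimpleGraph.dist_le_diam htop (u := x0) (v := y0)
    have h2 : Γ.dist x0 y0 ≠ 0 := by
      intro h0
      exact hne (hcon.dist_eq_zero_iff.mp h0)
    have h3 : Γ.dist x0 y0 ≠ 1 := by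
      intro h0
      exact hn (SimpleGraph.dist_eq_one_iff_adj.mp h0)
    omega

variable {G : Type u} [Group G]

theorem order_comm {r s : G} (hr : r * r = 1) (hs : s * s = 1) : orderOf (r * s) = orderOf (s * r) := by
  have : s * r = (r * s)⁻¹ := by
    rw [mul_inv_rev, inv_eq_of_mul_eq_one_right hr, inv_eq_of_mul_eq_one_right hs]
  rw [this, orderOf_inv]

theorem conj_of_odd {r s : G} (hr : r * r = 1) (hs : s * s = 1) (h : Odd (orderOf (r * s))) : IsConj s r := by
  obtain ⟨k, hk⟩ := h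
  have hri : r⁻¹ = r := inv_eq_of_mul_eq_one_right hr
  have hsi : s⁻¹ = s := inv_eq_of_mul_eq_one_right hs
  have hsc : s * (r * s) * s⁻¹ = (r * s)⁻¹ := by
    rw [mul_inv_rev, hri, hsi]
    rw [← mul_assoc, mul_assoc (s * r), hs, mul_one]
  have hcj : ∀ j : ℕ, s * (r * s) ^ j * s⁻¹ = ((r * s) ^ j)⁻¹ := by
    intro j
    rw [← conj_pow, hsc, inv_pow]
  refine isConj_iff.mpr ⟨(r * s) ^ (k + 1), ?_⟩
  have h1 : s * ((r * s) ^ (k + 1))⁻¹ = (r * s) ^ (k + 1) * s := by
    have := hcj (k + 1)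
    rw [← this]
    rw [hsi]
    rw [← mul_assoc, ← mul_assoc, hs, one_mul]
  rw [mul_assoc, h1, ← mul_assoc, ← pow_add]
  have h2 : k + 1 + (k + 1) = (2 * k + 1) + 1 := by ring
  rw [h2, pow_succ, ← hk, pow_orderOf_eq_one, one_mul, mul_assoc, hs, mul_one]

theorem main (t : G) (ht : orderOf t = 2)
    (H1 : ∀ s s' : G, s * s = 1 → s' * s' = 1 → IsConj t s → IsConj t s' → s ≠ s' →
      ¬ Odd (orderOf (s * s')) → ∃ r : G, r * r = 1 ∧ Odd (orderOf (r * s)) ∧ Odd (orderOf (r * s')))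
    (H2 : ∃ s s' : G, IsConj t s ∧ IsConj t s' ∧ s ≠ s' ∧ ¬ Odd (orderOf (s * s'))) :
    (SimpleGraph.fromRel fun x y : {x : G // IsConj t x} => Odd (orderOf (x.1 * y.1))).Connected ∧
    (SimpleGraph.fromRel fun x y : {x : G // IsConj t x} => Odd (orderOf (x.1 * y.1))).diam = 2 := by
  have htt : t * t = 1 := by rw [← sq, ← ht, pow_orderOf_eq_one]
  have hsq : ∀ s, IsConj t s → s * s = 1 := by
    intro s hs
    obtain ⟨g, hg⟩ := isConj_iff.mp hs
    rw [← hg]
    calc g * t * g⁻¹ * (g * t * g⁻¹) = g * (t * t) * g⁻¹ := by group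
      _ = 1 := by rw [htt]; group
  have hadj : ∀ x y : {x : G // IsConj t x},
      (SimpleGraph.fromRel fun x y : {x : G // IsConj t x} => Odd (orderOf (x.1 * y.1))).Adj x y ↔
      x ≠ y ∧ Odd (orderOf (x.1 * y.1)) := by
    intro x y
    rw [SimpleGraph.fromRel_adj, order_comm (hsq y.1 y.2) (hsq x.1 x.2), or_self]
  obtain ⟨s0, s0', h1, h2, h3, h4⟩ := H2
  refine diam_two _ ?_ ⟨s0, h1⟩ ⟨s0', h2⟩ (fun h => h3 (congrArg Subtype.val h)) ?_
  · rintro ⟨s, hs⟩ ⟨s', hs'⟩ hne hn
    rw [hadj] at hn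
    have hne' : s ≠ s' := fun h => hne (Subtype.ext h)
    have hodd : ¬ Odd (orderOf (s * s')) := fun h => hn ⟨hne, h⟩
    obtain ⟨r, hr, ho1, ho2⟩ := H1 s s' (hsq s hs) (hsq s' hs') hs hs' hne' hodd
    have hrc : IsConj t r := hs.trans (conj_of_odd hr (hsq s hs) ho1)
    refine ⟨⟨r, hrc⟩, ?_, ?_⟩
    · rw [hadj]
      refine ⟨?_, ?_⟩
      · intro h
        have h5 : s = r := congrArg Subtype.val h
        subst h5
        exact hodd ho2
      · show Odd (orderOf (s * r))
        rw [order_comm (hsq s hs) hr]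
        exact ho1
    · rw [hadj]
      refine ⟨?_, ho2⟩
      intro h
      have h5 : r = s' := congrArg Subtype.val h
      subst h5
      apply hodd
      rw [order_comm (hsq s hs) hr]
      exact ho1
  · rw [hadj]
    exact fun h => h4 h.2

end H86.OddGraph
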