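import Mathlib
import Cfsg.Agent.Lib.H86.OddGraph
import Cfsg.Agent.Lib.H45.SL2TorusConj
import Cfsg.Agent.Lib.H45.SL2TorusCard
import Cfsg.Agent.Lib.H58.PSL2V4
import Cfsg.Agent.Lib.H17.SL2Four

/-!
The odd product graph on the involutions of `PSL₂(F)`.
-/

set_option autoImplicit false
set_option linter.unusedSimpArgs false
set_option linter.unusedVariables false
set_option linter.style.haveILetI false
set_option linter.unusedSectionVars false

open H45.SL2

namespace H86.OddPSL

universe u

variable {F : Type u} [Field F]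

/-- the projection -/
def pj (F : Type u) [Field F] :
    Matrix.SpecialLinearGroup (Fin 2) F →* Matrix.ProjectiveSpecialLinearGroup (Fin 2) F :=
  QuotientGroup.mk' (Subgroup.center (Matrix.SpecialLinearGroup (Fin 2) F))

theorem pj_one_iff (x : Matrix.SpecialLinearGroup (Fin 2) F) : pj F x = 1 ↔ x = 1 ∨ x = -1 := by
  rw [← mem_center_iff]
  exact QuotientGroup.eq_one_iff _

theorem pj_surj (x : Matrix.ProjectiveSpecialLinearGroup (Fin 2) F) : ∃ A, pj F A = x :=
  QuotientGroup.mk_surjective x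

theorem pj_neg (x : Matrix.SpecialLinearGroup (Fin 2) F) : pj F (-x) = pj F x := by
  rw [← neg_one_mul, map_mul, (pj_one_iff (-1 : Matrix.SpecialLinearGroup (Fin 2) F)).mpr (Or.inr rfl),
    one_mul]

theorem odd_of_pow {G : Type*} [Group G] {x : G} {n : ℕ} (hn : Odd n) (h : x ^ n = 1) : Odd (orderOf x) :=
  hn.of_dvd_nat (orderOf_dvd_of_pow_eq_one h)

/-- powers of a unipotent element -/
theorem pow_of_tr_two (M : Matrix.SpecialLinearGroup (Fin 2) F) (h : tr M = 2) (k : ℕ) :
    ((M ^ k : Matrix.SpecialLinearGroup (Fin 2) F) : Matrix (Fin 2) (Fin 2) F) =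
      (k : F) • (M : Matrix (Fin 2) (Fin 2) F) - ((k : F) - 1) • 1 := by
  have hM : (M : Matrix (Fin 2) (Fin 2) F) * M = (2 : F) • (M : Matrix (Fin 2) (Fin 2) F) - 1 := by
    have hd := det_eq M
    unfold tr at h
    have h11 : M.1 1 1 = 2 - M.1 0 0 := by linear_combination h
    ext i j
    fin_cases i <;> fin_cases j
    · simp [Matrix.mul_apply, Fin.sum_univ_two]
      rw [h11] at hd
      linear_combination -hd
    · simp [Matrix.mul_apply, Fin.sum_univ_two]
      rw [h11]
      ring
    · simp [Matrix.mul_apply, Fin.sum_univ_two]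
      rw [h11]
      ring
    · simp [Matrix.mul_apply, Fin.sum_univ_two]
      rw [h11] at hd ⊢
      linear_combination -hd
  induction k with
  | zero => simp
  | succ k ih =>
    rw [pow_succ, Matrix.SpecialLinearGroup.coe_mul, ih, sub_mul, smul_mul_assoc, hM, smul_sub, smul_smul,
      smul_mul_assoc, one_mul]
    push_cast
    module

variable [Fintype F]

/-- unipotent elements have odd order in odd characteristic -/
theorem odd_of_tr_two (h2 : (2 : F) ≠ 0) (M : Matrix.SpecialLinearGroup (Fin 2) F) (h : tr M = 2) :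
    Odd (orderOf (pj F M)) := by
  obtain ⟨p, hp⟩ := CharP.exists F
  have hpp : p.Prime := (CharP.char_is_prime_or_zero F p).resolve_right (CharP.char_ne_zero_of_finite F p)
  have hodd : Odd p := by
    apply hpp.odd_of_ne_two
    rintro rfl
    apply h2
    have := CharP.cast_eq_zero F 2
    exact_mod_cast this
  apply odd_of_pow hodd
  rw [← map_pow]
  have h1 : M ^ p = 1 := by
    apply Subtype.ext
    show ((M ^ p : Matrix.SpecialLinearGroup (Fin 2) F) : Matrix (Fin 2) (Fin 2) F) = 1
    rw [pow_of_tr_two M h, CharP.cast_eq_zero]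
    simp
  rw [h1, map_one]

theorem odd_of_tr_sq (h2 : (2 : F) ≠ 0) (M : Matrix.SpecialLinearGroup (Fin 2) F) (h : tr M ^ 2 = 4) :
    Odd (orderOf (pj F M)) := by
  have h1 : (tr M - 2) * (tr M + 2) = 0 := by linear_combination h
  rcases mul_eq_zero.mp h1 with h3 | h3
  · exact odd_of_tr_two h2 M (by linear_combination h3)
  · rw [← pj_neg]
    exact odd_of_tr_two h2 (-M) (by rw [tr_neg]; linear_combination -h3)

/-- split elements -/
theorem odd_of_split (hq : Fintype.card F % 4 = 3) (M : Matrix.SpecialLinearGroup (Fin 2) F)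
    (h : IsSquare (tr M ^ 2 - 4)) : Odd (orderOf (pj F M)) := by
  have hodd : Odd (Fintype.card F) := by rw [Nat.odd_iff]; omega
  have h2 : (2 : F) ≠ 0 := two_ne_zero_of_odd hodd
  obtain ⟨c, hc⟩ := h
  by_cases hc0 : c = 0
  · apply odd_of_tr_sq h2
    rw [hc0] at hc
    linear_combination hc
  obtain ⟨x, hx⟩ := exists_conj_mem_torus h2 (δ := (1 : F)) one_ne_zero hc0 M (by linear_combination hc)
  have hcard : Nat.card (torus (1 : F)) = Fintype.card F - 1 := by
    have := card_torus_split (F := F) (s := 1) one_ne_zero h2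
    rwa [one_pow] at this
  set y := x * M * x⁻¹ with hy
  have h3 : y ^ (Fintype.card F - 1) = 1 := by
    have : (⟨y, hx⟩ : torus (1 : F)) ^ (Nat.card (torus (1 : F))) = 1 := pow_card_eq_one'
    rw [hcard] at this
    exact congrArg Subtype.val this
  have h4 : Fintype.card F - 1 = (Fintype.card F - 1) / 2 * 2 := by omega
  have hodd2 : Odd ((Fintype.card F - 1) / 2) := by rw [Nat.odd_iff]; omega
  have h5 : (y ^ ((Fintype.card F - 1) / 2)) * (y ^ ((Fintype.card F - 1) / 2)) = 1 := by
    rw [← sq, ← pow_mul, ← h4, h3]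
  have h6 := (torus_sq_iff (δ := (1 : F)) h2 ((torus (1 : F)).pow_mem hx _)).mp h5
  have h7 : orderOf (pj F M) = orderOf (pj F y) := by
    rw [hy, map_mul, map_mul, map_inv]
    exact ((MulAut.conj (pj F x)).orderOf_eq (pj F M)).symm
  rw [h7]
  apply odd_of_pow hodd2
  rw [← map_pow]
  exact (pj_one_iff _).mpr h6

/-- characteristic two: nonzero trace gives odd order -/
theorem odd_of_tr_ne (h2 : (2 : F) = 0) (M : Matrix.SpecialLinearGroup (Fin 2) F) (h : tr M ≠ 0) :
    Odd (orderOf (pj F M)) := by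
  classical
  have hneg : (-1 : Matrix.SpecialLinearGroup (Fin 2) F) = 1 := by
    have h1 : (-1 : F) = 1 := by linear_combination -h2
    apply ext4 <;> simp [neg_ij, one_00, one_01, one_10, one_11, h1]
  by_contra hne
  rw [Nat.not_odd_iff_even] at hne
  obtain ⟨k, hk⟩ := hne
  have hkpos : 0 < k := by
    have := orderOf_pos (pj F M)
    omega
  set U := M ^ k with hU
  have hU1 : pj F U ≠ 1 := by
    rw [hU, map_pow]
    intro h3
    have := Nat.le_of_dvd hkpos (orderOf_dvd_of_pow_eq_one h3)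
    omega
  have hUU : pj F (U * U) = 1 := by
    rw [hU, ← pow_add, ← hk, map_pow, pow_orderOf_eq_one]
  have hU2 : U * U = -1 := by
    rcases (pj_one_iff _).mp hUU with h3 | h3
    · rw [h3, hneg]
    · exact h3
  have htr : tr U = 0 := H58.SL2Prod.tr_zero_of_sq hU2
  have hcomm : M * U = U * M := by rw [hU, ← pow_succ', ← pow_succ]
  have e01 : (M * U).1 0 1 = (U * M).1 0 1 := by rw [hcomm]
  have e10 : (M * U).1 1 0 = (U * M).1 1 0 := by rw [hcomm]
  rw [mul_01, mul_01] at e01
  rw [mul_10, mul_10] at e10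
  unfold tr at htr h
  have hd : U.1 1 1 = U.1 0 0 := by linear_combination htr - U.1 0 0 * h2
  rw [hd] at e01 e10
  have f01 : U.1 0 1 = 0 := by
    have h3 : (M.1 0 0 + M.1 1 1) * U.1 0 1 = 0 := by linear_combination e01 + M.1 1 1 * U.1 0 1 * h2
    exact (mul_eq_zero.mp h3).resolve_left h
  have f10 : U.1 1 0 = 0 := by
    have h3 : (M.1 0 0 + M.1 1 1) * U.1 1 0 = 0 := by linear_combination e10 + M.1 0 0 * U.1 1 0 * h2
    exact (mul_eq_zero.mp h3).resolve_left h
  apply hU1
  rw [pj_one_iff]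
  exact scalar_iff f01 f10 hd.symm

/-- construction of trace zero elements -/
theorem exists_R (A B : Matrix.SpecialLinearGroup (Fin 2) F) (hA : tr A = 0) (hB : tr B = 0) (α β γ : F)
    (h : α ^ 2 + β ^ 2 - α * β * tr (A * B) + γ ^ 2 * (4 - tr (A * B) ^ 2) = 1) :
    ∃ R : Matrix.SpecialLinearGroup (Fin 2) F, tr R = 0 ∧ tr (R * A) = -2 * α + β * tr (A * B) ∧
      tr (R * B) = α * tr (A * B) - 2 * β := by
  have hdA := det_eq A
  have hdB := det_eq B
  rw [tr_mul] at h ⊢
  unfold tr at hA hB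
  have hA1 : A.1 1 1 = - A.1 0 0 := by linear_combination hA
  have hB1 : B.1 1 1 = - B.1 0 0 := by linear_combination hB
  rw [hA1] at hdA
  rw [hB1] at hdB
  rw [hA1, hB1] at h ⊢
  set a := A.1 0 0
  set b := A.1 0 1
  set c := A.1 1 0
  set x := B.1 0 0
  set y := B.1 0 1
  set z := B.1 1 0
  refine ⟨mk2 (α * a + β * x + γ * (b * z - y * c)) (α * b + β * y + γ * (2 * (a * y - b * x)))
    (α * c + β * z + γ * (2 * (c * x - a * z))) (-(α * a + β * x + γ * (b * z - y * c))) ?_, ?_, ?_, ?_⟩
  · linear_combination h + α ^ 2 * hdA + β ^ 2 * hdB + 4 * γ ^ 2 * ((a * -a - b * c) * hdB + hdA)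
  · rw [tr_mk2]; ring
  · rw [tr_mul]
    simp only [mk2_00, mk2_01, mk2_10, mk2_11, hA1]
    linear_combination (-2 * α) * hdA
  · rw [tr_mul]
    simp only [mk2_00, mk2_01, mk2_10, mk2_11, hB1]
    linear_combination (-2 * β) * hdB

/-- the case `q ≡ 1 (mod 4)` -/
theorem exists_R_one (h2 : (2 : F) ≠ 0) (hi : IsSquare (-1 : F)) (A B : Matrix.SpecialLinearGroup (Fin 2) F)
    (hA : tr A = 0) (hB : tr B = 0) (h : tr (A * B) ^ 2 ≠ 4) :
    ∃ R : Matrix.SpecialLinearGroup (Fin 2) F, tr R = 0 ∧ tr (R * A) ^ 2 = 4 ∧ tr (R * B) ^ 2 = 4 := by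
  obtain ⟨i, hi⟩ := hi
  set τ := tr (A * B) with hτ
  have h1 : 2 - τ ≠ 0 := by
    intro h0
    apply h
    have : τ = 2 := by linear_combination -h0
    rw [this]; norm_num
  obtain ⟨R, hR, hRA, hRB⟩ := exists_R A B hA hB (2 / (2 - τ)) (2 / (2 - τ)) (i / (2 - τ)) (by
    rw [← hτ]
    field_simp
    linear_combination (-(4 - τ ^ 2)) * hi)
  refine ⟨R, hR, ?_, ?_⟩
  · rw [hRA, ← hτ]
    have : -2 * (2 / (2 - τ)) + 2 / (2 - τ) * τ = -2 := by field_simp; ring
    rw [this]; norm_num
  · rw [hRB, ← hτ]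
    have : 2 / (2 - τ) * τ - 2 * (2 / (2 - τ)) = -2 := by field_simp; ring
    rw [this]; norm_num

/-- the case `q ≡ 3 (mod 4)`, `M` a square -/
theorem exists_R_three (h2 : (2 : F) ≠ 0) (A B : Matrix.SpecialLinearGroup (Fin 2) F)
    (hA : tr A = 0) (hB : tr B = 0) (h : tr (A * B) ^ 2 ≠ 4) (m w : F) (hm : m ≠ 0)
    (hw : -((m ^ 2) ^ 2 + tr (A * B) * m ^ 2 + 1) * (2 + tr (A * B)) = w ^ 2) :
    ∃ R : Matrix.SpecialLinearGroup (Fin 2) F, tr R = 0 ∧ IsSquare (tr (R * A) ^ 2 - 4) ∧
      IsSquare (tr (R * B) ^ 2 - 4) := by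
  set τ := tr (A * B) with hτ
  have h1 : 2 - τ ≠ 0 := by
    intro h0
    apply h
    have : τ = 2 := by linear_combination -h0
    rw [this]; norm_num
  have h3 : 2 + τ ≠ 0 := by
    intro h0
    apply h
    have : τ = -2 := by linear_combination h0
    rw [this]; norm_num
  obtain ⟨R, hR, hRA, hRB⟩ := exists_R A B hA hB ((m + 1 / m) / (2 - τ)) ((m + 1 / m) / (2 - τ))
    (w / (m * (2 - τ) * (2 + τ))) (by
    rw [← hτ]
    field_simp
    linear_combination (-(4 - τ ^ 2)) * hw)
  refine ⟨R, hR, ⟨m - 1 / m, ?_⟩, ⟨m - 1 / m, ?_⟩⟩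
  · rw [hRA, ← hτ]
    field_simp
    ring
  · rw [hRB, ← hτ]
    field_simp
    ring

/-- the number theoretic input for `q ≡ 3 (mod 4)` -/
theorem exists_M (hF : 4 ≤ Fintype.card F) (h2 : (2 : F) ≠ 0) (hi : ¬ IsSquare (-1 : F)) (τ : F)
    (hτ : ¬ IsSquare (τ ^ 2 - 4)) :
    ∃ M : F, M ≠ 0 ∧ IsSquare (-(M ^ 2 + τ * M + 1) * (2 + τ)) := by
  classical
  have hodd : Odd (Fintype.card F) := by
    have hrc : ringChar F ≠ 2 := fun h => h2 (two_eq_zero_of_ringChar h)
    exact Nat.odd_iff.mpr (FiniteField.odd_card_of_char_ne_two hrc)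
  -- product of two nonsquares
  have hmul : ∀ a b : F, ¬ IsSquare a → ¬ IsSquare b → IsSquare (a * b) := by
    intro a b ha hb
    obtain ⟨c, hc0, hc⟩ := exists_ratio_square hodd ha hb
    exact ⟨b * c, by rw [hc]; ring⟩
  have hneg : ∀ a : F, ¬ IsSquare a → IsSquare (-a) := by
    intro a ha
    have := hmul _ _ hi ha
    rwa [neg_one_mul] at this
  by_cases he : IsSquare (2 + τ)
  · -- need a nonsquare value
    by_contra hcon
    push Not at hcon
    have hall : ∀ M : F, IsSquare (M ^ 2 + τ * M + 1) := by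
      intro M
      by_cases hM : M = 0
      · rw [hM]; exact ⟨1, by ring⟩
      · by_contra hns
        exact hcon M hM ((hneg _ hns).mul he)
    have h4 : (4 : F) ≠ 0 := by
      have : (4 : F) = 2 * 2 := by norm_num
      rw [this]
      exact mul_ne_zero h2 h2
    have hD : ∀ X : F, IsSquare (X ^ 2 + (4 - τ ^ 2)) := by
      intro X
      obtain ⟨r, hr⟩ := hall ((X - τ) / 2)
      refine ⟨2 * r, ?_⟩
      have h5 : (2 * r) * (2 * r) = 4 * (r * r) := by ring
      rw [h5, ← hr]
      field_simp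
      ring
    have hD0 : (4 - τ ^ 2) ≠ 0 := by
      intro h0
      apply hτ
      have : τ ^ 2 - 4 = 0 := by linear_combination -h0
      rw [this]
      exact ⟨0, by ring⟩
    have hjD : ∀ j : ℕ, IsSquare ((j : F) * (4 - τ ^ 2)) := by
      intro j
      induction j with
      | zero => exact ⟨0, by simp⟩
      | succ j ih =>
        obtain ⟨r, hr⟩ := ih
        have := hD r
        rw [sq, ← hr] at this
        push_cast
        rwa [add_mul, one_mul]
    obtain ⟨p, hp⟩ := CharP.exists F
    have hpp : p.Prime := (CharP.char_is_prime_or_zero F p).resolve_right (CharP.char_ne_zero_of_finite F p)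
    have hmin : IsSquare (-(4 - τ ^ 2)) := by
      have := hjD (p - 1)
      rw [Nat.cast_sub hpp.one_le, CharP.cast_eq_zero, Nat.cast_one, zero_sub, neg_one_mul] at this
      exact this
    apply hτ
    have : τ ^ 2 - 4 = -(4 - τ ^ 2) := by ring
    rw [this]
    exact hmin
  · -- need a square value
    have hne := hneg _ he
    by_cases hτ0 : τ = 0
    · subst hτ0
      obtain ⟨u, hu⟩ : ∃ u : F, u ∉ ({0, 1, -1} : Finset F) := by
        by_contra hcon
        push Not at hcon
        have h5 : Fintype.card F ≤ ({0, 1, -1} : Finset F).card := by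
          rw [← Finset.card_univ]
          exact Finset.card_le_card (fun x _ => hcon x)
        have h6 := Finset.card_le_three (a := (0 : F)) (b := 1) (c := -1)
        omega
      simp only [Finset.mem_insert, Finset.mem_singleton, not_or] at hu
      obtain ⟨hu0, hu1, hu2⟩ := hu
      refine ⟨(1 / u - u) / 2, ?_, ?_⟩
      · intro h0
        have h5 : (1 - u) * (1 + u) = 0 := by
          field_simp at h0
          linear_combination h0
        rcases mul_eq_zero.mp h5 with h6 | h6
        · exact hu1 (by linear_combination -h6)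
        · exact hu2 (by linear_combination h6)
      · have h5 : -(((1 / u - u) / 2) ^ 2 + 0 * ((1 / u - u) / 2) + 1) * (2 + 0) =
            (((1 / u + u) / 2) ^ 2) * (-(2 + 0)) := by
          field_simp
          ring
        rw [h5]
        exact (IsSquare.sq _).mul hne
    · refine ⟨-τ, neg_ne_zero.mpr hτ0, ?_⟩
      have h5 : -((-τ) ^ 2 + τ * -τ + 1) * (2 + τ) = -(2 + τ) := by ring
      rw [h5]
      exact hne

theorem h1_odd (hF : 4 ≤ Fintype.card F) (h2 : (2 : F) ≠ 0) (A B : Matrix.SpecialLinearGroup (Fin 2) F)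
    (hA : tr A = 0) (hB : tr B = 0) (hAB : ¬ Odd (orderOf (pj F A * pj F B))) :
    ∃ R : Matrix.SpecialLinearGroup (Fin 2) F, tr R = 0 ∧ Odd (orderOf (pj F R * pj F A)) ∧
      Odd (orderOf (pj F R * pj F B)) := by
  have h4 : tr (A * B) ^ 2 ≠ 4 := by
    intro h
    apply hAB
    rw [← map_mul]
    exact odd_of_tr_sq h2 _ h
  by_cases hi : IsSquare (-1 : F)
  · obtain ⟨R, hR, hRA, hRB⟩ := exists_R_one h2 hi A B hA hB h4
    refine ⟨R, hR, ?_, ?_⟩
    · rw [← map_mul]; exact odd_of_tr_sq h2 _ hRA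
    · rw [← map_mul]; exact odd_of_tr_sq h2 _ hRB
  have hq : Fintype.card F % 4 = 3 := by
    by_contra hne
    exact hi (FiniteField.isSquare_neg_one_iff.mpr hne)
  have hodd : Odd (Fintype.card F) := by rw [Nat.odd_iff]; omega
  have hns : ¬ IsSquare (tr (A * B) ^ 2 - 4) := by
    intro h
    apply hAB
    rw [← map_mul]
    exact odd_of_split hq _ h
  obtain ⟨M, hM0, hM⟩ := exists_M hF h2 hi (tr (A * B)) hns
  obtain ⟨r, hr⟩ := hM
  by_cases hMs : IsSquare M
  · obtain ⟨m, hm⟩ := hMs
    have hm0 : m ≠ 0 := by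
      rintro rfl
      exact hM0 (by rw [hm]; ring)
    obtain ⟨R, hR, hRA, hRB⟩ := exists_R_three h2 A B hA hB h4 m r hm0 (by
      rw [← sq] at hm
      rw [← hm]
      linear_combination hr)
    refine ⟨R, hR, ?_, ?_⟩
    · rw [← map_mul]; exact odd_of_split hq _ hRA
    · rw [← map_mul]; exact odd_of_split hq _ hRB
  · -- `-M` is a square
    obtain ⟨m, hm0, hm⟩ := exists_ratio_square hodd hMs hi
    have hB' : tr (-B) = 0 := by rw [tr_neg, hB, neg_zero]
    have htr : tr (A * -B) = - tr (A * B) := by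
      rw [mul_neg, tr_neg]
    obtain ⟨d, hd0, hd⟩ := exists_ratio_square hodd hns hi
    have h3 : 2 + tr (A * B) ≠ 0 := by
      intro h0
      apply h4
      have : tr (A * B) = -2 := by linear_combination h0
      rw [this]; norm_num
    obtain ⟨R, hR, hRA, hRB⟩ := exists_R_three h2 A (-B) hA hB' (by rw [htr, neg_sq]; exact h4) m
      (r * d / (2 + tr (A * B))) hm0 (by
      rw [htr]
      have hM' : M = - m ^ 2 := by rw [hm]; ring
      rw [hM'] at hr
      rw [div_pow, eq_div_iff (pow_ne_zero 2 h3)]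
      have hd' : (2 - tr (A * B)) * (2 + tr (A * B)) = d ^ 2 := by linear_combination -hd
      linear_combination d ^ 2 * hr - ((m ^ 2) ^ 2 - tr (A * B) * m ^ 2 + 1) * (2 + tr (A * B)) * hd')
    refine ⟨R, hR, ?_, ?_⟩
    · rw [← map_mul]; exact odd_of_split hq _ hRA
    · have h5 : pj F B = pj F (-B) := (pj_neg B).symm
      rw [h5, ← map_mul]; exact odd_of_split hq _ hRB

theorem h1_even (h2 : (2 : F) = 0) (A B : Matrix.SpecialLinearGroup (Fin 2) F)
    (hA : tr A = 0) (hB : tr B = 0) (hA1 : pj F A ≠ 1) (hB1 : pj F B ≠ 1) :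
    ∃ R : Matrix.SpecialLinearGroup (Fin 2) F, tr R = 0 ∧ Odd (orderOf (pj F R * pj F A)) ∧
      Odd (orderOf (pj F R * pj F B)) := by
  have hrc : ringChar F = 2 := by
    have h1 : ((2 : ℕ) : F) = 0 := by exact_mod_cast h2
    have h3 := ringChar.dvd h1
    rcases (Nat.dvd_prime Nat.prime_two).mp h3 with h | h
    · exfalso
      have := ringChar.spec F 1
      rw [h] at this
      exact one_ne_zero (by exact_mod_cast this.mpr dvd_rfl : (1 : F) = 0)
    · exact h
  have key : ∀ C : Matrix.SpecialLinearGroup (Fin 2) F, tr C = 0 → pj F C ≠ 1 →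
      C.1 1 0 ≠ 0 ∨ C.1 0 1 ≠ 0 := by
    intro C hC hC1
    by_contra hcon
    push Not at hcon
    apply hC1
    rw [pj_one_iff]
    unfold tr at hC
    exact scalar_iff hcon.2 hcon.1 (by linear_combination hC - C.1 1 1 * h2)
  have hkA := key A hA hA1
  have hkB := key B hB hB1
  obtain ⟨y, z, hy, hz⟩ : ∃ y z : F, y * A.1 1 0 + z * A.1 0 1 ≠ 0 ∧ y * B.1 1 0 + z * B.1 0 1 ≠ 0 := by
    obtain ⟨y1, z1, h1⟩ : ∃ y z : F, y * A.1 1 0 + z * A.1 0 1 ≠ 0 := by
      rcases hkA with h | h
      · exact ⟨1, 0, by simpa using h⟩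
      · exact ⟨0, 1, by simpa using h⟩
    obtain ⟨y2, z2, h3⟩ : ∃ y z : F, y * B.1 1 0 + z * B.1 0 1 ≠ 0 := by
      rcases hkB with h | h
      · exact ⟨1, 0, by simpa using h⟩
      · exact ⟨0, 1, by simpa using h⟩
    by_cases h4 : y1 * B.1 1 0 + z1 * B.1 0 1 = 0
    · by_cases h5 : y2 * A.1 1 0 + z2 * A.1 0 1 = 0
      · refine ⟨y1 + y2, z1 + z2, ?_, ?_⟩
        · intro h6
          apply h1
          linear_combination h6 - h5
        · intro h6
          apply h3
          linear_combination h6 - h4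
      · exact ⟨y2, z2, h5, h3⟩
    · exact ⟨y1, z1, h1, h4⟩
  obtain ⟨x, hx⟩ := FiniteField.isSquare_of_char_two hrc (1 + y * z)
  have hAA : A.1 1 1 = A.1 0 0 := by unfold tr at hA; linear_combination hA - A.1 0 0 * h2
  have hBB : B.1 1 1 = B.1 0 0 := by unfold tr at hB; linear_combination hB - B.1 0 0 * h2
  refine ⟨mk2 x y z x (by linear_combination -hx), ?_, ?_, ?_⟩
  · rw [tr_mk2]; linear_combination x * h2
  · rw [← map_mul]
    apply odd_of_tr_ne h2
    rw [tr_mul]
    simp only [mk2_00, mk2_01, mk2_10, mk2_11, hAA]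
    intro h0
    apply hy
    linear_combination h0 - x * A.1 0 0 * h2
  · rw [← map_mul]
    apply odd_of_tr_ne h2
    rw [tr_mul]
    simp only [mk2_00, mk2_01, mk2_10, mk2_11, hBB]
    intro h0
    apply hz
    linear_combination h0 - x * B.1 0 0 * h2

theorem ringChar_two (h2 : (2 : F) = 0) : ringChar F = 2 := by
  have h1 : ((2 : ℕ) : F) = 0 := by exact_mod_cast h2
  have h3 := ringChar.dvd h1
  rcases (Nat.dvd_prime Nat.prime_two).mp h3 with h | h
  · exfalso
    have := ringChar.spec F 1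
    rw [h] at this
    exact one_ne_zero (by exact_mod_cast this.mpr dvd_rfl : (1 : F) = 0)
  · exact h

theorem conj_even (h2 : (2 : F) = 0) (A : Matrix.SpecialLinearGroup (Fin 2) F) (hA : tr A = 0)
    (hA1 : pj F A ≠ 1) : IsConj (mk2 0 (-1) 1 (tr A) (by ring)) A := by
  have hrc := ringChar_two h2
  have hAA : A.1 1 1 = A.1 0 0 := by unfold tr at hA; linear_combination hA - A.1 0 0 * h2
  by_cases h : A.1 1 0 = 0
  · have h01 : A.1 0 1 ≠ 0 := by
      intro h'
      apply hA1
      rw [pj_one_iff]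
      exact scalar_iff h' h hAA.symm
    obtain ⟨y, hy⟩ := FiniteField.isSquare_of_char_two hrc (-(1 / A.1 0 1))
    apply isConj_companion A 0 y
    rw [hAA]
    have : y ^ 2 = -(1 / A.1 0 1) := by rw [sq, ← hy]
    rw [this]
    field_simp
    ring
  · obtain ⟨x, hx⟩ := FiniteField.isSquare_of_char_two hrc (1 / A.1 1 0)
    apply isConj_companion A x 0
    have : x ^ 2 = 1 / A.1 1 0 := by rw [sq, ← hx]
    rw [this]
    field_simp
    ring

theorem conj_even' (h2 : (2 : F) = 0) (A B : Matrix.SpecialLinearGroup (Fin 2) F) (hA : tr A = 0)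
    (hB : tr B = 0) (hA1 : pj F A ≠ 1) (hB1 : pj F B ≠ 1) : IsConj A B := by
  have e1 := conj_even h2 A hA hA1
  have e2 := conj_even h2 B hB hB1
  have e3 : mk2 0 (-1) 1 (tr A) (by ring) = mk2 0 (-1) 1 (tr B) (by ring) := by
    apply ext4 <;> simp [hA, hB]
  rw [e3] at e1
  exact e1.symm.trans e2

theorem neg_one_eq (h2 : (2 : F) = 0) : (-1 : Matrix.SpecialLinearGroup (Fin 2) F) = 1 := by
  have h1 : (-1 : F) = 1 := by linear_combination -h2
  apply ext4 <;> simp [neg_ij, one_00, one_01, one_10, one_11, h1]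

/-- lifting involutions -/
theorem lift_tr (A : Matrix.SpecialLinearGroup (Fin 2) F) (h1 : pj F A ≠ 1) (h : pj F A * pj F A = 1) :
    tr A = 0 := by
  by_cases h2 : (2 : F) = 0
  · rw [← map_mul, pj_one_iff] at h
    apply H58.SL2Prod.tr_zero_of_sq
    rcases h with h | h
    · rw [h, neg_one_eq h2]
    · exact h
  · exact H58.SL2Prod.tr_zero_of_sq (H17.SL2Four.lift_invol h2 A h1 h)

theorem main (hF : 4 ≤ Fintype.card F) (t : Matrix.ProjectiveSpecialLinearGroup (Fin 2) F)
    (ht : orderOf t = 2) :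
    (SimpleGraph.fromRel fun x y : {x : Matrix.ProjectiveSpecialLinearGroup (Fin 2) F // IsConj t x} =>
        Odd (orderOf (x.1 * y.1))).Connected ∧
      (SimpleGraph.fromRel fun x y : {x : Matrix.ProjectiveSpecialLinearGroup (Fin 2) F // IsConj t x} =>
        Odd (orderOf (x.1 * y.1))).diam = 2 := by
  classical
  have ht1 : t ≠ 1 := by
    rintro rfl
    rw [orderOf_one] at ht
    omega
  have htt : t * t = 1 := by
    have h := pow_orderOf_eq_one t
    rw [ht] at h
    rw [← sq]
    exact h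
  have hne1 : ∀ s, IsConj t s → s ≠ 1 := by
    rintro s hs rfl
    exact ht1 (isConj_one_right.mp hs.symm)
  apply H86.OddGraph.main t ht
  · intro s s' hs hs' hts hts' hne hodd
    obtain ⟨A, rfl⟩ := pj_surj s
    obtain ⟨B, rfl⟩ := pj_surj s'
    have hA := lift_tr A (hne1 _ hts) hs
    have hB := lift_tr B (hne1 _ hts') hs'
    have : ∃ R : Matrix.SpecialLinearGroup (Fin 2) F, tr R = 0 ∧ Odd (orderOf (pj F R * pj F A)) ∧
        Odd (orderOf (pj F R * pj F B)) := by
      by_cases h2 : (2 : F) = 0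
      · exact h1_even h2 A B hA hB (hne1 _ hts) (hne1 _ hts')
      · exact h1_odd hF h2 A B hA hB hodd
    obtain ⟨R, hR, h3, h4⟩ := this
    refine ⟨pj F R, ?_, h3, h4⟩
    rw [← map_mul, sq_of_tr_zero hR, pj_one_iff]
    exact Or.inr rfl
  · obtain ⟨T, rfl⟩ := pj_surj t
    have hT := lift_tr T ht1 htt
    by_cases h2 : (2 : F) = 0
    · obtain ⟨μ, hμ⟩ : ∃ u : F, u ∉ ({0, 1} : Finset F) := by
        by_contra hcon
        push Not at hcon
        have h5 : Fintype.card F ≤ ({0, 1} : Finset F).card := by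
          rw [← Finset.card_univ]
          exact Finset.card_le_card (fun x _ => hcon x)
        have h6 := Finset.card_le_two (a := (0 : F)) (b := 1)
        omega
      simp only [Finset.mem_insert, Finset.mem_singleton, not_or] at hμ
      let U : F → Matrix.SpecialLinearGroup (Fin 2) F := fun x => mk2 1 x 0 1 (by ring)
      have hUtr : ∀ x, tr (U x) = 0 := fun x => by
        show (1 : F) + 1 = 0
        rw [one_add_one_eq_two, h2]
      have hUmul : ∀ x y, U x * U y = U (x + y) := by
        intro x y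
        apply ext4
        · rw [mul_00]; simp [U]
        · rw [mul_01]; simp [U]; ring
        · rw [mul_10]; simp [U]
        · rw [mul_11]; simp [U]
      have hU1 : ∀ x, x ≠ 0 → pj F (U x) ≠ 1 := by
        intro x hx h
        rw [pj_one_iff] at h
        rcases h with h | h
        · have := congrArg (fun M : Matrix.SpecialLinearGroup (Fin 2) F => M.1 0 1) h
          simp only [U, mk2_01, one_01] at this
          exact hx this
        · have := congrArg (fun M : Matrix.SpecialLinearGroup (Fin 2) F => M.1 0 1) h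
          simp only [U, mk2_01, neg_ij, one_01, neg_zero] at this
          exact hx this
      have hU0 : U 0 = 1 := by apply ext4 <;> simp [U, one_00, one_01, one_10, one_11]
      refine ⟨pj F (U 1), pj F (U μ), ?_, ?_, ?_, ?_⟩
      · exact MonoidHom.map_isConj (pj F) (conj_even' h2 T (U 1) hT (hUtr 1) ht1 (hU1 1 one_ne_zero))
      · exact MonoidHom.map_isConj (pj F) (conj_even' h2 T (U μ) hT (hUtr μ) ht1 (hU1 μ hμ.1))
      · intro h
        apply hU1 (1 - μ) (fun h' => hμ.2 (by linear_combination -h'))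
        have h5 : U (1 - μ) = U 1 * U (-μ) := by rw [hUmul, sub_eq_add_neg]
        have h6 : pj F (U (-μ)) = (pj F (U μ))⁻¹ := by
          rw [eq_inv_iff_mul_eq_one, ← map_mul, hUmul, neg_add_cancel, hU0, map_one]
        rw [h5, map_mul, h6, h, mul_inv_cancel]
      · rw [← map_mul, hUmul]
        have h5 : orderOf (pj F (U (1 + μ))) = 2 := by
          apply orderOf_eq_prime
          · rw [sq, ← map_mul, hUmul]
            have : (1 + μ) + (1 + μ) = 0 := by linear_combination (1 + μ) * h2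
            rw [this, hU0, map_one]
          · exact hU1 _ (fun h' => hμ.2 (by linear_combination h' - h2))
        rw [h5]
        decide
    · obtain ⟨a, w, haa, hww, ha1, hw1, haw, hcomm, -⟩ := H58.PSL2V4.exists_v4 (F := F) h2
      have hconj : ∀ s, s * s = 1 → s ≠ 1 → IsConj (pj F T) s := by
        intro s hss hs1
        obtain ⟨S, rfl⟩ := pj_surj s
        exact MonoidHom.map_isConj (pj F) (H58.SL2Prod.isConj_of_sq h2
          (H17.SL2Four.lift_invol h2 T ht1 htt) (H17.SL2Four.lift_invol h2 S hs1 hss))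
      refine ⟨a, w, hconj a haa ha1, hconj w hww hw1, haw, ?_⟩
      have h5 : orderOf (a * w) = 2 := by
        apply orderOf_eq_prime
        · rw [sq, mul_assoc, ← mul_assoc w, ← hcomm, mul_assoc a, hww, mul_one, haa]
        · intro h6
          apply haw
          rw [← mul_inv_eq_one, inv_eq_of_mul_eq_one_right hww]
          exact h6
      rw [h5]
      decide

end H86.OddPSL
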