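import Mathlib
import Cfsg.Agent.Lib.H86.OddGraph

/-!
The odd product graph on a class of involutions of a symmetric group: tools.
-/

set_option autoImplicit false
set_option linter.unusedSimpArgs false
set_option linter.unusedVariables false
set_option linter.style.haveILetI false
set_option linter.unusedSectionVars false

open Equiv

namespace H86.OddSymA

universe u v

variable {α : Type u} [Finite α]

theorem odd_of_pointwise {π : Perm α} (h : ∀ x, ∃ j : ℕ, Odd j ∧ (π ^ j) x = x) : Odd (orderOf π) := by
  by_contra hne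
  rw [Nat.not_odd_iff_even] at hne
  obtain ⟨m, hm⟩ := hne
  have hpos : 0 < orderOf π := orderOf_pos π
  have h1 : π ^ m = 1 := by
    ext x
    obtain ⟨j, hj, hjx⟩ := h x
    have h2 : Function.IsPeriodicPt π j x := by
      show (π^[j]) x = x
      rw [← Perm.coe_pow]; exact hjx
    have h3 : Function.IsPeriodicPt π (m + m) x := by
      show (π^[m + m]) x = x
      rw [← Perm.coe_pow, ← hm, pow_orderOf_eq_one]; rfl
    have h4 := h2.minimalPeriod_dvd
    have h5 := h3.minimalPeriod_dvd
    have h6 : Function.minimalPeriod π x ∣ m := by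
      have h7 : Odd (Function.minimalPeriod π x) := hj.of_dvd_nat h4
      have h8 : Nat.Coprime (Function.minimalPeriod π x) 2 := Nat.coprime_two_right.mpr h7
      rw [← two_mul] at h5
      exact h8.dvd_of_dvd_mul_left h5
    have h7 : Function.IsPeriodicPt π m x := by
      rw [Function.isPeriodicPt_iff_minimalPeriod_dvd]
      exact h6
    rw [Perm.coe_pow]
    exact h7
  have := Nat.le_of_dvd (by omega) (orderOf_dvd_of_pow_eq_one h1)
  omega

theorem insert_odd {π' : Perm α} (hodd : Odd (orderOf π')) {f d b : α} (hfd : f ≠ d) (hfb : f ≠ b)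
    (hdb : d ≠ b) (hd : π' d = d) (hb : π' b = b) (C : Perm α) (hC1 : C f = d) (hC2 : C d = b)
    (hC3 : C b = f) (hC : ∀ x, x ≠ f → x ≠ d → x ≠ b → C x = x) : Odd (orderOf (π' * C)) := by
  classical
  set π := π' * C with hπ
  have hπf : π f = d := by rw [hπ, Perm.mul_apply, hC1, hd]
  have hπd : π d = b := by rw [hπ, Perm.mul_apply, hC2, hb]
  have hπb : π b = π' f := by rw [hπ, Perm.mul_apply, hC3]
  have hπx : ∀ x, x ≠ f → x ≠ d → x ≠ b → π x = π' x := by
    intro x h1 h2 h3
    rw [hπ, Perm.mul_apply, hC x h1 h2 h3]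
  have hpow_fix : ∀ (z : α), π' z = z → ∀ i : ℕ, (π' ^ i) z = z := by
    intro z hz i
    induction i with
    | zero => rfl
    | succ i ih => rw [pow_succ, Perm.mul_apply, hz, ih]
  have hne : ∀ (z : α), π' z = z → f ≠ z → ∀ i : ℕ, (π' ^ i) f ≠ z := by
    intro z hz hfz i h
    apply hfz
    apply (π' ^ i).injective
    rw [h, hpow_fix z hz]
  set L := Function.minimalPeriod π' f with hL
  have hLper : Function.IsPeriodicPt π' (orderOf π') f := by
    show (π'^[orderOf π']) f = f
    rw [← Perm.coe_pow, pow_orderOf_eq_one]; rfl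
  have hLpos : 0 < L := hLper.minimalPeriod_pos (orderOf_pos π')
  have hLodd : Odd L := hodd.of_dvd_nat hLper.minimalPeriod_dvd
  have hLf : (π' ^ L) f = f := by
    rw [Perm.coe_pow]
    exact Function.isPeriodicPt_minimalPeriod π' f
  have hLmin : ∀ i, 0 < i → i < L → (π' ^ i) f ≠ f := by
    intro i hi hiL h
    have : Function.IsPeriodicPt π' i f := by
      show (π'^[i]) f = f
      rw [← Perm.coe_pow]; exact h
    have := this.minimalPeriod_le hi
    omega
  have hA : ∀ i, i + 1 ≤ L → (π ^ i) (π' f) = (π' ^ (i + 1)) f := by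
    intro i
    induction i with
    | zero => intro _; simp
    | succ i ih =>
      intro hi
      rw [pow_succ', Perm.mul_apply, ih (by omega), hπx, pow_succ' π' (i + 1), Perm.mul_apply]
      · exact hLmin (i + 1) (by omega) (by omega)
      · exact hne d hd hfd _
      · exact hne b hb hfb _
  have h3 : (π ^ 3) f = π' f := by
    rw [show (3 : ℕ) = 1 + 1 + 1 from rfl, pow_add, pow_add, pow_one, Perm.mul_apply, Perm.mul_apply,
      hπf, hπd, hπb]
  have hper : (π ^ (L + 2)) f = f := by
    have h4 : L + 2 = (L - 1) + 3 := by omega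
    rw [h4, pow_add, Perm.mul_apply, h3, hA (L - 1) (by omega)]
    have : L - 1 + 1 = L := by omega
    rw [this, hLf]
  have hperi : ∀ i, (π ^ (L + 2)) ((π ^ i) f) = (π ^ i) f := by
    intro i
    rw [← Perm.mul_apply, ← pow_add, add_comm, pow_add, Perm.mul_apply, hper]
  have hL2 : Odd (L + 2) := by
    obtain ⟨k, hk⟩ := hLodd
    exact ⟨k + 1, by omega⟩
  apply odd_of_pointwise
  intro x
  by_cases hxd : x = d
  · refine ⟨L + 2, hL2, ?_⟩
    have := hperi 1
    rwa [pow_one, hπf, ← hxd] at this
  by_cases hxb : x = b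
  · refine ⟨L + 2, hL2, ?_⟩
    have := hperi 2
    rwa [pow_two, Perm.mul_apply, hπf, hπd, ← hxb] at this
  by_cases horb : ∃ i : ℕ, (π' ^ i) f = x
  · refine ⟨L + 2, hL2, ?_⟩
    obtain ⟨i, hi⟩ := horb
    obtain ⟨j, hj1, hj2, hj⟩ : ∃ j, 0 < j ∧ j ≤ L ∧ (π' ^ j) f = x := by
      by_cases h0 : i % L = 0
      · refine ⟨L, hLpos, le_rfl, ?_⟩
        rw [hLf, ← hi]
        have h5 : Function.IsPeriodicPt π' i f := by
          rw [Function.isPeriodicPt_iff_minimalPeriod_dvd]
          exact Nat.dvd_of_mod_eq_zero h0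
        rw [Perm.coe_pow]
        exact h5.symm
      · refine ⟨i % L, Nat.pos_of_ne_zero h0, (Nat.mod_lt _ hLpos).le, ?_⟩
        rw [← hi]
        conv_rhs => rw [← Nat.mod_add_div i L]
        rw [pow_add, Perm.mul_apply, pow_mul]
        have h6 : ∀ k : ℕ, ((π' ^ L) ^ k) f = f := by
          intro k
          induction k with
          | zero => rfl
          | succ k ih => rw [pow_succ, Perm.mul_apply, hLf, ih]
        rw [h6]
    have h7 : x = (π ^ (j - 1 + 3)) f := by
      rw [pow_add, Perm.mul_apply, h3, hA (j - 1) (by omega)]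
      have : j - 1 + 1 = j := by omega
      rw [this, hj]
    rw [h7]
    exact hperi _
  · refine ⟨orderOf π', hodd, ?_⟩
    have h8 : ∀ i : ℕ, (π ^ i) x = (π' ^ i) x := by
      intro i
      induction i with
      | zero => rfl
      | succ i ih =>
        rw [pow_succ', Perm.mul_apply, ih, hπx, pow_succ' π' i, Perm.mul_apply]
        · intro h9
          apply horb
          -- f = π'^i x, so x is in the orbit
          have h10 : x = (π'⁻¹ ^ i) f := by
            rw [← h9, ← Perm.mul_apply, inv_pow, inv_mul_cancel]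
            rfl
          refine ⟨orderOf π' * i - i, ?_⟩
          rw [h10, inv_pow]
          have h11 : π' ^ (orderOf π' * i - i) = (π' ^ i)⁻¹ := by
            rw [eq_inv_iff_mul_eq_one, ← pow_add, Nat.sub_add_cancel (Nat.le_mul_of_pos_left i (orderOf_pos π')),
              pow_mul, pow_orderOf_eq_one, one_pow]
          rw [h11]
        · intro h9
          apply hxd
          apply (π' ^ i).injective
          rw [h9, hpow_fix d hd]
        · intro h9
          apply hxb
          apply (π' ^ i).injective
          rw [h9, hpow_fix b hb]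
    rw [h8, pow_orderOf_eq_one]
    rfl

end H86.OddSymA
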