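import Mathlib
import Cfsg.Agent.Lib.H86.OddSymA

/-!
The odd product graph on a class of involutions of a symmetric group: explicit configurations.
-/

set_option autoImplicit false
set_option maxRecDepth 20000
set_option linter.unusedSimpArgs false
set_option linter.unusedVariables false
set_option linter.style.haveILetI false
set_option linter.unusedSectionVars false

open Equiv

namespace H86.OddSymB

universe u v

/-- a solvable configuration -/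
def OK {ι : Type u} (σ τ : Perm ι) : Prop :=
  ∃ ρ : Perm ι, ρ * ρ = 1 ∧ Odd (orderOf (ρ * σ)) ∧ Odd (orderOf (ρ * τ))

theorem OK_of {ι : Type u} (σ τ ρ : Perm ι) (N M : ℕ) (hN : Odd N) (hM : Odd M) (h1 : ρ * ρ = 1)
    (h2 : (ρ * σ) ^ N = 1) (h3 : (ρ * τ) ^ M = 1) : OK σ τ :=
  ⟨ρ, h1, hN.of_dvd_nat (orderOf_dvd_of_pow_eq_one h2), hM.of_dvd_nat (orderOf_dvd_of_pow_eq_one h3)⟩

/-- disjoint union of permutations -/
abbrev sm {ι : Type u} {κ : Type v} (σ : Perm ι) (τ : Perm κ) : Perm (ι ⊕ κ) := Perm.sumCongr σ τ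

abbrev s1 : Perm (Fin 1) := 1
abbrev t1 : Perm (Fin 1) := 1
abbrev s2 : Perm (Fin 2) := swap 0 1
abbrev t2 : Perm (Fin 2) := 1
abbrev s3 : Perm (Fin 3) := swap 0 1
abbrev t3 : Perm (Fin 3) := swap 1 2
abbrev s4 : Perm (Fin 4) := swap 0 1 * swap 2 3
abbrev t4 : Perm (Fin 4) := swap 1 2
abbrev s5 : Perm (Fin 5) := swap 0 1 * swap 2 3
abbrev t5 : Perm (Fin 5) := swap 1 2 * swap 3 4
abbrev c4 : Perm (Fin 4) := swap 0 1 * swap 2 3
abbrev d4 : Perm (Fin 4) := swap 1 2 * swap 3 0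
abbrev c8 : Perm (Fin 8) := swap 0 1 * swap 2 3 * swap 4 5 * swap 6 7
abbrev d8 : Perm (Fin 8) := swap 1 2 * swap 3 4 * swap 5 6 * swap 7 0

theorem ok_P1 : OK s1 t1 := OK_of _ _ 1 1 1 (by decide) (by decide) (by decide) (by decide) (by decide)
theorem ok_C2 : OK s2 s2 := OK_of _ _ s2 1 1 (by decide) (by decide) (by decide) (by decide) (by decide)
theorem ok_P3 : OK s3 t3 := OK_of _ _ s3 1 3 (by decide) (by decide) (by decide) (by decide) (by decide)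
theorem ok_P5 : OK s5 t5 := OK_of _ _ s5 1 5 (by decide) (by decide) (by decide) (by decide) (by decide)

theorem ok_P1C4 : OK (sm s1 c4) (sm t1 d4) :=
  OK_of _ _ (swap (Sum.inl 0) (Sum.inr 0) * swap (Sum.inr 2) (Sum.inr 3)) 3 5 (by decide) (by decide) (by decide) (by decide) (by decide)

theorem ok_P3C4 : OK (sm s3 c4) (sm t3 d4) :=
  OK_of _ _ (swap (Sum.inl 1) (Sum.inr 0) * swap (Sum.inl 2) (Sum.inr 1) * swap (Sum.inr 2) (Sum.inr 3)) 5 3 (by decide) (by decide) (by decide) (by decide) (by decide)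

theorem ok_P5C4 : OK (sm s5 c4) (sm t5 d4) :=
  OK_of _ _ (swap (Sum.inl 1) (Sum.inl 4) * swap (Sum.inl 2) (Sum.inr 0) * swap (Sum.inl 3) (Sum.inr 3) * swap (Sum.inr 1) (Sum.inr 2)) 3 3 (by decide) (by decide) (by decide) (by decide) (by decide)

theorem ok_C2C4 : OK (sm s2 c4) (sm s2 d4) :=
  OK_of _ _ (swap (Sum.inl 0) (Sum.inr 0) * swap (Sum.inl 1) (Sum.inr 2) * swap (Sum.inr 1) (Sum.inr 3)) 3 3 (by decide) (by decide) (by decide) (by decide) (by decide)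

theorem ok_C4C4 : OK (sm c4 c4) (sm d4 d4) :=
  OK_of _ _ (swap (Sum.inl 0) (Sum.inl 1) * swap (Sum.inl 2) (Sum.inr 0) * swap (Sum.inl 3) (Sum.inr 3) * swap (Sum.inr 1) (Sum.inr 2)) 3 3 (by decide) (by decide) (by decide) (by decide) (by decide)

theorem ok_C8 : OK c8 d8 :=
  OK_of _ _ (swap 0 1 * swap 2 4 * swap 3 7 * swap 5 6) 3 3 (by decide) (by decide) (by decide) (by decide) (by decide)

theorem ok_S2T2 : OK (sm s2 t2) (sm t2 s2) :=
  OK_of _ _ (swap (Sum.inl 1) (Sum.inr 0)) 3 3 (by decide) (by decide) (by decide) (by decide) (by decide)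

theorem ok_S2T2C4 : OK (sm (sm s2 t2) c4) (sm (sm t2 s2) d4) :=
  OK_of _ _ (swap (Sum.inl (Sum.inl 1)) (Sum.inl (Sum.inr 0)) * swap (Sum.inl (Sum.inr 1)) (Sum.inr 0) * swap (Sum.inr 2) (Sum.inr 3)) 3 7 (by decide) (by decide) (by decide) (by decide) (by decide)

theorem ok_S2T4 : OK (sm s2 t4) (sm t2 s4) :=
  OK_of _ _ (swap (Sum.inl 1) (Sum.inr 0) * swap (Sum.inr 2) (Sum.inr 3)) 3 3 (by decide) (by decide) (by decide) (by decide) (by decide)

theorem ok_S2T4C4 : OK (sm (sm s2 t4) c4) (sm (sm t2 s4) d4) :=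
  OK_of _ _ (swap (Sum.inl (Sum.inl 1)) (Sum.inr 0) * swap (Sum.inl (Sum.inr 0)) (Sum.inl (Sum.inr 2)) * swap (Sum.inl (Sum.inr 1)) (Sum.inr 2) * swap (Sum.inl (Sum.inr 3)) (Sum.inr 1)) 5 3 (by decide) (by decide) (by decide) (by decide) (by decide)

theorem ok_S4T2 : OK (sm s4 t2) (sm t4 s2) :=
  OK_of _ _ (swap (Sum.inl 0) (Sum.inl 1) * swap (Sum.inl 3) (Sum.inr 0)) 3 3 (by decide) (by decide) (by decide) (by decide) (by decide)

theorem ok_S4T2C4 : OK (sm (sm s4 t2) c4) (sm (sm t4 s2) d4) :=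
  OK_of _ _ (swap (Sum.inl (Sum.inl 0)) (Sum.inl (Sum.inl 2)) * swap (Sum.inl (Sum.inl 1)) (Sum.inr 0) * swap (Sum.inl (Sum.inl 3)) (Sum.inr 1) * swap (Sum.inl (Sum.inr 1)) (Sum.inr 2)) 3 5 (by decide) (by decide) (by decide) (by decide) (by decide)

theorem ok_S4T4 : OK (sm s4 t4) (sm t4 s4) :=
  OK_of _ _ (swap (Sum.inl 1) (Sum.inr 0) * swap (Sum.inl 2) (Sum.inr 3) * swap (Sum.inr 1) (Sum.inr 2)) 3 3 (by decide) (by decide) (by decide) (by decide) (by decide)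

theorem ok_S4T4C4 : OK (sm (sm s4 t4) c4) (sm (sm t4 s4) d4) :=
  OK_of _ _ (swap (Sum.inl (Sum.inl 1)) (Sum.inl (Sum.inl 2)) * swap (Sum.inl (Sum.inl 3)) (Sum.inl (Sum.inr 0)) * swap (Sum.inl (Sum.inr 2)) (Sum.inr 0) * swap (Sum.inl (Sum.inr 3)) (Sum.inr 1) * swap (Sum.inr 2) (Sum.inr 3)) 5 3 (by decide) (by decide) (by decide) (by decide) (by decide)

theorem ok_C4C4C4 : OK (sm (sm c4 c4) c4) (sm (sm d4 d4) d4) :=
  OK_of _ _ (swap (Sum.inl (Sum.inl 0)) (Sum.inl (Sum.inl 1)) * swap (Sum.inl (Sum.inl 2)) (Sum.inl (Sum.inr 0)) * swap (Sum.inl (Sum.inl 3)) (Sum.inl (Sum.inr 3)) * swap (Sum.inl (Sum.inr 1)) (Sum.inr 0) * swap (Sum.inl (Sum.inr 2)) (Sum.inr 2) * swap (Sum.inr 1) (Sum.inr 3)) 5 3 (by decide) (by decide) (by decide) (by decide) (by decide)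


end H86.OddSymB
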