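import Mathlib
import Cfsg.Agent.Lib.H86.OddSymB

/-!
The odd product graph on a class of involutions of a symmetric group: gluing.
-/

set_option autoImplicit false
set_option linter.unusedSimpArgs false
set_option linter.unusedVariables false
set_option linter.style.haveILetI false
set_option linter.unusedSectionVars false

open Equiv H86.OddSymB

namespace H86.OddSymC

universe u v

variable {α : Type u} [Finite α]

/-- solvability on an invariant set -/
def Sv (U : Set α) (s t : Perm α) : Prop :=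
  ∃ r : Perm α, r * r = 1 ∧ (∀ x, x ∉ U → r x = x) ∧ Odd (orderOf (r * s)) ∧ Odd (orderOf (r * t))

/-- a configuration inside `U` -/
structure Conf {ι : Type v} (U : Set α) (s t : Perm α) (σ τ : Perm ι) (u : ι → α) : Prop where
  inj : Function.Injective u
  mem : ∀ i, u i ∈ U
  hs : ∀ i, s (u i) = u (σ i)
  ht : ∀ i, t (u i) = u (τ i)

variable {ι : Type v}

/-- the remainder of a permutation after removing a piece -/
noncomputable def rm (σ : Perm ι) (u : ι → α) (hu : Function.Injective u) (s : Perm α) : Perm α :=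
  Perm.viaEmbeddingHom ⟨u, hu⟩ σ⁻¹ * s

section rm
variable (σ : Perm ι) (u : ι → α) (hu : Function.Injective u) (s : Perm α)
  (hs : ∀ i, s (u i) = u (σ i)) (hss : s * s = 1)

include hs

theorem rm_range (i : ι) : rm σ u hu s (u i) = u i := by
  rw [rm, Perm.mul_apply, hs, Perm.viaEmbeddingHom_apply]
  have := Perm.viaEmbedding_apply σ⁻¹ ⟨u, hu⟩ (σ i)
  rw [← Perm.mul_apply, inv_mul_cancel] at this
  exact this

include hss

theorem not_range {x : α} (hx : x ∉ Set.range u) : s x ∉ Set.range u := by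
  rintro ⟨i, hi⟩
  apply hx
  refine ⟨σ i, ?_⟩
  rw [← hs, hi, ← Perm.mul_apply, hss]
  rfl

theorem rm_not {x : α} (hx : x ∉ Set.range u) : rm σ u hu s x = s x := by
  rw [rm, Perm.mul_apply, Perm.viaEmbeddingHom_apply]
  exact Perm.viaEmbedding_apply_of_notMem _ _ _ (not_range σ u s hs hss hx)

theorem rm_mul : rm σ u hu s * rm σ u hu s = 1 := by
  ext x
  rw [Perm.mul_apply]
  by_cases hx : x ∈ Set.range u
  · obtain ⟨i, rfl⟩ := hx
    rw [rm_range σ u hu s hs, rm_range σ u hu s hs]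
    rfl
  · rw [rm_not σ u hu s hs hss hx, rm_not σ u hu s hs hss (not_range σ u s hs hss hx), ← Perm.mul_apply, hss]

omit hs hss in
theorem rm_eq : s = Perm.viaEmbeddingHom ⟨u, hu⟩ σ * rm σ u hu s := by
  rw [rm, ← mul_assoc, ← map_mul, mul_inv_cancel, map_one, one_mul]

end rm

theorem disj (ρ : Perm ι) (u : ι → α) (hu : Function.Injective u) (r : Perm α) (hr : ∀ i, r (u i) = u i) :
    Commute (Perm.viaEmbeddingHom ⟨u, hu⟩ ρ) r := by
  apply Perm.Disjoint.commute
  intro x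
  by_cases hx : x ∈ Set.range u
  · obtain ⟨i, rfl⟩ := hx
    exact Or.inr (hr i)
  · left
    rw [Perm.viaEmbeddingHom_apply]
    exact Perm.viaEmbedding_apply_of_notMem _ _ _ hx

theorem odd_mul {G : Type*} [Group G] {x y : G} (h : Commute x y) (hx : Odd (orderOf x)) (hy : Odd (orderOf y)) :
    Odd (orderOf (x * y)) := by
  have h1 := h.orderOf_mul_dvd_mul_orderOf
  exact (hx.mul hy).of_dvd_nat h1

/-- gluing -/
theorem glue {U : Set α} {s t : Perm α} {σ τ : Perm ι} {u : ι → α} (hc : Conf U s t σ τ u)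
    (hok : OK σ τ) (h : Sv (U \ Set.range u) (rm σ u hc.inj s) (rm τ u hc.inj t)) : Sv U s t := by
  obtain ⟨ρ, hρ, hρσ, hρτ⟩ := hok
  obtain ⟨r, hr, hrU, hrs, hrt⟩ := h
  set E := Perm.viaEmbeddingHom (⟨u, hc.inj⟩ : ι ↪ α) with hE
  have hEinj : Function.Injective E := Perm.viaEmbeddingHom_injective _
  have hru : ∀ i, r (u i) = u i := fun i => hrU _ (fun h => h.2 ⟨i, rfl⟩)
  have hcr : ∀ π : Perm ι, Commute (E π) r := fun π => disj π u hc.inj r hru
  have hcs : ∀ π : Perm ι, Commute (E π) (rm σ u hc.inj s) := fun π =>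
    disj π u hc.inj _ (rm_range σ u hc.inj s hc.hs)
  have hct : ∀ π : Perm ι, Commute (E π) (rm τ u hc.inj t) := fun π =>
    disj π u hc.inj _ (rm_range τ u hc.inj t hc.ht)
  have key : ∀ (s' : Perm α) (π : Perm ι), (∀ π : Perm ι, Commute (E π) s') → Odd (orderOf (ρ * π)) →
      Odd (orderOf (r * s')) → Odd (orderOf ((E ρ * r) * (E π * s'))) := by
    intro s' π hcs' h1 h2
    have h3 : (E ρ * r) * (E π * s') = E (ρ * π) * (r * s') := by
      rw [map_mul]
      calc (E ρ * r) * (E π * s') = E ρ * (r * E π) * s' := by group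
        _ = E ρ * (E π * r) * s' := by rw [(hcr π).eq]
        _ = _ := by group
    rw [h3]
    apply odd_mul
    · exact (hcr _).mul_right (hcs' _)
    · rw [orderOf_injective E hEinj]
      exact h1
    · exact h2
  refine ⟨E ρ * r, ?_, ?_, ?_, ?_⟩
  · calc (E ρ * r) * (E ρ * r) = E ρ * (r * E ρ) * r := by group
      _ = E ρ * (E ρ * r) * r := by rw [(hcr ρ).eq]
      _ = E (ρ * ρ) * (r * r) := by rw [map_mul]; group
      _ = 1 := by rw [hρ, hr, map_one, one_mul]
  · intro x hx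
    rw [Perm.mul_apply, hrU x (fun h => hx h.1)]
    rw [hE, Perm.viaEmbeddingHom_apply]
    apply Perm.viaEmbedding_apply_of_notMem
    rintro ⟨i, rfl⟩
    exact hx (hc.mem i)
  · have := key _ σ hcs hρσ hrs
    rwa [← rm_eq] at this
  · have := key _ τ hct hρτ hrt
    rwa [← rm_eq] at this

/-- number of fixed points in `U` -/
noncomputable def fx (U : Set α) (s : Perm α) : ℕ := Nat.card {x : α // x ∈ U ∧ s x = x}

theorem fx_rm {U : Set α} {s t : Perm α} {σ τ : Perm ι} {u : ι → α} (hss : s * s = 1)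
    (hc : Conf U s t σ τ u) :
    fx U s = fx (U \ Set.range u) (rm σ u hc.inj s) + Nat.card {i : ι // σ i = i} := by
  classical
  haveI : Finite ι := Finite.of_injective u hc.inj
  unfold fx
  rw [← Nat.card_sum]
  apply Nat.card_congr
  refine (Equiv.ofBijective (fun (y : {x : α // x ∈ U \ Set.range u ∧ rm σ u hc.inj s x = x} ⊕ {i : ι // σ i = i}) =>
    (Sum.elim (fun x => ⟨x.1, x.2.1.1, by
      rw [← rm_not σ u hc.inj s hc.hs hss x.2.1.2]; exact x.2.2⟩)
      (fun i => ⟨u i.1, hc.mem _, by rw [hc.hs, i.2]⟩) y : {x : α // x ∈ U ∧ s x = x})) ⟨?_, ?_⟩).symm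
  · rintro (⟨x, hx⟩ | ⟨i, hi⟩) (⟨y, hy⟩ | ⟨j, hj⟩) h
    · have : x = y := congrArg Subtype.val h
      subst this
      rfl
    · exfalso
      have : x = u j := congrArg Subtype.val h
      exact hx.1.2 ⟨j, this.symm⟩
    · exfalso
      have : u i = y := congrArg Subtype.val h
      exact hy.1.2 ⟨i, this⟩
    · have : u i = u j := congrArg Subtype.val h
      have := hc.inj this
      subst this
      rfl
  · rintro ⟨x, hxU, hx⟩
    by_cases h : x ∈ Set.range u
    · obtain ⟨i, rfl⟩ := h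
      refine ⟨Sum.inr ⟨i, ?_⟩, rfl⟩
      apply hc.inj
      rw [← hc.hs, hx]
    · exact ⟨Sum.inl ⟨x, ⟨hxU, h⟩, by rw [rm_not σ u hc.inj s hc.hs hss h]; exact hx⟩, rfl⟩

/-- the exceptional configuration: a single four cycle -/
def Exc (U : Set α) (s t : Perm α) : Prop :=
  ∃ v : Fin 4 → α, Conf U s t c4 d4 v ∧ ∀ x ∈ U, x ∈ Set.range v

theorem sv_of_cover {U : Set α} {s t : Perm α} {σ τ : Perm ι} {u : ι → α} (hc : Conf U s t σ τ u)
    (hss : s * s = 1) (htt : t * t = 1) (hsU : ∀ x, x ∉ U → s x = x) (htU : ∀ x, x ∉ U → t x = x)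
    (hok : OK σ τ) (hcov : ∀ x ∈ U, x ∈ Set.range u) : Sv U s t := by
  apply glue hc hok
  have hone : ∀ (π : Perm ι) (r : Perm α), (∀ i, r (u i) = u (π i)) → r * r = 1 →
      (∀ x, x ∉ U → r x = x) → rm π u hc.inj r = 1 := by
    intro π r h1 h2 h3
    ext x
    by_cases hx : x ∈ Set.range u
    · obtain ⟨i, rfl⟩ := hx
      rw [rm_range π u hc.inj r h1]
      rfl
    · rw [rm_not π u hc.inj r h1 h2 hx, h3 x (fun h => hx (hcov x h))]
      rfl
  rw [hone σ s hc.hs hss hsU, hone τ t hc.ht htt htU]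
  exact ⟨1, by simp, fun x _ => rfl, by simp, by simp⟩

theorem conf_sum {κ : Type v} {U : Set α} {s t : Perm α} {σ τ : Perm ι} {u : ι → α} {σ' τ' : Perm κ} {v : κ → α}
    (hc : Conf U s t σ τ u) (hc' : Conf U s t σ' τ' v) (hd : ∀ j, v j ∉ Set.range u) :
    Conf U s t (sm σ σ') (sm τ τ') (Sum.elim u v) := by
  refine ⟨?_, ?_, ?_, ?_⟩
  · rintro (i | i) (j | j) h
    · rw [hc.inj h]
    · exact absurd ⟨i, h⟩ (hd j)
    · exact absurd ⟨j, h.symm⟩ (hd i)
    · rw [hc'.inj h]
  · rintro (i | i)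
    · exact hc.mem i
    · exact hc'.mem i
  · rintro (i | i)
    · exact hc.hs i
    · exact hc'.hs i
  · rintro (i | i)
    · exact hc.ht i
    · exact hc'.ht i

theorem exc_combine {U : Set α} {s t : Perm α} {σ τ : Perm (ι)} {u : ι → α} (hc : Conf U s t σ τ u)
    (hss : s * s = 1) (htt : t * t = 1)
    (h : Exc (U \ Set.range u) (rm σ u hc.inj s) (rm τ u hc.inj t)) :
    ∃ v : Fin 4 → α, Conf U s t (Perm.sumCongr σ c4) (Perm.sumCongr τ d4) (Sum.elim u v) ∧
      ∀ x ∈ U, x ∈ Set.range (Sum.elim u v) := by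
  obtain ⟨v, hv, hcov⟩ := h
  have hnr : ∀ j, v j ∉ Set.range u := fun j => (hv.mem j).2
  refine ⟨v, ⟨?_, ?_, ?_, ?_⟩, ?_⟩
  · rintro (i | i) (j | j) h
    · rw [hc.inj h]
    · exact absurd ⟨i, h⟩ (hnr j)
    · exact absurd ⟨j, h.symm⟩ (hnr i)
    · rw [hv.inj h]
  · rintro (i | i)
    · exact hc.mem i
    · exact (hv.mem i).1
  · rintro (i | i)
    · exact hc.hs i
    · show s (v i) = v (c4 i)
      rw [← hv.hs i, rm_not σ u hc.inj s hc.hs hss (hnr i)]
  · rintro (i | i)
    · exact hc.ht i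
    · show t (v i) = v (d4 i)
      rw [← hv.ht i, rm_not τ u hc.inj t hc.ht htt (hnr i)]
  · intro x hx
    by_cases h : x ∈ Set.range u
    · obtain ⟨i, rfl⟩ := h
      exact ⟨Sum.inl i, rfl⟩
    · obtain ⟨j, rfl⟩ := hcov x ⟨hx, h⟩
      exact ⟨Sum.inr j, rfl⟩

end H86.OddSymC
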