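import Mathlib
import Cfsg.Agent.Lib.H86.OddSymC

/-!
The odd product graph on a class of involutions of a symmetric group: the induction.
-/

set_option autoImplicit false
set_option linter.unusedSimpArgs false
set_option linter.unusedVariables false
set_option linter.style.haveILetI false
set_option linter.unusedSectionVars false

open Equiv H86.OddSymB H86.OddSymC

namespace H86.OddSymD

universe u

variable {α : Type u} [Finite α]

/-- the situation -/
structure Sit (U : Set α) (s t : Perm α) : Prop where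
  ss : s * s = 1
  tt : t * t = 1
  sU : ∀ x, x ∉ U → s x = x
  tU : ∀ x, x ∉ U → t x = x
  fx : fx U s = fx U t

namespace Sit
variable {U : Set α} {s t : Perm α} (h : Sit U s t)
include h

theorem symm : Sit U t s := ⟨h.tt, h.ss, h.tU, h.sU, h.fx.symm⟩

theorem s2 (x : α) : s (s x) = x := by rw [← Perm.mul_apply, h.ss]; rfl
theorem t2 (x : α) : t (t x) = x := by rw [← Perm.mul_apply, h.tt]; rfl

theorem memS {x : α} (hx : x ∈ U) : s x ∈ U := by
  by_contra hn
  have h1 := h.sU _ hn
  rw [h.s2] at h1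
  rw [← h1] at hn
  exact hn hx

theorem memT {x : α} (hx : x ∈ U) : t x ∈ U := h.symm.memS hx

end Sit

/-- the induction hypothesis -/
def IH (α : Type u) [Finite α] (n : ℕ) : Prop :=
  ∀ (U : Set α) (s t : Perm α), Nat.card U < n → Sit U s t → Sv U s t ∨ Exc U s t

theorem card_diff_lt {ι : Type} {U : Set α} {u : ι → α} (hu : ∀ i, u i ∈ U) [hne : Nonempty ι] :
    Nat.card (U \ Set.range u : Set α) < Nat.card U := by
  obtain ⟨i⟩ := hne
  have h1 : (U \ Set.range u) ⊂ U := by
    refine ⟨Set.sdiff_subset, ?_⟩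
    intro h
    exact (h (hu i)).2 ⟨i, rfl⟩
  rw [Nat.card_coe_set_eq, Nat.card_coe_set_eq]
  exact Set.ncard_lt_ncard h1 (Set.toFinite U)

theorem step_piece {n : ℕ} (ih : IH α n) {U : Set α} {s t : Perm α} (hS : Sit U s t)
    (hn : Nat.card U = n) {ι : Type} [Nonempty ι] {σ τ : Perm ι} {u : ι → α}
    (hc : Conf U s t σ τ u) (hok : OK σ τ) (hok' : OK (Perm.sumCongr σ c4) (Perm.sumCongr τ d4))
    (hbal : Nat.card {i : ι // σ i = i} = Nat.card {i : ι // τ i = i}) : Sv U s t := by
  have h1 : Sit (U \ Set.range u) (rm σ u hc.inj s) (rm τ u hc.inj t) := by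
    refine ⟨rm_mul σ u hc.inj s hc.hs hS.ss, rm_mul τ u hc.inj t hc.ht hS.tt, ?_, ?_, ?_⟩
    · intro x hx
      by_cases hr : x ∈ Set.range u
      · obtain ⟨i, rfl⟩ := hr
        exact rm_range σ u hc.inj s hc.hs i
      · rw [rm_not σ u hc.inj s hc.hs hS.ss hr]
        exact hS.sU x (fun h => hx ⟨h, hr⟩)
    · intro x hx
      by_cases hr : x ∈ Set.range u
      · obtain ⟨i, rfl⟩ := hr
        exact rm_range τ u hc.inj t hc.ht i
      · rw [rm_not τ u hc.inj t hc.ht hS.tt hr]
        exact hS.tU x (fun h => hx ⟨h, hr⟩)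
    · have e1 := fx_rm hS.ss hc
      have hc' : Conf U t s τ σ u := ⟨hc.inj, hc.mem, hc.ht, hc.hs⟩
      have e2 := fx_rm hS.tt hc'
      have e3 := hS.fx
      omega
  rcases ih _ _ _ (by rw [← hn]; exact card_diff_lt hc.mem) h1 with h | h
  · exact glue hc hok h
  · obtain ⟨v, hv, hcov⟩ := exc_combine hc hS.ss hS.tt h
    exact sv_of_cover hv hS.ss hS.tt hS.sU hS.tU hok' hcov

theorem sv_symm {U : Set α} {s t : Perm α} (h : Sv U s t) : Sv U t s := by
  obtain ⟨r, h1, h2, h3, h4⟩ := h
  exact ⟨r, h1, h2, h4, h3⟩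

theorem card_diff_lt' {U : Set α} {V : Set α} {b : α} (hb : b ∈ U) (hbV : b ∈ V) :
    Nat.card (U \ V : Set α) < Nat.card U := by
  have h1 : (U \ V) ⊂ U := by
    refine ⟨Set.sdiff_subset, ?_⟩
    intro h
    exact (h hb).2 hbV
  rw [Nat.card_coe_set_eq, Nat.card_coe_set_eq]
  exact Set.ncard_lt_ncard h1 (Set.toFinite U)

theorem q1 : ∀ i : Fin 4, d4 (c4 (d4 (c4 i))) = i := by decide
theorem q2 : ∀ i : Fin 4, i ≠ d4 (c4 i) := by decide
theorem q3 : ∀ i : Fin 4, i ≠ c4 (d4 (c4 i)) := by decide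
theorem q4 : ∀ i : Fin 4, c4 i ≠ d4 (c4 i) := by decide
theorem q5 : ∀ i : Fin 4, c4 i ≠ c4 (d4 (c4 i)) := by decide
theorem q6 : ∀ i : Fin 4, d4 (c4 i) ≠ c4 (d4 (c4 i)) := by decide
theorem q7 : ∀ i j : Fin 4, j = i ∨ j = c4 i ∨ j = d4 (c4 i) ∨ j = c4 (d4 (c4 i)) := by decide

set_option maxHeartbeats 1000000 in
/-- contraction of a long alternating path -/
theorem contraction {n : ℕ} (ih : IH α n) {U : Set α} {s t : Perm α} (hS : Sit U s t)
    (hn : Nat.card U = n) {a b c d e f : α} (ha : a ∈ U)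
    (sab : s a = b) (tbc : t b = c) (scd : s c = d) (tde : t d = e) (sef : s e = f)
    (hab : a ≠ b) (hac : a ≠ c) (had : a ≠ d) (hae : a ≠ e) (haf : a ≠ f)
    (hbc : b ≠ c) (hbd : b ≠ d) (hbe : b ≠ e) (hbf : b ≠ f)
    (hcd : c ≠ d) (hce : c ≠ e) (hcf : c ≠ f) (hde : d ≠ e) (hdf : d ≠ f) (hef : e ≠ f) : Sv U s t := by
  classical
  have sba : s b = a := by rw [← sab, hS.s2]
  have tcb : t c = b := by rw [← tbc, hS.t2]
  have sdc : s d = c := by rw [← scd, hS.s2]
  have ted : t e = d := by rw [← tde, hS.t2]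
  have sfe : s f = e := by rw [← sef, hS.s2]
  have hb : b ∈ U := by rw [← sab]; exact hS.memS ha
  have hcU : c ∈ U := by rw [← tbc]; exact hS.memT hb
  have hd : d ∈ U := by rw [← scd]; exact hS.memS hcU
  have he : e ∈ U := by rw [← tde]; exact hS.memT hd
  have hf : f ∈ U := by rw [← sef]; exact hS.memS he
  -- the contracted pair
  set s' : Perm α := s * swap a b * swap c d * swap e f * swap a f with hs'
  set t' : Perm α := t * swap b c * swap d e with ht'
  have s'a : s' a = f := by
    simp only [hs', Perm.mul_apply, swap_apply_left, swap_apply_right]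
    rw [swap_apply_of_ne_of_ne hce.symm hde.symm, swap_apply_of_ne_of_ne hae.symm hbe.symm, sef]
  have s'f : s' f = a := by
    simp only [hs', Perm.mul_apply, swap_apply_left, swap_apply_right]
    rw [swap_apply_of_ne_of_ne hae haf, swap_apply_of_ne_of_ne hac had, swap_apply_left, sba]
  have s'b : s' b = b := by
    simp only [hs', Perm.mul_apply]
    rw [swap_apply_of_ne_of_ne hab.symm hbf, swap_apply_of_ne_of_ne hbe hbf, swap_apply_of_ne_of_ne hbc hbd,
      swap_apply_right, sab]
  have s'c : s' c = c := by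
    simp only [hs', Perm.mul_apply]
    rw [swap_apply_of_ne_of_ne hac.symm hcf, swap_apply_of_ne_of_ne hce hcf, swap_apply_left,
      swap_apply_of_ne_of_ne had.symm hbd.symm, sdc]
  have s'd : s' d = d := by
    simp only [hs', Perm.mul_apply]
    rw [swap_apply_of_ne_of_ne had.symm hdf, swap_apply_of_ne_of_ne hde hdf, swap_apply_right,
      swap_apply_of_ne_of_ne hac.symm hbc.symm, scd]
  have s'e : s' e = e := by
    simp only [hs', Perm.mul_apply]
    rw [swap_apply_of_ne_of_ne hae.symm hef, swap_apply_left, swap_apply_of_ne_of_ne hcf.symm hdf.symm,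
      swap_apply_of_ne_of_ne haf.symm hbf.symm, sfe]
  have s'x : ∀ x, x ≠ a → x ≠ b → x ≠ c → x ≠ d → x ≠ e → x ≠ f → s' x = s x := by
    intro x h1 h2 h3 h4 h5 h6
    simp only [hs', Perm.mul_apply]
    rw [swap_apply_of_ne_of_ne h1 h6, swap_apply_of_ne_of_ne h5 h6, swap_apply_of_ne_of_ne h3 h4,
      swap_apply_of_ne_of_ne h1 h2]
  have t'b : t' b = b := by
    simp only [ht', Perm.mul_apply]
    rw [swap_apply_of_ne_of_ne hbd hbe, swap_apply_left, tcb]
  have t'c : t' c = c := by
    simp only [ht', Perm.mul_apply]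
    rw [swap_apply_of_ne_of_ne hcd hce, swap_apply_right, tbc]
  have t'd : t' d = d := by
    simp only [ht', Perm.mul_apply]
    rw [swap_apply_left, swap_apply_of_ne_of_ne hbe.symm hce.symm, ted]
  have t'e : t' e = e := by
    simp only [ht', Perm.mul_apply]
    rw [swap_apply_right, swap_apply_of_ne_of_ne hbd.symm hcd.symm, tde]
  have t'x : ∀ x, x ≠ b → x ≠ c → x ≠ d → x ≠ e → t' x = t x := by
    intro x h2 h3 h4 h5
    simp only [ht', Perm.mul_apply]
    rw [swap_apply_of_ne_of_ne h4 h5, swap_apply_of_ne_of_ne h2 h3]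
  -- images of other points
  have sx : ∀ x, x ≠ a → x ≠ b → x ≠ c → x ≠ d → x ≠ e → x ≠ f →
      s x ≠ a ∧ s x ≠ b ∧ s x ≠ c ∧ s x ≠ d ∧ s x ≠ e ∧ s x ≠ f := by
    intro x h1 h2 h3 h4 h5 h6
    refine ⟨?_, ?_, ?_, ?_, ?_, ?_⟩
    · rw [← sba]; exact fun h => h2 (s.injective h)
    · rw [← sab]; exact fun h => h1 (s.injective h)
    · rw [← sdc]; exact fun h => h4 (s.injective h)
    · rw [← scd]; exact fun h => h3 (s.injective h)
    · rw [← sfe]; exact fun h => h6 (s.injective h)
    · rw [← sef]; exact fun h => h5 (s.injective h)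
  have tx : ∀ x, x ≠ b → x ≠ c → x ≠ d → x ≠ e →
      t x ≠ b ∧ t x ≠ c ∧ t x ≠ d ∧ t x ≠ e := by
    intro x h2 h3 h4 h5
    refine ⟨?_, ?_, ?_, ?_⟩
    · rw [← tcb]; exact fun h => h3 (t.injective h)
    · rw [← tbc]; exact fun h => h2 (t.injective h)
    · rw [← ted]; exact fun h => h5 (t.injective h)
    · rw [← tde]; exact fun h => h4 (t.injective h)
  set V : Set α := {b, c, d, e} with hV
  have hVmem : ∀ x, x ∈ V ↔ x = b ∨ x = c ∨ x = d ∨ x = e := fun x => by simp [hV]
  have hVn : ∀ x, x ∉ V ↔ x ≠ b ∧ x ≠ c ∧ x ≠ d ∧ x ≠ e := fun x => by simp [hV]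
  have hS' : Sit (U \ V) s' t' := by
    refine ⟨?_, ?_, ?_, ?_, ?_⟩
    · ext x
      rw [Perm.mul_apply, Perm.one_apply]
      by_cases h1 : x = a
      · rw [h1, s'a, s'f]
      by_cases h2 : x = b
      · rw [h2, s'b, s'b]
      by_cases h3 : x = c
      · rw [h3, s'c, s'c]
      by_cases h4 : x = d
      · rw [h4, s'd, s'd]
      by_cases h5 : x = e
      · rw [h5, s'e, s'e]
      by_cases h6 : x = f
      · rw [h6, s'f, s'a]
      obtain ⟨k1, k2, k3, k4, k5, k6⟩ := sx x h1 h2 h3 h4 h5 h6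
      rw [s'x x h1 h2 h3 h4 h5 h6, s'x _ k1 k2 k3 k4 k5 k6, hS.s2]
    · ext x
      rw [Perm.mul_apply, Perm.one_apply]
      by_cases h2 : x = b
      · rw [h2, t'b, t'b]
      by_cases h3 : x = c
      · rw [h3, t'c, t'c]
      by_cases h4 : x = d
      · rw [h4, t'd, t'd]
      by_cases h5 : x = e
      · rw [h5, t'e, t'e]
      obtain ⟨k2, k3, k4, k5⟩ := tx x h2 h3 h4 h5
      rw [t'x x h2 h3 h4 h5, t'x _ k2 k3 k4 k5, hS.t2]
    · intro x hx
      by_cases hxV : x ∈ V
      · rw [hVmem] at hxV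
        rcases hxV with h | h | h | h
        · rw [h, s'b]
        · rw [h, s'c]
        · rw [h, s'd]
        · rw [h, s'e]
      · have hxU : x ∉ U := fun h => hx ⟨h, hxV⟩
        rw [s'x x, hS.sU x hxU]
        · rintro rfl; exact hxU ha
        · rintro rfl; exact hxU hb
        · rintro rfl; exact hxU hcU
        · rintro rfl; exact hxU hd
        · rintro rfl; exact hxU he
        · rintro rfl; exact hxU hf
    · intro x hx
      by_cases hxV : x ∈ V
      · rw [hVmem] at hxV
        rcases hxV with h | h | h | h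
        · rw [h, t'b]
        · rw [h, t'c]
        · rw [h, t'd]
        · rw [h, t'e]
      · have hxU : x ∉ U := fun h => hx ⟨h, hxV⟩
        rw [t'x x, hS.tU x hxU]
        · rintro rfl; exact hxU hb
        · rintro rfl; exact hxU hcU
        · rintro rfl; exact hxU hd
        · rintro rfl; exact hxU he
    · have e1 : fx (U \ V) s' = fx U s := by
        unfold fx
        apply Nat.card_congr
        apply Equiv.subtypeEquivRight
        intro x
        constructor
        · rintro ⟨⟨h1, h2⟩, h3⟩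
          rw [hVn] at h2
          have h4 : x ≠ a := by rintro rfl; exact haf (s'a ▸ h3).symm
          have h5 : x ≠ f := by rintro rfl; exact haf (s'f ▸ h3)
          rw [s'x x h4 h2.1 h2.2.1 h2.2.2.1 h2.2.2.2 h5] at h3
          exact ⟨h1, h3⟩
        · rintro ⟨h1, h3⟩
          have k1 : x ≠ a := by rintro rfl; exact hab (sab ▸ h3).symm
          have k2 : x ≠ b := by rintro rfl; exact hab (sba ▸ h3)
          have k3 : x ≠ c := by rintro rfl; exact hcd (scd ▸ h3).symm
          have k4 : x ≠ d := by rintro rfl; exact hcd (sdc ▸ h3)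
          have k5 : x ≠ e := by rintro rfl; exact hef (sef ▸ h3).symm
          have k6 : x ≠ f := by rintro rfl; exact hef (sfe ▸ h3)
          refine ⟨⟨h1, (hVn x).mpr ⟨k2, k3, k4, k5⟩⟩, ?_⟩
          rw [s'x x k1 k2 k3 k4 k5 k6]
          exact h3
      have e2 : fx (U \ V) t' = fx U t := by
        unfold fx
        apply Nat.card_congr
        apply Equiv.subtypeEquivRight
        intro x
        constructor
        · rintro ⟨⟨h1, h2⟩, h3⟩
          rw [hVn] at h2
          rw [t'x x h2.1 h2.2.1 h2.2.2.1 h2.2.2.2] at h3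
          exact ⟨h1, h3⟩
        · rintro ⟨h1, h3⟩
          have k2 : x ≠ b := by rintro rfl; exact hbc (tbc ▸ h3).symm
          have k3 : x ≠ c := by rintro rfl; exact hbc (tcb ▸ h3)
          have k4 : x ≠ d := by rintro rfl; exact hde (tde ▸ h3).symm
          have k5 : x ≠ e := by rintro rfl; exact hde (ted ▸ h3)
          refine ⟨⟨h1, (hVn x).mpr ⟨k2, k3, k4, k5⟩⟩, ?_⟩
          rw [t'x x k2 k3 k4 k5]
          exact h3
      rw [e1, e2, hS.fx]
  have hlt : Nat.card (U \ V : Set α) < n := by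
    rw [← hn]
    exact card_diff_lt' hb (by rw [hVmem]; exact Or.inl rfl)
  rcases ih _ _ _ hlt hS' with h | h
  · obtain ⟨r', hr', hr'U, hrs, hrt⟩ := h
    have r'b : r' b = b := hr'U b (fun h => h.2 (by rw [hVmem]; exact Or.inl rfl))
    have r'c : r' c = c := hr'U c (fun h => h.2 (by rw [hVmem]; exact Or.inr (Or.inl rfl)))
    have r'd : r' d = d := hr'U d (fun h => h.2 (by rw [hVmem]; exact Or.inr (Or.inr (Or.inl rfl))))
    have r'e : r' e = e := hr'U e (fun h => h.2 (by rw [hVmem]; exact Or.inr (Or.inr (Or.inr rfl))))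
    have r'2 : ∀ x, r' (r' x) = x := fun x => by rw [← Perm.mul_apply, hr']; rfl
    set r : Perm α := r' * swap b c * swap d e with hr
    have rb : r b = c := by
      simp only [hr, Perm.mul_apply]
      rw [swap_apply_of_ne_of_ne hbd hbe, swap_apply_left, r'c]
    have rc : r c = b := by
      simp only [hr, Perm.mul_apply]
      rw [swap_apply_of_ne_of_ne hcd hce, swap_apply_right, r'b]
    have rd : r d = e := by
      simp only [hr, Perm.mul_apply]
      rw [swap_apply_left, swap_apply_of_ne_of_ne hbe.symm hce.symm, r'e]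
    have re : r e = d := by
      simp only [hr, Perm.mul_apply]
      rw [swap_apply_right, swap_apply_of_ne_of_ne hbd.symm hcd.symm, r'd]
    have rx : ∀ x, x ≠ b → x ≠ c → x ≠ d → x ≠ e → r x = r' x := by
      intro x h2 h3 h4 h5
      simp only [hr, Perm.mul_apply]
      rw [swap_apply_of_ne_of_ne h4 h5, swap_apply_of_ne_of_ne h2 h3]
    have r'x : ∀ x, x ≠ b → x ≠ c → x ≠ d → x ≠ e →
        r' x ≠ b ∧ r' x ≠ c ∧ r' x ≠ d ∧ r' x ≠ e := by
      intro x h2 h3 h4 h5
      refine ⟨?_, ?_, ?_, ?_⟩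
      · intro h; apply h2; rw [← r'2 x, h, r'b]
      · intro h; apply h3; rw [← r'2 x, h, r'c]
      · intro h; apply h4; rw [← r'2 x, h, r'd]
      · intro h; apply h5; rw [← r'2 x, h, r'e]
    refine ⟨r, ?_, ?_, ?_, ?_⟩
    · ext x
      rw [Perm.mul_apply, Perm.one_apply]
      by_cases h2 : x = b
      · rw [h2, rb, rc]
      by_cases h3 : x = c
      · rw [h3, rc, rb]
      by_cases h4 : x = d
      · rw [h4, rd, re]
      by_cases h5 : x = e
      · rw [h5, re, rd]
      obtain ⟨k2, k3, k4, k5⟩ := r'x x h2 h3 h4 h5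
      rw [rx x h2 h3 h4 h5, rx _ k2 k3 k4 k5, r'2]
    · intro x hx
      rw [rx x, hr'U x (fun h => hx h.1)]
      · rintro rfl; exact hx hb
      · rintro rfl; exact hx hcU
      · rintro rfl; exact hx hd
      · rintro rfl; exact hx he
    · -- r * s
      set C1 : Perm α := swap f d * swap d b with hC1
      set C2 : Perm α := swap a c * swap c e with hC2
      have C1f : C1 f = d := by
        rw [hC1, Perm.mul_apply, swap_apply_of_ne_of_ne hdf.symm hbf.symm, swap_apply_left]
      have C1d : C1 d = b := by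
        rw [hC1, Perm.mul_apply, swap_apply_left, swap_apply_of_ne_of_ne hbf hbd]
      have C1b : C1 b = f := by
        rw [hC1, Perm.mul_apply, swap_apply_right, swap_apply_right]
      have C1x : ∀ x, x ≠ f → x ≠ d → x ≠ b → C1 x = x := by
        intro x h1 h2 h3
        rw [hC1, Perm.mul_apply, swap_apply_of_ne_of_ne h2 h3, swap_apply_of_ne_of_ne h1 h2]
      have C2a : C2 a = c := by
        rw [hC2, Perm.mul_apply, swap_apply_of_ne_of_ne hac hae, swap_apply_left]
      have C2c : C2 c = e := by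
        rw [hC2, Perm.mul_apply, swap_apply_left, swap_apply_of_ne_of_ne hae.symm hce.symm]
      have C2e : C2 e = a := by
        rw [hC2, Perm.mul_apply, swap_apply_right, swap_apply_right]
      have C2x : ∀ x, x ≠ a → x ≠ c → x ≠ e → C2 x = x := by
        intro x h1 h2 h3
        rw [hC2, Perm.mul_apply, swap_apply_of_ne_of_ne h2 h3, swap_apply_of_ne_of_ne h1 h2]
      have hπ1 : Odd (orderOf ((r' * s') * C1)) := by
        apply H86.OddSymA.insert_odd hrs hdf.symm hbf.symm hbd.symm _ _ C1 C1f C1d C1b C1x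
        · rw [Perm.mul_apply, s'd, r'd]
        · rw [Perm.mul_apply, s'b, r'b]
      have hπ2 : Odd (orderOf ((r' * s') * C1 * C2)) := by
        apply H86.OddSymA.insert_odd hπ1 hac hae hce _ _ C2 C2a C2c C2e C2x
        · rw [Perm.mul_apply, Perm.mul_apply, C1x c hcf hcd hbc.symm, s'c, r'c]
        · rw [Perm.mul_apply, Perm.mul_apply, C1x e hef hde.symm hbe.symm, s'e, r'e]
      have heq : r * s = (r' * s') * C1 * C2 := by
        ext x
        simp only [Perm.mul_apply]
        by_cases h1 : x = a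
        · rw [h1, sab, rb, C2a, C1x c hcf hcd hbc.symm, s'c, r'c]
        by_cases h2 : x = b
        · rw [h2, sba, rx a hab hac had hae, C2x b hab.symm hbc hbe, C1b, s'f]
        by_cases h3 : x = c
        · rw [h3, scd, rd, C2c, C1x e hef hde.symm hbe.symm, s'e, r'e]
        by_cases h4 : x = d
        · rw [h4, sdc, rc, C2x d had.symm hcd.symm hde, C1d, s'b, r'b]
        by_cases h5 : x = e
        · rw [h5, sef, rx f hbf.symm hcf.symm hdf.symm hef.symm, C2e, C1x a haf had hab, s'a]
        by_cases h6 : x = f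
        · rw [h6, sfe, re, C2x f haf.symm hcf.symm hef.symm, C1f, s'd, r'd]
        obtain ⟨k1, k2, k3, k4, k5, k6⟩ := sx x h1 h2 h3 h4 h5 h6
        rw [C2x x h1 h3 h5, C1x x h6 h4 h2, s'x x h1 h2 h3 h4 h5 h6, rx _ k2 k3 k4 k5]
      rw [heq]
      exact hπ2
    · have heq : r * t = r' * t' := by
        ext x
        simp only [Perm.mul_apply]
        by_cases h2 : x = b
        · rw [h2, tbc, rc, t'b, r'b]
        by_cases h3 : x = c
        · rw [h3, tcb, rb, t'c, r'c]
        by_cases h4 : x = d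
        · rw [h4, tde, re, t'd, r'd]
        by_cases h5 : x = e
        · rw [h5, ted, rd, t'e, r'e]
        obtain ⟨k2, k3, k4, k5⟩ := tx x h2 h3 h4 h5
        rw [t'x x h2 h3 h4 h5, rx _ k2 k3 k4 k5]
      rw [heq]
      exact hrt
  · -- the exceptional case: an eight cycle
    obtain ⟨v, hv, hcov⟩ := h
    have haV : a ∈ U \ V := ⟨ha, by rw [hVn]; exact ⟨hab, hac, had, hae⟩⟩
    obtain ⟨i, hi⟩ := hcov a haV
    have e1 : f = v (c4 i) := by rw [← hv.hs, hi, s'a]
    set g := v (d4 (c4 i)) with hg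
    set h := v (c4 (d4 (c4 i))) with hh
    have hgm := (hv.mem (d4 (c4 i)))
    have hhm := (hv.mem (c4 (d4 (c4 i))))
    rw [← hg] at hgm
    rw [← hh] at hhm
    have hgV := (hVn g).mp hgm.2
    have hhV := (hVn h).mp hhm.2
    have t'f : t' f = g := by rw [e1, hv.ht]
    have s'g : s' g = h := by rw [hg, hv.hs]
    have t'h : t' h = a := by rw [hh, hv.ht, q1, hi]
    have hag : a ≠ g := by
      intro h'
      rw [← hi] at h'
      exact q2 i (hv.inj h')
    have hah : a ≠ h := by
      intro h'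
      rw [← hi] at h'
      exact q3 i (hv.inj h')
    have hfg : f ≠ g := by
      intro h'
      rw [e1] at h'
      exact q4 i (hv.inj h')
    have hfh : f ≠ h := by
      intro h'
      rw [e1] at h'
      exact q5 i (hv.inj h')
    have hgh : g ≠ h := fun h' => q6 i (hv.inj h')
    have tfg : t f = g := by rw [← t'x f hbf.symm hcf.symm hdf.symm hef.symm, t'f]
    have sgh : s g = h := by
      rw [← s'x g hag.symm hgV.1 hgV.2.1 hgV.2.2.1 hgV.2.2.2 hfg.symm, s'g]
    have tha : t h = a := by rw [← t'x h hhV.1 hhV.2.1 hhV.2.2.1 hhV.2.2.2, t'h]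
    have tgf : t g = f := by rw [← tfg, hS.t2]
    have shg : s h = g := by rw [← sgh, hS.s2]
    have tah : t a = h := by rw [← tha, hS.t2]
    have hconf : Conf U s t c8 d8 ![a, b, c, d, e, f, g, h] := by
      refine ⟨?_, ?_, ?_, ?_⟩
      · have hnd : [a, b, c, d, e, f, g, h].Nodup := by
          simp [hab, hac, had, hae, haf, hag, hah, hbc, hbd, hbe, hbf, hcd, hce, hcf, hde, hdf, hef, hfg, hfh,
            hgh, hgV.1.symm, hgV.2.1.symm, hgV.2.2.1.symm, hgV.2.2.2.symm, hhV.1.symm, hhV.2.1.symm,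
            hhV.2.2.1.symm, hhV.2.2.2.symm]
        have := List.nodup_ofFn (f := ![a, b, c, d, e, f, g, h])
        exact this.mp (by simpa using hnd)
      · intro i
        fin_cases i
        exacts [ha, hb, hcU, hd, he, hf, hgm.1, hhm.1]
      · intro i
        fin_cases i
        exacts [sab, sba, scd, sdc, sef, sfe, sgh, shg]
      · intro i
        fin_cases i
        exacts [tah, tbc, tcb, tde, ted, tfg, tgf, tha]
    apply sv_of_cover hconf hS.ss hS.tt hS.sU hS.tU ok_C8
    intro x hx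
    by_cases hxV : x ∈ V
    · rw [hVmem] at hxV
      rcases hxV with h' | h' | h' | h'
      · exact ⟨1, h'.symm⟩
      · exact ⟨2, h'.symm⟩
      · exact ⟨3, h'.symm⟩
      · exact ⟨4, h'.symm⟩
    · obtain ⟨j, hj⟩ := hcov x ⟨hx, hxV⟩
      have hjj := q7 i j
      rcases hjj with h' | h' | h' | h'
      · exact ⟨0, by rw [← hj, h', hi]; rfl⟩
      · exact ⟨5, by rw [← hj, h', ← e1]; rfl⟩
      · exact ⟨6, by rw [← hj, h']; rfl⟩
      · exact ⟨7, by rw [← hj, h']; rfl⟩

end H86.OddSymD
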