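import Mathlib
import Cfsg.Agent.Lib.H86.OddSymD

/-!
The odd product graph on a class of involutions of a symmetric group: the main result.
-/

set_option autoImplicit false
set_option linter.unusedSimpArgs false
set_option linter.unusedVariables false
set_option linter.style.haveILetI false
set_option linter.unusedSectionVars false

open Equiv H86.OddSymB H86.OddSymC H86.OddSymD

namespace H86.OddSymE

universe u

variable {α : Type u} [Finite α]

theorem inj_of_nodup {m : ℕ} {u : Fin m → α} (h : (List.ofFn u).Nodup) : Function.Injective u :=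
  List.nodup_ofFn.mp h

theorem bal {ι : Type} [Fintype ι] [DecidableEq ι] {σ τ : Perm ι}
    (h : Fintype.card {i : ι // σ i = i} = Fintype.card {i : ι // τ i = i}) :
    Nat.card {i : ι // σ i = i} = Nat.card {i : ι // τ i = i} := by
  rw [Nat.card_eq_fintype_card, Nat.card_eq_fintype_card, h]

/-- a path starting at a `t`-fixed point -/
theorem free_case {n : ℕ} (ih : IH α n) {U : Set α} {s t : Perm α} (hS : Sit U s t)
    (hn : Nat.card U = n) {x : α} (hx : x ∈ U) (htx : t x = x) :
    Sv U s t ∨ (∃ u : Fin 2 → α, Conf U s t s2 t2 u ∧ u 0 = x) ∨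
      (∃ u : Fin 4 → α, Conf U s t s4 t4 u ∧ u 0 = x) := by
  by_cases hsx : s x = x
  · left
    have hc : Conf U s t s1 t1 ![x] := by
      refine ⟨?_, ?_, ?_, ?_⟩
      · exact inj_of_nodup (by simp)
      · intro i; fin_cases i; exact hx
      · intro i; fin_cases i; exact hsx
      · intro i; fin_cases i; exact htx
    exact step_piece ih hS hn hc ok_P1 ok_P1C4 (bal (by decide))
  set y := s x with hy
  have hyU : y ∈ U := hS.memS hx
  have sy : s y = x := hS.s2 x
  have hxy : x ≠ y := fun h => hsx h.symm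
  by_cases hty : t y = y
  · right; left
    refine ⟨![x, y], ⟨?_, ?_, ?_, ?_⟩, rfl⟩
    · exact inj_of_nodup (by simp [hxy])
    · intro i; fin_cases i; exacts [hx, hyU]
    · intro i; fin_cases i; exacts [rfl, sy]
    · intro i; fin_cases i; exacts [htx, hty]
  set z := t y with hz
  have hzU : z ∈ U := hS.memT hyU
  have tz : t z = y := hS.t2 y
  have hyz : y ≠ z := fun h => hty h.symm
  have hxz : x ≠ z := by
    intro h
    apply hxy
    rw [← tz, ← h, htx]
  by_cases hsz : s z = z
  · left
    have hc : Conf U s t s3 t3 ![x, y, z] := by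
      refine ⟨?_, ?_, ?_, ?_⟩
      · exact inj_of_nodup (by simp [hxy, hxz, hyz])
      · intro i; fin_cases i; exacts [hx, hyU, hzU]
      · intro i; fin_cases i; exacts [rfl, sy, hsz]
      · intro i; fin_cases i; exacts [htx, rfl, tz]
    exact step_piece ih hS hn hc ok_P3 ok_P3C4 (bal (by decide))
  set w := s z with hw
  have hwU : w ∈ U := hS.memS hzU
  have sw : s w = z := hS.s2 z
  have hzw : z ≠ w := fun h => hsz h.symm
  have hxw : x ≠ w := by
    intro h
    apply hyz
    rw [← sw, ← h]
  have hyw : y ≠ w := by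
    intro h
    apply hxz
    rw [← sw, ← h, sy]
  by_cases htw : t w = w
  · right; right
    refine ⟨![x, y, z, w], ⟨?_, ?_, ?_, ?_⟩, rfl⟩
    · exact inj_of_nodup (by simp [hxy, hxz, hyz, hxw, hyw, hzw])
    · intro i; fin_cases i; exacts [hx, hyU, hzU, hwU]
    · intro i; fin_cases i; exacts [rfl, sy, rfl, sw]
    · intro i; fin_cases i; exacts [htx, rfl, tz, htw]
  left
  set v := t w with hv
  have hvU : v ∈ U := hS.memT hwU
  have tv : t v = w := hS.t2 w
  have hwv : w ≠ v := fun h => htw h.symm
  have hxv : x ≠ v := by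
    intro h
    apply hxw
    rw [← tv, ← h, htx]
  have hyv : y ≠ v := by
    intro h
    apply hzw
    rw [← tv, ← h]
  have hzv : z ≠ v := by
    intro h
    apply hyw
    rw [← tv, ← h, tz]
  by_cases hsv : s v = v
  · have hc : Conf U s t s5 t5 ![x, y, z, w, v] := by
      refine ⟨?_, ?_, ?_, ?_⟩
      · exact inj_of_nodup (by simp [hxy, hxz, hyz, hxw, hyw, hzw, hxv, hyv, hzv, hwv])
      · intro i; fin_cases i; exacts [hx, hyU, hzU, hwU, hvU]
      · intro i; fin_cases i; exacts [rfl, sy, rfl, sw, hsv]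
      · intro i; fin_cases i; exacts [htx, rfl, tz, rfl, tv]
    exact step_piece ih hS hn hc ok_P5 ok_P5C4 (bal (by decide))
  set f := s v with hf
  have sf : s f = v := hS.s2 v
  have hvf : v ≠ f := fun h => hsv h.symm
  have hxf : x ≠ f := by
    intro h; apply hyv; rw [← sf, ← h]
  have hyf : y ≠ f := by
    intro h; apply hxv; rw [← sf, ← h, sy]
  have hzf : z ≠ f := by
    intro h; apply hwv; rw [← sf, ← h]
  have hwf : w ≠ f := by
    intro h; apply hzv; rw [← sf, ← h, sw]
  exact contraction ih hS hn hx (a := x) (b := y) (c := z) (d := w) (e := v) (f := f) rfl rfl rfl rfl rfl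
    hxy hxz hxw hxv hxf hyz hyw hyv hyf hzw hzv hzf hwv hwf hvf

/-- the fixed point free case -/
theorem cyc_case {n : ℕ} (ih : IH α n) {U : Set α} {s t : Perm α} (hS : Sit U s t)
    (hn : Nat.card U = n) (hfs : ∀ x ∈ U, s x ≠ x) (hft : ∀ x ∈ U, t x ≠ x) {x : α} (hx : x ∈ U) :
    Sv U s t ∨ (∃ u : Fin 4 → α, Conf U s t c4 d4 u ∧ u 0 = x) := by
  set y := s x with hy
  have hyU : y ∈ U := hS.memS hx
  have sy : s y = x := hS.s2 x
  have hxy : x ≠ y := fun h => hfs x hx h.symm
  set z := t y with hz
  have hzU : z ∈ U := hS.memT hyU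
  have tz : t z = y := hS.t2 y
  have hyz : y ≠ z := fun h => hft y hyU h.symm
  by_cases hxz : x = z
  · left
    have hc : Conf U s t s2 s2 ![x, y] := by
      refine ⟨?_, ?_, ?_, ?_⟩
      · exact inj_of_nodup (by simp [hxy])
      · intro i; fin_cases i; exacts [hx, hyU]
      · intro i; fin_cases i; exacts [rfl, sy]
      · intro i; fin_cases i
        · show t x = y
          rw [hxz, tz]
        · show t y = x
          rw [← hz, hxz]
    exact step_piece ih hS hn hc ok_C2 ok_C2C4 (bal (by decide))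
  set w := s z with hw
  have hwU : w ∈ U := hS.memS hzU
  have sw : s w = z := hS.s2 z
  have hzw : z ≠ w := fun h => hfs z hzU h.symm
  have hxw : x ≠ w := by
    intro h
    apply hyz
    rw [← sw, ← h]
  have hyw : y ≠ w := by
    intro h
    apply hxz
    rw [← sw, ← h, sy]
  by_cases htw : t w = x
  · right
    refine ⟨![x, y, z, w], ⟨?_, ?_, ?_, ?_⟩, rfl⟩
    · exact inj_of_nodup (by simp [hxy, hxz, hyz, hxw, hyw, hzw])
    · intro i; fin_cases i; exacts [hx, hyU, hzU, hwU]
    · intro i; fin_cases i; exacts [rfl, sy, rfl, sw]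
    · intro i
      have htx : t x = w := by rw [← htw, hS.t2]
      fin_cases i; exacts [htx, rfl, tz, htw]
  left
  set v := t w with hv
  have hvU : v ∈ U := hS.memT hwU
  have tv : t v = w := hS.t2 w
  have hwv : w ≠ v := fun h => hft w hwU h.symm
  have hxv : x ≠ v := fun h => htw h.symm
  have hyv : y ≠ v := by
    intro h
    apply hzw
    rw [← tv, ← h]
  have hzv : z ≠ v := by
    intro h
    apply hyw
    rw [← tv, ← h, tz]
  set f := s v with hf
  have sf : s f = v := hS.s2 v
  have hvf : v ≠ f := fun h => hfs v hvU h.symm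
  have hxf : x ≠ f := by
    intro h; apply hyv; rw [← sf, ← h]
  have hyf : y ≠ f := by
    intro h; apply hxv; rw [← sf, ← h, sy]
  have hzf : z ≠ f := by
    intro h; apply hwv; rw [← sf, ← h]
  have hwf : w ≠ f := by
    intro h; apply hzv; rw [← sf, ← h, sw]
  exact contraction ih hS hn hx (a := x) (b := y) (c := z) (d := w) (e := v) (f := f) rfl rfl rfl rfl rfl
    hxy hxz hxw hxv hxf hyz hyw hyv hyf hzw hzv hzf hwv hwf hvf

theorem conf_swap {ι : Type} {U : Set α} {s t : Perm α} {σ τ : Perm ι} {u : ι → α} (hc : Conf U s t σ τ u) :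
    Conf U t s τ σ u := ⟨hc.inj, hc.mem, hc.ht, hc.hs⟩

theorem range_s {ι : Type} {U : Set α} {s t : Perm α} {σ τ : Perm ι} {u : ι → α} (hc : Conf U s t σ τ u)
    {x : α} (hx : x ∈ Set.range u) : s x ∈ Set.range u := by
  obtain ⟨i, rfl⟩ := hx
  exact ⟨σ i, (hc.hs i).symm⟩

theorem range_t {ι : Type} {U : Set α} {s t : Perm α} {σ τ : Perm ι} {u : ι → α} (hc : Conf U s t σ τ u)
    {x : α} (hx : x ∈ Set.range u) : t x ∈ Set.range u := range_s (conf_swap hc) hx

/-- two sets of generators: no point of a four cycle is in a set not containing its first point -/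
theorem disj4 {ι : Type} {U : Set α} {s t : Perm α} {σ τ : Perm ι} {u : ι → α} (hc : Conf U s t σ τ u)
    {v : Fin 4 → α} (h1 : s (v 1) = v 0) (h2 : t (v 2) = v 1) (h3 : s (v 3) = v 2)
    (h0 : v 0 ∉ Set.range u) : ∀ j, v j ∉ Set.range u := by
  have k1 : v 1 ∉ Set.range u := fun h => h0 (h1 ▸ range_s hc h)
  have k2 : v 2 ∉ Set.range u := fun h => k1 (h2 ▸ range_t hc h)
  have k3 : v 3 ∉ Set.range u := fun h => k2 (h3 ▸ range_s hc h)
  intro j
  fin_cases j
  exacts [h0, k1, k2, k3]

theorem disj2 {ι : Type} {U : Set α} {s t : Perm α} {σ τ : Perm ι} {u : ι → α} (hc : Conf U s t σ τ u)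
    {v : Fin 2 → α} (h1 : s (v 1) = v 0)
    (h0 : v 0 ∉ Set.range u) : ∀ j, v j ∉ Set.range u := by
  have k1 : v 1 ∉ Set.range u := fun h => h0 (h1 ▸ range_s hc h)
  intro j
  fin_cases j
  exacts [h0, k1]

theorem not_mem_of_fixed {ι : Type} {U : Set α} {s t : Perm α} {σ τ : Perm ι} {u : ι → α}
    (hc : Conf U s t σ τ u) (hσ : ∀ i, σ i ≠ i) {y : α} (hy : s y = y) : y ∉ Set.range u := by
  rintro ⟨i, rfl⟩
  rw [hc.hs] at hy
  exact hσ i (hc.inj hy)

theorem induction (n : ℕ) : IH α n := by
  induction n using Nat.strong_induction_on with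
  | _ n ih0 =>
  intro U s t hlt hS
  have ih : IH α (Nat.card U) := ih0 _ hlt
  by_cases hft : ∃ x ∈ U, t x = x
  · left
    obtain ⟨x, hx, htx⟩ := hft
    have hfs : ∃ y ∈ U, s y = y := by
      have h1 : 0 < fx U t := by
        haveI : Nonempty {x : α // x ∈ U ∧ t x = x} := ⟨⟨x, hx, htx⟩⟩
        exact Nat.card_pos
      rw [← hS.fx] at h1
      obtain ⟨⟨y, hy⟩⟩ := (Nat.card_pos_iff.mp h1).1
      exact ⟨y, hy.1, hy.2⟩
    obtain ⟨y, hy, hsy⟩ := hfs
    rcases free_case ih hS rfl hx htx with h | ⟨u, hu, hu0⟩ | ⟨u, hu, hu0⟩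
    · exact h
    · rcases free_case ih hS.symm rfl hy hsy with h | ⟨v, hv, hv0⟩ | ⟨v, hv, hv0⟩
      · exact sv_symm h
      · have hd : ∀ j, v j ∉ Set.range u := by
          apply disj2 (conf_swap hu)
          · exact hv.hs 1
          · rw [hv0]
            exact not_mem_of_fixed hu (by decide) hsy
        exact step_piece ih hS rfl (conf_sum hu (conf_swap hv) hd) ok_S2T2 ok_S2T2C4 (bal (by decide))
      · have hd : ∀ j, v j ∉ Set.range u := by
          apply disj4 (conf_swap hu)
          · exact hv.hs 1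
          · exact hv.ht 2
          · exact hv.hs 3
          · rw [hv0]
            exact not_mem_of_fixed hu (by decide) hsy
        exact step_piece ih hS rfl (conf_sum hu (conf_swap hv) hd) ok_S2T4 ok_S2T4C4 (bal (by decide))
    · rcases free_case ih hS.symm rfl hy hsy with h | ⟨v, hv, hv0⟩ | ⟨v, hv, hv0⟩
      · exact sv_symm h
      · have hd : ∀ j, v j ∉ Set.range u := by
          apply disj2 (conf_swap hu)
          · exact hv.hs 1
          · rw [hv0]
            exact not_mem_of_fixed hu (by decide) hsy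
        exact step_piece ih hS rfl (conf_sum hu (conf_swap hv) hd) ok_S4T2 ok_S4T2C4 (bal (by decide))
      · have hd : ∀ j, v j ∉ Set.range u := by
          apply disj4 (conf_swap hu)
          · exact hv.hs 1
          · exact hv.ht 2
          · exact hv.hs 3
          · rw [hv0]
            exact not_mem_of_fixed hu (by decide) hsy
        exact step_piece ih hS rfl (conf_sum hu (conf_swap hv) hd) ok_S4T4 ok_S4T4C4 (bal (by decide))
  · push Not at hft
    have hfs : ∀ y ∈ U, s y ≠ y := by
      intro y hy hsy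
      have h1 : 0 < fx U s := by
        haveI : Nonempty {x : α // x ∈ U ∧ s x = x} := ⟨⟨y, hy, hsy⟩⟩
        exact Nat.card_pos
      rw [hS.fx] at h1
      obtain ⟨⟨z, hz⟩⟩ := (Nat.card_pos_iff.mp h1).1
      exact hft z hz.1 hz.2
    by_cases hU : ∃ x, x ∈ U
    · obtain ⟨x, hx⟩ := hU
      rcases cyc_case ih hS rfl hfs hft hx with h | ⟨u, hu, hu0⟩
      · exact Or.inl h
      · by_cases hcov : ∀ x ∈ U, x ∈ Set.range u
        · exact Or.inr ⟨u, hu, hcov⟩
        · push Not at hcov
          obtain ⟨y, hy, hyu⟩ := hcov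
          left
          rcases cyc_case ih hS rfl hfs hft hy with h | ⟨v, hv, hv0⟩
          · exact h
          · have hd : ∀ j, v j ∉ Set.range u := by
              apply disj4 hu
              · exact hv.hs 1
              · exact hv.ht 2
              · exact hv.hs 3
              · rw [hv0]
                exact hyu
            exact step_piece ih hS rfl (conf_sum hu hv hd) ok_C4C4 ok_C4C4C4 (bal (by decide))
    · left
      push Not at hU
      refine ⟨1, by simp, fun _ _ => rfl, ?_, ?_⟩
      · have : s = 1 := Perm.ext fun x => hS.sU x (hU x)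
        rw [this]; simp
      · have : t = 1 := Perm.ext fun x => hS.tU x (hU x)
        rw [this]; simp

end H86.OddSymE
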