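import Mathlib
import Cfsg.Agent.Lib.H86.OddSymE

/-!
The odd product graph on a class of involutions of a symmetric group: final form.
-/

set_option autoImplicit false
set_option linter.unusedSimpArgs false
set_option linter.unusedVariables false
set_option linter.style.haveILetI false
set_option linter.unusedSectionVars false

open Equiv H86.OddSymB H86.OddSymC H86.OddSymD

namespace H86.OddSymF

universe u

theorem fx_conj {α : Type u} [Finite α] {s t : Perm α} (h : IsConj s t) : fx Set.univ s = fx Set.univ t := by
  obtain ⟨g, hg⟩ := isConj_iff.mp h
  have h1 : ∀ x, t (g x) = g (s x) := by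
    intro x
    rw [← hg]
    simp
  unfold fx
  apply Nat.card_congr
  refine ⟨fun x => ⟨g x.1, trivial, by rw [h1, x.2.2]⟩, fun y => ⟨g.symm y.1, trivial, ?_⟩, ?_, ?_⟩
  · apply g.injective
    rw [← h1, Equiv.apply_symm_apply, y.2.2]
  · intro x
    exact Subtype.ext (g.symm_apply_apply x.1)
  · intro y
    exact Subtype.ext (g.apply_symm_apply y.1)

theorem main (n : ℕ) (hn : 5 ≤ n) (t : Perm (Fin n)) (ht : orderOf t = 2) :
    (SimpleGraph.fromRel fun x y : {x : Perm (Fin n) // IsConj t x} =>
        Odd (orderOf (x.1 * y.1))).Connected ∧
      (SimpleGraph.fromRel fun x y : {x : Perm (Fin n) // IsConj t x} =>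
        Odd (orderOf (x.1 * y.1))).diam = 2 := by
  classical
  have htt : t * t = 1 := by rw [← sq, ← ht, pow_orderOf_eq_one]
  have ht1 : t ≠ 1 := by
    rintro rfl
    rw [orderOf_one] at ht
    omega
  have htx : ∀ x, t (t x) = x := fun x => by rw [← Perm.mul_apply, htt]; rfl
  apply H86.OddGraph.main t ht
  · intro s s' hs hs' hts hts' hne hodd
    have hS : Sit Set.univ s s' := ⟨hs, hs', fun x hx => absurd trivial hx, fun x hx => absurd trivial hx,
      fx_conj (hts.symm.trans hts')⟩
    have hlt : Nat.card (Set.univ : Set (Fin n)) < n + 1 := by
      rw [Nat.card_coe_set_eq, Set.ncard_univ, Nat.card_fin]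
      omega
    rcases H86.OddSymE.induction (n + 1) Set.univ s s' hlt hS with h | h
    · obtain ⟨r, h1, -, h2, h3⟩ := h
      exact ⟨r, h1, h2, h3⟩
    · exfalso
      obtain ⟨v, hv, hcov⟩ := h
      have hsurj : Function.Surjective v := fun x => hcov x trivial
      have := Fintype.card_le_of_surjective v hsurj
      rw [Fintype.card_fin, Fintype.card_fin] at this
      omega
  · obtain ⟨a, ha⟩ : ∃ a, t a ≠ a := by
      by_contra hcon
      push Not at hcon
      exact ht1 (Perm.ext fun x => hcon x)
    have key : ∀ s' : Perm (Fin n), IsConj t s' → t ≠ s' → (t * s') * (t * s') = 1 →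
        ∃ s s' : Perm (Fin n), IsConj t s ∧ IsConj t s' ∧ s ≠ s' ∧ ¬ Odd (orderOf (s * s')) := by
      intro s' h1 h2 h3
      refine ⟨t, s', IsConj.refl t, h1, h2, ?_⟩
      have h4 : orderOf (t * s') = 2 := by
        apply orderOf_eq_prime
        · rw [sq]; exact h3
        · intro h5
          apply h2
          have : t * t = t * s' := by rw [htt, h5]
          exact mul_left_cancel this
      rw [h4]
      decide
    by_cases hc : ∃ c, c ≠ a ∧ c ≠ t a ∧ t c ≠ c
    · obtain ⟨c, hca, hcb, htc⟩ := hc
      set b := t a with hb
      set d := t c with hd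
      have tb : t b = a := htx a
      have td : t d = c := htx c
      have hab : a ≠ b := fun h => ha h.symm
      have hcd : c ≠ d := fun h => htc h.symm
      have had : a ≠ d := by
        intro h
        apply hcb
        rw [← td, ← h]
      have hbd : b ≠ d := fun h => hca (t.injective h).symm
      set g : Perm (Fin n) := swap b c with hg
      have ga : g a = a := swap_apply_of_ne_of_ne hab hca.symm
      have gb : g b = c := swap_apply_left _ _
      have gc : g c = b := swap_apply_right _ _
      have gd : g d = d := swap_apply_of_ne_of_ne hbd.symm hcd.symm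
      have gx : ∀ x, x ≠ b → x ≠ c → g x = x := fun x h1 h2 => swap_apply_of_ne_of_ne h1 h2
      set s' : Perm (Fin n) := g * t * g with hs'
      have s'a : s' a = c := by simp only [hs', Perm.mul_apply]; rw [ga, ← hb, gb]
      have s'b : s' b = d := by simp only [hs', Perm.mul_apply]; rw [gb, ← hd, gd]
      have s'c : s' c = a := by simp only [hs', Perm.mul_apply]; rw [gc, tb, ga]
      have s'd : s' d = b := by simp only [hs', Perm.mul_apply]; rw [gd, td, gc]
      have tx : ∀ x, x ≠ a → x ≠ b → x ≠ c → x ≠ d → t x ≠ a ∧ t x ≠ b ∧ t x ≠ c ∧ t x ≠ d := by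
        intro x h1 h2 h3 h4
        refine ⟨?_, ?_, ?_, ?_⟩
        · rw [← tb]; exact fun h => h2 (t.injective h)
        · rw [hb]; exact fun h => h1 (t.injective h)
        · rw [← td]; exact fun h => h4 (t.injective h)
        · rw [hd]; exact fun h => h3 (t.injective h)
      have s'x : ∀ x, x ≠ a → x ≠ b → x ≠ c → x ≠ d → s' x = t x := by
        intro x h1 h2 h3 h4
        obtain ⟨k1, k2, k3, k4⟩ := tx x h1 h2 h3 h4
        simp only [hs', Perm.mul_apply]
        rw [gx x h2 h3, gx _ k2 k3]
      apply key s'
      · refine isConj_iff.mpr ⟨g, ?_⟩
        rw [hs', hg, swap_inv]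
      · intro h
        have : t a = s' a := by rw [← h]
        rw [s'a] at this
        exact hcb (hb ▸ this).symm
      · ext x
        congr 1
        simp only [Perm.mul_apply, Perm.one_apply]
        by_cases h1 : x = a
        · rw [h1, s'a, ← hd, s'd, tb]
        by_cases h2 : x = b
        · rw [h2, s'b, td, s'c]
        by_cases h3 : x = c
        · rw [h3, s'c, ← hb, s'b, td]
        by_cases h4 : x = d
        · rw [h4, s'd, tb, s'a]
        rw [s'x x h1 h2 h3 h4, htx, s'x x h1 h2 h3 h4, htx]
    · push Not at hc
      set b := t a with hb
      have tb : t b = a := htx a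
      have hab : a ≠ b := fun h => ha h.symm
      obtain ⟨c, hca, hcb⟩ : ∃ c, c ≠ a ∧ c ≠ b := by
        by_contra hcon
        push Not at hcon
        have h5 : Fintype.card (Fin n) ≤ ({a, b} : Finset (Fin n)).card := by
          rw [← Finset.card_univ]
          apply Finset.card_le_card
          intro x _
          by_cases hx : x = a
          · simp [hx]
          · simp [hcon x hx]
        have h6 := Finset.card_le_two (a := a) (b := b)
        rw [Fintype.card_fin] at h5
        omega
      obtain ⟨d, hda, hdb, hdc⟩ : ∃ d, d ≠ a ∧ d ≠ b ∧ d ≠ c := by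
        by_contra hcon
        push Not at hcon
        have h5 : Fintype.card (Fin n) ≤ ({a, b, c} : Finset (Fin n)).card := by
          rw [← Finset.card_univ]
          apply Finset.card_le_card
          intro x _
          by_cases hx : x = a
          · simp [hx]
          · by_cases hx' : x = b
            · simp [hx']
            · simp [hcon x hx hx']
        have h6 := Finset.card_le_three (a := a) (b := b) (c := c)
        rw [Fintype.card_fin] at h5
        omega
      have teq : t = swap a b := by
        apply Perm.ext
        intro x
        by_cases h1 : x = a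
        · rw [h1, swap_apply_left]
        by_cases h2 : x = b
        · rw [h2, swap_apply_right, tb]
        rw [swap_apply_of_ne_of_ne h1 h2, hc x h1 h2]
      have hdisj : Commute (swap a b) (swap c d) := by
        apply Perm.Disjoint.commute
        intro x
        by_cases h1 : x = a
        · right
          rw [h1, swap_apply_of_ne_of_ne hca.symm hda.symm]
        by_cases h2 : x = b
        · right
          rw [h2, swap_apply_of_ne_of_ne hcb.symm hdb.symm]
        · left
          rw [swap_apply_of_ne_of_ne h1 h2]
      apply key (swap c d)
      · rw [teq]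
        exact Perm.isConj_swap hab hdc.symm
      · intro h
        have : t a = swap c d a := by rw [← h]
        rw [swap_apply_of_ne_of_ne hca.symm hda.symm] at this
        exact ha this
      · rw [teq]
        calc (swap a b * swap c d) * (swap a b * swap c d) = swap a b * (swap c d * swap a b) * swap c d := by group
          _ = swap a b * (swap a b * swap c d) * swap c d := by rw [hdisj.eq]
          _ = (swap a b * swap a b) * (swap c d * swap c d) := by group
          _ = 1 := by rw [swap_mul_self, swap_mul_self, one_mul]

end H86.OddSymF
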