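import Mathlib

/-! Groups of order 7920: general lemmas. -/

set_option autoImplicit false

namespace H86.Ord7920

variable {G : Type*} [Group G] [Finite G]

/-- counting fixed points of an element of order `p` normalizing a subgroup -/
theorem cong_conj (p : ℕ) [Fact p.Prime] (x : G) (hx : x ^ p = 1) (R : Subgroup G) (hR : ∀ r ∈ R, x * r * x⁻¹ ∈ R) :
    Nat.card R ≡ Nat.card (R ⊓ Subgroup.centralizer ({x} : Set G) : Subgroup G) [MOD p] := by
  classical
  have : Fintype G := Fintype.ofFinite G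
  let g : Function.End R := fun u => ⟨x * u * x⁻¹, hR u u.2⟩
  have hgk : ∀ k : ℕ, ∀ u : R, (((g ^ k : Function.End R) u : R) : G) = x ^ k * u * (x ^ k)⁻¹ := by
    intro k
    induction k with
    | zero =>
      intro u
      rw [pow_zero, pow_zero, inv_one, mul_one, one_mul]
      rfl
    | succ k ih =>
      intro u
      rw [pow_succ]
      show (((g ^ k : Function.End R) (g u) : R) : G) = _
      rw [ih]
      show x ^ k * (x * (u : G) * x⁻¹) * (x ^ k)⁻¹ = _
      rw [pow_succ]
      group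
  have hg1 : g ^ p ^ 1 = 1 := by
    funext u
    apply Subtype.ext
    rw [hgk, pow_one, hx, inv_one, mul_one, one_mul]
    rfl
  have h1 := Equiv.Perm.card_fixedPoints_modEq hg1
  rw [← Nat.card_eq_fintype_card, ← Nat.card_eq_fintype_card] at h1
  have h3 : Nat.card (Function.fixedPoints (g : R → R)) = Nat.card (R ⊓ Subgroup.centralizer ({x} : Set G) : Subgroup G) := by
    refine Nat.card_congr ⟨fun u => ⟨u.1.1, u.1.2, ?_⟩, fun v => ⟨⟨v.1, v.2.1⟩, ?_⟩, fun _ => rfl, fun _ => rfl⟩
    · have h4 : g u.1 = u.1 := u.2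
      have h5 : x * (u.1 : G) * x⁻¹ = u.1 := congrArg Subtype.val h4
      show (u.1 : G) ∈ Subgroup.centralizer ({x} : Set G)
      rw [Subgroup.mem_centralizer_singleton_iff]
      calc (u.1 : G) * x = x * (u.1 : G) * x⁻¹ * x := by rw [h5]
        _ = x * u.1 := by group
    · have h4 : (v : G) ∈ Subgroup.centralizer ({x} : Set G) := v.2.2
      rw [Subgroup.mem_centralizer_singleton_iff] at h4
      apply Subtype.ext
      show x * (v : G) * x⁻¹ = v
      rw [← h4]
      group
  rw [h3] at h1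
  exact h1

theorem index_dvd_card (N K : Subgroup G) [K.Normal] (h : N ⊔ K = ⊤) : N.index ∣ Nat.card K := by
  have h1 : K.index = K.relIndex N := by
    rw [← Subgroup.relIndex_top_right, ← h, Subgroup.relIndex_sup_right]
  have h2 : Nat.card (N ⊓ K : Subgroup G) * K.relIndex N = Nat.card N := by
    have h6 := Subgroup.relIndex_mul_relIndex ⊥ (N ⊓ K) N bot_le inf_le_left
    rw [Subgroup.relIndex_bot_left, Subgroup.relIndex_bot_left, Subgroup.inf_relIndex_left] at h6
    exact h6
  have h3 := K.index_mul_card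
  have h4 := N.index_mul_card
  have h5 : 0 < K.relIndex N := Nat.pos_of_ne_zero (by
    intro h0
    rw [h0, mul_zero] at h2
    exact Nat.card_pos.ne h2)
  refine ⟨Nat.card (N ⊓ K : Subgroup G), ?_⟩
  apply Nat.eq_of_mul_eq_mul_left h5
  rw [← h1, h3, ← h4, ← h2, ← h1]
  ring

/-- a Sylow subgroup normalizes a Sylow subgroup of a normal subgroup -/
theorem exists_inv_sylow (p : ℕ) [Fact p.Prime] (Q : Sylow p G) (K : Subgroup G) [K.Normal] (hK : ¬ p ∣ Nat.card K)
    (r : ℕ) [Fact r.Prime] : ∃ R : Subgroup G, R ≤ K ∧ (∃ R0 : Sylow r K, Nat.card R = Nat.card R0) ∧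
      ∀ x ∈ Q, ∀ u ∈ R, x * u * x⁻¹ ∈ R := by
  classical
  let R0 : Sylow r K := Classical.arbitrary _
  set N := Subgroup.normalizer (((R0 : Subgroup K).map K.subtype : Subgroup G) : Set G) with hN
  have hsup : N ⊔ K = ⊤ := Sylow.normalizer_sup_eq_top R0
  have hidx : ¬ p ∣ N.index := by
    intro h
    apply hK
    exact h.trans (index_dvd_card N K hsup)
  -- a Sylow subgroup inside `N`
  let P1 : Sylow p N := Classical.arbitrary _
  have hP1 : IsPGroup p ((P1 : Subgroup N).map N.subtype) := P1.2.map _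
  obtain ⟨P2, hP2⟩ := hP1.exists_le_sylow
  have hcard : Nat.card P2 ≤ Nat.card ((P1 : Subgroup N).map N.subtype) := by
    have h3 : ¬ p ∣ ((P1 : Subgroup N).map N.subtype).index := by
      rw [Subgroup.index_map_subtype]
      intro h
      rcases (Fact.out : p.Prime).dvd_mul.1 h with h | h
      · exact P1.not_dvd_index h
      · exact hidx h
    have h4 : ¬ p ∣ ((P1 : Subgroup N).map N.subtype).relIndex P2 := by
      intro h
      apply h3
      have := Subgroup.relIndex_mul_index hP2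
      rw [← this]
      exact h.mul_right _
    have h5 : ((P1 : Subgroup N).map N.subtype).relIndex P2 = 1 := by
      have h6 : ((P1 : Subgroup N).map N.subtype).relIndex P2 ∣ Nat.card P2 := Subgroup.relIndex_dvd_card _ _
      obtain ⟨k, hk⟩ := P2.2.exists_card_eq
      have hk' : Nat.card P2 = p ^ k := hk
      rw [hk'] at h6
      obtain ⟨j, _, hj⟩ := (Nat.dvd_prime_pow (Fact.out : p.Prime)).1 h6
      rcases Nat.eq_zero_or_pos j with h0 | h0
      · rw [hj, h0, pow_zero]
      · exfalso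
        apply h4
        rw [hj]
        exact dvd_pow_self p h0.ne'
    have h7 := Subgroup.relIndex_eq_one.1 h5
    exact Subgroup.card_le_of_le h7
  have hP2N : (P2 : Subgroup G) ≤ N := by
    have := Subgroup.eq_of_le_of_card_ge hP2 hcard
    rw [← this]
    exact Subgroup.map_subtype_le _
  obtain ⟨g, hg⟩ := MulAction.exists_smul_eq G P2 Q
  refine ⟨((R0 : Subgroup K).map K.subtype).map (MulAut.conj g).toMonoidHom, ?_, ⟨R0, ?_⟩, ?_⟩
  · rintro _ ⟨u, ⟨v, _, rfl⟩, rfl⟩
    exact (inferInstance : K.Normal).conj_mem _ v.2 g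
  · rw [Nat.card_congr (Subgroup.equivMapOfInjective _ _ (MulAut.conj g).injective).toEquiv.symm,
      Nat.card_congr (Subgroup.equivMapOfInjective _ _ K.subtype_injective).toEquiv.symm]
  · rintro x hx _ ⟨u, hu, rfl⟩
    have h1 : (x : G) ∈ ((g • P2 : Sylow p G) : Subgroup G) := by rw [hg]; exact hx
    rw [Sylow.coe_subgroup_smul, Subgroup.mem_pointwise_smul_iff_inv_smul_mem] at h1
    have h2 : (MulAut.conj g)⁻¹ • x = g⁻¹ * x * g := by
      rw [← map_inv]
      show g⁻¹ * x * g⁻¹⁻¹ = _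
      rw [inv_inv]
    rw [h2] at h1
    have h3 := hP2N h1
    refine ⟨(g⁻¹ * x * g) * u * (g⁻¹ * x * g)⁻¹, (Subgroup.mem_normalizer_iff.1 h3 u).1 hu, ?_⟩
    show g * ((g⁻¹ * x * g) * u * (g⁻¹ * x * g)⁻¹) * g⁻¹ = x * (g * u * g⁻¹) * x⁻¹
    group

/-- the Sylow subgroups of a normal subgroup on which an element of order `p` must act trivially -/
theorem sylow_fix (p : ℕ) [Fact p.Prime] (Q : Sylow p G) {x : G} (hxQ : x ∈ Q) (hx : x ^ p = 1) (K : Subgroup G) [K.Normal]
    (hK : ¬ p ∣ Nat.card K) (r : ℕ) [Fact r.Prime] (m : ℕ) (hm : ∀ R : Sylow r K, Nat.card R = m)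
    (h : ∀ d, d ∣ m → d ≡ m [MOD p] → d = m) : m ∣ Nat.card (K ⊓ Subgroup.centralizer ({x} : Set G) : Subgroup G) := by
  obtain ⟨R, hRK, ⟨R0, hR0⟩, hR⟩ := exists_inv_sylow p Q K hK r
  have h1 := cong_conj p x hx R (hR x hxQ)
  have h2 : Nat.card R = m := by rw [hR0]; exact hm R0
  have h3 : Nat.card (R ⊓ Subgroup.centralizer ({x} : Set G) : Subgroup G) ∣ m := by
    rw [← h2]; exact Subgroup.card_dvd_of_le inf_le_left
  rw [h2] at h1
  have h4 := h _ h3 h1.symm
  rw [← h4]
  exact Subgroup.card_dvd_of_le (inf_le_inf_right _ hRK)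

end H86.Ord7920
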