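import Mathlib
import Cfsg.Agent.Lib.H86.Ord7920

/-! Groups of order 7920 with disconnected prime graph: transfer, easy cases. -/

set_option autoImplicit false

namespace H86.Ord7920B

open H86.Ord7920

variable {G : Type*} [Group G] [Finite G]

/-- Burnside's transfer theorem inside a normal subgroup -/
theorem burn {p : ℕ} [hp : Fact p.Prime] (P : Sylow p G) (M : Subgroup G) [hM : M.Normal] (hPM : (P : Subgroup G) ≤ M)
    (h : ∀ g ∈ M, g ∈ Subgroup.normalizer ((P : Subgroup G) : Set G) → g ∈ Subgroup.centralizer ((P : Subgroup G) : Set G)) :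
    ∃ L : Subgroup G, L.Normal ∧ L ≤ M ∧ Nat.card L * Nat.card P = Nat.card M := by
  classical
  let PM : Sylow p M := P.subtype hPM
  have hPM' : ∀ y : M, y ∈ PM ↔ (y : G) ∈ P := fun y => Iff.rfl
  have hN : Subgroup.normalizer ((PM : Subgroup M) : Set M) ≤ Subgroup.centralizer ((PM : Subgroup M) : Set M) := by
    intro y hy
    have h1 : (y : G) ∈ Subgroup.normalizer ((P : Subgroup G) : Set G) := by
      rw [Subgroup.mem_normalizer_iff]
      intro u
      constructor
      · intro hu
        have h2 := (Subgroup.mem_normalizer_iff.1 hy ⟨u, hPM hu⟩).1 hu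
        exact h2
      · intro hu
        have h3 : u ∈ M := by
          have := hM.conj_mem _ (hPM hu) (y : G)⁻¹
          have e : (y : G)⁻¹ * (y * u * (y : G)⁻¹) * (y : G)⁻¹⁻¹ = u := by group
          rwa [e] at this
        exact (Subgroup.mem_normalizer_iff.1 hy ⟨u, h3⟩).2 hu
    have h2 := h y y.2 h1
    rw [Subgroup.mem_centralizer_iff] at h2 ⊢
    intro u hu
    exact Subtype.ext (h2 u hu)
  have hc := MonoidHom.ker_transferSylow_isComplement' PM hN
  set f := MonoidHom.transferSylow PM hN with hf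
  have hcard : Nat.card f.ker * Nat.card PM = Nat.card M := hc.card_mul_card
  have hPMc : Nat.card PM = Nat.card P := by
    exact Nat.card_congr ⟨fun u => ⟨u.1.1, u.2⟩, fun u => ⟨⟨u.1, hPM u.2⟩, u.2⟩, fun _ => rfl, fun _ => rfl⟩
  have hcop : (Nat.card f.ker).Coprime (Nat.card PM) := by
    have h1 := MonoidHom.not_dvd_card_ker_transferSylow PM hN
    obtain ⟨k, hk⟩ := PM.2.exists_card_eq
    have hk' : Nat.card PM = p ^ k := hk
    rw [hk']
    exact Nat.Coprime.pow_right _ ((Nat.Prime.coprime_iff_not_dvd hp.out).2 h1).symm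
  have hker : ∀ y : M, y ^ Nat.card f.ker = 1 → y ∈ f.ker := by
    intro y hy
    rw [MonoidHom.mem_ker]
    have h1 : f y ^ Nat.card f.ker = 1 := by rw [← map_pow, hy, map_one]
    have h2 : f y ^ Nat.card PM = 1 := pow_card_eq_one'
    have h3 : orderOf (f y) ∣ 1 := by
      rw [← Nat.Coprime.gcd_eq_one hcop]
      exact Nat.dvd_gcd (orderOf_dvd_of_pow_eq_one h1) (orderOf_dvd_of_pow_eq_one h2)
    exact orderOf_eq_one_iff.1 (Nat.dvd_one.1 h3)
  have hLc : Nat.card (f.ker.map M.subtype) = Nat.card f.ker :=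
    (Nat.card_congr (Subgroup.equivMapOfInjective _ _ M.subtype_injective).toEquiv).symm
  refine ⟨f.ker.map M.subtype, ⟨?_⟩, ?_, ?_⟩
  · rintro _ ⟨y, hy, rfl⟩ g
    refine ⟨⟨g * y * g⁻¹, hM.conj_mem _ y.2 g⟩, hker _ ?_, rfl⟩
    apply Subtype.ext
    have h1 : (⟨y, hy⟩ : f.ker) ^ Nat.card f.ker = 1 := pow_card_eq_one'
    have h2 : y ^ Nat.card f.ker = 1 := congrArg Subtype.val h1
    have h3 : (y : G) ^ Nat.card f.ker = 1 := congrArg Subtype.val h2
    show (g * (y : G) * g⁻¹) ^ Nat.card f.ker = 1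
    rw [conj_pow, h3, mul_one, mul_inv_cancel]
  · rintro _ ⟨y, _, rfl⟩
    exact y.2
  · rw [hLc, ← hPMc, hcard]

theorem edge {x y : G} {a b : ℕ} (ha : a.Prime) (hb : b.Prime) (hab : a ≠ b) (hx : orderOf x = a) (hy : orderOf y = b)
    (h : x * y = y * x) : ∃ g : G, orderOf g = a * b := by
  refine ⟨x * y, ?_⟩
  rw [(show Commute x y from h).orderOf_mul_eq_mul_orderOf_of_coprime (by
    rw [hx, hy]; exact (Nat.coprime_primes ha hb).2 hab), hx, hy]

theorem edge_of_dvd {x : G} {a b : ℕ} (ha : a.Prime) (hb : b.Prime) (hab : a ≠ b) (hx : orderOf x = a) {H : Subgroup G}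
    (hH : H ≤ Subgroup.centralizer ({x} : Set G)) (hbH : b ∣ Nat.card H) : ∃ g : G, orderOf g = a * b := by
  have : Fact b.Prime := ⟨hb⟩
  obtain ⟨y, hy⟩ := exists_prime_orderOf_dvd_card' b hbH
  have h1 := hH y.2
  rw [Subgroup.mem_centralizer_singleton_iff] at h1
  exact edge ha hb hab hx (by rw [← hy]; exact Subgroup.orderOf_coe y) h1.symm

/-- the disconnection -/
structure Disc (G : Type*) [Group G] (A : Set ℕ) : Prop where
  card : Nat.card G = 7920
  a : ∃ a ∈ A, a.Prime ∧ a ∣ 7920
  b : ∃ b ∉ A, b.Prime ∧ b ∣ 7920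
  edge : ∀ a ∈ A, ∀ b ∉ A, a.Prime → b.Prime → a ∣ 7920 → b ∣ 7920 → ¬ ∃ g : G, orderOf g = a * b

theorem Disc.iff {A : Set ℕ} (D : Disc G A) {a b : ℕ} (ha : a.Prime) (hb : b.Prime) (ha' : a ∣ 7920) (hb' : b ∣ 7920)
    (h : ∃ g : G, orderOf g = a * b) : a ∈ A ↔ b ∈ A := by
  constructor
  · intro h1
    by_contra h2
    exact D.edge a h1 b h2 ha hb ha' hb' h
  · intro h1
    by_contra h2
    obtain ⟨g, hg⟩ := h
    exact D.edge b h1 a h2 hb ha hb' ha' ⟨g, by rw [hg, mul_comm]⟩

theorem prime_cases {a : ℕ} (ha : a.Prime) (h : a ∣ 7920) : a = 2 ∨ a = 3 ∨ a = 5 ∨ a = 11 := by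
  have h2 : a ∣ 2 ^ 4 * 3 ^ 2 * 5 * 11 := by norm_num; exact h
  rcases (Nat.Prime.dvd_mul ha).1 h2 with h3 | h3
  · rcases (Nat.Prime.dvd_mul ha).1 h3 with h4 | h4
    · rcases (Nat.Prime.dvd_mul ha).1 h4 with h5 | h5
      · exact Or.inl ((Nat.prime_dvd_prime_iff_eq ha Nat.prime_two).1 (ha.dvd_of_dvd_pow h5))
      · exact Or.inr (Or.inl ((Nat.prime_dvd_prime_iff_eq ha Nat.prime_three).1 (ha.dvd_of_dvd_pow h5)))
    · exact Or.inr (Or.inr (Or.inl ((Nat.prime_dvd_prime_iff_eq ha (by norm_num)).1 h4)))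
  · exact Or.inr (Or.inr (Or.inr ((Nat.prime_dvd_prime_iff_eq ha (by norm_num)).1 h3)))

theorem Disc.false {A : Set ℕ} (D : Disc G A) (h2 : 2 ∈ A ↔ 11 ∈ A) (h3 : 3 ∈ A ↔ 11 ∈ A) (h5 : 5 ∈ A ↔ 11 ∈ A) : False := by
  obtain ⟨a, ha, hap, had⟩ := D.a
  obtain ⟨b, hb, hbp, hbd⟩ := D.b
  have h11 : 11 ∈ A := by
    rcases prime_cases hap had with rfl | rfl | rfl | rfl
    · exact h2.1 ha
    · exact h3.1 ha
    · exact h5.1 ha
    · exact ha
  apply hb
  rcases prime_cases hbp hbd with rfl | rfl | rfl | rfl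
  · exact h2.2 h11
  · exact h3.2 h11
  · exact h5.2 h11
  · exact h11

theorem card_sylow_of {p k m : ℕ} [hp : Fact p.Prime] (Q : Sylow p G) (h : Nat.card G = p ^ k * m) (hm : ¬ p ∣ m) :
    Nat.card Q = p ^ k := by
  rw [Q.card_eq_multiplicity, h]
  congr 1
  have hm0 : m ≠ 0 := by rintro rfl; exact hm (dvd_zero p)
  rw [Nat.factorization_mul (pow_ne_zero _ hp.out.ne_zero) hm0, Finsupp.add_apply, Nat.Prime.factorization_pow hp.out,
    Finsupp.single_eq_same, Nat.factorization_eq_zero_of_not_dvd hm, add_zero]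

/-- basic data on the Sylow 11-subgroup -/
structure Base (P : Sylow 11 G) (x : G) (n c e : ℕ) : Prop where
  cG : Nat.card G = 7920
  cP : Nat.card P = 11
  ox : orderOf x = 11
  Px : (P : Subgroup G) = Subgroup.zpowers x
  idx : (Subgroup.normalizer ((P : Subgroup G) : Set G)).index = n
  cC : Nat.card (Subgroup.centralizer ({x} : Set G)) = 11 * c
  cN : Nat.card (Subgroup.normalizer ((P : Subgroup G) : Set G)) = 11 * c * e
  n11 : n % 11 = 1
  nce : n * (c * e) = 720
  e10 : e ∣ 10

theorem cent_eq {P : Sylow 11 G} {x : G} (h : (P : Subgroup G) = Subgroup.zpowers x) :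
    Subgroup.centralizer ((P : Subgroup G) : Set G) = Subgroup.centralizer ({x} : Set G) := by
  rw [h]
  apply le_antisymm
  · apply Subgroup.centralizer_le
    rintro _ rfl
    exact Subgroup.mem_zpowers _
  · intro g hg
    rw [Subgroup.mem_centralizer_iff]
    rintro _ ⟨k, rfl⟩
    rw [Subgroup.mem_centralizer_singleton_iff] at hg
    exact ((show Commute g x from hg).zpow_right k).eq.symm

theorem chk (p m : ℕ) (hm : 0 < m) (h : ∀ d ∈ Finset.range (m + 1), d ∣ m → d % p = m % p → d = m) :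
    ∀ d, d ∣ m → d ≡ m [MOD p] → d = m := fun d hd hmod =>
  h d (Finset.mem_range.2 (by have := Nat.le_of_dvd hm hd; omega)) hd hmod

theorem exists_base (hG : Nat.card G = 7920) : ∃ (P : Sylow 11 G) (x : G) (n c e : ℕ), Base P x n c e := by
  have h11 : Fact (Nat.Prime 11) := ⟨by norm_num⟩
  let P : Sylow 11 G := Classical.arbitrary _
  have cP : Nat.card P = 11 := card_sylow_of (k := 1) (m := 720) P (by rw [hG]; norm_num) (by norm_num)
  have hcyc : IsCyclic P := isCyclic_of_prime_card cP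
  obtain ⟨⟨x, hxP⟩, hgen⟩ := hcyc.exists_generator
  have ox : orderOf x = 11 := by
    have h1 := orderOf_eq_card_of_forall_mem_zpowers hgen
    rw [cP] at h1
    rw [← h1]
    exact (Subgroup.orderOf_mk x hxP).symm
  have Px : (P : Subgroup G) = Subgroup.zpowers x := by
    apply le_antisymm
    · intro g hg
      obtain ⟨i, hi⟩ := hgen ⟨g, hg⟩
      exact ⟨i, congrArg Subtype.val hi⟩
    · rw [Subgroup.zpowers_le]; exact hxP
  set N := Subgroup.normalizer ((P : Subgroup G) : Set G) with hN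
  set C := Subgroup.centralizer ({x} : Set G) with hC
  have hCP : Subgroup.centralizer ((P : Subgroup G) : Set G) = C := cent_eq Px
  have hPC : (P : Subgroup G) ≤ C := by
    rw [Px, Subgroup.zpowers_le, hC, Subgroup.mem_centralizer_singleton_iff]
  have hCN : C ≤ N := by rw [← hCP]; exact Subgroup.centralizer_le_normalizer _
  obtain ⟨c, hc⟩ : 11 ∣ Nat.card C := by rw [← cP]; exact Subgroup.card_dvd_of_le hPC
  have hdvd : Nat.card (N ⧸ C.subgroupOf N) ∣ 10 := by
    have h1 : C.subgroupOf N = (Subgroup.normalizerMonoidHom (P : Subgroup G)).ker := by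
      rw [Subgroup.normalizerMonoidHom_ker, ← hCP]
    rw [h1]
    have h3 := Nat.card_congr (QuotientGroup.quotientKerEquivRange (Subgroup.normalizerMonoidHom (P : Subgroup G))).toEquiv
    rw [show Nat.card (N ⧸ (Subgroup.normalizerMonoidHom (P : Subgroup G)).ker) = _ from h3]
    have h2 : Nat.card (MulAut (P : Subgroup G)) = 10 := by
      rw [IsCyclic.card_mulAut, cP]
      decide
    rw [← h2]
    exact Subgroup.card_subgroup_dvd_card _
  have hNe : Nat.card N = 11 * c * Nat.card (N ⧸ C.subgroupOf N) := by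
    have h1 := Subgroup.card_eq_card_quotient_mul_card_subgroup (C.subgroupOf N)
    rw [Nat.card_congr (Subgroup.subgroupOfEquivOfLe hCN).toEquiv, hc, mul_comm] at h1
    exact h1
  have hn := card_sylow_modEq_one 11 G
  rw [P.card_eq_index_normalizer, show (P : Set G) = ((P : Subgroup G) : Set G) from rfl] at hn
  have hidx := N.index_mul_card
  rw [hG, hNe] at hidx
  refine ⟨P, x, N.index, c, Nat.card (N ⧸ C.subgroupOf N), hG, cP, ox, Px, rfl, hc, hNe, hn, ?_, hdvd⟩
  have : N.index * (c * Nat.card (N ⧸ C.subgroupOf N)) * 11 = 720 * 11 := by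
    rw [show (720 : ℕ) * 11 = 7920 by norm_num, ← hidx]; ring
  exact Nat.eq_of_mul_eq_mul_right (by norm_num) this

variable {P : Sylow 11 G} {x : G} {n c e : ℕ}

theorem Base.x_mem (B : Base P x n c e) : x ∈ P := by
  show x ∈ (P : Subgroup G)
  rw [B.Px]; exact Subgroup.mem_zpowers x

theorem Base.x11 (B : Base P x n c e) : x ^ 11 = 1 := by rw [← B.ox]; exact pow_orderOf_eq_one x

theorem Base.P_le_C (B : Base P x n c e) : (P : Subgroup G) ≤ Subgroup.centralizer ({x} : Set G) := by
  rw [B.Px, Subgroup.zpowers_le, Subgroup.mem_centralizer_singleton_iff]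

theorem Base.C_le_N (B : Base P x n c e) : Subgroup.centralizer ({x} : Set G) ≤ Subgroup.normalizer ((P : Subgroup G) : Set G) := by
  rw [← cent_eq B.Px]; exact Subgroup.centralizer_le_normalizer _

/-- a normal `11'`-subgroup has order with prime divisors in those of `C(x)` -/
theorem Base.core (B : Base P x n c e) (M : Subgroup G) [M.Normal] (hM : ¬ 11 ∣ Nat.card M) (r : ℕ) (hr : r.Prime)
    (hrM : r ∣ Nat.card M) : r ∣ 11 * c := by
  have h11 : Fact (Nat.Prime 11) := ⟨by norm_num⟩
  have hrf : Fact r.Prime := ⟨hr⟩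
  have hMd : Nat.card M ∣ 720 := by
    have h1 : Nat.card M ∣ 720 * 11 := by
      rw [show (720 : ℕ) * 11 = 7920 by norm_num, ← B.cG]; exact Subgroup.card_subgroup_dvd_card M
    exact Nat.Coprime.dvd_of_dvd_mul_right ((Nat.Prime.coprime_iff_not_dvd h11.out).2 hM).symm h1
  have h1 := sylow_fix 11 P B.x_mem B.x11 M hM r (r ^ (Nat.card M).factorization r)
    (fun R => R.card_eq_multiplicity) (by
      have h2 : r ^ (Nat.card M).factorization r ∣ 720 := (Nat.ordProj_dvd _ _).trans hMd
      have h3 : r = 2 ∨ r = 3 ∨ r = 5 := by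
        rcases prime_cases hr ((hrM.trans hMd).trans (by norm_num)) with h | h | h | h
        · exact Or.inl h
        · exact Or.inr (Or.inl h)
        · exact Or.inr (Or.inr h)
        · exfalso; rw [h] at hrM; exact hM hrM
      generalize (Nat.card M).factorization r = k at *
      rcases h3 with rfl | rfl | rfl
      · have hk : k ≤ 4 := by
          by_contra hcon
          have := (pow_dvd_pow 2 (by omega : 5 ≤ k)).trans h2
          revert this; decide
        interval_cases k <;> exact chk _ _ (by norm_num) (by decide)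
      · have hk : k ≤ 2 := by
          by_contra hcon
          have := (pow_dvd_pow 3 (by omega : 3 ≤ k)).trans h2
          revert this; decide
        interval_cases k <;> exact chk _ _ (by norm_num) (by decide)
      · have hk : k ≤ 1 := by
          by_contra hcon
          have := (pow_dvd_pow 5 (by omega : 2 ≤ k)).trans h2
          revert this; decide
        interval_cases k <;> exact chk _ _ (by norm_num) (by decide))
  have h4 : r ∣ r ^ (Nat.card M).factorization r := by
    apply dvd_pow_self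
    exact (Nat.Prime.factorization_pos_of_dvd hr Nat.card_pos.ne' hrM).ne'
  rw [← B.cC]
  exact (h4.trans h1).trans (Subgroup.card_dvd_of_le inf_le_right)

end H86.Ord7920B
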