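import Mathlib
import Cfsg.Agent.Lib.H75.PCentral
import Cfsg.Agent.Lib.H86.Ord7920
import Cfsg.Agent.Lib.H86.Ord7920B

/-! Groups of order 7920 with disconnected prime graph: the cases `n = 1, 12, 144`. -/

set_option autoImplicit false

namespace H86.Ord7920C

open H86.Ord7920 H86.Ord7920B

variable {G : Type*} [Group G] [Finite G] {P : Sylow 11 G} {x : G} {n c e : ℕ}

theorem mul_lt_aux {a b : ℕ} (h : a * b = 7920) (h1 : 11 ∣ a) (h2 : 11 ∣ b) : False := by
  have : 11 * 11 ∣ 7920 := by rw [← h]; exact mul_dvd_mul h1 h2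
  revert this; decide

theorem P_le_of_dvd (B : Base P x n c e) (M : Subgroup G) [hM : M.Normal] (h : 11 ∣ Nat.card M) : (P : Subgroup G) ≤ M := by
  have h11 : Fact (Nat.Prime 11) := ⟨by norm_num⟩
  obtain ⟨R, _, hR⟩ := H75.PCentral.exists_sylow_between (p := 11) M ⊥ (by
    intro h2
    exact mul_lt_aux (by rw [← B.cG]; exact M.card_mul_index) h h2) IsPGroup.of_bot bot_le
  obtain ⟨g, hg⟩ := MulAction.exists_smul_eq G R P
  intro y hy
  have h1 : y ∈ ((g • R : Sylow 11 G) : Subgroup G) := by rw [hg]; exact hy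
  rw [Sylow.coe_subgroup_smul, Subgroup.mem_pointwise_smul_iff_inv_smul_mem] at h1
  have h2 : (MulAut.conj g)⁻¹ • y = g⁻¹ * y * g := by
    rw [← map_inv]
    show g⁻¹ * y * g⁻¹⁻¹ = _
    rw [inv_inv]
  rw [h2] at h1
  have h3 := hM.conj_mem _ (hR h1) g
  have e1 : g * (g⁻¹ * y * g) * g⁻¹ = y := by group
  rwa [e1] at h3

theorem P_le_N : (P : Subgroup G) ≤ Subgroup.normalizer ((P : Subgroup G) : Set G) := Subgroup.le_normalizer

/-- order of `M` from that of `N ⊓ M` -/
theorem card_M (N M : Subgroup G) [M.Normal] (h : N ⊔ M = ⊤) :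
    Nat.card N * Nat.card M = Nat.card (N ⊓ M : Subgroup G) * Nat.card G := by
  have h1 : M.index = M.relIndex N := by
    rw [← Subgroup.relIndex_top_right, ← h, Subgroup.relIndex_sup_right]
  have h2 : Nat.card (N ⊓ M : Subgroup G) * M.relIndex N = Nat.card N := by
    have h6 := Subgroup.relIndex_mul_relIndex ⊥ (N ⊓ M) N bot_le inf_le_left
    rw [Subgroup.relIndex_bot_left, Subgroup.relIndex_bot_left, Subgroup.inf_relIndex_left] at h6
    exact h6
  have h3 := M.index_mul_card
  rw [← h2, ← h3, h1]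
  ring

/-- `N(P) ⊓ M = P` gives a normal complement of `P` in `M` -/
theorem exists_L (B : Base P x n c e) (M : Subgroup G) [M.Normal] (hPM : (P : Subgroup G) ≤ M)
    (h : Nat.card (Subgroup.normalizer ((P : Subgroup G) : Set G) ⊓ M : Subgroup G) = 11) :
    ∃ L : Subgroup G, L.Normal ∧ L ≤ M ∧ Nat.card L * 11 = Nat.card M := by
  have h11 : Fact (Nat.Prime 11) := ⟨by norm_num⟩
  have h1 : (P : Subgroup G) = Subgroup.normalizer ((P : Subgroup G) : Set G) ⊓ M := by
    apply Subgroup.eq_of_le_of_card_ge (le_inf P_le_N hPM)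
    rw [h]; exact B.cP.ge
  have h2 := burn P M hPM (by
    intro g hg hgN
    have h3 : g ∈ (P : Subgroup G) := by rw [h1]; exact ⟨hgN, hg⟩
    rw [cent_eq B.Px]
    exact B.P_le_C h3)
  rwa [B.cP] at h2

/-- `e = 1` -/
theorem e_one (B : Base P x n c 1) : 3 ∣ 11 * c := by
  have h11 : Fact (Nat.Prime 11) := ⟨by norm_num⟩
  have h1 : Subgroup.centralizer ({x} : Set G) = Subgroup.normalizer ((P : Subgroup G) : Set G) := by
    apply Subgroup.eq_of_le_of_card_ge B.C_le_N
    rw [B.cN, B.cC, mul_one]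
  obtain ⟨L, hL, _, hLc⟩ := burn P (⊤ : Subgroup G) le_top (by
    intro g _ hgN
    rw [cent_eq B.Px, h1]
    exact hgN)
  rw [B.cP, Subgroup.card_top, B.cG] at hLc
  have hL' : Nat.card L = 720 := by omega
  exact B.core L (by rw [hL']; norm_num) 3 Nat.prime_three (by rw [hL']; norm_num)

/-- `n = 1` and `n = 12`: the edge `5 ~ 3` when `5` does not divide `c` and `e = 5, 10` -/
theorem edge_five (B : Base P x n c e) (h5 : ¬ 5 ∣ c) (h5e : 5 ∣ e) (m : ℕ) (hm : m = 3 ∨ m = 9)
    (hmN : ∀ R : Sylow 3 ((Subgroup.centralizer ({x} : Set G)).subgroupOf (Subgroup.normalizer ((P : Subgroup G) : Set G))), Nat.card R = m) :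
    ∃ g : G, orderOf g = 5 * 3 := by
  have h11 : Fact (Nat.Prime 11) := ⟨by norm_num⟩
  have h5f : Fact (Nat.Prime 5) := ⟨by norm_num⟩
  set N := Subgroup.normalizer ((P : Subgroup G) : Set G) with hN
  set C := Subgroup.centralizer ({x} : Set G) with hC
  have hCn : (C.subgroupOf N).Normal := by
    have h1 : C.subgroupOf N = (Subgroup.normalizerMonoidHom (P : Subgroup G)).ker := by
      rw [Subgroup.normalizerMonoidHom_ker, cent_eq B.Px]
    rw [h1]
    infer_instance
  have hCc : Nat.card (C.subgroupOf N) = 11 * c := by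
    rw [Nat.card_congr (Subgroup.subgroupOfEquivOfLe B.C_le_N).toEquiv, B.cC]
  have h5C : ¬ 5 ∣ Nat.card (C.subgroupOf N) := by
    rw [hCc]
    intro h
    rcases (Nat.Prime.dvd_mul h5f.out).1 h with h | h
    · revert h; decide
    · exact h5 h
  let Q : Sylow 5 N := Classical.arbitrary _
  have h5Q : 5 ∣ Nat.card Q := by
    apply Sylow.dvd_card_of_dvd_card Q
    rw [B.cN]
    exact h5e.mul_left _
  obtain ⟨⟨y, hyQ⟩, hy⟩ := exists_prime_orderOf_dvd_card' 5 h5Q
  have hy' : orderOf y = 5 := by rw [← hy]; exact (Subgroup.orderOf_mk y hyQ).symm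
  have h1 := sylow_fix 5 Q hyQ (by rw [← hy']; exact pow_orderOf_eq_one y) (C.subgroupOf N) h5C 3 m hmN (by
    rcases hm with rfl | rfl
    · exact chk _ _ (by norm_num) (by decide)
    · exact chk _ _ (by norm_num) (by decide))
  have h2 : 3 ∣ Nat.card (C.subgroupOf N ⊓ Subgroup.centralizer ({y} : Set N) : Subgroup N) := by
    refine dvd_trans ?_ h1
    rcases hm with rfl | rfl <;> norm_num
  obtain ⟨g, hg⟩ := edge_of_dvd (G := N) (by norm_num : (5 : ℕ).Prime) Nat.prime_three (by norm_num) hy' (inf_le_right) h2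
  exact ⟨g, by rw [← hg]; exact Subgroup.orderOf_coe g⟩

theorem star (B : Base P x n c e) {A : Set ℕ} (D : Disc G A) (h2 : 2 ∣ c) (h3 : 3 ∣ c)
    (h5 : (∃ g : G, orderOf g = 11 * 5) ∨ ∃ g : G, orderOf g = 5 * 3) : False := by
  have e2 : ∃ g : G, orderOf g = 11 * 2 := edge_of_dvd (by norm_num) Nat.prime_two (by norm_num) B.ox le_rfl (by
    rw [B.cC]; exact h2.mul_left _)
  have e3 : ∃ g : G, orderOf g = 11 * 3 := edge_of_dvd (by norm_num) Nat.prime_three (by norm_num) B.ox le_rfl (by
    rw [B.cC]; exact h3.mul_left _)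
  have i2 := D.iff (by norm_num) Nat.prime_two (by norm_num) (by norm_num) e2
  have i3 := D.iff (by norm_num) Nat.prime_three (by norm_num) (by norm_num) e3
  refine D.false i2.symm i3.symm ?_
  rcases h5 with h5 | h5
  · exact (D.iff (by norm_num) (by norm_num) (by norm_num) (by norm_num) h5).symm
  · exact (D.iff (by norm_num) Nat.prime_three (by norm_num) (by norm_num) h5).trans i3.symm

/-- `n = 1` -/
theorem n_one (B : Base P x 1 c e) {A : Set ℕ} (D : Disc G A) : False := by
  have h11 : Fact (Nat.Prime 11) := ⟨by norm_num⟩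
  have h3f : Fact (Nat.Prime 3) := ⟨by norm_num⟩
  have hce : c * e = 720 := by have := B.nce; omega
  have he := B.e10
  have hcc : Nat.card ((Subgroup.centralizer ({x} : Set G)).subgroupOf (Subgroup.normalizer ((P : Subgroup G) : Set G))) = 11 * c := by
    rw [Nat.card_congr (Subgroup.subgroupOfEquivOfLe B.C_le_N).toEquiv, B.cC]
  have he' : e = 1 ∨ e = 2 ∨ e = 5 ∨ e = 10 := by
    have h1 : e ≤ 10 := Nat.le_of_dvd (by norm_num) he
    interval_cases e <;> simp_all
  have h55 : ∀ h : 5 ∣ c, ∃ g : G, orderOf g = 11 * 5 := fun h =>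
    edge_of_dvd (by norm_num) (by norm_num) (by norm_num) B.ox le_rfl (by rw [B.cC]; exact h.mul_left _)
  rcases he' with rfl | rfl | rfl | rfl
  · have : c = 720 := by omega
    subst this
    exact star B D (by norm_num) (by norm_num) (Or.inl (h55 (by norm_num)))
  · have : c = 360 := by omega
    subst this
    exact star B D (by norm_num) (by norm_num) (Or.inl (h55 (by norm_num)))
  · have : c = 144 := by omega
    subst this
    refine star B D (by norm_num) (by norm_num) (Or.inr (edge_five B (by norm_num) (by norm_num) 9 (Or.inr rfl) ?_))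
    intro R
    exact card_sylow_of (k := 2) (m := 176) R (by rw [hcc]; norm_num) (by norm_num)
  · have : c = 72 := by omega
    subst this
    refine star B D (by norm_num) (by norm_num) (Or.inr (edge_five B (by norm_num) (by norm_num) 9 (Or.inr rfl) ?_))
    intro R
    exact card_sylow_of (k := 2) (m := 88) R (by rw [hcc]; norm_num) (by norm_num)

/-- `n = 12` -/
theorem n_twelve (B : Base P x 12 c e) {A : Set ℕ} (D : Disc G A) : False := by
  have h11 : Fact (Nat.Prime 11) := ⟨by norm_num⟩
  have h3f : Fact (Nat.Prime 3) := ⟨by norm_num⟩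
  have hce : c * e = 60 := by have := B.nce; omega
  have he := B.e10
  have hcc : Nat.card ((Subgroup.centralizer ({x} : Set G)).subgroupOf (Subgroup.normalizer ((P : Subgroup G) : Set G))) = 11 * c := by
    rw [Nat.card_congr (Subgroup.subgroupOfEquivOfLe B.C_le_N).toEquiv, B.cC]
  have he' : e = 1 ∨ e = 2 ∨ e = 5 ∨ e = 10 := by
    have h1 : e ≤ 10 := Nat.le_of_dvd (by norm_num) he
    interval_cases e <;> simp_all
  have h55 : ∀ h : 5 ∣ c, ∃ g : G, orderOf g = 11 * 5 := fun h =>
    edge_of_dvd (by norm_num) (by norm_num) (by norm_num) B.ox le_rfl (by rw [B.cC]; exact h.mul_left _)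
  rcases he' with rfl | rfl | rfl | rfl
  · have : c = 60 := by omega
    subst this
    exact star B D (by norm_num) (by norm_num) (Or.inl (h55 (by norm_num)))
  · have : c = 30 := by omega
    subst this
    exact star B D (by norm_num) (by norm_num) (Or.inl (h55 (by norm_num)))
  · have : c = 12 := by omega
    subst this
    refine star B D (by norm_num) (by norm_num) (Or.inr (edge_five B (by norm_num) (by norm_num) 3 (Or.inl rfl) ?_))
    intro R
    exact card_sylow_of (k := 1) (m := 44) R (by rw [hcc]; norm_num) (by norm_num)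
  · have : c = 6 := by omega
    subst this
    refine star B D (by norm_num) (by norm_num) (Or.inr (edge_five B (by norm_num) (by norm_num) 3 (Or.inl rfl) ?_))
    intro R
    exact card_sylow_of (k := 1) (m := 22) R (by rw [hcc]; norm_num) (by norm_num)

/-- `n = 144`: the group is simple -/
theorem n_144 (B : Base P x 144 c e) : ∀ M : Subgroup G, M.Normal → M = ⊥ ∨ M = ⊤ := by
  have h11 : Fact (Nat.Prime 11) := ⟨by norm_num⟩
  have hce : c * e = 5 := by have := B.nce; omega
  have he5 : e ∣ 5 := ⟨c, by rw [← hce]; ring⟩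
  rcases (Nat.dvd_prime (by norm_num)).1 he5 with rfl | rfl
  · exfalso
    have h1 := e_one B
    have : c = 5 := by omega
    subst this
    revert h1; decide
  have hc : c = 1 := by omega
  subst hc
  intro M hM
  by_cases hbot : M = ⊥
  · exact Or.inl hbot
  right
  have hM1 : Nat.card M ≠ 1 := fun h => hbot (Subgroup.eq_bot_of_card_eq M h)
  by_cases hd : 11 ∣ Nat.card M
  swap
  · exfalso
    obtain ⟨r, hr, hrM⟩ := Nat.exists_prime_and_dvd hM1
    have h1 := B.core M hd r hr hrM
    have h2 : r = 11 := (Nat.prime_dvd_prime_iff_eq hr (by norm_num)).1 (by simpa using h1)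
    rw [h2] at hrM
    exact hd hrM
  have hPM := P_le_of_dvd B M hd
  have hsup : Subgroup.normalizer ((P : Subgroup G) : Set G) ⊔ M = ⊤ := Sylow.normalizer_sup_eq_top' P hPM
  have hcM := card_M _ M hsup
  have hN : Nat.card (Subgroup.normalizer ((P : Subgroup G) : Set G)) = 55 := by rw [B.cN]
  have hle : (P : Subgroup G) ≤ (Subgroup.normalizer ((P : Subgroup G) : Set G) ⊓ M : Subgroup G) := le_inf P_le_N hPM
  have hdv : 11 ∣ Nat.card (Subgroup.normalizer ((P : Subgroup G) : Set G) ⊓ M : Subgroup G) := by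
    have h1 := Subgroup.card_dvd_of_le hle
    rwa [show Nat.card (P : Subgroup G) = 11 from B.cP] at h1
  have hdv2 : Nat.card (Subgroup.normalizer ((P : Subgroup G) : Set G) ⊓ M : Subgroup G) ∣ 55 := by
    rw [← hN]; exact Subgroup.card_dvd_of_le inf_le_left
  obtain ⟨k, hk⟩ := hdv
  have hk5 : k ∣ 5 := by
    rw [hk] at hdv2
    exact Nat.dvd_of_mul_dvd_mul_left (by norm_num : 0 < 11) (by simpa using hdv2)
  rcases (Nat.dvd_prime (by norm_num)).1 hk5 with rfl | rfl
  · exfalso
    obtain ⟨L, hL, hLM, hLc⟩ := exists_L B M hPM (by rw [hk])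
    rw [hk, hN, B.cG] at hcM
    have e3 : Nat.card L = 144 := by omega
    have := B.core L (by rw [e3]; norm_num) 2 Nat.prime_two (by rw [e3]; norm_num)
    revert this; decide
  · have h1 : Nat.card M = 7920 := by
      rw [hk, hN, B.cG] at hcM
      omega
    apply Subgroup.eq_top_of_card_eq
    rw [h1, B.cG]

end H86.Ord7920C
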