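import Mathlib
import Cfsg.Agent.Lib.H75.PCentral
import Cfsg.Agent.Lib.H72.PGroupCenter
import Cfsg.Agent.S0215
import Cfsg.Agent.Lib.H86.Ord7920
import Cfsg.Agent.Lib.H86.Ord7920B
import Cfsg.Agent.Lib.H86.Ord7920C

/-! Groups of order 7920 with disconnected prime graph: the case `n = 45`. -/

set_option autoImplicit false

namespace H86.Ord7920D

open H86.Ord7920 H86.Ord7920B H86.Ord7920C

variable {G : Type*} [Group G] [Finite G] {P : Sylow 11 G} {x : G}

/-- an element of `P` different from one -/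
theorem mem_N {n c e : ℕ} (B : Base P x n c e) {y g : G} (hy : y ∈ P) (hy1 : y ≠ 1) (h : g * y * g⁻¹ ∈ P) :
    g ∈ Subgroup.normalizer ((P : Subgroup G) : Set G) := by
  have h11 : (11 : ℕ).Prime := by norm_num
  have h1 : (P : Subgroup G) = Subgroup.zpowers y := by
    symm
    apply Subgroup.eq_of_le_of_card_ge
    · rw [Subgroup.zpowers_le]; exact hy
    · rw [Nat.card_zpowers, show Nat.card (P : Subgroup G) = 11 from B.cP]
      have h2 : orderOf y ∣ 11 := by
        rw [← B.cP]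
        have := orderOf_dvd_natCard (⟨y, hy⟩ : P)
        rwa [Subgroup.orderOf_mk y hy] at this
      rcases (Nat.dvd_prime h11).1 h2 with h3 | h3
      · exact absurd (orderOf_eq_one_iff.1 h3) hy1
      · exact h3.ge
  apply Subgroup.mem_normalizer_fintype
  intro z hz
  have hz' : z ∈ (P : Subgroup G) := hz
  rw [h1] at hz'
  obtain ⟨k, rfl⟩ := hz'
  show g * y ^ k * g⁻¹ ∈ (P : Subgroup G)
  rw [← conj_zpow]
  exact Subgroup.zpow_mem _ h k

theorem sq11 {x s : G} (hx : orderOf x = 11) (hs : s * s = 1) (k : ℕ) (h : s * x * s⁻¹ = x ^ k) :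
    s * x * s⁻¹ = x ∨ s * x * s⁻¹ = x⁻¹ := by
  have h1 : x ^ (k * k) = x := by
    have e1 : s * (s * x * s⁻¹) * s⁻¹ = x := by
      have : s * (s * x * s⁻¹) * s⁻¹ = (s * s) * x * (s * s)⁻¹ := by group
      rw [this, hs]; group
    rw [h, ← conj_pow, h, ← pow_mul] at e1
    exact e1
  have h2 : (k * k) % 11 = 1 := by
    have h3 : x ^ (k * k) = x ^ 1 := by rw [h1, pow_one]
    rw [pow_eq_pow_iff_modEq, hx] at h3
    exact h3
  have h4 : k % 11 = 1 ∨ k % 11 = 10 := by
    have h5 : (k % 11) * (k % 11) % 11 = 1 := by rw [← Nat.mul_mod]; exact h2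
    have h6 : k % 11 < 11 := Nat.mod_lt _ (by norm_num)
    generalize k % 11 = m at *
    interval_cases m <;> simp_all
  rw [h]
  rcases h4 with h4 | h4
  · left
    have : x ^ k = x ^ 1 := by rw [pow_eq_pow_iff_modEq, hx]; exact h4
    rw [this, pow_one]
  · right
    have : x ^ k = x ^ 10 := by rw [pow_eq_pow_iff_modEq, hx]; exact h4
    rw [this]
    apply eq_inv_of_mul_eq_one_left
    rw [← pow_succ]
    show x ^ 11 = 1
    rw [← hx]; exact pow_orderOf_eq_one x

/-- the involution `t` -/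
theorem exists_t (B : Base P x 45 8 2) : ∃ (U : Sylow 2 G) (t : G), (U : Subgroup G) ≤ Subgroup.normalizer ((P : Subgroup G) : Set G) ∧
    t ∈ U ∧ orderOf t = 2 ∧ t * x = x * t ∧ ∀ u ∈ U, u * t = t * u := by
  have h2f : Fact (Nat.Prime 2) := ⟨Nat.prime_two⟩
  set N := Subgroup.normalizer ((P : Subgroup G) : Set G) with hN
  set C := Subgroup.centralizer ({x} : Set G) with hC
  have hCn : (C.subgroupOf N).Normal := by
    have h1 : C.subgroupOf N = (Subgroup.normalizerMonoidHom (P : Subgroup G)).ker := by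
      rw [Subgroup.normalizerMonoidHom_ker, cent_eq B.Px]
    rw [h1]
    infer_instance
  -- a Sylow 2-subgroup of `C`
  let V : Sylow 2 C := Classical.arbitrary _
  have hV : IsPGroup 2 ((V : Subgroup C).map C.subtype) := V.2.map _
  have hVC : (V : Subgroup C).map C.subtype ≤ C := Subgroup.map_subtype_le _
  have hV8 : Nat.card ((V : Subgroup C).map C.subtype) = 8 := by
    rw [Nat.card_congr (Subgroup.equivMapOfInjective _ _ C.subtype_injective).toEquiv.symm]
    exact card_sylow_of (k := 3) (m := 11) V (by rw [B.cC]; norm_num) (by norm_num)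
  obtain ⟨U, hVU, hUN⟩ := H75.PCentral.exists_sylow_between (p := 2) N _ (by rw [B.idx]; norm_num) hV (hVC.trans B.C_le_N)
  have hYn : (C.subgroupOf (U : Subgroup G)).Normal := by
    refine ⟨fun y hy g => ?_⟩
    have h1 : (⟨(y : G), hUN y.2⟩ : N) ∈ C.subgroupOf N := hy
    exact hCn.conj_mem _ h1 ⟨(g : G), hUN g.2⟩
  have hYb : C.subgroupOf (U : Subgroup G) ≠ ⊥ := by
    intro h
    have h1 : (V : Subgroup C).map C.subtype ≤ ⊥ := by
      intro v hv
      have h2 : (⟨v, hVU hv⟩ : (U : Subgroup G)) ∈ C.subgroupOf (U : Subgroup G) := hVC hv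
      rw [h, Subgroup.mem_bot] at h2
      exact congrArg Subtype.val h2
    have h3 := Subgroup.card_le_of_le h1
    rw [hV8, Subgroup.card_bot] at h3
    omega
  have hne := H72.PGroupCenter.normal_inf_center_ne_bot U.2 (C.subgroupOf (U : Subgroup G)) hYb
  have hpg : IsPGroup 2 (C.subgroupOf (U : Subgroup G) ⊓ Subgroup.center (U : Subgroup G) : Subgroup (U : Subgroup G)) :=
    U.2.to_subgroup _
  have h2d : 2 ∣ Nat.card (C.subgroupOf (U : Subgroup G) ⊓ Subgroup.center (U : Subgroup G) : Subgroup (U : Subgroup G)) := by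
    rcases hpg.card_eq_or_dvd with h | h
    · exact absurd (Subgroup.eq_bot_of_card_eq _ h) hne
    · exact h
  obtain ⟨⟨⟨t, htU⟩, htC, htZ⟩, ht⟩ := exists_prime_orderOf_dvd_card' 2 h2d
  refine ⟨U, t, hUN, htU, ?_, ?_, ?_⟩
  · rw [← ht]
    exact ((Subgroup.orderOf_mk _ _).trans (Subgroup.orderOf_mk _ _)).symm
  · have h1 : t ∈ Subgroup.centralizer ({x} : Set G) := htC
    rw [Subgroup.mem_centralizer_singleton_iff] at h1
    exact h1
  · intro u hu
    have h1 := Subgroup.mem_center_iff.1 htZ ⟨u, hu⟩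
    exact congrArg Subtype.val h1

theorem D_cases (B : Base P x 45 8 2) {U : Sylow 2 G} {t : G}
    (hUN : (U : Subgroup G) ≤ Subgroup.normalizer ((P : Subgroup G) : Set G)) (htx : t * x = x * t) (htU : ∀ u ∈ U, u * t = t * u) :
    Subgroup.centralizer ({t} : Set G) = ⊤ ∨
    Subgroup.centralizer ({t} : Set G) = Subgroup.normalizer ((P : Subgroup G) : Set G) := by
  have h2f : Fact (Nat.Prime 2) := ⟨Nat.prime_two⟩
  have h11f : Fact (Nat.Prime 11) := ⟨by norm_num⟩
  set N := Subgroup.normalizer ((P : Subgroup G) : Set G) with hN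
  set D := Subgroup.centralizer ({t} : Set G) with hD
  have hU16 : Nat.card U = 16 := card_sylow_of (k := 4) (m := 495) U (by rw [B.cG]; norm_num) (by norm_num)
  have hUD : (U : Subgroup G) ≤ D := by
    intro u hu
    rw [hD, Subgroup.mem_centralizer_singleton_iff]
    exact htU u hu
  have hPD : (P : Subgroup G) ≤ D := by
    rw [B.Px, Subgroup.zpowers_le, hD, Subgroup.mem_centralizer_singleton_iff]
    exact htx.symm
  have hNe : (U : Subgroup G) ⊔ (P : Subgroup G) = N := by
    apply Subgroup.eq_of_le_of_card_ge (sup_le hUN P_le_N)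
    rw [B.cN]
    apply Nat.le_of_dvd Nat.card_pos
    have h1 : 16 ∣ Nat.card ((U : Subgroup G) ⊔ (P : Subgroup G) : Subgroup G) := by
      rw [← hU16]; exact Subgroup.card_dvd_of_le le_sup_left
    have h2 : 11 ∣ Nat.card ((U : Subgroup G) ⊔ (P : Subgroup G) : Subgroup G) := by
      have := Subgroup.card_dvd_of_le (le_sup_right : (P : Subgroup G) ≤ (U : Subgroup G) ⊔ (P : Subgroup G))
      rwa [show Nat.card (P : Subgroup G) = 11 from B.cP] at this
    have h3 : 16 * 11 ∣ Nat.card ((U : Subgroup G) ⊔ (P : Subgroup G) : Subgroup G) :=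
      Nat.Coprime.mul_dvd_of_dvd_of_dvd (by norm_num) h1 h2
    exact h3
  have hND : N ≤ D := by rw [← hNe]; exact sup_le hUD hPD
  have h1 := card_sylow_modEq_one 11 D
  rw [(P.subtype hPD).card_eq_index_normalizer] at h1
  have h2 : (Subgroup.normalizer ((P.subtype hPD : Sylow 11 D) : Set D)).index = N.relIndex D := by
    have h3 : Subgroup.normalizer (((P.subtype hPD : Sylow 11 D) : Subgroup D) : Set D) = N.subgroupOf D := by
      rw [Sylow.coe_subtype, ← Subgroup.subgroupOf_normalizer_eq hPD]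
    rw [show ((P.subtype hPD : Sylow 11 D) : Set D) = (((P.subtype hPD : Sylow 11 D) : Subgroup D) : Set D) from rfl, h3]
    rfl
  rw [h2] at h1
  have h4 := Subgroup.relIndex_mul_index hND
  rw [B.idx] at h4
  have h5 : N.relIndex D ∣ 45 := ⟨_, h4.symm⟩
  have h6 : N.relIndex D = 1 ∨ N.relIndex D = 45 := by
    have h7 : N.relIndex D ≤ 45 := Nat.le_of_dvd (by norm_num) h5
    have h1' : N.relIndex D % 11 = 1 % 11 := h1
    generalize N.relIndex D = m at *
    interval_cases m <;> simp_all <;> revert h5 <;> decide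
  rcases h6 with h6 | h6
  · right
    exact le_antisymm (Subgroup.relIndex_eq_one.1 h6) hND
  · left
    rw [h6] at h4
    exact Subgroup.index_eq_one.1 (by omega)

theorem central_case (B : Base P x 45 8 2) {A : Set ℕ} (D : Disc G A) {t : G} (ht : orderOf t = 2)
    (h : Subgroup.centralizer ({t} : Set G) = ⊤) : False := by
  have key : ∀ p : ℕ, p.Prime → p ∣ 7920 → p ≠ 2 → (2 ∈ A ↔ p ∈ A) := by
    intro p hp hd h2
    apply D.iff Nat.prime_two hp (by norm_num) hd
    exact edge_of_dvd Nat.prime_two hp (Ne.symm h2) ht (H := ⊤) (by rw [h]) (by rw [Subgroup.card_top, D.card]; exact hd)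
  have k3 := key 3 Nat.prime_three (by norm_num) (by norm_num)
  have k5 := key 5 (by norm_num) (by norm_num) (by norm_num)
  have k11 := key 11 (by norm_num) (by norm_num) (by norm_num)
  exact D.false k11 (k3.symm.trans k11) (k5.symm.trans k11)

/-- no large normal subgroup of odd order -/
theorem no_odd (B : Base P x 45 8 2) (M : Subgroup G) [M.Normal] (hodd : Odd (Nat.card M)) (h45 : 45 ≤ Nat.card M) : False := by
  have hcore : ∀ L : Subgroup G, L.Normal → Odd (Nat.card L) → ¬ 11 ∣ Nat.card L → Nat.card L = 1 := by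
    intro L hL hLo hL11
    by_contra h1
    obtain ⟨r, hr, hrL⟩ := Nat.exists_prime_and_dvd h1
    have h2 := B.core L hL11 r hr hrL
    have h3 : r ∣ 2 ^ 3 * 11 := by norm_num; exact h2
    rcases (Nat.Prime.dvd_mul hr).1 h3 with h4 | h4
    · have h5 := (Nat.prime_dvd_prime_iff_eq hr Nat.prime_two).1 (hr.dvd_of_dvd_pow h4)
      rw [h5] at hrL
      exact (Nat.not_even_iff_odd.2 hLo) (even_iff_two_dvd.2 hrL)
    · have h5 := (Nat.prime_dvd_prime_iff_eq hr (by norm_num)).1 h4
      rw [h5] at hrL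
      exact hL11 hrL
  by_cases hd : 11 ∣ Nat.card M
  swap
  · have := hcore M inferInstance hodd hd
    omega
  have hPM := P_le_of_dvd B M hd
  have hle : (P : Subgroup G) ≤ (Subgroup.normalizer ((P : Subgroup G) : Set G) ⊓ M : Subgroup G) := le_inf P_le_N hPM
  have hdv : 11 ∣ Nat.card (Subgroup.normalizer ((P : Subgroup G) : Set G) ⊓ M : Subgroup G) := by
    have h1 := Subgroup.card_dvd_of_le hle
    rwa [show Nat.card (P : Subgroup G) = 11 from B.cP] at h1
  have hdv2 : Nat.card (Subgroup.normalizer ((P : Subgroup G) : Set G) ⊓ M : Subgroup G) ∣ 176 := by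
    have h1 : Nat.card (Subgroup.normalizer ((P : Subgroup G) : Set G)) = 176 := by rw [B.cN]
    rw [← h1]; exact Subgroup.card_dvd_of_le inf_le_left
  have hodd2 : Odd (Nat.card (Subgroup.normalizer ((P : Subgroup G) : Set G) ⊓ M : Subgroup G)) :=
    Odd.of_dvd_nat hodd (Subgroup.card_dvd_of_le inf_le_right)
  have h11 : Nat.card (Subgroup.normalizer ((P : Subgroup G) : Set G) ⊓ M : Subgroup G) = 11 := by
    have h1 : Nat.card (Subgroup.normalizer ((P : Subgroup G) : Set G) ⊓ M : Subgroup G) ∣ 11 := by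
      have h2 : Nat.card (Subgroup.normalizer ((P : Subgroup G) : Set G) ⊓ M : Subgroup G) ∣ 2 ^ 4 * 11 := by
        norm_num; exact hdv2
      exact (Nat.Coprime.pow_right 4 (Nat.coprime_two_right.2 hodd2)).dvd_of_dvd_mul_left h2
    exact Nat.dvd_antisymm h1 hdv
  obtain ⟨L, hL, hLM, hLc⟩ := exists_L B M hPM h11
  have h1 : Nat.card L = 1 := by
    apply hcore L hL (Odd.of_dvd_nat hodd (Subgroup.card_dvd_of_le hLM))
    intro h2
    have h3 : 11 * 11 ∣ Nat.card M := by rw [← hLc]; exact mul_dvd_mul h2 dvd_rfl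
    have h4 : 11 * 11 ∣ 7920 := by rw [← B.cG]; exact h3.trans (Subgroup.card_subgroup_dvd_card M)
    revert h4; decide
  rw [h1] at hLc
  omega

/-- the isolated case -/
theorem iso_case (B : Base P x 45 8 2) {U : Sylow 2 G} {t : G} (htU : t ∈ U) (ht : orderOf t = 2)
    (hD : Subgroup.centralizer ({t} : Set G) = Subgroup.normalizer ((P : Subgroup G) : Set G))
    (hiso : ∀ g : G, g * t * g⁻¹ ∈ U → g * t * g⁻¹ = t) : False := by
  classical
  obtain ⟨M, hM, hodd, hc⟩ := Cfsg.Agent.S0215.result U t ht htU hiso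
  apply no_odd B M hodd
  have h1 : Nat.card (G ⧸ Subgroup.centralizer ({t} : Set G)) = 45 := by
    rw [← Subgroup.index_eq_card, hD, B.idx]
  rw [← h1]
  apply Nat.card_le_card_of_injective (fun q : G ⧸ Subgroup.centralizer ({t} : Set G) =>
    (⟨t * q.out * t⁻¹ * q.out⁻¹, hc q.out⟩ : M))
  intro q r hqr
  have h2 : t * q.out * t⁻¹ * q.out⁻¹ = t * r.out * t⁻¹ * r.out⁻¹ := congrArg Subtype.val hqr
  have h3 : q.out * t⁻¹ * q.out⁻¹ = r.out * t⁻¹ * r.out⁻¹ := by
    have := congrArg (fun z => t⁻¹ * z) h2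
    simpa [mul_assoc] using this
  rw [← Quotient.out_eq' q, ← Quotient.out_eq' r]
  apply QuotientGroup.eq.2
  rw [Subgroup.mem_centralizer_singleton_iff]
  have h4 : q.out * t * q.out⁻¹ = r.out * t * r.out⁻¹ := by
    have := congrArg (fun z => z⁻¹) h3
    simpa [mul_assoc] using this
  calc q.out⁻¹ * r.out * t = q.out⁻¹ * (r.out * t * r.out⁻¹) * r.out := by group
    _ = q.out⁻¹ * (q.out * t * q.out⁻¹) * r.out := by rw [h4]
    _ = t * (q.out⁻¹ * r.out) := by group

/-- the non-isolated case -/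
theorem fus_case (B : Base P x 45 8 2) {t g : G} (ht : orderOf t = 2)
    (hD : Subgroup.centralizer ({t} : Set G) = Subgroup.normalizer ((P : Subgroup G) : Set G))
    (hg : g * t * g⁻¹ ∈ Subgroup.normalizer ((P : Subgroup G) : Set G)) (hne : g * t * g⁻¹ ≠ t) : False := by
  classical
  set s := g * t * g⁻¹ with hs
  have ht2 : t * t = 1 := by rw [← pow_two, ← ht]; exact pow_orderOf_eq_one t
  have hs2 : s * s = 1 := by
    rw [hs]
    calc g * t * g⁻¹ * (g * t * g⁻¹) = g * (t * t) * g⁻¹ := by group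
      _ = 1 := by rw [ht2]; group
  have hsi : s⁻¹ = s := inv_eq_of_mul_eq_one_left hs2
  have hx1 : x ≠ 1 := by
    intro h
    have := B.ox
    rw [h, orderOf_one] at this
    omega
  have hxs : s * x * s⁻¹ ∈ P := by
    have := (Subgroup.mem_normalizer_iff.1 hg x).1 B.x_mem
    exact this
  obtain ⟨k, hk⟩ : ∃ k : ℕ, s * x * s⁻¹ = x ^ k := by
    have h1 : s * x * s⁻¹ ∈ (P : Subgroup G) := hxs
    rw [B.Px] at h1
    rw [← mem_powers_iff_mem_zpowers] at h1
    obtain ⟨k, hk⟩ := h1
    exact ⟨k, hk.symm⟩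
  rcases sq11 B.ox hs2 k hk with h1 | h1
  · -- `s` centralizes `x`
    have h2 : g⁻¹ * x * g ∈ Subgroup.normalizer ((P : Subgroup G) : Set G) := by
      rw [← hD, Subgroup.mem_centralizer_singleton_iff]
      have h3 : x * s = s * x := by
        calc x * s = (s * x * s⁻¹) * s := by rw [h1]
          _ = s * x := by group
      have h4 : g⁻¹ * (x * s) * g = g⁻¹ * (s * x) * g := by rw [h3]
      rw [hs] at h4
      calc g⁻¹ * x * g * t = g⁻¹ * (x * (g * t * g⁻¹)) * g := by group
        _ = g⁻¹ * (g * t * g⁻¹ * x) * g := h4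
        _ = t * (g⁻¹ * x * g) := by group
    have h5 : IsPGroup 11 (Subgroup.zpowers (g⁻¹ * x * g)) := by
      apply IsPGroup.of_card (n := 1)
      rw [Nat.card_zpowers, pow_one]
      have : g⁻¹ * x * g = (MulAut.conj g⁻¹) x := by simp
      rw [this, MulEquiv.orderOf_eq, B.ox]
    have h6 := h5.inf_normalizer_sylow P
    have h7 : g⁻¹ * x * g ∈ (P : Subgroup G) := by
      have h8 : g⁻¹ * x * g ∈ Subgroup.zpowers (g⁻¹ * x * g) ⊓ Subgroup.normalizer ((P : Subgroup G) : Set G) :=
        ⟨Subgroup.mem_zpowers _, h2⟩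
      rw [show ((P : Subgroup G) : Set G) = (P : Set G) from rfl, h6] at h8
      exact h8.2
    have h9 : g⁻¹ ∈ Subgroup.normalizer ((P : Subgroup G) : Set G) := by
      apply mem_N B B.x_mem hx1
      rw [inv_inv]; exact h7
    have h10 : g ∈ Subgroup.centralizer ({t} : Set G) := by
      rw [hD]
      have := inv_mem h9
      rwa [inv_inv] at this
    rw [Subgroup.mem_centralizer_singleton_iff] at h10
    apply hne
    rw [hs, h10]; group
  · -- `s` inverts `x`
    have hinv : ∀ j : ℕ, s * x ^ j * s⁻¹ = (x ^ j)⁻¹ := by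
      intro j
      rw [← conj_pow, h1, inv_pow]
    let K := Set.range (fun h : G => h * t * h⁻¹)
    have hKc : Nat.card K ≤ 45 := by
      have h2 : Nat.card (G ⧸ Subgroup.centralizer ({t} : Set G)) = 45 := by
        rw [← Subgroup.index_eq_card, hD, B.idx]
      rw [← h2]
      apply Nat.card_le_card_of_injective (fun k : K => (QuotientGroup.mk (Classical.choose k.2) : G ⧸ Subgroup.centralizer ({t} : Set G)))
      intro k l hkl
      have h3 := QuotientGroup.eq.1 hkl
      rw [Subgroup.mem_centralizer_singleton_iff] at h3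
      have hk := Classical.choose_spec k.2
      have hl := Classical.choose_spec l.2
      set a := Classical.choose k.2 with ha
      set b := Classical.choose l.2 with hb
      apply Subtype.ext
      rw [← hk, ← hl]
      show a * t * a⁻¹ = b * t * b⁻¹
      have h4 : a * (a⁻¹ * b * t) * b⁻¹ = a * (t * (a⁻¹ * b)) * b⁻¹ := by rw [h3]
      calc a * t * a⁻¹ = a * (t * (a⁻¹ * b)) * b⁻¹ := by group
        _ = a * (a⁻¹ * b * t) * b⁻¹ := by rw [h4]
        _ = b * t * b⁻¹ := by group
    have hmem : ∀ (o : G) (j : ℕ), o * (x ^ j * s) * o⁻¹ ∈ K := by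
      intro o j
      refine ⟨o * x ^ (6 * j) * g, ?_⟩
      show o * x ^ (6 * j) * g * t * (o * x ^ (6 * j) * g)⁻¹ = o * (x ^ j * s) * o⁻¹
      have h2 : s * (x ^ (6 * j))⁻¹ = x ^ (6 * j) * s := by
        have := hinv (6 * j)
        calc s * (x ^ (6 * j))⁻¹ = s * (s * x ^ (6 * j) * s⁻¹) := by rw [this]
          _ = (s * s) * x ^ (6 * j) * s⁻¹ := by group
          _ = x ^ (6 * j) * s := by rw [hs2, one_mul, hsi]
      have h3 : x ^ (6 * j) * x ^ (6 * j) = x ^ j := by
        rw [← pow_add, pow_eq_pow_iff_modEq, B.ox]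
        show (6 * j + 6 * j) % 11 = j % 11
        omega
      calc o * x ^ (6 * j) * g * t * (o * x ^ (6 * j) * g)⁻¹
          = o * (x ^ (6 * j) * (s * (x ^ (6 * j))⁻¹)) * o⁻¹ := by rw [hs]; group
        _ = o * (x ^ (6 * j) * x ^ (6 * j) * s) * o⁻¹ := by rw [h2]; group
        _ = o * (x ^ j * s) * o⁻¹ := by rw [h3]
    let F : (G ⧸ Subgroup.normalizer ((P : Subgroup G) : Set G)) × (Fin 11 × Fin 10) → K × K := fun z =>
      (⟨z.1.out * (x ^ (z.2.1 : ℕ) * s) * z.1.out⁻¹, hmem _ _⟩,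
        ⟨z.1.out * (x ^ ((z.2.1 : ℕ) + ((z.2.2 : ℕ) + 1)) * s) * z.1.out⁻¹, hmem _ _⟩)
    have hF : Function.Injective F := by
      rintro ⟨q, i, j⟩ ⟨q', i', j'⟩ h
      have e1 : q.out * (x ^ (i : ℕ) * s) * q.out⁻¹ = q'.out * (x ^ (i' : ℕ) * s) * q'.out⁻¹ :=
        congrArg Subtype.val (congrArg Prod.fst h)
      have e2 : q.out * (x ^ ((i : ℕ) + ((j : ℕ) + 1)) * s) * q.out⁻¹ = q'.out * (x ^ ((i' : ℕ) + ((j' : ℕ) + 1)) * s) * q'.out⁻¹ :=
        congrArg Subtype.val (congrArg Prod.snd h)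
      have e3 : ∀ (o : G) (i j : ℕ), (o * (x ^ i * s) * o⁻¹)⁻¹⁻¹ * (o * (x ^ (i + j) * s) * o⁻¹)⁻¹ = o * (x ^ j)⁻¹ * o⁻¹ := by
        intro o i j
        have c1 : x ^ i * (x ^ (i + j))⁻¹ = (x ^ j)⁻¹ := by
          rw [add_comm, pow_add, _root_.mul_inv_rev]; group
        calc (o * (x ^ i * s) * o⁻¹)⁻¹⁻¹ * (o * (x ^ (i + j) * s) * o⁻¹)⁻¹
            = o * (x ^ i * (x ^ (i + j))⁻¹) * o⁻¹ := by group
          _ = _ := by rw [c1]
      have e4 : q.out * (x ^ ((j : ℕ) + 1))⁻¹ * q.out⁻¹ = q'.out * (x ^ ((j' : ℕ) + 1))⁻¹ * q'.out⁻¹ := by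
        rw [← e3 q.out i ((j : ℕ) + 1), ← e3 q'.out i' ((j' : ℕ) + 1), e1, e2]
      have hxp : ∀ j : ℕ, (x ^ j)⁻¹ ∈ P := fun j => inv_mem (Subgroup.pow_mem _ B.x_mem j)
      have e5 : q'.out⁻¹ * q.out ∈ Subgroup.normalizer ((P : Subgroup G) : Set G) := by
        apply mem_N B (hxp ((j : ℕ) + 1))
        · intro h2
          rw [inv_eq_one] at h2
          have h3 := orderOf_dvd_of_pow_eq_one h2
          rw [B.ox] at h3
          have h4 := Nat.le_of_dvd (by omega) h3
          have := j.2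
          omega
        · have : q'.out⁻¹ * q.out * (x ^ ((j : ℕ) + 1))⁻¹ * (q'.out⁻¹ * q.out)⁻¹ = (x ^ ((j' : ℕ) + 1))⁻¹ := by
            calc q'.out⁻¹ * q.out * (x ^ ((j : ℕ) + 1))⁻¹ * (q'.out⁻¹ * q.out)⁻¹
                = q'.out⁻¹ * (q.out * (x ^ ((j : ℕ) + 1))⁻¹ * q.out⁻¹) * q'.out := by group
              _ = q'.out⁻¹ * (q'.out * (x ^ ((j' : ℕ) + 1))⁻¹ * q'.out⁻¹) * q'.out := by rw [e4]
              _ = _ := by group
          rw [this]
          exact hxp _
      have e6 : q' = q := by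
        rw [← Quotient.out_eq' q, ← Quotient.out_eq' q']
        exact QuotientGroup.eq.2 e5
      subst e6
      have c1 : x ^ (i : ℕ) = x ^ (i' : ℕ) := by
        have := mul_right_cancel (mul_left_cancel (mul_right_cancel e1))
        exact this
      have c2 : x ^ ((i : ℕ) + ((j : ℕ) + 1)) = x ^ ((i' : ℕ) + ((j' : ℕ) + 1)) :=
        mul_right_cancel (mul_left_cancel (mul_right_cancel e2))
      rw [pow_eq_pow_iff_modEq, B.ox] at c1 c2
      have c1' : (i : ℕ) % 11 = (i' : ℕ) % 11 := c1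
      have c2' : ((i : ℕ) + ((j : ℕ) + 1)) % 11 = ((i' : ℕ) + ((j' : ℕ) + 1)) % 11 := c2
      have l1 := i.2
      have l2 := i'.2
      have l3 := j.2
      have l4 := j'.2
      have f1 : i = i' := Fin.ext (by omega)
      have f2 : j = j' := Fin.ext (by omega)
      rw [f1, f2]
    have hcard := Nat.card_le_card_of_injective F hF
    rw [Nat.card_prod, Nat.card_prod, Nat.card_prod, Nat.card_fin, Nat.card_fin, ← Subgroup.index_eq_card, B.idx] at hcard
    have := Nat.mul_le_mul hKc hKc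
    omega

/-- `n = 45` -/
theorem n_45 {c e : ℕ} (B : Base P x 45 c e) {A : Set ℕ} (D : Disc G A) : False := by
  have hce : c * e = 16 := by have := B.nce; omega
  have he := B.e10
  have he' : e = 1 ∨ e = 2 := by
    have h1 : e ≤ 10 := Nat.le_of_dvd (by norm_num) he
    have h2 : e ∣ 16 := ⟨c, by rw [← hce]; ring⟩
    interval_cases e <;> simp_all <;> revert h2 <;> decide
  rcases he' with rfl | rfl
  · have h1 := e_one B
    have : c = 16 := by omega
    subst this
    revert h1; decide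
  have : c = 8 := by omega
  subst this
  obtain ⟨U, t, hUN, htU, ht, htx, htc⟩ := exists_t B
  rcases D_cases B hUN htx htc with h | h
  · exact central_case B D ht h
  by_cases hiso : ∀ g : G, g * t * g⁻¹ ∈ U → g * t * g⁻¹ = t
  · exact iso_case B htU ht h hiso
  · push Not at hiso
    obtain ⟨g, hg, hne⟩ := hiso
    exact fus_case B ht h (hUN hg) hne

theorem simple {A : Set ℕ} (D : Disc G A) : IsSimpleGroup G := by
  obtain ⟨P, x, n, c, e, B⟩ := exists_base D.card
  have hn : n = 1 ∨ n = 12 ∨ n = 45 ∨ n = 144 := by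
    have h1 : n ∣ 720 := ⟨c * e, B.nce.symm⟩
    have h2 := B.n11
    have h3 : ∀ m ∈ Nat.divisors 720, m % 11 = 1 → m = 1 ∨ m = 12 ∨ m = 45 ∨ m = 144 := by decide +kernel
    exact h3 n (Nat.mem_divisors.2 ⟨h1, by norm_num⟩) h2
  rcases hn with rfl | rfl | rfl | rfl
  · exact (n_one B D).elim
  · exact (n_twelve B D).elim
  · exact (n_45 B D).elim
  · have : Nontrivial G := by
      rw [← Finite.one_lt_card_iff_nontrivial, D.card]; norm_num
    exact ⟨fun M hM => n_144 B M hM⟩

end H86.Ord7920D
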