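import Mathlib
import Cfsg.Agent.Lib.H54.L34b
import Cfsg.Agent.Lib.H26.FpfThree
import Cfsg.Agent.Lib.H76.MaxClass

/-! Groups of order 64 on which `S₃` acts, the element of order three without fixed points. -/

set_option autoImplicit false

namespace H86.S64

open H26.FpfThree H54.L34
open scoped commutatorElement

structure S3Hyp {T : Type*} [Group T] (ρ x : MulAut T) : Prop where
  fpf : Fpf3 ρ
  sq : ∀ t, x (x t) = t
  inv : ∀ t, x (ρ t) = ρ (ρ (x t))

variable {T : Type*} [Group T] {ρ x : MulAut T}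

theorem inj_C (h : S3Hyp ρ x) {c d c' d' : T} (hc : x c = c) (hd : x d = d) (hc' : x c' = c') (hd' : x d' = d')
    (he : c * ρ d = c' * ρ d') : c = c' ∧ d = d' := by
  have h1 : c'⁻¹ * c = ρ (d' * d⁻¹) := by
    rw [map_mul, map_inv, inv_mul_eq_iff_eq_mul, ← mul_assoc, ← he, mul_inv_cancel_right]
  have h2 : x (c'⁻¹ * c) = c'⁻¹ * c := by rw [map_mul, map_inv, hc, hc']
  have h3 : x (d' * d⁻¹) = d' * d⁻¹ := by rw [map_mul, map_inv, hd, hd']
  rw [h1, h.inv, h3] at h2
  have h4 : ρ (d' * d⁻¹) = d' * d⁻¹ := ρ.injective h2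
  have h5 := h.fpf.fpf _ h4
  refine ⟨?_, (mul_inv_eq_one.mp h5).symm⟩
  rw [h5, map_one, inv_mul_eq_one] at h1
  exact h1.symm

theorem inj_I [Finite T] (h : S3Hyp ρ x) {y w y' w' : T} (hy : x y = y⁻¹) (hw : x w = w⁻¹) (hy' : x y' = y'⁻¹)
    (hw' : x w' = w'⁻¹) (he : y * ρ w = y' * ρ w') : y = y' ∧ w = w' := by
  set t := y'⁻¹ * y with ht
  have h1 : t = ρ (w' * w⁻¹) := by
    rw [ht, map_mul, map_inv, inv_mul_eq_iff_eq_mul, ← mul_assoc, ← he, mul_inv_cancel_right]
  have h2 : x t = y' * y⁻¹ := by rw [ht, map_mul, map_inv, hy, hy', inv_inv]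
  have h3 : x t = ρ (ρ (w'⁻¹ * w)) := by
    rw [h1, h.inv, map_mul x, map_inv x, hw, hw', inv_inv]
  have h4 : ρ t = (ρ (ρ w') * y') * t * (ρ (ρ w') * y')⁻¹ := by
    have e1 : y' * y⁻¹ = y' * t⁻¹ * y'⁻¹ := by rw [ht]; group
    have e2 : ρ (ρ (w'⁻¹ * w)) = (ρ (ρ w'))⁻¹ * (ρ t)⁻¹ * ρ (ρ w') := by
      rw [h1, ← map_inv ρ, ← map_inv ρ, ← map_inv ρ, ← map_inv ρ, ← map_mul ρ, ← map_mul ρ, ← map_mul ρ, ← map_mul ρ]
      congr 2
      group
    have e3 : y' * t⁻¹ * y'⁻¹ = (ρ (ρ w'))⁻¹ * (ρ t)⁻¹ * ρ (ρ w') := by rw [← e1, ← h2, h3, e2]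
    have e4 : (ρ t)⁻¹ = ρ (ρ w') * (y' * t⁻¹ * y'⁻¹) * (ρ (ρ w'))⁻¹ := by rw [e3]; group
    rw [← inv_inv (ρ t), e4]
    group
  have h5 : t = 1 := by
    obtain ⟨g, hg⟩ := h.fpf.exists_eq (ρ (ρ w') * y')⁻¹
    have h6 : ρ (g * t * g⁻¹) = g * t * g⁻¹ := by
      have hg' : ρ (ρ w') * y' = (ρ g)⁻¹ * g := by
        rw [← inv_inv (ρ (ρ w') * y'), hg]; group
      rw [map_mul, map_mul, map_inv, h4, hg']
      group
    have h7 := h.fpf.fpf _ h6
    have h8 : t = g⁻¹ * (g * t * g⁻¹) * g := by group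
    rw [h8, h7]; group
  refine ⟨?_, ?_⟩
  · rw [ht] at h5
    exact (inv_mul_eq_one.mp h5).symm
  · rw [h5] at h1
    have := ρ.injective (h1.symm.trans (map_one ρ).symm)
    exact (mul_inv_eq_one.mp this).symm

/-- the fixed points of `x` have order `8` -/
theorem card_C (h : S3Hyp ρ x) (hT : Nat.card T = 64) (C : Subgroup T) (hC : ∀ y : T, y ∈ C ↔ x y = y) :
    Nat.card C = 8 ∧ ∀ t : T, ∃ c ∈ C, ∃ d ∈ C, t = c * ρ d := by
  have hfT : Finite T := Nat.finite_of_card_ne_zero (by rw [hT]; norm_num)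
  let I := {y : T // x y = y⁻¹}
  have h1 : Nat.card (C × C) ≤ 64 := by
    rw [← hT]
    apply Nat.card_le_card_of_injective (fun w : C × C => (w.1 : T) * ρ w.2)
    rintro ⟨c, d⟩ ⟨c', d'⟩ he
    obtain ⟨e1, e2⟩ := inj_C h ((hC _).mp c.2) ((hC _).mp d.2) ((hC _).mp c'.2) ((hC _).mp d'.2) he
    exact Prod.ext (Subtype.ext e1) (Subtype.ext e2)
  have h2 : Nat.card (I × I) ≤ 64 := by
    rw [← hT]
    apply Nat.card_le_card_of_injective (fun w : I × I => (w.1 : T) * ρ w.2)
    rintro ⟨c, d⟩ ⟨c', d'⟩ he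
    obtain ⟨e1, e2⟩ := inj_I h c.2 d.2 c'.2 d'.2 he
    exact Prod.ext (Subtype.ext e1) (Subtype.ext e2)
  have h3 : C.index ≤ Nat.card I := by
    have hI : ∀ g : T, x (g * (x g)⁻¹) = (g * (x g)⁻¹)⁻¹ := by
      intro g
      rw [map_mul, map_inv, h.sq]
      group
    let f : T ⧸ C → I := Quotient.lift (fun g : T => (⟨g * (x g)⁻¹, hI g⟩ : I)) (by
      intro a b hab
      apply Subtype.ext
      show a * (x a)⁻¹ = b * (x b)⁻¹
      have : a⁻¹ * b ∈ C := QuotientGroup.leftRel_apply.mp hab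
      rw [hC, map_mul, map_inv] at this
      have e : x b = x a * (a⁻¹ * b) := by rw [← this]; group
      rw [e]; group)
    apply Nat.card_le_card_of_injective f
    intro a b hab
    induction a using QuotientGroup.induction_on with | H a => ?_
    induction b using QuotientGroup.induction_on with | H b => ?_
    have hab' : a * (x a)⁻¹ = b * (x b)⁻¹ := congrArg Subtype.val hab
    rw [QuotientGroup.eq, hC, map_mul, map_inv]
    have e : b = a * (x a)⁻¹ * x b := by rw [hab']; group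
    conv_rhs => rw [e]
    group
  have h4 := C.card_mul_index
  rw [hT] at h4
  rw [Nat.card_prod] at h1 h2
  have h5 : Nat.card C ≤ 8 := by nlinarith
  have h6 : Nat.card I ≤ 8 := by nlinarith
  have h7 : Nat.card C = 8 := by nlinarith
  refine ⟨h7, ?_⟩
  have h8 : Function.Bijective (fun w : C × C => (w.1 : T) * ρ w.2) := by
    rw [Nat.bijective_iff_injective_and_card]
    refine ⟨?_, by rw [Nat.card_prod, h7, hT]⟩
    rintro ⟨c, d⟩ ⟨c', d'⟩ he
    obtain ⟨e1, e2⟩ := inj_C h ((hC _).mp c.2) ((hC _).mp d.2) ((hC _).mp c'.2) ((hC _).mp d'.2) he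
    exact Prod.ext (Subtype.ext e1) (Subtype.ext e2)
  intro t
  obtain ⟨⟨c, d⟩, hcd⟩ := h8.2 t
  exact ⟨c, c.2, d, d.2, hcd.symm⟩

/-- a nonabelian group of order 8 is dihedral or quaternion -/
theorem order_eight {C : Type*} [Group C] (h8 : Nat.card C = 8) (hna : ¬ ∀ a b : C, a * b = b * a) :
    Nonempty (C ≃* DihedralGroup 4) ∨ Nonempty (C ≃* QuaternionGroup 2) := by
  have hfC : Finite C := Nat.finite_of_card_ne_zero (by rw [h8]; norm_num)
  have : Fact (Nat.Prime 2) := ⟨Nat.prime_two⟩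
  have hP : IsPGroup 2 C := IsPGroup.of_card (n := 3) (by rw [h8]; norm_num)
  have hnt : Nontrivial C := by
    by_contra hnt
    rw [not_nontrivial_iff_subsingleton] at hnt
    rw [Nat.card_of_subsingleton (1 : C)] at h8
    omega
  have hZ : Nat.card (Subgroup.center C) = 2 := by
    have hdvd := (Subgroup.center C).card_subgroup_dvd_card
    rw [h8] at hdvd
    have hcases : Nat.card (Subgroup.center C) ∈ Nat.divisors 8 := Nat.mem_divisors.mpr ⟨hdvd, by norm_num⟩
    have hdiv : Nat.divisors 8 = {1, 2, 4, 8} := by decide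
    rw [hdiv] at hcases
    simp only [Finset.mem_insert, Finset.mem_singleton] at hcases
    have hcm := (Subgroup.center C).card_mul_index
    rw [h8] at hcm
    rcases hcases with h | h | h | h
    · exfalso
      have := hP.center_nontrivial
      rw [Nat.card_eq_one_iff_unique] at h
      exact not_subsingleton _ h.1
    · exact h
    · exfalso
      rw [h] at hcm
      have hi : Nat.card (C ⧸ Subgroup.center C) = 2 := by
        rw [← Subgroup.index_eq_card]; omega
      have : IsCyclic (C ⧸ Subgroup.center C) := isCyclic_of_prime_card hi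
      apply hna
      exact commutative_of_cyclic_center_quotient (QuotientGroup.mk' (Subgroup.center C))
        (by rw [QuotientGroup.ker_mk'])
    · exfalso
      have : Subgroup.center C = ⊤ := Subgroup.eq_top_of_card_eq _ (by rw [h, h8])
      apply hna
      intro a b
      have ha : b ∈ Subgroup.center C := by rw [this]; trivial
      exact Subgroup.mem_center_iff.mp ha a
  have hle : commutator C ≤ Subgroup.center C := by
    have hcm := (Subgroup.center C).card_mul_index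
    rw [h8, hZ] at hcm
    have hi : Nat.card (C ⧸ Subgroup.center C) = 2 ^ 2 := by
      rw [← Subgroup.index_eq_card]; omega
    have hcomm := IsPGroup.commutative_of_card_eq_prime_sq hi
    rw [commutator_def, Subgroup.commutator_le]
    intro a _ b _
    rw [← QuotientGroup.eq_one_iff, commutatorElement_def]
    rw [QuotientGroup.mk_mul, QuotientGroup.mk_mul, QuotientGroup.mk_mul, QuotientGroup.mk_inv, QuotientGroup.mk_inv,
      hcomm (a : C ⧸ Subgroup.center C)]
    group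
  have hC' : Nat.card (commutator C) = 2 := by
    have h1 : Nat.card (commutator C) ≤ 2 := by
      rw [← hZ]
      exact Nat.card_le_card_of_injective (Subgroup.inclusion hle) (Subgroup.inclusion_injective hle)
    have h2 : Nat.card (commutator C) ≠ 1 := by
      intro h
      apply hna
      intro a b
      have : commutator C = ⊥ := Subgroup.card_eq_one.mp h
      have hab : ⁅a, b⁆ ∈ commutator C := Subgroup.commutator_mem_commutator (Subgroup.mem_top a) (Subgroup.mem_top b)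
      rw [this, Subgroup.mem_bot, commutatorElement_eq_one_iff_mul_comm] at hab
      exact hab
    have h3 : 0 < Nat.card (commutator C) := Nat.card_pos
    omega
  have hidx : (commutator C).index = 4 := by
    have := (commutator C).card_mul_index
    rw [h8, hC'] at this
    omega
  rcases H76.MaxClass.trichotomy hP hidx (by rw [h8]; norm_num) with ⟨k, ⟨e⟩⟩ | ⟨k, hk, -⟩ | ⟨k, ⟨e⟩⟩
  · left
    have hc := Nat.card_congr e.toEquiv
    have h2 : NeZero (2 ^ (k + 2)) := ⟨by positivity⟩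
    rw [h8, DihedralGroup.nat_card] at hc
    have : k = 0 := by
      by_contra hk
      have : 2 ^ 3 ≤ 2 ^ (k + 2) := Nat.pow_le_pow_right (by norm_num) (by omega)
      omega
    subst this
    exact ⟨e⟩
  · exfalso
    rw [h8] at hk
    have : 2 ^ 4 ≤ 2 ^ (k + 4) := Nat.pow_le_pow_right (by norm_num) (by omega)
    omega
  · right
    have hc := Nat.card_congr e.toEquiv
    have h2 : NeZero (2 ^ (k + 1)) := ⟨by positivity⟩
    rw [h8, Nat.card_eq_fintype_card, QuaternionGroup.card] at hc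
    have : k = 0 := by
      by_contra hk
      have : 2 ^ 2 ≤ 2 ^ (k + 1) := Nat.pow_le_pow_right (by norm_num) (by omega)
      omega
    subst this
    exact ⟨e⟩

/-- the relations -/
theorem genL_of (h : Fpf3 ρ) (hT : Nat.card T = 64) {u v : T} (hu : u * u = 1) (hv : v * v = 1)
    (hz : ⁅u, v⁆ * ⁅u, v⁆ = 1) (hgen : Subgroup.closure {u, ρ u, v, ρ v, ⁅u, v⁆, ρ ⁅u, v⁆} = ⊤) :
    GenL T u (ρ u) v (ρ v) ⁅u, v⁆ (ρ ⁅u, v⁆) := by
  have hfT : Finite T := Nat.finite_of_card_ne_zero (by rw [hT]; norm_num)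
  have hzc : ⁅u, v⁆ ∈ Subgroup.center T := h.comm_mem_center u v
  have hzc' : ρ ⁅u, v⁆ ∈ Subgroup.center T := by
    rw [map_commutatorElement]
    exact h.comm_mem_center _ _
  have hρz : ρ ⁅u, v⁆ * ρ ⁅u, v⁆ = 1 := by rw [← map_mul, hz, map_one]
  have hρρ : ρ (ρ ⁅u, v⁆) = ⁅u, v⁆ * ρ ⁅u, v⁆ := by
    have h1 := h.norm ⁅u, v⁆
    have h2 := Subgroup.mem_center_iff.mp hzc (ρ ⁅u, v⁆)
    have h3 : (⁅u, v⁆ * ρ ⁅u, v⁆) * (⁅u, v⁆ * ρ ⁅u, v⁆) = 1 := by
      calc (⁅u, v⁆ * ρ ⁅u, v⁆) * (⁅u, v⁆ * ρ ⁅u, v⁆) = ⁅u, v⁆ * (ρ ⁅u, v⁆ * ⁅u, v⁆) * ρ ⁅u, v⁆ := by group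
        _ = (⁅u, v⁆ * ⁅u, v⁆) * (ρ ⁅u, v⁆ * ρ ⁅u, v⁆) := by rw [h2]; group
        _ = 1 := by rw [hz, hρz, one_mul]
    exact mul_left_cancel (h1.trans h3.symm)
  exact
    { card := hT
      gen := hgen
      e1c := hzc
      e2c := hzc'
      e1s := hz
      e2s := hρz
      u1s := hu
      u2s := by rw [← map_mul, hu, map_one]
      v1s := hv
      v2s := by rw [← map_mul, hv, map_one]
      c12 := commutatorElement_eq_one_iff_mul_comm.mpr (h.comm_self u)
      c34 := commutatorElement_eq_one_iff_mul_comm.mpr (h.comm_self v)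
      c13 := rfl
      c14 := by rw [h.comm_alpha', hρρ]
      c23 := by rw [h.alpha_comm, hρρ]
      c24 := by rw [map_commutatorElement] }

theorem comm_left (h : Fpf3 ρ) [Finite T] (a b c : T) : ⁅a * b, c⁆ = ⁅a, c⁆ * ⁅b, c⁆ := by
  have hz := Subgroup.mem_center_iff.mp (h.comm_mem_center b c)
  calc ⁅a * b, c⁆ = a * ⁅b, c⁆ * (c * a⁻¹ * c⁻¹) := by rw [commutatorElement_def, commutatorElement_def]; group
    _ = ⁅a, c⁆ * ⁅b, c⁆ := by rw [hz a, mul_assoc, ← hz]; rw [commutatorElement_def]; group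

theorem comm_right (h : Fpf3 ρ) [Finite T] (a b c : T) : ⁅a, b * c⁆ = ⁅a, b⁆ * ⁅a, c⁆ := by
  have hz := Subgroup.mem_center_iff.mp (h.comm_mem_center a c)
  calc ⁅a, b * c⁆ = ⁅a, b⁆ * (b * ⁅a, c⁆ * b⁻¹) := by
        rw [commutatorElement_def, commutatorElement_def, commutatorElement_def]; group
    _ = ⁅a, b⁆ * ⁅a, c⁆ := by rw [hz b, mul_inv_cancel_right]

/-- the generated subgroup -/
theorem top_of (h : S3Hyp ρ x) {C : Subgroup T}
    (hCT : ∀ t : T, ∃ c ∈ C, ∃ d ∈ C, t = c * ρ d) {u v : T} (hC : C ≤ Subgroup.closure {u, v})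
    {K : Subgroup T} (hu : u ∈ K) (hv : v ∈ K) (hu' : ρ u ∈ K) (hv' : ρ v ∈ K) : K = ⊤ := by
  rw [eq_top_iff]
  intro t _
  obtain ⟨c, hc, d, hd, rfl⟩ := hCT t
  refine K.mul_mem ?_ ?_
  · have : Subgroup.closure {u, v} ≤ K := by
      rw [Subgroup.closure_le]
      rintro y (rfl | rfl)
      · exact hu
      · exact hv
    exact this (hC hc)
  · have : Subgroup.closure {u, v} ≤ K.comap (ρ : T →* T) := by
      rw [Subgroup.closure_le]
      rintro y (rfl | rfl)
      · exact hu'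
      · exact hv'
    exact this (hC hd)

theorem dih_facts : (DihedralGroup.sr 0 : DihedralGroup 4) * DihedralGroup.sr 0 = 1 ∧
    (DihedralGroup.sr 1 : DihedralGroup 4) * DihedralGroup.sr 1 = 1 ∧
    ⁅(DihedralGroup.sr 0 : DihedralGroup 4), (DihedralGroup.sr 1 : DihedralGroup 4)⁆ *
      ⁅(DihedralGroup.sr 0 : DihedralGroup 4), (DihedralGroup.sr 1 : DihedralGroup 4)⁆ = 1 := by decide

theorem dih_gen (g : DihedralGroup 4) : g ∈ Subgroup.closure {(DihedralGroup.sr 0 : DihedralGroup 4), DihedralGroup.sr 1} := by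
  have h0 : (DihedralGroup.sr 0 : DihedralGroup 4) ∈ Subgroup.closure
      {(DihedralGroup.sr 0 : DihedralGroup 4), DihedralGroup.sr 1} := Subgroup.subset_closure (Or.inl rfl)
  have h1 : (DihedralGroup.sr 1 : DihedralGroup 4) ∈ Subgroup.closure
      {(DihedralGroup.sr 0 : DihedralGroup 4), DihedralGroup.sr 1} := Subgroup.subset_closure (Or.inr rfl)
  have hall : ∀ d : DihedralGroup 4, ∃ n : Fin 4, d = (DihedralGroup.sr 0 * DihedralGroup.sr 1) ^ (n : ℕ) ∨
      d = (DihedralGroup.sr 0 * DihedralGroup.sr 1) ^ (n : ℕ) * DihedralGroup.sr 0 := by decide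
  obtain ⟨n, rfl | rfl⟩ := hall g
  · exact pow_mem (mul_mem h0 h1) _
  · exact mul_mem (pow_mem (mul_mem h0 h1) _) h0

theorem quat_facts : (QuaternionGroup.a 1 : QuaternionGroup 2) * QuaternionGroup.a 1 =
      ⁅(QuaternionGroup.a 1 : QuaternionGroup 2), (QuaternionGroup.xa 0 : QuaternionGroup 2)⁆ ∧
    (QuaternionGroup.xa 0 : QuaternionGroup 2) * QuaternionGroup.xa 0 =
      ⁅(QuaternionGroup.a 1 : QuaternionGroup 2), (QuaternionGroup.xa 0 : QuaternionGroup 2)⁆ ∧
    ⁅(QuaternionGroup.a 1 : QuaternionGroup 2), (QuaternionGroup.xa 0 : QuaternionGroup 2)⁆ *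
      ⁅(QuaternionGroup.a 1 : QuaternionGroup 2), (QuaternionGroup.xa 0 : QuaternionGroup 2)⁆ = 1 := by decide

theorem quat_gen (g : QuaternionGroup 2) : g ∈ Subgroup.closure {(QuaternionGroup.a 1 : QuaternionGroup 2), QuaternionGroup.xa 0} := by
  have h0 : (QuaternionGroup.a 1 : QuaternionGroup 2) ∈ Subgroup.closure
      {(QuaternionGroup.a 1 : QuaternionGroup 2), QuaternionGroup.xa 0} := Subgroup.subset_closure (Or.inl rfl)
  have h1 : (QuaternionGroup.xa 0 : QuaternionGroup 2) ∈ Subgroup.closure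
      {(QuaternionGroup.a 1 : QuaternionGroup 2), QuaternionGroup.xa 0} := Subgroup.subset_closure (Or.inr rfl)
  have hall : ∀ d : QuaternionGroup 2, ∃ n : Fin 4, d = (QuaternionGroup.a 1) ^ (n : ℕ) ∨
      d = (QuaternionGroup.a 1) ^ (n : ℕ) * QuaternionGroup.xa 0 := by decide
  obtain ⟨n, rfl | rfl⟩ := hall g
  · exact pow_mem h0 _
  · exact mul_mem (pow_mem h0 _) h1

theorem le_closure {C : Subgroup T} {D : Type*} [Group D] (e : C ≃* D) {a b : D}
    (hD : ∀ g : D, g ∈ Subgroup.closure {a, b}) :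
    C ≤ Subgroup.closure {(e.symm a : T), (e.symm b : T)} := by
  intro c hc
  have h1 := hD (e ⟨c, hc⟩)
  have h2 : Subgroup.closure {a, b} ≤
      (Subgroup.closure {(e.symm a : T), (e.symm b : T)}).comap (C.subtype.comp e.symm.toMonoidHom) := by
    rw [Subgroup.closure_le]
    rintro y (rfl | rfl)
    · exact Subgroup.subset_closure (Or.inl rfl)
    · exact Subgroup.subset_closure (Or.inr rfl)
  have h3 := h2 h1
  have h4 : C.subtype.comp e.symm.toMonoidHom (e ⟨c, hc⟩) = c := by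
    show ((e.symm (e ⟨c, hc⟩) : C) : T) = c
    rw [e.symm_apply_apply]
  rw [Subgroup.mem_comap, h4] at h3
  exact h3

/-- S3157 -/
theorem main (h : S3Hyp ρ x) (hT : Nat.card T = 64) (hna : ¬ ∀ a b : T, a * b = b * a)
    (C : Subgroup T) (hC : ∀ y : T, y ∈ C ↔ x y = y) :
    (∃ u1 u2 v1 v2 e1 e2 : T, GenL T u1 u2 v1 v2 e1 e2) ∧
      (Nonempty (C ≃* DihedralGroup 4) ∨ Nonempty (C ≃* QuaternionGroup 2)) := by
  have hfT : Finite T := Nat.finite_of_card_ne_zero (by rw [hT]; norm_num)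
  obtain ⟨h8, hCT⟩ := card_C h hT C hC
  have hnaC : ¬ ∀ a b : C, a * b = b * a := by
    intro hab
    apply hna
    have hab' : ∀ a ∈ C, ∀ b ∈ C, a * b = b * a := fun a ha b hb =>
      congrArg Subtype.val (hab ⟨a, ha⟩ ⟨b, hb⟩)
    have hab2 : ∀ a ∈ C, ∀ b ∈ C, a * ρ b = ρ b * a := by
      intro a ha b hb
      rw [← commutatorElement_eq_one_iff_mul_comm, h.fpf.comm_alpha',
        commutatorElement_eq_one_iff_mul_comm.mpr (hab' a ha b hb), map_one, map_one]
    have hab3 : ∀ a ∈ C, ∀ b ∈ C, ρ a * ρ b = ρ b * ρ a := by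
      intro a ha b hb
      rw [← map_mul, hab' a ha b hb, map_mul]
    intro s t
    obtain ⟨c, hc, d, hd, rfl⟩ := hCT s
    obtain ⟨c', hc', d', hd', rfl⟩ := hCT t
    have e1 : Commute c c' := hab' c hc c' hc'
    have e2 : Commute c (ρ d') := hab2 c hc d' hd'
    have e3 : Commute (ρ d) c' := (hab2 c' hc' d hd).symm
    have e4 : Commute (ρ d) (ρ d') := hab3 d hd d' hd'
    exact ((e1.mul_right e2).mul_left (e3.mul_right e4))
  have hor := order_eight h8 hnaC
  refine ⟨?_, hor⟩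
  rcases hor with ⟨⟨e⟩⟩ | ⟨⟨e⟩⟩
  · set u : T := ((e.symm (DihedralGroup.sr 0) : C) : T) with hu
    set v : T := ((e.symm (DihedralGroup.sr 1) : C) : T) with hv
    obtain ⟨f1, f2, f3⟩ := dih_facts
    have g1 : u * u = 1 := by
      have := congrArg (fun g => ((e.symm g : C) : T)) f1
      simp only [map_mul, map_one, Subgroup.coe_mul, Subgroup.coe_one] at this
      exact this
    have g2 : v * v = 1 := by
      have := congrArg (fun g => ((e.symm g : C) : T)) f2
      simp only [map_mul, map_one, Subgroup.coe_mul, Subgroup.coe_one] at this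
      exact this
    have g3 : ⁅u, v⁆ * ⁅u, v⁆ = 1 := by
      have := congrArg (fun g => ((e.symm g : C) : T)) f3
      simp only [map_mul, map_commutatorElement, map_one, Subgroup.coe_mul, Subgroup.coe_one] at this
      exact this
    have hgen : Subgroup.closure {u, ρ u, v, ρ v, ⁅u, v⁆, ρ ⁅u, v⁆} = ⊤ :=
      top_of h hCT (le_closure e dih_gen) (Subgroup.subset_closure (by simp [hu]))
        (Subgroup.subset_closure (by simp [hv])) (Subgroup.subset_closure (by simp [hu]))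
        (Subgroup.subset_closure (by simp [hv]))
    exact ⟨_, _, _, _, _, _, genL_of h.fpf hT g1 g2 g3 hgen⟩
  · set a : T := ((e.symm (QuaternionGroup.a 1) : C) : T) with ha
    set b : T := ((e.symm (QuaternionGroup.xa 0) : C) : T) with hb
    obtain ⟨f1, f2, f3⟩ := quat_facts
    have g1 : a * a = ⁅a, b⁆ := by
      have := congrArg (fun g => ((e.symm g : C) : T)) f1
      simp only [map_mul, map_commutatorElement, map_one, Subgroup.coe_mul, Subgroup.coe_one] at this
      exact this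
    have g2 : b * b = ⁅a, b⁆ := by
      have := congrArg (fun g => ((e.symm g : C) : T)) f2
      simp only [map_mul, map_commutatorElement, map_one, Subgroup.coe_mul, Subgroup.coe_one] at this
      exact this
    have g3 : ⁅a, b⁆ * ⁅a, b⁆ = 1 := by
      have := congrArg (fun g => ((e.symm g : C) : T)) f3
      simp only [map_mul, map_commutatorElement, map_one, Subgroup.coe_mul, Subgroup.coe_one] at this
      exact this
    set z := ⁅a, b⁆ with hz
    have hzc : z ∈ Subgroup.center T := h.fpf.comm_mem_center a b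
    have hzc1 : ρ z ∈ Subgroup.center T := by rw [hz, map_commutatorElement]; exact h.fpf.comm_mem_center _ _
    have hzc2 : ρ (ρ z) ∈ Subgroup.center T := by
      rw [hz, map_commutatorElement, map_commutatorElement]; exact h.fpf.comm_mem_center _ _
    have hnorm : z * ρ z * ρ (ρ z) = 1 := h.fpf.norm z
    have hρz : ρ z * ρ z = 1 := by rw [← map_mul, g3, map_one]
    have hρρz : ρ (ρ z) * ρ (ρ z) = 1 := by rw [← map_mul, hρz, map_one]
    have hinv : z⁻¹ = z := inv_eq_of_mul_eq_one_right g3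
    have hinv1 : (ρ z)⁻¹ = ρ z := inv_eq_of_mul_eq_one_right hρz
    have hinv2 : (ρ (ρ z))⁻¹ = ρ (ρ z) := inv_eq_of_mul_eq_one_right hρρz
    -- (x y)^2 = x^2 y^2 [y,x]
    have hsq : ∀ s t : T, (s * t) * (s * t) = s * s * (t * t) * ⁅t, s⁆ := by
      intro s t
      have hc := Subgroup.mem_center_iff.mp (h.fpf.comm_mem_center t s) (t)
      have e1 : t * s = ⁅t, s⁆ * (s * t) := by rw [commutatorElement_def]; group
      calc (s * t) * (s * t) = s * (t * s) * t := by group
        _ = s * (⁅t, s⁆ * (s * t)) * t := by rw [← e1]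
        _ = (s * ⁅t, s⁆) * s * (t * t) := by group
        _ = (⁅t, s⁆ * s) * s * (t * t) := by
            rw [Subgroup.mem_center_iff.mp (h.fpf.comm_mem_center t s) s]
        _ = ⁅t, s⁆ * (s * s * (t * t)) := by group
        _ = s * s * (t * t) * ⁅t, s⁆ := by
            rw [Subgroup.mem_center_iff.mp (h.fpf.comm_mem_center t s) (s * s * (t * t))]
    have hba : ⁅b, a⁆ = z := by rw [← commutatorElement_inv, ← hz, hinv]
    -- u = a ρ(b), v = a ρρ(b)
    have c1 : ⁅ρ b, a⁆ = ρ (ρ z) := by rw [h.fpf.alpha_comm, hba]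
    have c2 : ⁅ρ (ρ b), a⁆ = ρ z := by
      rw [h.fpf.alpha_comm, h.fpf.alpha_comm, hba, h.fpf.cube]
    have k1 : (a * ρ b) * (a * ρ b) = 1 := by
      rw [hsq, c1, g1, ← map_mul, g2]
      exact hnorm
    have k2 : (a * ρ (ρ b)) * (a * ρ (ρ b)) = 1 := by
      rw [hsq, c2, g1, ← map_mul, ← map_mul, g2, mul_assoc, Subgroup.mem_center_iff.mp hzc1, ← mul_assoc]
      exact hnorm
    have k3 : ⁅a * ρ b, a * ρ (ρ b)⁆ = z := by
      have d1 : ⁅a, a⁆ = 1 := commutatorElement_self a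
      have d2 : ⁅a, ρ (ρ b)⁆ = ρ z := by rw [← commutatorElement_inv, c2, hinv1]
      have d3 : ⁅ρ b, ρ (ρ b)⁆ = 1 := by
        rw [← map_commutatorElement, commutatorElement_eq_one_iff_mul_comm.mpr (h.fpf.comm_self b), map_one]
      rw [comm_left h.fpf, comm_right h.fpf, comm_right h.fpf, d1, d2, c1, d3, one_mul, mul_one]
      have : ρ z * ρ (ρ z) = z⁻¹ := by
        rw [eq_inv_iff_mul_eq_one, ← Subgroup.mem_center_iff.mp (mul_mem hzc1 hzc2) z, ← mul_assoc]
        exact hnorm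
      rw [this, hinv]
    have hgen : Subgroup.closure {a * ρ b, ρ (a * ρ b), a * ρ (ρ b), ρ (a * ρ (ρ b)),
        ⁅a * ρ b, a * ρ (ρ b)⁆, ρ ⁅a * ρ b, a * ρ (ρ b)⁆} = ⊤ := by
      set K := Subgroup.closure {a * ρ b, ρ (a * ρ b), a * ρ (ρ b), ρ (a * ρ (ρ b)),
        ⁅a * ρ b, a * ρ (ρ b)⁆, ρ ⁅a * ρ b, a * ρ (ρ b)⁆} with hK
      have m1 : a * ρ b ∈ K := Subgroup.subset_closure (by simp)
      have m2 : ρ (a * ρ b) ∈ K := Subgroup.subset_closure (by simp)
      have m3 : a * ρ (ρ b) ∈ K := Subgroup.subset_closure (by simp)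
      have m4 : ρ (a * ρ (ρ b)) ∈ K := Subgroup.subset_closure (by simp)
      have m5 : z ∈ K := by
        rw [← k3]; exact Subgroup.subset_closure (by simp)
      have m6 : ρ z ∈ K := by
        rw [← k3]; exact Subgroup.subset_closure (by simp)
      -- (ρ b)⁻¹ ρρ b ∈ K
      have m7 : (ρ b)⁻¹ * ρ (ρ b) ∈ K := by
        have : (ρ b)⁻¹ * ρ (ρ b) = (a * ρ b)⁻¹ * (a * ρ (ρ b)) := by group
        rw [this]; exact K.mul_mem (K.inv_mem m1) m3
      have m8 : b ∈ K := by
        have e1 : ρ (ρ b) = (b * ρ b)⁻¹ := h.fpf.alpha_alpha b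
        have e2 : (ρ b)⁻¹ * ρ (ρ b) = (b * ρ z)⁻¹ := by
          rw [e1, ← g2, map_mul]; group
        rw [e2] at m7
        have m7' := K.inv_mem m7
        rw [inv_inv] at m7'
        have : b = b * ρ z * (ρ z)⁻¹ := by group
        rw [this]
        exact K.mul_mem m7' (K.inv_mem m6)
      -- ρ b ∈ K : from ρ applied
      have m9 : ρ b ∈ K := by
        have e0 : (ρ (a * ρ b))⁻¹ * ρ (a * ρ (ρ b)) = (ρ (ρ b))⁻¹ * b := by
          rw [map_mul, map_mul, h.fpf.cube]; group
        have m10 : (ρ (ρ b))⁻¹ * b ∈ K := by rw [← e0]; exact K.mul_mem (K.inv_mem m2) m4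
        have e1 : (ρ (ρ b))⁻¹ = b * ρ b := by rw [h.fpf.alpha_alpha b, inv_inv]
        rw [e1] at m10
        have : ρ b = b⁻¹ * (b * ρ b * b) * b⁻¹ := by group
        rw [this]
        exact K.mul_mem (K.mul_mem (K.inv_mem m8) m10) (K.inv_mem m8)
      have m11 : a ∈ K := by
        have : a = a * ρ b * (ρ b)⁻¹ := by group
        rw [this]; exact K.mul_mem m1 (K.inv_mem m9)
      have m12 : ρ a ∈ K := by
        have : ρ a = ρ (a * ρ (ρ b)) * b⁻¹ := by rw [map_mul, h.fpf.cube]; group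
        rw [this]; exact K.mul_mem m4 (K.inv_mem m8)
      exact top_of h hCT (le_closure e quat_gen) m11 m8 m12 m9
    refine ⟨_, _, _, _, _, _, genL_of h.fpf hT k1 k2 (by rw [k3]; exact g3) hgen⟩

end H86.S64
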