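import Mathlib
import Cfsg.Agent.Lib.H42.SolCount
import Cfsg.Agent.Lib.H98.DicksonSolv

/-! Elementary solvability criteria for two-generator groups. -/

set_option autoImplicit false

namespace H86.SolPSLa

open Subgroup

variable {G : Type*} [Group G]

theorem sol_of_norm (N : Subgroup G) (hN : Group.IsSolvable N) (x y : G) (hx : x ∈ N)
    (hy : y ∈ normalizer (N : Set G)) : Group.IsSolvable (closure ({x, y} : Set G)) := by
  apply H42.SolCount.isSolvable_of_commutator_mem hN
  -- the quotient is cyclic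
  let NN := normalizer (N : Set G)
  let N' : Subgroup NN := N.subgroupOf NN
  haveI : N'.Normal := normal_in_normalizer
  have hle : closure ({x, y} : Set G) ≤ NN := by
    rw [closure_le]
    rintro z (rfl | rfl)
    · exact le_normalizer hx
    · exact hy
  have key : ∀ a (ha : a ∈ closure ({x, y} : Set G)),
      (QuotientGroup.mk (⟨a, hle ha⟩ : NN) : NN ⧸ N') ∈
        zpowers (QuotientGroup.mk (⟨y, hy⟩ : NN) : NN ⧸ N') := by
    intro a ha
    induction ha using closure_induction with
    | mem z hz =>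
      rcases hz with rfl | rfl
      · have : (QuotientGroup.mk (⟨z, le_normalizer hx⟩ : NN) : NN ⧸ N') = 1 := by
          rw [QuotientGroup.eq_one_iff]
          exact hx
        exact this ▸ one_mem _
      · exact mem_zpowers _
    | one => exact one_mem _
    | mul a b ha hb iha ihb => exact mul_mem iha ihb
    | inv a ha iha => exact inv_mem iha
  intro a ha b hb
  obtain ⟨i, hi⟩ := mem_zpowers_iff.mp (key a ha)
  obtain ⟨j, hj⟩ := mem_zpowers_iff.mp (key b hb)
  have h : (QuotientGroup.mk ((⟨a, hle ha⟩ : NN) * ⟨b, hle hb⟩ * (⟨a, hle ha⟩ : NN)⁻¹ *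
      (⟨b, hle hb⟩ : NN)⁻¹) : NN ⧸ N') = 1 := by
    rw [QuotientGroup.mk_mul, QuotientGroup.mk_mul, QuotientGroup.mk_mul, QuotientGroup.mk_inv,
      QuotientGroup.mk_inv, ← hi, ← hj, ← zpow_add, add_comm, zpow_add]
    group
  rw [QuotientGroup.eq_one_iff] at h
  exact h

theorem zpowers_sol (x : G) : Group.IsSolvable (zpowers x) :=
  Group.isSolvable_of_comm (fun a b => by
    obtain ⟨i, hi⟩ := mem_zpowers_iff.mp a.2
    obtain ⟨j, hj⟩ := mem_zpowers_iff.mp b.2
    apply Subtype.ext
    show (a : G) * b = b * a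
    rw [← hi, ← hj, ← zpow_add, ← zpow_add, add_comm])

theorem sol_of_comm (x y : G) (h : x * y = y * x) :
    Group.IsSolvable (closure ({x, y} : Set G)) := by
  apply sol_of_norm (zpowers x) (zpowers_sol x) x y (mem_zpowers x)
  apply centralizer_le_normalizer
  rw [mem_centralizer_iff]
  intro z hz
  obtain ⟨k, rfl⟩ := mem_zpowers_iff.mp hz
  exact (Commute.zpow_left h k).eq

theorem sol_of_inv (x y : G) (h : y * x * y⁻¹ = x⁻¹) :
    Group.IsSolvable (closure ({x, y} : Set G)) := by
  apply sol_of_norm (zpowers x) (zpowers_sol x) x y (mem_zpowers x)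
  have h1 : ∀ v, v ∈ zpowers x → y * v * y⁻¹ ∈ zpowers x := by
    intro v hv
    obtain ⟨k, rfl⟩ := mem_zpowers_iff.mp hv
    rw [← conj_zpow, h]
    exact zpow_mem (inv_mem (mem_zpowers x)) k
  have h2 : y⁻¹ * x * y = x⁻¹ := by
    have : x = y⁻¹ * (y * x * y⁻¹) * y := by group
    rw [h] at this
    have h3 := congrArg (fun z => z⁻¹) this
    simp only [mul_inv_rev, inv_inv] at h3
    rw [h3]
    group
  rw [mem_normalizer_iff]
  intro v
  constructor
  · exact h1 v
  · intro hv
    have h3 : v = y⁻¹ * (y * v * y⁻¹) * y := by group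
    rw [h3]
    obtain ⟨k, hk⟩ := mem_zpowers_iff.mp hv
    rw [← hk]
    have h4 : y⁻¹ * x ^ k * y = (y⁻¹ * x * y) ^ k := by
      have := conj_zpow (i := k) (a := y⁻¹) (b := x)
      rw [inv_inv] at this
      exact this.symm
    rw [h4, h2]
    exact zpow_mem (inv_mem (mem_zpowers x)) k

theorem closure_mul_left (x y : G) : closure ({x, x * y} : Set G) = closure ({x, y} : Set G) := by
  apply le_antisymm
  · rw [closure_le]
    rintro z (rfl | rfl)
    · exact subset_closure (Or.inl rfl)
    · exact mul_mem (subset_closure (Or.inl rfl)) (subset_closure (Or.inr rfl))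
  · rw [closure_le]
    rintro z (rfl | rfl)
    · exact subset_closure (Or.inl rfl)
    · have h1 : x ∈ closure ({x, x * z} : Set G) := subset_closure (Or.inl rfl)
      have h2 : x * z ∈ closure ({x, x * z} : Set G) := subset_closure (Or.inr rfl)
      have := mul_mem (inv_mem h1) h2
      rwa [inv_mul_cancel_left] at this

theorem closure_mul_right (x y : G) : closure ({x * y, y} : Set G) = closure ({x, y} : Set G) := by
  apply le_antisymm
  · rw [closure_le]
    rintro z (rfl | rfl)
    · exact mul_mem (subset_closure (Or.inl rfl)) (subset_closure (Or.inr rfl))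
    · exact subset_closure (Or.inr rfl)
  · rw [closure_le]
    rintro z (rfl | rfl)
    · have h1 : y ∈ closure ({z * y, y} : Set G) := subset_closure (Or.inr rfl)
      have h2 : z * y ∈ closure ({z * y, y} : Set G) := subset_closure (Or.inl rfl)
      have := mul_mem h2 (inv_mem h1)
      rwa [mul_inv_cancel_right] at this
    · exact subset_closure (Or.inr rfl)

theorem sol_of_dih (x y : G) (hx : x * x = 1) (hy : y * y = 1) :
    Group.IsSolvable (closure ({x, y} : Set G)) := by
  rw [← closure_mul_right]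
  apply sol_of_inv
  have hx' : x⁻¹ = x := inv_eq_of_mul_eq_one_left hx
  have hy' : y⁻¹ = y := inv_eq_of_mul_eq_one_left hy
  rw [mul_inv_rev, hx', hy', mul_assoc, mul_assoc, hy, mul_one]

theorem sol_of_dih' (x y : G) (hx : x * x = 1) (hy : (x * y) * (x * y) = 1) :
    Group.IsSolvable (closure ({x, y} : Set G)) := by
  rw [← closure_mul_left]
  exact sol_of_dih x (x * y) hx hy

/-- the (2,3,3) triangle group -/
theorem sol_of_tri (x y : G) (hx : x * x = 1) (hy : y ^ 3 = 1) (hxy : (x * y) ^ 3 = 1) :
    Group.IsSolvable (closure ({x, y} : Set G)) := by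
  have hy3 : y * y * y = 1 := by rw [← hy, pow_succ, pow_two]
  have hxy3 : x * y * (x * y) * (x * y) = 1 := by rw [← hxy, pow_succ, pow_two]
  set a := x with ha
  set b := y * x * y⁻¹ with hb
  have hbb : b * b = 1 := by
    rw [hb]
    calc y * x * y⁻¹ * (y * x * y⁻¹) = y * (x * x) * y⁻¹ := by group
      _ = 1 := by rw [hx]; group
  set c := y * b * y⁻¹ with hc
  have hcc : c * c = 1 := by
    rw [hc]
    calc y * b * y⁻¹ * (y * b * y⁻¹) = y * (b * b) * y⁻¹ := by group
      _ = 1 := by rw [hbb]; group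
  have hyc : y * c * y⁻¹ = a := by
    rw [hc, hb, ha]
    calc y * (y * (y * x * y⁻¹) * y⁻¹) * y⁻¹ = (y * y * y) * x * (y * y * y)⁻¹ := by group
      _ = x := by rw [hy3]; group
  have habc : a * b * c = 1 := by
    rw [hc, hb, ha]
    have : x * y * (x * y) * (x * y) * (y * y * y)⁻¹ =
      x * (y * x * y⁻¹) * (y * (y * x * y⁻¹) * y⁻¹) := by group
    rw [← this, hxy3, hy3]
    group
  have hcab : c = (a * b)⁻¹ := by
    rw [eq_inv_iff_mul_eq_one]
    have h1 : c⁻¹ = a * b := by rw [eq_comm, ← mul_eq_one_iff_eq_inv]; exact habc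
    rw [← h1, mul_inv_cancel]
  have hci : c⁻¹ = c := inv_eq_of_mul_eq_one_left hcc
  have hai : a⁻¹ = a := inv_eq_of_mul_eq_one_left hx
  have hbi : b⁻¹ = b := inv_eq_of_mul_eq_one_left hbb
  have hc1 : c = a * b := by rw [← hci, hcab, inv_inv]
  have hc2 : c = b * a := by rw [hcab, mul_inv_rev, hai, hbi]
  have hcomm : a * b = b * a := by rw [← hc1, hc2]
  have haV : a ∈ closure ({a, b} : Set G) := subset_closure (Or.inl rfl)
  have hbV : b ∈ closure ({a, b} : Set G) := subset_closure (Or.inr rfl)
  apply sol_of_norm (closure ({a, b} : Set G)) (sol_of_comm a b hcomm) x y haV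
  have hle : ∀ v ∈ closure ({a, b} : Set G), y * v * y⁻¹ ∈ closure ({a, b} : Set G) := by
    intro v hv
    induction hv using closure_induction with
    | mem z hz =>
      rcases hz with rfl | rfl
      · exact hbV
      · rw [← hc, hc1]; exact mul_mem haV hbV
    | one => rw [mul_one, mul_inv_cancel]; exact one_mem _
    | mul u v _ _ hu hv =>
      have : y * (u * v) * y⁻¹ = (y * u * y⁻¹) * (y * v * y⁻¹) := by group
      rw [this]; exact mul_mem hu hv
    | inv u _ hu =>
      have : y * u⁻¹ * y⁻¹ = (y * u * y⁻¹)⁻¹ := by group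
      rw [this]; exact inv_mem hu
  rw [mem_normalizer_iff]
  intro v
  refine ⟨hle v, fun hv => ?_⟩
  have h3 := hle _ (hle _ hv)
  have h4 : y * (y * (y * v * y⁻¹) * y⁻¹) * y⁻¹ = v := by
    calc y * (y * (y * v * y⁻¹) * y⁻¹) * y⁻¹ = (y * y * y) * v * (y * y * y)⁻¹ := by group
      _ = v := by rw [hy3]; group
  rwa [h4] at h3

end H86.SolPSLa
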