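import Mathlib
import Cfsg.Agent.Lib.H86.SolPSLa
import Cfsg.Agent.Lib.H98.DicksonSolv

/-! Two-generator solvable subgroups of `PSL₂(2^r)` and `PSL₂(3^r)`, `r` prime: consequences of
Dickson's list. -/

set_option autoImplicit false

namespace H86.SolPSLb

open Subgroup Matrix H98.DicksonPSL
open scoped H98.Moebius

theorem dih_high {k : ℕ} {M : Type*} [Group M] (e : M ≃* DihedralGroup k) (x y : M)
    (hx : x * x ≠ 1) : x * y = y * x ∨ y * x * y⁻¹ = x⁻¹ := by
  have key : ∀ a b : DihedralGroup k, a * a ≠ 1 → a * b = b * a ∨ b * a * b⁻¹ = a⁻¹ := by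
    rintro (i | i) (j | j) ha
    · left
      rw [DihedralGroup.r_mul_r, DihedralGroup.r_mul_r, add_comm]
    · right
      rw [DihedralGroup.sr_mul_r, DihedralGroup.inv_sr, DihedralGroup.sr_mul_sr,
        DihedralGroup.inv_r]
      congr 1
      ring
    · exfalso
      apply ha
      rw [DihedralGroup.sr_mul_sr, sub_self]; rfl
    · exfalso
      apply ha
      rw [DihedralGroup.sr_mul_sr, sub_self]; rfl
  have h := key (e x) (e y) (fun h => hx (e.injective (by rw [map_mul, h, map_one])))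
  rcases h with h | h
  · left; apply e.injective; rw [map_mul, map_mul, h]
  · right; apply e.injective; rw [map_mul, map_mul, map_inv, map_inv, h]

theorem dih_two {k : ℕ} {M : Type*} [Group M] (e : M ≃* DihedralGroup k) (x y : M)
    (hx : x * x = 1) : x * y = y * x ∨ y * y = 1 ∨ (x * y) * (x * y) = 1 := by
  have key : ∀ a b : DihedralGroup k, a * a = 1 → a * b = b * a ∨ b * b = 1 ∨
      (a * b) * (a * b) = 1 := by
    rintro (i | i) (j | j) ha
    · left
      rw [DihedralGroup.r_mul_r, DihedralGroup.r_mul_r, add_comm]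
    · right; left
      rw [DihedralGroup.sr_mul_sr, sub_self]; rfl
    · right; right
      rw [DihedralGroup.sr_mul_r, DihedralGroup.sr_mul_sr, sub_self]; rfl
    · right; left
      rw [DihedralGroup.sr_mul_sr, sub_self]; rfl
  have h := key (e x) (e y) (by rw [← map_mul, hx, map_one])
  rcases h with h | h | h
  · left; apply e.injective; rw [map_mul, map_mul, h]
  · right; left; apply e.injective; rw [map_mul, h, map_one]
  · right; right; apply e.injective; rw [map_mul, map_mul, h, map_one]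

section six

variable {M : Type*} [Group M]

theorem six_cyc (hM : Nat.card M = 6) (x y : M) (hx : orderOf x = 6) : x * y = y * x := by
  haveI : Finite M := Nat.finite_of_card_ne_zero (by rw [hM]; norm_num)
  have htop : zpowers x = ⊤ := by
    apply Subgroup.eq_top_of_card_eq
    rw [Nat.card_zpowers, hx, hM]
  have hy : y ∈ zpowers x := htop ▸ mem_top y
  obtain ⟨k, rfl⟩ := mem_zpowers_iff.mp hy
  exact (Commute.zpow_right (Commute.refl x) k).eq

theorem six_index (hM : Nat.card M = 6) (x : M) (hx : orderOf x = 3) :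
    (zpowers x).index = 2 := by
  haveI : Finite M := Nat.finite_of_card_ne_zero (by rw [hM]; norm_num)
  have h := Subgroup.card_mul_index (zpowers x)
  rw [Nat.card_zpowers, hx, hM] at h
  omega

theorem six_three (hM : Nat.card M = 6) (x y : M) (hx : orderOf x = 3) :
    x * y = y * x ∨ y * x * y⁻¹ = x⁻¹ := by
  haveI := Subgroup.normal_of_index_eq_two (six_index hM x hx)
  have h : y * x * y⁻¹ ∈ zpowers x := Normal.conj_mem inferInstance x (mem_zpowers x) y
  have hx3 : x ^ 3 = 1 := by rw [← hx]; exact pow_orderOf_eq_one x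
  obtain ⟨k, hk⟩ := mem_zpowers_iff.mp h
  rw [← zpow_mod_orderOf, hx] at hk
  have h1 : (0 : ℤ) ≤ k % (3 : ℕ) := Int.emod_nonneg _ (by norm_num)
  have h2 : k % ((3 : ℕ) : ℤ) < 3 := Int.emod_lt_of_pos _ (by norm_num)
  have h3 : k % ((3 : ℕ) : ℤ) = 0 ∨ k % ((3 : ℕ) : ℤ) = 1 ∨ k % ((3 : ℕ) : ℤ) = 2 := by omega
  rcases h3 with h3 | h3 | h3
  · left
    rw [h3, zpow_zero] at hk
    have hx1 : x = 1 := by
      have : x = y⁻¹ * (y * x * y⁻¹) * y := by group
      rw [this, ← hk]; group
    rw [hx1, mul_one, one_mul]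
  · left
    rw [h3, zpow_one] at hk
    rw [eq_mul_inv_iff_mul_eq] at hk
    exact hk
  · right
    rw [h3] at hk
    rw [← hk, eq_inv_iff_mul_eq_one]
    have : x ^ (2 : ℤ) * x = x ^ 3 := by
      show x ^ ((2 : ℕ) : ℤ) * x = x ^ 3
      rw [pow_succ, zpow_natCast]
    rw [this, hx3]

theorem six_orders (hM : Nat.card M = 6) (y : M) (hy : y * y ≠ 1) :
    orderOf y = 3 ∨ orderOf y = 6 := by
  haveI : Finite M := Nat.finite_of_card_ne_zero (by rw [hM]; norm_num)
  have h1 : orderOf y ∣ 6 := hM ▸ orderOf_dvd_natCard y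
  have h2 : ¬ orderOf y ∣ 2 := by
    intro h
    apply hy
    rw [← pow_two]
    exact orderOf_dvd_iff_pow_eq_one.mp h
  have h3 : orderOf y ≤ 6 := Nat.le_of_dvd (by norm_num) h1
  have h4 : 0 < orderOf y := Nat.pos_of_dvd_of_pos h1 (by norm_num)
  interval_cases orderOf y <;> simp_all

theorem six_high (hM : Nat.card M = 6) (x y : M) (hx : x * x ≠ 1) :
    x * y = y * x ∨ y * x * y⁻¹ = x⁻¹ := by
  rcases six_orders hM x hx with h | h
  · exact six_three hM x y h
  · exact Or.inl (six_cyc hM x y h)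

theorem six_two (hM : Nat.card M = 6) (x y : M) (hx : x * x = 1) :
    x * y = y * x ∨ y * y = 1 ∨ (x * y) * (x * y) = 1 := by
  by_cases hy : y * y = 1
  · exact Or.inr (Or.inl hy)
  by_cases hxy : (x * y) * (x * y) = 1
  · exact Or.inr (Or.inr hxy)
  left
  rcases six_orders hM y hy with h | h
  · rcases six_orders hM (x * y) hxy with h' | h'
    · haveI hn := Subgroup.normal_of_index_eq_two (six_index hM y h)
      have hsq : ∀ z : M, z * z ∈ zpowers y := Subgroup.mul_self_mem_of_index_two (six_index hM y h)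
      have h3 : ∀ z : M, orderOf z = 3 → z ∈ zpowers y := by
        intro z hz
        have h4 : z = (z * z) * (z * z) := by
          have : z ^ 3 = 1 := by rw [← hz]; exact pow_orderOf_eq_one z
          rw [pow_succ, pow_two] at this
          calc z = z * z * z * z := by rw [this, one_mul]
            _ = (z * z) * (z * z) := by simp only [mul_assoc]
        rw [h4]
        exact mul_mem (hsq z) (hsq z)
      have hx' : x ∈ zpowers y := by
        have := mul_mem (h3 _ h') (inv_mem (mem_zpowers y))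
        rwa [mul_inv_cancel_right] at this
      obtain ⟨k, rfl⟩ := mem_zpowers_iff.mp hx'
      exact (Commute.zpow_left (Commute.refl y) k).eq
    · have := six_cyc hM (x * y) y h'
      -- (x y) y = y (x y)
      have h5 : x * y * y = y * x * y := by rw [this, mul_assoc]
      exact mul_right_cancel h5
  · exact (six_cyc hM y x h).symm

end six

variable {F : Type*} [Field F] [Finite F] [DecidableEq F]

section cases

variable {r : ℕ} (hr : r.Prime)

include hr in
/-- Dickson's list for `q = 2^r` -/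
theorem cases_even (hF : Nat.card F = 2 ^ r) [CharP F 2]
    (M : Subgroup (Matrix.ProjectiveSpecialLinearGroup (Fin 2) F)) (hM : M ≠ ⊤) :
    IsCyclic M ∨ (∃ k : ℕ, Nonempty (M ≃* DihedralGroup k)) ∨
    (∃ x₀ : OnePoint F, ∀ g ∈ M, ιP F g • x₀ = x₀) ∨
    Nat.card M = 6 := by
  classical
  have : Fact (Nat.Prime 2) := ⟨Nat.prime_two⟩
  have hsub : ∀ (K : Subfield F) (m : ℕ), 2 ≤ m → Nat.card K ^ m = Nat.card F → Nat.card K = 2 := by
    intro K m hm hK
    rw [hF] at hK
    have h1 : 1 < Nat.card K := Finite.one_lt_card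
    obtain ⟨j, -, hj⟩ := (Nat.dvd_prime_pow Nat.prime_two).mp
      (hK ▸ dvd_pow_self (Nat.card K) (by omega : m ≠ 0))
    rw [hj, ← pow_mul] at hK
    have h2 := Nat.pow_right_injective (le_refl 2) hK
    have h3 : j ∣ r := ⟨m, h2.symm⟩
    rcases (Nat.dvd_prime hr).mp h3 with h4 | h4
    · rw [hj, h4, pow_one]
    · exfalso
      rw [h4] at h2
      have : r * 2 ≤ r * m := Nat.mul_le_mul_left r hm
      have := hr.pos
      omega
  rcases H98.DicksonSub.psl_list2 2 M hM with ⟨h, -⟩ | ⟨k, -, -, h⟩ | ⟨x₀, h⟩ | ⟨h, -⟩ | ⟨h, -⟩ |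
    ⟨h, -⟩ | ⟨K, m, hm, hK, e⟩ | ⟨K, m, hm, hK, ho, e⟩
  · exact Or.inl h
  · exact Or.inr (Or.inl ⟨k, h⟩)
  · right; right; left
    exact ⟨x₀, h⟩
  · exact absurd rfl h
  · exact absurd rfl h
  · exact absurd rfl h
  · right; right; right
    rw [H98.DicksonIdx.card_pgl' K e, hsub K m hm hK]
  · rw [hsub K m hm hK] at ho
    exact absurd ho (by decide)

theorem arith_nine {r : ℕ} (hodd : Odd r) : 9 ^ r % 80 = 9 := by
  obtain ⟨k, rfl⟩ := hodd
  induction k with
  | zero => norm_num
  | succ k ih =>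
    have : 9 ^ (2 * (k + 1) + 1) = 9 ^ (2 * k + 1) * 81 := by ring
    rw [this, Nat.mul_mod, ih]

/-- Dickson's list for `q = 3^r`, `r` odd -/
theorem cases_three (hr : r.Prime) (hodd : Odd r) (hF : Nat.card F = 3 ^ r) [CharP F 3]
    (M : Subgroup (Matrix.ProjectiveSpecialLinearGroup (Fin 2) F)) (hM : M ≠ ⊤) :
    (IsCyclic M ∧ ¬ 3 ∣ Nat.card M) ∨
    (∃ k : ℕ, ¬ 3 ∣ k ∧ k ≠ 0 ∧ Nonempty (M ≃* DihedralGroup k)) ∨
    (∃ x₀ : OnePoint F, ∀ g ∈ M, ιP F g • x₀ = x₀) ∨
    (∀ g : M, orderOf g ∣ 3 ∨ orderOf g ∣ 2) := by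
  classical
  have : Fact (Nat.Prime 3) := ⟨Nat.prime_three⟩
  have hsub : ∀ (K : Subfield F) (m : ℕ), 2 ≤ m → Nat.card K ^ m = Nat.card F → Nat.card K = 3 := by
    intro K m hm hK
    rw [hF] at hK
    have h1 : 1 < Nat.card K := Finite.one_lt_card
    obtain ⟨j, -, hj⟩ := (Nat.dvd_prime_pow Nat.prime_three).mp
      (hK ▸ dvd_pow_self (Nat.card K) (by omega : m ≠ 0))
    rw [hj, ← pow_mul] at hK
    have h2 := Nat.pow_right_injective (by norm_num : 2 ≤ 3) hK
    have h3 : j ∣ r := ⟨m, h2.symm⟩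
    rcases (Nat.dvd_prime hr).mp h3 with h4 | h4
    · rw [hj, h4, pow_one]
    · exfalso
      rw [h4] at h2
      have : r * 2 ≤ r * m := Nat.mul_le_mul_left r hm
      have := hr.pos
      omega
  have hFo : Odd (Nat.card F) := by rw [hF]; exact Odd.pow (by decide)
  have hgcd : Nat.gcd 2 (Nat.card F - 1) = 2 := by
    have h2 : 2 ∣ Nat.card F - 1 := by
      obtain ⟨k, hk⟩ := hFo
      exact ⟨k, by omega⟩
    exact Nat.gcd_eq_left h2
  have h3F : 3 ∣ Nat.card F := by rw [hF]; exact dvd_pow_self 3 hr.ne_zero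
  have hpos : 0 < Nat.card F := Nat.card_pos
  have hcop : ∀ k : ℕ, (k ∣ (Nat.card F - 1) / Nat.gcd 2 (Nat.card F - 1) ∨
      k ∣ (Nat.card F + 1) / Nat.gcd 2 (Nat.card F - 1)) → ¬ 3 ∣ k ∧ k ≠ 0 := by
    intro k hk
    rw [hgcd] at hk
    have hFF : 3 ≤ Nat.card F := Nat.le_of_dvd hpos h3F
    constructor
    · intro h3
      rcases hk with h | h
      · have h5 : 3 ∣ (Nat.card F - 1) := (h3.trans h).trans (Nat.div_dvd_of_dvd
          (by obtain ⟨k, hk⟩ := hFo; exact ⟨k, by omega⟩))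
        omega
      · have h5 : 3 ∣ (Nat.card F + 1) := (h3.trans h).trans (Nat.div_dvd_of_dvd
          (by obtain ⟨k, hk⟩ := hFo; exact ⟨k + 1, by omega⟩))
        omega
    · rintro rfl
      rcases hk with h | h
      · rw [Nat.zero_dvd] at h
        omega
      · rw [Nat.zero_dvd] at h
        omega
  haveI hfG : Finite (Matrix.ProjectiveSpecialLinearGroup (Fin 2) F) := inferInstanceAs (Finite (_ ⧸ _))
  have hG := H98.DicksonPGL.card_psl_eq F
  rw [hgcd] at hG
  have hG2 : (Nat.card F + 1) * (Nat.card F * (Nat.card F - 1)) = Nat.card F * (9 ^ r - 1) := by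
    have h9 : 9 ^ r = Nat.card F * Nat.card F := by
      rw [hF, ← mul_pow]; norm_num
    rw [h9]
    obtain ⟨k, hk⟩ := Nat.exists_eq_add_of_le hpos
    rw [hk]
    simp only [Nat.succ_eq_add_one, zero_add, Nat.add_sub_cancel_left]
    have : (1 + k) * (1 + k) - 1 = k * (k + 2) := by
      have : (1 + k) * (1 + k) = k * (k + 2) + 1 := by ring
      omega
    rw [this]
    ring
  rw [hG2] at hG
  have h9 := arith_nine hodd
  have hcopF : ∀ a : ℕ, Nat.Coprime a 3 → a ∣ 2 * Nat.card M → a ∣ 9 ^ r - 1 := by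
    intro a ha hd
    have h1 : a ∣ Nat.card F * (9 ^ r - 1) := by
      rw [← hG]
      exact hd.trans (Nat.mul_dvd_mul_left 2 (Subgroup.card_subgroup_dvd_card M))
    rw [hF] at h1
    exact (Nat.Coprime.pow_right r ha).dvd_of_dvd_mul_left h1
  have h9pos : 9 ≤ 9 ^ r := by
    calc 9 = 9 ^ 1 := by norm_num
      _ ≤ 9 ^ r := Nat.pow_le_pow_right (by norm_num) hr.pos
  rcases H98.DicksonSub.psl_list2 3 M hM with ⟨h, hd⟩ | ⟨k, -, hk, h⟩ | ⟨x₀, h⟩ | ⟨-, h, -⟩ | ⟨-, h, -⟩ |
    ⟨-, -, h⟩ | ⟨K, m, hm, hK, e⟩ | ⟨K, m, hm, hK, ho, e⟩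
  · exact Or.inl ⟨h, (hcop _ hd).1⟩
  · exact Or.inr (Or.inl ⟨k, (hcop k hk).1, (hcop k hk).2, h⟩)
  · right; right; left
    exact ⟨x₀, h⟩
  · exact absurd rfl h
  · exact absurd rfl h
  · exfalso
    have h60 := H98.DicksonIdx.card_A5 h
    have := hcopF 5 (by norm_num) (by rw [h60]; norm_num)
    omega
  · exfalso
    have h24 := H98.DicksonIdx.card_pgl' K e
    rw [hsub K m hm hK] at h24
    have := hcopF 16 (by norm_num) (by rw [h24]; norm_num)
    omega
  · right; right; right
    obtain ⟨e⟩ := e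
    have hK3 := hsub K m hm hK
    haveI : CharP K 3 := inferInstance
    intro g
    have h := H46.PSL2Orders.order_trichotomy (F := K) 3 (e g)
    rw [hK3] at h
    have he : orderOf (e g) = orderOf g := e.orderOf_eq g
    rw [he] at h
    rcases h with h | h | h
    · exact Or.inl h
    · exact Or.inr (h.trans (by norm_num))
    · exact Or.inr (h.trans (by norm_num))

end cases

end H86.SolPSLb
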