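import Mathlib
import Cfsg.Agent.Lib.H86.SolPSLb

/-! Solvable two-generator subgroups of `PSL₂(2^r)`, `PSL₂(3^r)`. -/

set_option autoImplicit false

namespace H86.SolPSLc

open Subgroup Matrix H98.DicksonPSL H86.SolPSLb H86.SolPSLa
open scoped H98.Moebius

variable {F : Type*} [Field F] [Finite F] [DecidableEq F]

abbrev P (F : Type*) [Field F] := Matrix.ProjectiveSpecialLinearGroup (Fin 2) F

omit [DecidableEq F] in
theorem closure_ne_top (h4 : 4 ≤ Nat.card F) (x y : P F)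
    (hs : Group.IsSolvable (closure ({x, y} : Set (P F)))) : closure ({x, y} : Set (P F)) ≠ ⊤ := by
  intro h
  rw [h] at hs
  apply H98.DicksonSolv.psl_not_solvable F h4
  exact Group.isSolvable_of_isSolvable_injective (f := (topEquiv (G := P F)).symm.toMonoidHom)
    (topEquiv (G := P F)).symm.injective

omit [Finite F] in
theorem sol_of_fix (p : ℕ) [Fact p.Prime] [CharP F p] (x y : P F) (x₀ : OnePoint F)
    (hx : ιP F x • x₀ = x₀) (hy : ιP F y • x₀ = x₀) :
    Group.IsSolvable (closure ({x, y} : Set (P F))) := by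
  have hι : Function.Injective (ιP F) := ProjectiveSpecialLinearGroup.toPGL_injective
  set M := closure ({x, y} : Set (P F)) with hM
  let σ : M →* ProjGenLinGroup (Fin 2) F := (ιP F).comp M.subtype
  have hσ : Function.Injective σ := hι.comp M.subtype_injective
  have hfix : ∀ g : M, σ g • x₀ = x₀ := by
    rintro ⟨g, hg⟩
    show ιP F g • x₀ = x₀
    rw [hM] at hg
    induction hg using closure_induction with
    | mem z hz => rcases hz with rfl | rfl <;> assumption
    | one => rw [map_one, one_smul]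
    | mul a b _ _ ha hb => rw [map_mul, mul_smul, hb, ha]
    | inv a _ ha => rw [map_inv, inv_smul_eq_iff, ha]
  have h := H98.DicksonPSL.commutator_of_fixed p σ hσ x₀ hfix
  exact H98.DicksonSolv.solvable_of_metabelian h.2

/-- conclusions for a subgroup `M` give conclusions for the closure -/
theorem of_sub {G : Type*} [Group G] (x y : G) (Q : G → G → Prop)
    (h : ∀ (x' y' : closure ({x, y} : Set G)), Q x' y') : Q x y :=
  h ⟨x, subset_closure (Or.inl rfl)⟩ ⟨y, subset_closure (Or.inr rfl)⟩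

section even

variable {r : ℕ} (hr : r.Prime) (hF : Nat.card F = 2 ^ r) [CharP F 2]

include hr in
theorem four_le {n : ℕ} (hF : n = 2 ^ r) : 4 ≤ n := by
  rw [hF]
  calc 4 = 2 ^ 2 := by norm_num
    _ ≤ 2 ^ r := Nat.pow_le_pow_right (by norm_num) hr.two_le

include hr hF

theorem even_high_fwd (M : Subgroup (P F)) (hM : M ≠ ⊤) (x y : M) (hx : x * x ≠ 1) :
    (x * y = y * x ∨ y * x * y⁻¹ = x⁻¹ ∨ ∃ x₀ : OnePoint F, ιP F x • x₀ = x₀ ∧ ιP F y • x₀ = x₀) := by
  rcases cases_even hr hF _ hM with h | ⟨k, ⟨e⟩⟩ | ⟨x₀, h⟩ | h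
  · left
    letI := h.commGroup
    exact mul_comm x y
  · rcases dih_high e x y hx with h | h
    · exact Or.inl h
    · exact Or.inr (Or.inl h)
  · exact Or.inr (Or.inr ⟨x₀, h x x.2, h y y.2⟩)
  · rcases six_high h x y hx with h | h
    · exact Or.inl h
    · exact Or.inr (Or.inl h)

theorem even_two_fwd (M : Subgroup (P F)) (hM : M ≠ ⊤) (x y : M) (hx : x * x = 1) :
    (x * y = y * x ∨ y * y = 1 ∨ (x * y) * (x * y) = 1 ∨
      ∃ x₀ : OnePoint F, ιP F x • x₀ = x₀ ∧ ιP F y • x₀ = x₀) := by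
  rcases cases_even hr hF _ hM with h | ⟨k, ⟨e⟩⟩ | ⟨x₀, h⟩ | h
  · left
    letI := h.commGroup
    exact mul_comm x y
  · rcases dih_two e x y hx with h | h | h
    · exact Or.inl h
    · exact Or.inr (Or.inl h)
    · exact Or.inr (Or.inr (Or.inl h))
  · exact Or.inr (Or.inr (Or.inr ⟨x₀, h x x.2, h y y.2⟩))
  · rcases six_two h x y hx with h | h | h
    · exact Or.inl h
    · exact Or.inr (Or.inl h)
    · exact Or.inr (Or.inr (Or.inl h))

theorem even_high (x y : P F) (hx : x * x ≠ 1) :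
    Group.IsSolvable (closure ({x, y} : Set (P F))) ↔
      (x * y = y * x ∨ y * x * y⁻¹ = x⁻¹ ∨ ∃ x₀ : OnePoint F, ιP F x • x₀ = x₀ ∧ ιP F y • x₀ = x₀) := by
  have : Fact (Nat.Prime 2) := ⟨Nat.prime_two⟩
  constructor
  · intro hs
    have hM := closure_ne_top (four_le hr hF) x y hs
    have h := even_high_fwd hr hF _ hM ⟨x, subset_closure (Or.inl rfl)⟩
      ⟨y, subset_closure (Or.inr rfl)⟩ (fun h => hx (congrArg Subtype.val h))
    rcases h with h | h | h
    · exact Or.inl (congrArg Subtype.val h)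
    · exact Or.inr (Or.inl (congrArg Subtype.val h))
    · exact Or.inr (Or.inr h)
  · rintro (h | h | ⟨x₀, h1, h2⟩)
    · exact sol_of_comm x y h
    · exact sol_of_inv x y h
    · exact sol_of_fix 2 x y x₀ h1 h2

theorem even_two (x y : P F) (hx : x * x = 1) :
    Group.IsSolvable (closure ({x, y} : Set (P F))) ↔
      (x * y = y * x ∨ y * y = 1 ∨ (x * y) * (x * y) = 1 ∨
        ∃ x₀ : OnePoint F, ιP F x • x₀ = x₀ ∧ ιP F y • x₀ = x₀) := by
  have : Fact (Nat.Prime 2) := ⟨Nat.prime_two⟩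
  constructor
  · intro hs
    have hM := closure_ne_top (four_le hr hF) x y hs
    have h := even_two_fwd hr hF _ hM ⟨x, subset_closure (Or.inl rfl)⟩
      ⟨y, subset_closure (Or.inr rfl)⟩ (Subtype.ext hx)
    rcases h with h | h | h | h
    · exact Or.inl (congrArg Subtype.val h)
    · exact Or.inr (Or.inl (congrArg Subtype.val h))
    · exact Or.inr (Or.inr (Or.inl (congrArg Subtype.val h)))
    · exact Or.inr (Or.inr (Or.inr h))
  · rintro (h | h | h | ⟨x₀, h1, h2⟩)
    · exact sol_of_comm x y h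
    · exact sol_of_dih x y hx h
    · exact sol_of_dih' x y hx h
    · exact sol_of_fix 2 x y x₀ h1 h2

end even

section three

variable {r : ℕ} (hr : r.Prime) (hodd : Odd r) (hF : Nat.card F = 3 ^ r) [CharP F 3]

include hr in
theorem four_le3 {n : ℕ} (hF : n = 3 ^ r) : 4 ≤ n := by
  rw [hF]
  calc 4 ≤ 3 ^ 2 := by norm_num
    _ ≤ 3 ^ r := Nat.pow_le_pow_right (by norm_num) hr.two_le

include hr hF hodd

theorem three_high_fwd (M : Subgroup (P F)) (hM : M ≠ ⊤) (x y : M) (hx : x * x ≠ 1)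
    (hx3 : x ^ 3 ≠ 1) :
    (x * y = y * x ∨ y * x * y⁻¹ = x⁻¹ ∨ ∃ x₀ : OnePoint F, ιP F x • x₀ = x₀ ∧ ιP F y • x₀ = x₀) := by
  rcases cases_three hr hodd hF _ hM with ⟨h, -⟩ | ⟨k, -, -, ⟨e⟩⟩ | ⟨x₀, h⟩ | h
  · left
    letI := h.commGroup
    exact mul_comm x y
  · rcases dih_high e x y hx with h | h
    · exact Or.inl h
    · exact Or.inr (Or.inl h)
  · exact Or.inr (Or.inr ⟨x₀, h x x.2, h y y.2⟩)
  · exfalso
    rcases h x with h | h
    · exact hx3 (orderOf_dvd_iff_pow_eq_one.mp h)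
    · rw [orderOf_dvd_iff_pow_eq_one, pow_two] at h
      exact hx h

theorem three_high (x y : P F) (hx : x * x ≠ 1) (hx3 : x ^ 3 ≠ 1) :
    Group.IsSolvable (closure ({x, y} : Set (P F))) ↔
      (x * y = y * x ∨ y * x * y⁻¹ = x⁻¹ ∨ ∃ x₀ : OnePoint F, ιP F x • x₀ = x₀ ∧ ιP F y • x₀ = x₀) := by
  have : Fact (Nat.Prime 3) := ⟨Nat.prime_three⟩
  constructor
  · intro hs
    have hM := closure_ne_top (four_le3 hr hF) x y hs
    have h := three_high_fwd hr hodd hF _ hM ⟨x, subset_closure (Or.inl rfl)⟩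
      ⟨y, subset_closure (Or.inr rfl)⟩ (fun h => hx (congrArg Subtype.val h))
      (fun h => hx3 (congrArg Subtype.val h))
    rcases h with h | h | h
    · exact Or.inl (congrArg Subtype.val h)
    · exact Or.inr (Or.inl (congrArg Subtype.val h))
    · exact Or.inr (Or.inr h)
  · rintro (h | h | ⟨x₀, h1, h2⟩)
    · exact sol_of_comm x y h
    · exact sol_of_inv x y h
    · exact sol_of_fix 3 x y x₀ h1 h2

theorem three_three_fwd (M : Subgroup (P F)) (hM : M ≠ ⊤) (x y : M) (hx : orderOf x = 3) :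
      ((∃ x₀ : OnePoint F, ιP F x • x₀ = x₀ ∧ ιP F y • x₀ = x₀) ∨
      ((y ^ 3 = 1 ∨ y * y = 1) ∧ ((x * y) ^ 3 = 1 ∨ (x * y) * (x * y) = 1))) := by
  haveI hfG : Finite (P F) := inferInstanceAs (Finite (_ ⧸ _))
  have hord : ∀ z : M, (orderOf z ∣ 3 ∨ orderOf z ∣ 2) → (z ^ 3 = 1 ∨ z * z = 1) := by
    intro z hz
    rcases hz with h | h
    · exact Or.inl (orderOf_dvd_iff_pow_eq_one.mp h)
    · right
      rw [orderOf_dvd_iff_pow_eq_one, pow_two] at h
      exact h
  rcases cases_three hr hodd hF _ hM with ⟨-, h⟩ | ⟨k, hk, hk0, ⟨e⟩⟩ | ⟨x₀, h⟩ | h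
  · exfalso
    apply h
    rw [← hx]
    exact orderOf_dvd_natCard x
  · exfalso
    have h1 : 3 ∣ Nat.card (DihedralGroup k) := by
      rw [← Nat.card_congr e.toEquiv, ← hx]
      exact orderOf_dvd_natCard x
    rw [DihedralGroup.nat_card] at h1
    exact hk ((Nat.Coprime.dvd_mul_left (by norm_num)).mp h1)
  · exact Or.inl ⟨x₀, h x x.2, h y y.2⟩
  · exact Or.inr ⟨hord _ (h y), hord _ (h (x * y))⟩

theorem three_three (x y : P F) (hx : orderOf x = 3)
    (hs : Group.IsSolvable (closure ({x, y} : Set (P F)))) :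
      ((∃ x₀ : OnePoint F, ιP F x • x₀ = x₀ ∧ ιP F y • x₀ = x₀) ∨
      ((y ^ 3 = 1 ∨ y * y = 1) ∧ ((x * y) ^ 3 = 1 ∨ (x * y) * (x * y) = 1))) := by
  have hM := closure_ne_top (four_le3 hr hF) x y hs
  have h := three_three_fwd hr hodd hF _ hM ⟨x, subset_closure (Or.inl rfl)⟩
      ⟨y, subset_closure (Or.inr rfl)⟩ (by rw [Subgroup.orderOf_mk]; exact hx)
  rcases h with h | ⟨h1, h2⟩
  · exact Or.inl h
  · right
    constructor
    · exact h1.imp (fun h => congrArg Subtype.val h) (fun h => congrArg Subtype.val h)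
    · exact h2.imp (fun h => congrArg Subtype.val h) (fun h => congrArg Subtype.val h)

theorem three_two_fwd (M : Subgroup (P F)) (hM : M ≠ ⊤) (x y : M) (hx : x * x = 1) :
      (x * y = y * x ∨ y * y = 1 ∨ (x * y) * (x * y) = 1 ∨
        (∃ x₀ : OnePoint F, ιP F x • x₀ = x₀ ∧ ιP F y • x₀ = x₀) ∨
        (y ^ 3 = 1 ∧ (x * y) ^ 3 = 1)) := by
  have hord : ∀ z : M, (orderOf z ∣ 3 ∨ orderOf z ∣ 2) → (z ^ 3 = 1 ∨ z * z = 1) := by
    intro z hz
    rcases hz with h | h
    · exact Or.inl (orderOf_dvd_iff_pow_eq_one.mp h)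
    · right
      rw [orderOf_dvd_iff_pow_eq_one, pow_two] at h
      exact h
  rcases cases_three hr hodd hF _ hM with ⟨h, -⟩ | ⟨k, -, -, ⟨e⟩⟩ | ⟨x₀, h⟩ | h
  · left
    letI := h.commGroup
    exact mul_comm x y
  · rcases dih_two e x y hx with h | h | h
    · exact Or.inl h
    · exact Or.inr (Or.inl h)
    · exact Or.inr (Or.inr (Or.inl h))
  · exact Or.inr (Or.inr (Or.inr (Or.inl ⟨x₀, h x x.2, h y y.2⟩)))
  · rcases hord y (h y) with h1 | h1
    · rcases hord (x * y) (h (x * y)) with h2 | h2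
      · exact Or.inr (Or.inr (Or.inr (Or.inr ⟨h1, h2⟩)))
      · exact Or.inr (Or.inr (Or.inl h2))
    · exact Or.inr (Or.inl h1)

theorem three_two (x y : P F) (hx : x * x = 1) :
    Group.IsSolvable (closure ({x, y} : Set (P F))) ↔
      (x * y = y * x ∨ y * y = 1 ∨ (x * y) * (x * y) = 1 ∨
        (∃ x₀ : OnePoint F, ιP F x • x₀ = x₀ ∧ ιP F y • x₀ = x₀) ∨
        (y ^ 3 = 1 ∧ (x * y) ^ 3 = 1)) := by
  have : Fact (Nat.Prime 3) := ⟨Nat.prime_three⟩
  constructor
  · intro hs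
    have hM := closure_ne_top (four_le3 hr hF) x y hs
    have h := three_two_fwd hr hodd hF _ hM ⟨x, subset_closure (Or.inl rfl)⟩
      ⟨y, subset_closure (Or.inr rfl)⟩ (Subtype.ext hx)
    rcases h with h | h | h | h | ⟨h1, h2⟩
    · exact Or.inl (congrArg Subtype.val h)
    · exact Or.inr (Or.inl (congrArg Subtype.val h))
    · exact Or.inr (Or.inr (Or.inl (congrArg Subtype.val h)))
    · exact Or.inr (Or.inr (Or.inr (Or.inl h)))
    · exact Or.inr (Or.inr (Or.inr (Or.inr ⟨congrArg Subtype.val h1, congrArg Subtype.val h2⟩)))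
  · rintro (h | h | h | ⟨x₀, h1, h2⟩ | ⟨h1, h2⟩)
    · exact sol_of_comm x y h
    · exact sol_of_dih x y hx h
    · exact sol_of_dih' x y hx h
    · exact sol_of_fix 3 x y x₀ h1 h2
    · exact sol_of_tri x y hx h1 h2

end three

end H86.SolPSLc
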