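import Mathlib
import Cfsg.Agent.Lib.H45.SL2Basic

/-! Counting in `SL₂(q)`. -/

set_option autoImplicit false

namespace H86.SolPSLd

open Matrix H45.SL2

variable {F : Type*} [Field F] [Finite F]

abbrev S (F : Type*) [Field F] := Matrix.SpecialLinearGroup (Fin 2) F

/-- the norm form -/
def NN (t : F) (v : F × F) : F := v.1 * v.1 + t * v.1 * v.2 + v.2 * v.2

theorem NN_mul (t a c a' c' : F) : NN t (a * a' - c * c', a * c' + c * a' + t * c * c') =
    NN t (a, c) * NN t (a', c') := by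
  unfold NN; ring

omit [Finite F] in
theorem NN_an {t : F} (ht : ∀ z : F, z * z - t * z + 1 ≠ 0) (v : F × F) (hv : NN t v = 0) : v = 0 := by
  obtain ⟨a, c⟩ := v
  unfold NN at hv
  simp only at hv
  by_cases hc : c = 0
  · rw [hc] at hv
    have : a * a = 0 := by linear_combination hv
    have ha : a = 0 := mul_self_eq_zero.mp this
    rw [ha, hc]; rfl
  · exfalso
    apply ht (-(a / c))
    field_simp
    linear_combination hv

theorem disc_ne {t : F} (ht : ∀ z : F, z * z - t * z + 1 ≠ 0) : t ^ 2 - 4 * 1 * 1 ≠ 0 := by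
  intro h
  by_cases h2 : (2 : F) = 0
  · have ht2 : t ^ 2 = 0 := by linear_combination h + 2 * h2
    have ht0 : t = 0 := by simpa using ht2
    apply ht 1
    rw [ht0]
    linear_combination h2
  · apply ht (t / 2)
    field_simp
    linear_combination -h

theorem card_NN {t : F} (ht : ∀ z : F, z * z - t * z + 1 ≠ 0) (r : F) (hr : r ≠ 0) :
    Nat.card {v : F × F // NN t v = r} = Nat.card F + 1 := by
  classical
  have hFt := Fintype.ofFinite F
  have hsame : ∀ r : F, r ≠ 0 → Nat.card {v : F × F // NN t v = r} =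
      Nat.card {v : F × F // NN t v = 1} := by
    intro r hr
    obtain ⟨x, y, hxy⟩ := form_universal 1 t 1 r (disc_ne ht)
    have hw : NN t (x, y) = r := by unfold NN; linear_combination hxy
    have hxyr : x * x + t * x * y + y * y = r := hw
    symm
    refine Nat.card_congr ⟨fun v => ⟨(v.1.1 * x - v.1.2 * y, v.1.1 * y + v.1.2 * x + t * v.1.2 * y), ?_⟩,
      fun v => ⟨((v.1.1 * (x + t * y) + v.1.2 * y) / r, (-v.1.1 * y + v.1.2 * x) / r), ?_⟩, ?_, ?_⟩
    · rw [NN_mul, hw]
      have := v.2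
      rw [show (v.1.1, v.1.2) = v.1 from rfl, this, one_mul]
    · have h := v.2
      have h1 : v.1.1 * v.1.1 + t * v.1.1 * v.1.2 + v.1.2 * v.1.2 = r := h
      show ((v.1.1 * (x + t * y) + v.1.2 * y) / r) * ((v.1.1 * (x + t * y) + v.1.2 * y) / r) +
        t * ((v.1.1 * (x + t * y) + v.1.2 * y) / r) * ((-v.1.1 * y + v.1.2 * x) / r) +
        ((-v.1.1 * y + v.1.2 * x) / r) * ((-v.1.1 * y + v.1.2 * x) / r) = 1
      have e : ((v.1.1 * (x + t * y) + v.1.2 * y) / r) * ((v.1.1 * (x + t * y) + v.1.2 * y) / r) +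
        t * ((v.1.1 * (x + t * y) + v.1.2 * y) / r) * ((-v.1.1 * y + v.1.2 * x) / r) +
        ((-v.1.1 * y + v.1.2 * x) / r) * ((-v.1.1 * y + v.1.2 * x) / r) =
        (v.1.1 * v.1.1 + t * v.1.1 * v.1.2 + v.1.2 * v.1.2) * (x * x + t * x * y + y * y) / (r * r) := by
        field_simp
        ring
      rw [e, h1, hxyr]
      field_simp
    · rintro ⟨⟨a, c⟩, h⟩
      apply Subtype.ext
      apply Prod.ext
      · show ((a * x - c * y) * (x + t * y) + (a * y + c * x + t * c * y) * y) / r = a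
        rw [div_eq_iff hr]
        linear_combination a * hxyr
      · show (-(a * x - c * y) * y + (a * y + c * x + t * c * y) * x) / r = c
        rw [div_eq_iff hr]
        linear_combination c * hxyr
    · rintro ⟨⟨a, c⟩, h⟩
      apply Subtype.ext
      apply Prod.ext
      · show (a * (x + t * y) + c * y) / r * x - (-a * y + c * x) / r * y = a
        field_simp
        linear_combination a * hxyr
      · show (a * (x + t * y) + c * y) / r * y + (-a * y + c * x) / r * x +
          t * ((-a * y + c * x) / r) * y = c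
        field_simp
        linear_combination c * hxyr
  have hsum : ∑ r : F, Nat.card {v : F × F // NN t v = r} = Nat.card F * Nat.card F := by
    rw [← Nat.card_sigma, Nat.card_congr (Equiv.sigmaFiberEquiv (NN t)), Nat.card_prod]
  have h0 : Nat.card {v : F × F // NN t v = 0} = 1 := by
    rw [Nat.card_eq_one_iff_unique]
    refine ⟨⟨?_⟩, ⟨0, by unfold NN; simp⟩⟩
    rintro ⟨a, ha⟩ ⟨b, hb⟩
    exact Subtype.ext ((NN_an ht a ha).trans (NN_an ht b hb).symm)
  have hsplit := Finset.add_sum_erase Finset.univ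
    (fun r : F => Nat.card {v : F × F // NN t v = r}) (Finset.mem_univ 0)
  rw [hsum] at hsplit
  have hconst : ∑ r ∈ Finset.univ.erase (0 : F), Nat.card {v : F × F // NN t v = r} =
      (Nat.card F - 1) * Nat.card {v : F × F // NN t v = 1} := by
    rw [Finset.sum_congr rfl (fun r hr => hsame r (Finset.ne_of_mem_erase hr)), Finset.sum_const,
      Finset.card_erase_of_mem (Finset.mem_univ _), Finset.card_univ, smul_eq_mul,
      Nat.card_eq_fintype_card (α := F)]
  rw [hsame r hr]
  rw [hconst] at hsplit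
  simp only [h0] at hsplit
  have hq : 1 < Nat.card F := Finite.one_lt_card
  obtain ⟨m, hm⟩ := Nat.exists_eq_add_of_lt hq
  rw [hm] at hsplit ⊢
  simp only [Nat.add_sub_cancel] at hsplit
  have h2 : (1 + m + 1) * (1 + m + 1) = 1 + (1 + m) * (1 + m + 1 + 1) := by ring
  rw [h2] at hsplit
  have h3 := Nat.add_left_cancel hsplit
  exact Nat.eq_of_mul_eq_mul_left (by omega) h3

/-- counting elements of `SL₂` with `c = 0` -/
theorem card_c_zero : Nat.card {Y : S F // Y.1 1 0 = 0} = Nat.card F * (Nat.card F - 1) := by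
  classical
  have hFt := Fintype.ofFinite F
  have hu : Nat.card Fˣ = Nat.card F - 1 := by
    rw [Nat.card_units]
  rw [← hu, ← Nat.card_prod]
  refine Nat.card_congr ⟨fun Y => (Y.1.1 0 1, ⟨Y.1.1 0 0, Y.1.1 1 1, ?_, ?_⟩),
    fun v => ⟨mk2 v.2 v.1 0 (v.2⁻¹ : Fˣ) (by simp), rfl⟩, ?_, ?_⟩
  · have := det_eq Y.1
    rw [Y.2, mul_zero, sub_zero] at this
    exact this
  · have := det_eq Y.1
    rw [Y.2, mul_zero, sub_zero] at this
    rw [mul_comm]
    exact this
  · rintro ⟨Y, hY⟩
    apply Subtype.ext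
    apply ext4
    · rfl
    · rfl
    · exact hY.symm
    · rfl
  · rintro ⟨b, a⟩
    apply Prod.ext
    · rfl
    · apply Units.ext
      rfl

/-- counting elements of `SL₂` with `c ≠ 0` -/
theorem card_c_ne (R : F → F → F → Prop) :
    Nat.card {Y : S F // Y.1 1 0 ≠ 0 ∧ R (Y.1 0 0) (Y.1 1 0) (Y.1 1 1)} =
      Nat.card {v : F × F × F // v.2.1 ≠ 0 ∧ R v.1 v.2.1 v.2.2} := by
  refine Nat.card_congr ⟨fun Y => ⟨(Y.1.1 0 0, Y.1.1 1 0, Y.1.1 1 1), Y.2⟩,
    fun v => ⟨mk2 v.1.1 ((v.1.1 * v.1.2.2 - 1) / v.1.2.1) v.1.2.1 v.1.2.2 ?_, v.2⟩, ?_, ?_⟩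
  · have := v.2.1
    rw [div_mul_cancel₀ _ this]
    ring
  · rintro ⟨Y, hY⟩
    apply Subtype.ext
    apply ext4
    · rfl
    · show (Y.1 0 0 * Y.1 1 1 - 1) / Y.1 1 0 = Y.1 0 1
      rw [div_eq_iff hY.1]
      linear_combination det_eq Y
    · rfl
    · rfl
  · rintro ⟨v, hv⟩
    rfl

end H86.SolPSLd
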