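import Mathlib
import Cfsg.Agent.Lib.H86.SolPSLc
import Cfsg.Agent.Lib.H86.SolPSLd
import Cfsg.Agent.Lib.H46.PSL2Orders

/-! Translating conditions in `PSL₂` into matrix conditions. -/

set_option autoImplicit false

namespace H86.SolPSLe

open Matrix H45.SL2 H86.SolPSLc H86.SolPSLd H98.DicksonPSL
open scoped H98.Moebius

variable {F : Type*} [Field F]

/-- the projection -/
abbrev mk (X : S F) : P F := QuotientGroup.mk X

theorem mk_eq_one (X : S F) : mk X = 1 ↔ X = 1 ∨ X = -1 := by
  rw [QuotientGroup.eq_one_iff, mem_center_iff]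

theorem mk_eq (A B : S F) : mk A = mk B ↔ A = B ∨ A = -B := by
  rw [QuotientGroup.eq, mem_center_iff]
  constructor
  · rintro (h | h)
    · left; rwa [inv_mul_eq_one] at h
    · right
      rw [inv_mul_eq_iff_eq_mul] at h
      rw [h, mul_neg, mul_one, neg_neg]
  · rintro (h | h)
    · left; rwa [inv_mul_eq_one]
    · right
      rw [inv_mul_eq_iff_eq_mul, h, mul_neg, mul_one, neg_neg]

theorem mk_comm (X Y : S F) : mk X * mk Y = mk Y * mk X ↔ X * Y = Y * X ∨ X * Y = -(Y * X) :=
  mk_eq (X * Y) (Y * X)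

theorem mk_inv (X Y : S F) : mk Y * mk X * (mk Y)⁻¹ = (mk X)⁻¹ ↔
    Y * X = X⁻¹ * Y ∨ Y * X = -(X⁻¹ * Y) := by
  rw [mul_inv_eq_iff_eq_mul]
  exact mk_eq (Y * X) (X⁻¹ * Y)

theorem mk_sq (Y : S F) : mk Y * mk Y = 1 ↔ tr Y = 0 ∨ Y = 1 ∨ Y = -1 := by
  have h1 : mk Y * mk Y = mk (Y * Y) := rfl
  rw [h1, mk_eq_one]
  constructor
  · intro h
    by_cases ht : tr Y = 0
    · exact Or.inl ht
    right
    have hd := det_eq Y
    have key : ∀ e : F, (Y * Y).1 0 0 = e → (Y * Y).1 0 1 = 0 → (Y * Y).1 1 0 = 0 →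
        (Y * Y).1 1 1 = e → Y = 1 ∨ Y = -1 := by
      intro e h00 h01 h10 h11
      rw [mul_00] at h00
      rw [mul_01] at h01
      rw [mul_10] at h10
      rw [mul_11] at h11
      unfold tr at ht
      have h2 : Y.1 0 1 = 0 := by
        have : (Y.1 0 0 + Y.1 1 1) * Y.1 0 1 = 0 := by linear_combination h01
        exact (mul_eq_zero.mp this).resolve_left ht
      have h3 : Y.1 1 0 = 0 := by
        have : (Y.1 0 0 + Y.1 1 1) * Y.1 1 0 = 0 := by linear_combination h10
        exact (mul_eq_zero.mp this).resolve_left ht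
      have h4 : Y.1 0 0 = Y.1 1 1 := by
        have : (Y.1 0 0 + Y.1 1 1) * (Y.1 0 0 - Y.1 1 1) = 0 := by linear_combination h00 - h11
        exact sub_eq_zero.mp ((mul_eq_zero.mp this).resolve_left ht)
      exact scalar_iff h2 h3 h4
    rcases h with h | h
    · exact key 1 (by rw [h]; rfl) (by rw [h]; rfl) (by rw [h]; rfl) (by rw [h]; rfl)
    · refine key (-1) ?_ ?_ ?_ ?_
      · rw [h, neg_ij, one_00]
      · rw [h, neg_ij, one_01, neg_zero]
      · rw [h, neg_ij, one_10, neg_zero]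
      · rw [h, neg_ij, one_11]
  · rintro (h | h | h)
    · right; exact sq_of_tr_zero h
    · left; rw [h, mul_one]
    · left; rw [h, neg_mul_neg, mul_one]

/-- in characteristic 3 -/
theorem mk_cube (h3 : (3 : F) = 0) (Y : S F) : mk Y ^ 3 = 1 ↔ tr Y * tr Y = 1 := by
  have h1 : mk Y ^ 3 = mk (Y ^ 3) := rfl
  rw [h1, mk_eq_one]
  have hd := det_eq Y
  have e00 : (Y ^ 3).1 0 0 = (tr Y * tr Y - 1) * Y.1 0 0 - tr Y := by
    rw [pow_succ, pow_two, mul_00, mul_00, mul_01]
    unfold tr
    linear_combination (-2 * Y.1 0 0 - Y.1 1 1) * hd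
  have e01 : (Y ^ 3).1 0 1 = (tr Y * tr Y - 1) * Y.1 0 1 := by
    rw [pow_succ, pow_two, mul_01, mul_00, mul_01]
    unfold tr
    linear_combination (- Y.1 0 1) * hd
  have e10 : (Y ^ 3).1 1 0 = (tr Y * tr Y - 1) * Y.1 1 0 := by
    rw [pow_succ, pow_two, mul_10, mul_10, mul_11]
    unfold tr
    linear_combination (- Y.1 1 0) * hd
  have e11 : (Y ^ 3).1 1 1 = (tr Y * tr Y - 1) * Y.1 1 1 - tr Y := by
    rw [pow_succ, pow_two, mul_11, mul_10, mul_11]
    unfold tr
    linear_combination (-2 * Y.1 1 1 - Y.1 0 0) * hd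
  constructor
  · intro h
    by_contra ht
    have ht' : tr Y * tr Y - 1 ≠ 0 := fun h => ht (by linear_combination h)
    have key : ∀ e : F, (Y ^ 3).1 0 0 = e → (Y ^ 3).1 0 1 = 0 → (Y ^ 3).1 1 0 = 0 →
        (Y ^ 3).1 1 1 = e → False := by
      intro e h00 h01 h10 h11
      rw [e01] at h01
      rw [e10] at h10
      have h2 : Y.1 0 1 = 0 := (mul_eq_zero.mp h01).resolve_left ht'
      have h3' : Y.1 1 0 = 0 := (mul_eq_zero.mp h10).resolve_left ht'
      have h4 : Y.1 0 0 = Y.1 1 1 := by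
        have : (tr Y * tr Y - 1) * (Y.1 0 0 - Y.1 1 1) = 0 := by
          rw [e00] at h00
          rw [e11] at h11
          linear_combination h00 - h11
        exact sub_eq_zero.mp ((mul_eq_zero.mp this).resolve_left ht')
      apply ht
      rw [h2, h3'] at hd
      unfold tr
      rw [← h4] at hd ⊢
      linear_combination 4 * hd + h3
    rcases h with h | h
    · exact key 1 (by rw [h]; rfl) (by rw [h]; rfl) (by rw [h]; rfl) (by rw [h]; rfl)
    · refine key (-1) ?_ ?_ ?_ ?_
      · rw [h, neg_ij, one_00]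
      · rw [h, neg_ij, one_01, neg_zero]
      · rw [h, neg_ij, one_10, neg_zero]
      · rw [h, neg_ij, one_11]
  · intro h
    apply scalar_iff
    · rw [e01]; linear_combination Y.1 0 1 * h
    · rw [e10]; linear_combination Y.1 1 0 * h
    · rw [e00, e11]; linear_combination (Y.1 0 0 - Y.1 1 1) * h

section fix

variable [DecidableEq F]

theorem fix_infty (X : S F) : ιP F (mk X) • (OnePoint.infty : OnePoint F) = OnePoint.infty ↔
    X.1 1 0 = 0 := by
  have h := ιP_mk_smul X (OnePoint.infty : OnePoint F)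
  rw [show ιP F (mk X) • (OnePoint.infty : OnePoint F) =
    (Matrix.SpecialLinearGroup.toGL X) • (OnePoint.infty : OnePoint F) from h]
  exact OnePoint.smul_infty_eq_self_iff

theorem fix_coe (X : S F) (z : F) : ιP F (mk X) • (z : OnePoint F) = z ↔
    X.1 0 0 * z + X.1 0 1 = z * (X.1 1 0 * z + X.1 1 1) := by
  have h := ιP_mk_smul X (z : OnePoint F)
  rw [show ιP F (mk X) • (z : OnePoint F) =
    (Matrix.SpecialLinearGroup.toGL X) • (z : OnePoint F) from h]
  rw [OnePoint.smul_some_eq_ite]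
  have hd := det_eq X
  have e00 : (Matrix.SpecialLinearGroup.toGL X) 0 0 = X.1 0 0 := rfl
  have e01 : (Matrix.SpecialLinearGroup.toGL X) 0 1 = X.1 0 1 := rfl
  have e10 : (Matrix.SpecialLinearGroup.toGL X) 1 0 = X.1 1 0 := rfl
  have e11 : (Matrix.SpecialLinearGroup.toGL X) 1 1 = X.1 1 1 := rfl
  rw [e00, e01, e10, e11]
  by_cases h0 : X.1 1 0 * z + X.1 1 1 = 0
  · rw [if_pos h0]
    constructor
    · intro h
      exact absurd h (OnePoint.infty_ne_coe z)
    · intro h
      exfalso
      rw [h0, mul_zero] at h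
      have : (1 : F) = 0 := by
        linear_combination -hd + X.1 0 0 * h0 - X.1 1 0 * h
      exact one_ne_zero this
  · rw [if_neg h0]
    constructor
    · intro h
      have h2 := OnePoint.coe_injective h
      rw [div_eq_iff h0] at h2
      exact h2
    · intro h
      congr 1
      rw [div_eq_iff h0]
      exact h

end fix

section count

variable [Finite F]

theorem card_center_mul (Q : P F → Prop) :
    Nat.card {Y : S F // Q (mk Y)} = Nat.card (Subgroup.center (S F)) * Nat.card {y : P F // Q y} := by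
  classical
  rw [mul_comm, ← Nat.card_prod]
  have hout : ∀ y : P F, mk (Quotient.out y) = y := fun y => QuotientGroup.out_eq' y
  refine Nat.card_congr ⟨fun Y => (⟨mk Y.1, Y.2⟩, ⟨(Quotient.out (mk Y.1))⁻¹ * Y.1, ?_⟩),
    fun v => ⟨Quotient.out v.1.1 * v.2.1, ?_⟩, ?_, ?_⟩
  · have := hout (mk Y.1)
    rw [QuotientGroup.eq] at this
    exact this
  · have h1 : mk (Quotient.out v.1.1 * v.2.1) = v.1.1 := by
      have : mk (Quotient.out v.1.1 * v.2.1) = mk (Quotient.out v.1.1) * mk v.2.1 := rfl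
      have hz : mk v.2.1 = 1 := (QuotientGroup.eq_one_iff _).mpr v.2.2
      rw [this, hout, hz, mul_one]
    rw [h1]
    exact v.1.2
  · rintro ⟨Y, hY⟩
    apply Subtype.ext
    show Quotient.out (mk Y) * ((Quotient.out (mk Y))⁻¹ * Y) = Y
    rw [mul_inv_cancel_left]
  · rintro ⟨⟨y, hy⟩, ⟨z, hz⟩⟩
    have h1 : mk (Quotient.out y * z) = y := by
      have : mk (Quotient.out y * z) = mk (Quotient.out y) * mk z := rfl
      have hz : mk z = 1 := (QuotientGroup.eq_one_iff _).mpr hz
      rw [this, hout, hz, mul_one]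
    apply Prod.ext
    · exact Subtype.ext h1
    · apply Subtype.ext
      show (Quotient.out (mk (Quotient.out y * z)))⁻¹ * (Quotient.out y * z) = z
      rw [h1, inv_mul_cancel_left]

omit [Finite F] in
theorem card_center_even (h2 : (2 : F) = 0) : Nat.card (Subgroup.center (S F)) = 1 := by
  rw [Nat.card_eq_one_iff_unique]
  refine ⟨⟨?_⟩, ⟨1, one_mem _⟩⟩
  have hneg : (-1 : S F) = 1 := by
    apply ext4
    · rw [neg_ij, one_00]; linear_combination -h2
    · rw [neg_ij, one_01, neg_zero]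
    · rw [neg_ij, one_10, neg_zero]
    · rw [neg_ij, one_11]; linear_combination -h2
  rintro ⟨a, ha⟩ ⟨b, hb⟩
  rw [mem_center_iff, hneg, or_self] at ha hb
  exact Subtype.ext (ha.trans hb.symm)

omit [Finite F] in
theorem card_center_odd (h2 : (2 : F) ≠ 0) : Nat.card (Subgroup.center (S F)) = 2 := by
  classical
  have hneg : (-1 : S F) ≠ 1 := by
    intro h
    have h1 : (-1 : S F).1 0 0 = (1 : S F).1 0 0 := by rw [h]
    rw [neg_ij, one_00] at h1
    apply h2
    linear_combination -h1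
  rw [Nat.card_eq_two_iff]
  refine ⟨⟨1, one_mem _⟩, ⟨-1, (mem_center_iff _).mpr (Or.inr rfl)⟩, ?_, ?_⟩
  · intro h
    exact hneg (congrArg Subtype.val h).symm
  · rw [Set.eq_univ_iff_forall]
    rintro ⟨a, ha⟩
    rcases (mem_center_iff a).mp ha with h | h
    · left; exact Subtype.ext h
    · right; exact Subtype.ext h

end count

end H86.SolPSLe
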