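import Mathlib
import Cfsg.Agent.Lib.H86.SolPSLe

/-! Counts for the semisimple cases. -/

set_option autoImplicit false

namespace H86.SolPSLf

open Matrix H45.SL2 H86.SolPSLc H86.SolPSLd H86.SolPSLe H98.DicksonPSL
open scoped H98.Moebius

variable {F : Type*} [Field F]

theorem card_or {α : Type*} [Finite α] (p r : α → Prop) :
    Nat.card {x // p x ∨ r x} = Nat.card {x // p x} + Nat.card {x // ¬ p x ∧ r x} := by
  classical
  rw [← Nat.card_sum]
  refine Nat.card_congr ((Equiv.subtypeEquivRight (fun x => ?_)).trans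
    (subtypeOrEquiv p (fun x => ¬ p x ∧ r x) ?_))
  · tauto
  · rw [Pi.disjoint_iff]
    intro x
    rw [Prop.disjoint_iff]
    tauto

/-- the condition "the pair is metacyclic or has a common fixed point" -/
def Cond [DecidableEq F] (x y : P F) : Prop :=
  x * y = y * x ∨ y * x * y⁻¹ = x⁻¹ ∨ ∃ x₀ : OnePoint F, ιP F x • x₀ = x₀ ∧ ιP F y • x₀ = x₀

theorem split_iff [DecidableEq F] {l : F} (hl0 : l ≠ 0) (hl : l * l ≠ 1) (Y : S F) :
    Cond (mk (mk2 l 0 0 l⁻¹ (by rw [mul_inv_cancel₀ hl0]; ring))) (mk Y) ↔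
      (Y.1 1 0 = 0 ∨ (Y.1 0 1 = 0 ∨ (Y.1 0 0 = 0 ∧ Y.1 1 1 = 0))) := by
  set X : S F := mk2 l 0 0 l⁻¹ (by rw [mul_inv_cancel₀ hl0]; ring) with hX
  have hl' : l - l⁻¹ ≠ 0 := by
    intro h
    apply hl
    have h2 : l = l⁻¹ := by linear_combination h
    calc l * l = l⁻¹ * l := by rw [← h2]
      _ = 1 := inv_mul_cancel₀ hl0
  have hX00 : X.1 0 0 = l := rfl
  have hX01 : X.1 0 1 = 0 := rfl
  have hX10 : X.1 1 0 = 0 := rfl
  have hX11 : X.1 1 1 = l⁻¹ := rfl
  unfold Cond
  rw [mk_comm, mk_inv]
  constructor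
  · rintro ((h | h) | (h | h) | ⟨x₀, h1, h2⟩)
    · right; left
      have e := congrArg (fun A : S F => A.1 0 1) h
      simp only [mul_01, hX00, hX01, hX10, hX11] at e
      have : Y.1 0 1 * (l - l⁻¹) = 0 := by linear_combination e
      exact (mul_eq_zero.mp this).resolve_right hl'
    · by_cases h2 : (2 : F) = 0
      · right; left
        have e := congrArg (fun A : S F => A.1 0 1) h
        simp only [neg_ij, mul_01, hX00, hX01, hX10, hX11] at e
        have : Y.1 0 1 * (l - l⁻¹) = 0 := by linear_combination e - Y.1 0 1 * l⁻¹ * h2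
        exact (mul_eq_zero.mp this).resolve_right hl'
      · right; right
        have e := congrArg (fun A : S F => A.1 0 0) h
        have e' := congrArg (fun A : S F => A.1 1 1) h
        simp only [neg_ij, mul_00, mul_11, hX00, hX01, hX10, hX11] at e e'
        constructor
        · have : (2 * l) * Y.1 0 0 = 0 := by linear_combination e
          exact (mul_eq_zero.mp this).resolve_left (mul_ne_zero h2 hl0)
        · have : (2 * l⁻¹) * Y.1 1 1 = 0 := by linear_combination e'
          exact (mul_eq_zero.mp this).resolve_left (mul_ne_zero h2 (inv_ne_zero hl0))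
    · right; right
      have e := congrArg (fun A : S F => A.1 0 0) h
      have e' := congrArg (fun A : S F => A.1 1 1) h
      simp only [mul_00, mul_11, inv_00, inv_01, inv_10, inv_11, hX00, hX01, hX10, hX11] at e e'
      constructor
      · have : (l - l⁻¹) * Y.1 0 0 = 0 := by linear_combination e
        exact (mul_eq_zero.mp this).resolve_left hl'
      · have : (l - l⁻¹) * Y.1 1 1 = 0 := by linear_combination -e'
        exact (mul_eq_zero.mp this).resolve_left hl'
    · by_cases h2 : (2 : F) = 0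
      · right; right
        have e := congrArg (fun A : S F => A.1 0 0) h
        have e' := congrArg (fun A : S F => A.1 1 1) h
        simp only [neg_ij, mul_00, mul_11, inv_00, inv_01, inv_10, inv_11, hX00, hX01, hX10,
          hX11] at e e'
        constructor
        · have : (l - l⁻¹) * Y.1 0 0 = 0 := by linear_combination e - l⁻¹ * Y.1 0 0 * h2
          exact (mul_eq_zero.mp this).resolve_left hl'
        · have : (l - l⁻¹) * Y.1 1 1 = 0 := by linear_combination e' - l⁻¹ * Y.1 1 1 * h2
          exact (mul_eq_zero.mp this).resolve_left hl'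
      · right; left
        have e := congrArg (fun A : S F => A.1 0 1) h
        simp only [neg_ij, mul_01, inv_00, inv_01, hX00, hX01, hX10, hX11] at e
        have : (2 * l⁻¹) * Y.1 0 1 = 0 := by linear_combination e
        exact (mul_eq_zero.mp this).resolve_left (mul_ne_zero h2 (inv_ne_zero hl0))
    · induction x₀ using OnePoint.rec with
      | infty => left; exact (fix_infty Y).mp h2
      | coe z =>
        right; left
        rw [fix_coe] at h1 h2
        rw [hX00, hX01, hX10, hX11] at h1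
        have : z * (l - l⁻¹) = 0 := by linear_combination h1
        have hz : z = 0 := (mul_eq_zero.mp this).resolve_right hl'
        rw [hz] at h2
        linear_combination h2
  · rintro (h | h | ⟨h1, h2⟩)
    · right; right
      exact ⟨OnePoint.infty, (fix_infty X).mpr rfl, (fix_infty Y).mpr h⟩
    · right; right
      refine ⟨((0 : F) : OnePoint F), (fix_coe X 0).mpr ?_, (fix_coe Y 0).mpr ?_⟩
      · rw [hX01]; ring
      · rw [h]; ring
    · right; left; left
      apply ext4
      · rw [mul_00, mul_00, inv_00, inv_01, hX00, hX10, hX11, hX01, h1]; ring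
      · rw [mul_01, mul_01, inv_00, inv_01, hX01, hX11, h1, h2]; ring
      · rw [mul_10, mul_10, inv_10, inv_11, hX00, hX10, h1, h2]; ring
      · rw [mul_11, mul_11, inv_10, inv_11, hX01, hX11, hX10, hX00, h2]; ring

theorem split_count [Finite F] :
    Nat.card {Y : S F // Y.1 1 0 = 0 ∨ (Y.1 0 1 = 0 ∨ (Y.1 0 0 = 0 ∧ Y.1 1 1 = 0))} =
      2 * Nat.card F * (Nat.card F - 1) := by
  classical
  rw [card_or (fun Y : S F => Y.1 1 0 = 0), card_c_zero]
  have h1 : Nat.card {Y : S F // ¬ Y.1 1 0 = 0 ∧ (Y.1 0 1 = 0 ∨ (Y.1 0 0 = 0 ∧ Y.1 1 1 = 0))} =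
      Nat.card {Y : S F // Y.1 1 0 ≠ 0 ∧ (fun a _ d => d = a⁻¹) (Y.1 0 0) (Y.1 1 0) (Y.1 1 1)} := by
    apply Nat.card_congr
    apply Equiv.subtypeEquivRight
    intro Y
    have hd := det_eq Y
    constructor
    · rintro ⟨hc, h⟩
      refine ⟨hc, ?_⟩
      show Y.1 1 1 = (Y.1 0 0)⁻¹
      rcases h with h | ⟨h, h'⟩
      · rw [h] at hd
        apply eq_inv_of_mul_eq_one_right
        linear_combination hd
      · rw [h, h', _root_.inv_zero]
    · rintro ⟨hc, h⟩
      refine ⟨hc, ?_⟩
      have h' : Y.1 1 1 = (Y.1 0 0)⁻¹ := h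
      by_cases ha : Y.1 0 0 = 0
      · right
        rw [ha, _root_.inv_zero] at h'
        exact ⟨ha, h'⟩
      · left
        rw [h', mul_inv_cancel₀ ha] at hd
        have : Y.1 0 1 * Y.1 1 0 = 0 := by linear_combination -hd
        exact (mul_eq_zero.mp this).resolve_right hc
  have h0 := card_c_ne (F := F) (fun a _ d => d = a⁻¹)
  rw [h1, h0]
  have h2 : Nat.card {v : F × F × F // v.2.1 ≠ 0 ∧ (fun a _ d => d = a⁻¹) v.1 v.2.1 v.2.2} =
      Nat.card F * (Nat.card F - 1) := by
    have hu : Nat.card Fˣ = Nat.card F - 1 := by rw [Nat.card_units]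
    rw [← hu, ← Nat.card_prod]
    refine Nat.card_congr ⟨fun v => (v.1.1, Units.mk0 v.1.2.1 v.2.1),
      fun w => ⟨(w.1, w.2, w.1⁻¹), w.2.ne_zero, rfl⟩, ?_, ?_⟩
    · rintro ⟨⟨a, c, d⟩, hc, hd⟩
      apply Subtype.ext
      apply Prod.ext
      · rfl
      · apply Prod.ext
        · rfl
        · exact hd.symm
    · rintro ⟨a, c⟩
      apply Prod.ext
      · rfl
      · apply Units.ext; rfl
  rw [h2]
  ring

theorem nonsplit_iff [DecidableEq F] {t : F} (ht : ∀ z : F, z * z - t * z + 1 ≠ 0) (ht0 : t ≠ 0)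
    (Y : S F) :
    Cond (mk (mk2 0 (-1) 1 t (by ring))) (mk Y) ↔
      ((Y.1 0 1 = - Y.1 1 0 ∧ Y.1 1 1 = Y.1 0 0 + t * Y.1 1 0) ∨
       (Y.1 1 1 = - Y.1 0 0 ∧ Y.1 0 1 = Y.1 1 0 + t * Y.1 0 0)) := by
  set X : S F := mk2 0 (-1) 1 t (by ring) with hX
  have hX00 : X.1 0 0 = 0 := rfl
  have hX01 : X.1 0 1 = -1 := rfl
  have hX10 : X.1 1 0 = 1 := rfl
  have hX11 : X.1 1 1 = t := rfl
  have hd := det_eq Y
  unfold Cond
  rw [mk_comm, mk_inv]
  constructor
  · rintro ((h | h) | (h | h) | ⟨x₀, h1, h2⟩)
    · left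
      have e := congrArg (fun A : S F => A.1 0 0) h
      have e' := congrArg (fun A : S F => A.1 0 1) h
      simp only [mul_00, mul_01, hX00, hX01, hX10, hX11] at e e'
      have h1 : Y.1 0 1 = - Y.1 1 0 := by linear_combination -e
      refine ⟨h1, ?_⟩
      linear_combination -e' - t * h1
    · by_cases h2 : (2 : F) = 0
      · left
        have e := congrArg (fun A : S F => A.1 0 0) h
        have e' := congrArg (fun A : S F => A.1 0 1) h
        simp only [neg_ij, mul_00, mul_01, hX00, hX01, hX10, hX11] at e e'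
        have h1 : Y.1 0 1 = - Y.1 1 0 := by linear_combination e + Y.1 1 0 * h2
        refine ⟨h1, ?_⟩
        linear_combination -e' + t * h1 - (Y.1 0 0 + t * Y.1 1 0) * h2
      · exfalso
        have e := congrArg (fun A : S F => A.1 0 0) h
        have e' := congrArg (fun A : S F => A.1 0 1) h
        have e'' := congrArg (fun A : S F => A.1 1 0) h
        have e''' := congrArg (fun A : S F => A.1 1 1) h
        simp only [neg_ij, mul_00, mul_01, mul_10, mul_11, hX00, hX01, hX10, hX11] at e e' e'' e'''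
        have hbc : Y.1 0 1 = Y.1 1 0 := by linear_combination e
        have hdd : Y.1 1 1 = 0 := by
          have : (2 * t) * Y.1 1 1 = 0 := by linear_combination e''' - hbc
          exact (mul_eq_zero.mp this).resolve_left (mul_ne_zero h2 ht0)
        have hbb : Y.1 1 0 = 0 := by
          have : (2 * t) * Y.1 1 0 = 0 := by
            linear_combination e'' + e' - t * hbc
          exact (mul_eq_zero.mp this).resolve_left (mul_ne_zero h2 ht0)
        rw [hdd, hbb] at hd
        simp at hd
    · right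
      have e := congrArg (fun A : S F => A.1 0 0) h
      have e' := congrArg (fun A : S F => A.1 1 0) h
      simp only [mul_00, mul_10, inv_00, inv_01, inv_10, inv_11, hX00, hX01, hX10, hX11] at e e'
      constructor
      · linear_combination e'
      · linear_combination e
    · by_cases h2 : (2 : F) = 0
      · right
        have e := congrArg (fun A : S F => A.1 0 0) h
        have e' := congrArg (fun A : S F => A.1 1 0) h
        simp only [neg_ij, mul_00, mul_10, inv_00, inv_01, inv_10, inv_11, hX00, hX01, hX10,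
          hX11] at e e'
        constructor
        · linear_combination e' + Y.1 0 0 * h2
        · linear_combination e - (Y.1 1 0 + t * Y.1 0 0) * h2
      · exfalso
        have e := congrArg (fun A : S F => A.1 0 0) h
        have e' := congrArg (fun A : S F => A.1 0 1) h
        have e'' := congrArg (fun A : S F => A.1 1 0) h
        have e''' := congrArg (fun A : S F => A.1 1 1) h
        simp only [neg_ij, mul_00, mul_01, mul_10, mul_11, inv_00, inv_01, inv_10, inv_11, hX00,
          hX01, hX10, hX11] at e e' e'' e'''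
        have had : Y.1 1 1 = Y.1 0 0 := by linear_combination e''
        have hb : Y.1 0 1 = 0 := by
          have : (2 * t) * Y.1 0 1 = 0 := by linear_combination e' - had
          exact (mul_eq_zero.mp this).resolve_left (mul_ne_zero h2 ht0)
        have ha : Y.1 0 0 = 0 := by
          have : (2 * t) * Y.1 0 0 = 0 := by
            linear_combination e''' + e - t * had
          exact (mul_eq_zero.mp this).resolve_left (mul_ne_zero h2 ht0)
        rw [ha, hb] at hd
        simp at hd
    · exfalso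
      induction x₀ using OnePoint.rec with
      | infty =>
        have := (fix_infty X).mp h1
        rw [hX10] at this
        exact one_ne_zero this
      | coe z =>
        rw [fix_coe, hX00, hX01, hX10, hX11] at h1
        apply ht (-z)
        linear_combination -h1
  · rintro (⟨h1, h2⟩ | ⟨h1, h2⟩)
    · left; left
      apply ext4
      · rw [mul_00, mul_00, hX00, hX01, hX10, h1]; ring
      · rw [mul_01, mul_01, hX00, hX01, hX11, h1, h2]; ring
      · rw [mul_10, mul_10, hX10, hX11, hX00, h2]; ring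
      · rw [mul_11, mul_11, hX10, hX11, hX01, h1, h2]; ring
    · right; left; left
      apply ext4
      · rw [mul_00, mul_00, inv_00, inv_01, hX00, hX01, hX10, hX11, h2]; ring
      · rw [mul_01, mul_01, inv_00, inv_01, hX01, hX11, h1, h2]; ring
      · rw [mul_10, mul_10, inv_10, inv_11, hX00, hX10, h1]; ring
      · rw [mul_11, mul_11, inv_10, inv_11, hX00, hX10, hX01, hX11, h1, h2]; ring

theorem nonsplit_count [Finite F] {t : F} (ht : ∀ z : F, z * z - t * z + 1 ≠ 0) :
    Nat.card {Y : S F // ((Y.1 0 1 = - Y.1 1 0 ∧ Y.1 1 1 = Y.1 0 0 + t * Y.1 1 0) ∨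
       (Y.1 1 1 = - Y.1 0 0 ∧ Y.1 0 1 = Y.1 1 0 + t * Y.1 0 0))} = 2 * (Nat.card F + 1) := by
  classical
  rw [card_or (fun Y : S F => Y.1 0 1 = - Y.1 1 0 ∧ Y.1 1 1 = Y.1 0 0 + t * Y.1 1 0)]
  have hdisc := disc_ne ht
  have h1 : Nat.card {Y : S F // Y.1 0 1 = - Y.1 1 0 ∧ Y.1 1 1 = Y.1 0 0 + t * Y.1 1 0} =
      Nat.card F + 1 := by
    rw [← card_NN ht 1 one_ne_zero]
    refine Nat.card_congr ⟨fun Y => ⟨(Y.1.1 0 0, Y.1.1 1 0), ?_⟩,
      fun v => ⟨mk2 v.1.1 (-v.1.2) v.1.2 (v.1.1 + t * v.1.2) ?_, rfl, rfl⟩, ?_, ?_⟩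
    · have hd := det_eq Y.1
      rw [Y.2.1, Y.2.2] at hd
      unfold NN
      show Y.1.1 0 0 * Y.1.1 0 0 + t * Y.1.1 0 0 * Y.1.1 1 0 + Y.1.1 1 0 * Y.1.1 1 0 = 1
      linear_combination hd
    · have := v.2
      unfold NN at this
      linear_combination this
    · rintro ⟨Y, h1, h2⟩
      apply Subtype.ext
      apply ext4
      · rfl
      · exact h1.symm
      · rfl
      · exact h2.symm
    · rintro ⟨⟨a, c⟩, h⟩
      rfl
  have h2 : Nat.card {Y : S F // ¬ (Y.1 0 1 = - Y.1 1 0 ∧ Y.1 1 1 = Y.1 0 0 + t * Y.1 1 0) ∧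
      (Y.1 1 1 = - Y.1 0 0 ∧ Y.1 0 1 = Y.1 1 0 + t * Y.1 0 0)} = Nat.card F + 1 := by
    rw [← card_NN ht (-1) (neg_ne_zero.mpr one_ne_zero)]
    refine Nat.card_congr ⟨fun Y => ⟨(Y.1.1 0 0, Y.1.1 1 0), ?_⟩,
      fun v => ⟨mk2 v.1.1 (v.1.2 + t * v.1.1) v.1.2 (- v.1.1) ?_, ?_, rfl, rfl⟩, ?_, ?_⟩
    · have hd := det_eq Y.1
      rw [Y.2.2.1, Y.2.2.2] at hd
      unfold NN
      show Y.1.1 0 0 * Y.1.1 0 0 + t * Y.1.1 0 0 * Y.1.1 1 0 + Y.1.1 1 0 * Y.1.1 1 0 = -1
      linear_combination -hd
    · have := v.2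
      unfold NN at this
      linear_combination -this
    · rintro ⟨e1, e2⟩
      have hv := v.2
      unfold NN at hv
      have e1' : v.1.2 + t * v.1.1 = - v.1.2 := e1
      have e2' : - v.1.1 = v.1.1 + t * v.1.2 := e2
      have hc : v.1.2 = 0 := by
        have : (t ^ 2 - 4 * 1 * 1) * v.1.2 = 0 := by linear_combination -2 * e1' - t * e2'
        exact (mul_eq_zero.mp this).resolve_left hdisc
      have ha : v.1.1 = 0 := by
        have : (t ^ 2 - 4 * 1 * 1) * v.1.1 = 0 := by linear_combination 2 * e2' + t * e1'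
        exact (mul_eq_zero.mp this).resolve_left hdisc
      rw [hc, ha] at hv
      apply neg_ne_zero.mpr (one_ne_zero (α := F))
      rw [← hv]
      ring
    · rintro ⟨Y, -, h1, h2⟩
      apply Subtype.ext
      apply ext4
      · rfl
      · exact h2.symm
      · rfl
      · exact h1.symm
    · rintro ⟨⟨a, c⟩, h⟩
      rfl
  rw [h1, h2]
  ring

end H86.SolPSLf
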