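import Mathlib
import Cfsg.Agent.Lib.H86.SolPSLf

/-! Counts for the unipotent cases, and normal forms. -/

set_option autoImplicit false

namespace H86.SolPSLg

open Matrix H45.SL2 H86.SolPSLc H86.SolPSLd H86.SolPSLe H86.SolPSLf H98.DicksonPSL
open scoped H98.Moebius

variable {F : Type*} [Field F]

/-- unipotent normal form -/
abbrev U (u : F) : S F := mk2 1 u 0 1 (by ring)

theorem exists_unip (X : S F) (ht : tr X = 2) (hX : X ≠ 1) : ∃ u : F, u ≠ 0 ∧ IsConj (U u) X := by
  have hd := det_eq X
  unfold tr at ht
  by_cases hc : X.1 1 0 = 0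
  · have ha : X.1 0 0 = 1 := by
      have : (X.1 0 0 - 1) * (X.1 0 0 - 1) = 0 := by
        linear_combination -hd + X.1 0 0 * ht - X.1 0 1 * hc
      have h2 := mul_self_eq_zero.mp this
      linear_combination h2
    have hdd : X.1 1 1 = 1 := by linear_combination ht - ha
    refine ⟨X.1 0 1, ?_, ?_⟩
    · intro hb
      apply hX
      apply ext4
      · rw [ha, one_00]
      · rw [hb, one_01]
      · rw [hc, one_10]
      · rw [hdd, one_11]
    · have : U (X.1 0 1) = X := by
        apply ext4
        · exact ha.symm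
        · rfl
        · exact hc.symm
        · exact hdd.symm
      rw [this]
  · refine ⟨-1 / X.1 1 0, ?_, ?_⟩
    · exact div_ne_zero (neg_ne_zero.mpr one_ne_zero) hc
    · rw [isConj_iff]
      have hdet : (X.1 0 0 - 1) * 0 - (-1 / X.1 1 0) * X.1 1 0 = 1 := by
        field_simp
        ring
      refine ⟨mk2 (X.1 0 0 - 1) (-1 / X.1 1 0) (X.1 1 0) 0 hdet, ?_⟩
      rw [mul_inv_eq_iff_eq_mul]
      apply ext4
      · rw [mul_00, mul_00]
        simp only [mk2_00, mk2_01, mk2_10, mk2_11]
        linear_combination hd - X.1 0 0 * ht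
      · rw [mul_01, mul_01]
        simp only [mk2_00, mk2_01, mk2_10, mk2_11]
        field_simp
        ring
      · rw [mul_10, mul_10]
        simp only [mk2_00, mk2_01, mk2_10, mk2_11]
        linear_combination -X.1 1 0 * ht
      · rw [mul_11, mul_11]
        simp only [mk2_00, mk2_01, mk2_10, mk2_11]
        field_simp
        ring

section fixU

variable [DecidableEq F]

/-- `U u` fixes only infinity -/
theorem fix_U {u : F} (hu : u ≠ 0) (Y : S F)
    (h : ∃ x₀ : OnePoint F, ιP F (mk (U u)) • x₀ = x₀ ∧ ιP F (mk Y) • x₀ = x₀) : Y.1 1 0 = 0 := by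
  obtain ⟨x₀, h1, h2⟩ := h
  induction x₀ using OnePoint.rec with
  | infty => exact (fix_infty Y).mp h2
  | coe z =>
    exfalso
    rw [fix_coe] at h1
    have h3 : (1 : F) * z + u = z * (0 * z + 1) := h1
    apply hu
    linear_combination h3

theorem tr_U_mul (u : F) (Y : S F) : tr (U u * Y) = tr Y + u * Y.1 1 0 := by
  rw [tr_mul]
  show (1 : F) * Y.1 0 0 + u * Y.1 1 0 + (0 * Y.1 0 1 + 1 * Y.1 1 1) = _
  unfold tr
  ring

/-- even characteristic, unipotent case -/
theorem even_iff (h2 : (2 : F) = 0) {u : F} (hu : u ≠ 0) (Y : S F) :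
    (mk (U u) * mk Y = mk Y * mk (U u) ∨ mk Y * mk Y = 1 ∨
      (mk (U u) * mk Y) * (mk (U u) * mk Y) = 1 ∨
      ∃ x₀ : OnePoint F, ιP F (mk (U u)) • x₀ = x₀ ∧ ιP F (mk Y) • x₀ = x₀) ↔
    (Y.1 1 0 = 0 ∨ (Y.1 0 0 + Y.1 1 1 = 0 ∨ Y.1 0 0 + Y.1 1 1 + u * Y.1 1 0 = 0)) := by
  have e : mk (U u) * mk Y = mk (U u * Y) := rfl
  rw [mk_comm, mk_sq, e, mk_sq, tr_U_mul]
  have hU00 : (U u).1 0 0 = 1 := rfl
  have hU01 : (U u).1 0 1 = u := rfl
  have hU10 : (U u).1 1 0 = 0 := rfl
  have hU11 : (U u).1 1 1 = 1 := rfl
  constructor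
  · rintro ((h | h) | (h | h | h) | (h | h | h) | h)
    · left
      have e := congrArg (fun A : S F => A.1 0 0) h
      simp only [mul_00, hU00, hU01, hU10, hU11] at e
      have : u * Y.1 1 0 = 0 := by linear_combination e
      exact (mul_eq_zero.mp this).resolve_left hu
    · left
      have e := congrArg (fun A : S F => A.1 0 0) h
      simp only [neg_ij, mul_00, hU00, hU01, hU10, hU11] at e
      have : u * Y.1 1 0 = 0 := by linear_combination e - Y.1 0 0 * h2
      exact (mul_eq_zero.mp this).resolve_left hu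
    · right; left; exact h
    · left; rw [h]; rfl
    · left; rw [h, neg_ij, one_10, neg_zero]
    · right; right; exact h
    · left
      have e := congrArg (fun A : S F => A.1 1 0) h
      simp only [mul_10, hU10, hU11, one_10] at e
      linear_combination e
    · left
      have e := congrArg (fun A : S F => A.1 1 0) h
      simp only [neg_ij, mul_10, hU10, hU11, one_10] at e
      linear_combination e
    · left; exact fix_U hu Y h
  · rintro (h | h | h)
    · right; right; right
      exact ⟨OnePoint.infty, (fix_infty _).mpr rfl, (fix_infty Y).mpr h⟩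
    · right; left; left; exact h
    · right; right; left; left; exact h

end fixU

theorem even_count [Finite F] (h2 : (2 : F) = 0) {u : F} (hu : u ≠ 0) :
    Nat.card {Y : S F // Y.1 1 0 = 0 ∨ (Y.1 0 0 + Y.1 1 1 = 0 ∨
      Y.1 0 0 + Y.1 1 1 + u * Y.1 1 0 = 0)} = 3 * Nat.card F * (Nat.card F - 1) := by
  classical
  rw [card_or (fun Y : S F => Y.1 1 0 = 0), card_c_zero]
  have h0 := card_c_ne (F := F) (fun a c d => a + d = 0 ∨ a + d + u * c = 0)
  have h0' : Nat.card {Y : S F // ¬ Y.1 1 0 = 0 ∧ (Y.1 0 0 + Y.1 1 1 = 0 ∨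
      Y.1 0 0 + Y.1 1 1 + u * Y.1 1 0 = 0)} = _ := h0
  rw [h0']
  have h3 : Nat.card {v : F × F × F // v.2.1 ≠ 0 ∧
      (v.1 + v.2.2 = 0 ∨ v.1 + v.2.2 + u * v.2.1 = 0)} = Nat.card (F × Fˣ × Bool) := by
    refine Nat.card_congr ⟨fun v => (v.1.1, Units.mk0 v.1.2.1 v.2.1, decide (v.1.1 + v.1.2.2 = 0)),
      fun w => ⟨(w.1, w.2.1, if w.2.2 then - w.1 else - w.1 - u * w.2.1), w.2.1.ne_zero, ?_⟩, ?_, ?_⟩
    · rcases w with ⟨a, c, _ | _⟩
      · right
        show a + (if false = true then -a else -a - u * c) + u * c = 0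
        rw [if_neg (by decide)]; ring
      · left
        show a + (if true = true then -a else -a - u * c) = 0
        rw [if_pos rfl]; ring
    · rintro ⟨⟨a, c, d⟩, hc, hd⟩
      apply Subtype.ext
      apply Prod.ext
      · rfl
      · apply Prod.ext
        · rfl
        · show (if decide (a + d = 0) = true then -a else -a - u * c) = d
          by_cases h : a + d = 0
          · rw [if_pos (decide_eq_true h)]
            linear_combination -h
          · rw [if_neg (by rw [decide_eq_true_eq]; exact h)]
            have h' : a + d + u * c = 0 := hd.resolve_left h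
            linear_combination -h'
    · rintro ⟨a, c, _ | _⟩
      · apply Prod.ext
        · rfl
        · apply Prod.ext
          · apply Units.ext; rfl
          · show decide (a + (if false = true then -a else -a - u * (c : F)) = 0) = false
            rw [if_neg (by decide), decide_eq_false_iff_not]
            intro h
            have : u * (c : F) = 0 := by linear_combination -h
            exact (mul_ne_zero hu c.ne_zero) this
      · apply Prod.ext
        · rfl
        · apply Prod.ext
          · apply Units.ext; rfl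
          · show decide (a + (if true = true then -a else -a - u * (c : F)) = 0) = true
            rw [if_pos rfl, decide_eq_true_eq]
            ring
  rw [h3, Nat.card_prod, Nat.card_prod, Nat.card_units]
  have : Nat.card Bool = 2 := by rw [Nat.card_eq_fintype_card, Fintype.card_bool]
  rw [this]
  ring

end H86.SolPSLg
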