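import Mathlib
import Cfsg.Agent.Lib.H86.SolPSLg

/-! Characteristic three: elements of order 3 and involutions. -/

set_option autoImplicit false

namespace H86.SolPSLh

open Matrix H45.SL2 H86.SolPSLa H86.SolPSLc H86.SolPSLd H86.SolPSLe H86.SolPSLf H86.SolPSLg H98.DicksonPSL
open scoped H98.Moebius

variable {F : Type*} [Field F]

theorem U_cube (h3 : (3 : F) = 0) (u : F) : mk (U u) ^ 3 = 1 := by
  rw [mk_cube h3]
  show ((1 : F) + 1) * (1 + 1) = 1
  linear_combination h3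

theorem two_ne (h3 : (3 : F) = 0) : (2 : F) ≠ 0 := by
  intro h
  apply one_ne_zero (α := F)
  linear_combination h3 - h

theorem U_ne_one (h3 : (3 : F) = 0) {u : F} (hu : u ≠ 0) : mk (U u) ≠ 1 := by
  intro h
  rcases (mk_eq_one _).mp h with h | h
  · apply hu
    exact congrArg (fun A : S F => A.1 0 1) h
  · apply two_ne h3
    have e := congrArg (fun A : S F => A.1 0 0) h
    have e' : (1 : F) = -1 := e
    linear_combination e'

theorem order_U (h3 : (3 : F) = 0) {u : F} (hu : u ≠ 0) : orderOf (mk (U u)) = 3 := by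
  have : Fact (Nat.Prime 3) := ⟨Nat.prime_three⟩
  exact orderOf_eq_prime (U_cube h3 u) (U_ne_one h3 hu)

theorem tri_step (h3 : (3 : F) = 0) (u : F) (Y : S F) (h0 : tr Y = 0)
    (h1 : tr (U u * Y) * tr (U u * Y) = 1) :
    Group.IsSolvable (Subgroup.closure ({mk (U u), mk Y} : Set (P F))) := by
  rw [Set.pair_comm]
  apply sol_of_tri
  · rw [mk_sq]; exact Or.inl h0
  · exact U_cube h3 u
  · have e : mk Y * mk (U u) = mk (Y * U u) := rfl
    rw [e, mk_cube h3, tr_mul_comm]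
    exact h1

theorem three_iff [Finite F] {r : ℕ} (hr : r.Prime) (hodd : Odd r) (hF : Nat.card F = 3 ^ r)
    (h3 : (3 : F) = 0) {u : F} (hu : u ≠ 0) (Y : S F) :
    Group.IsSolvable (Subgroup.closure ({mk (U u), mk Y} : Set (P F))) ↔
      (Y.1 1 0 = 0 ∨ ((u * Y.1 1 0) * (u * Y.1 1 0) = 1 ∧
        (Y.1 0 0 + Y.1 1 1) * (Y.1 0 0 + Y.1 1 1) * (Y.1 0 0 + Y.1 1 1) =
          Y.1 0 0 + Y.1 1 1)) := by
  classical
  have : Fact (Nat.Prime 3) := ⟨Nat.prime_three⟩
  haveI : CharP F 3 := by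
    have h : ((3 : ℕ) : F) = 0 := by exact_mod_cast h3
    have h' := ringChar.dvd h
    rcases (Nat.dvd_prime Nat.prime_three).mp h' with h'' | h''
    · exfalso
      have : CharP F 1 := h'' ▸ ringChar.charP F
      exact (CharP.false_of_nontrivial_of_char_one (R := F))
    · exact h'' ▸ ringChar.charP F
  have htr : tr Y = Y.1 0 0 + Y.1 1 1 := rfl
  rw [← htr]
  set t := tr Y with ht
  constructor
  · intro hs
    rcases three_three hr hodd hF (mk (U u)) (mk Y) (order_U h3 hu) hs with h | ⟨h1, h2⟩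
    · exact Or.inl (fix_U hu Y h)
    · have e : mk (U u) * mk Y = mk (U u * Y) := rfl
      rw [e, mk_cube h3, mk_sq, tr_U_mul, ← ht] at h2
      rw [mk_cube h3, mk_sq, ← ht] at h1
      by_cases hc : Y.1 1 0 = 0
      · exact Or.inl hc
      right
      have hU10 : (U u).1 1 0 = 0 := rfl
      have hU11 : (U u).1 1 1 = 1 := rfl
      have k1 : t * t * t = t := by
        rcases h1 with h | h | h | h
        · linear_combination t * h
        · rw [h]; ring
        · exfalso; apply hc; rw [h]; rfl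
        · exfalso; apply hc; rw [h, neg_ij, one_10, neg_zero]
      have k2 : (t + u * Y.1 1 0) * (t + u * Y.1 1 0) * (t + u * Y.1 1 0) = t + u * Y.1 1 0 := by
        rcases h2 with h | h | h | h
        · linear_combination (t + u * Y.1 1 0) * h
        · rw [h]; ring
        · exfalso; apply hc
          have e := congrArg (fun A : S F => A.1 1 0) h
          simp only [mul_10, hU10, hU11, one_10] at e
          linear_combination e
        · exfalso; apply hc
          have e := congrArg (fun A : S F => A.1 1 0) h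
          simp only [neg_ij, mul_10, hU10, hU11, one_10] at e
          linear_combination e
      refine ⟨?_, k1⟩
      have k3 : (u * Y.1 1 0) * ((u * Y.1 1 0) * (u * Y.1 1 0) - 1) = 0 := by
        linear_combination k2 - k1 - (t * (u * Y.1 1 0) * (t + u * Y.1 1 0)) * h3
      have k4 := (mul_eq_zero.mp k3).resolve_left (mul_ne_zero hu hc)
      linear_combination k4
  · rintro (h | ⟨h1, h2⟩)
    · exact sol_of_fix 3 _ _ OnePoint.infty ((fix_infty _).mpr rfl) ((fix_infty Y).mpr h)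
    · set s := u * Y.1 1 0 with hs
      have hs1 : s = 1 ∨ s = -1 := by
        have : (s - 1) * (s + 1) = 0 := by linear_combination h1
        rcases mul_eq_zero.mp this with h | h
        · left; linear_combination h
        · right; linear_combination h
      have ht1 : t = 0 ∨ t = s ∨ t = -s := by
        have : t * ((t - 1) * (t + 1)) = 0 := by linear_combination h2
        rcases mul_eq_zero.mp this with h | h
        · exact Or.inl h
        · rcases mul_eq_zero.mp h with h | h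
          · have : t = 1 := by linear_combination h
            rcases hs1 with h' | h'
            · right; left; rw [this, h']
            · right; right; rw [this, h']; ring
          · have : t = -1 := by linear_combination h
            rcases hs1 with h' | h'
            · right; right; rw [this, h']
            · right; left; rw [this, h']
      have hm : tr (U u * Y) = t + s := tr_U_mul u Y
      have hm10 : (U u * Y).1 1 0 = Y.1 1 0 := by
        rw [mul_10]
        show (0 : F) * Y.1 0 0 + 1 * Y.1 1 0 = _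
        ring
      have hm2 : tr (U u * (U u * Y)) = t + s + s := by
        rw [tr_U_mul, hm10, hm]
      have hm210 : (U u * (U u * Y)).1 1 0 = Y.1 1 0 := by
        rw [mul_10]
        show (0 : F) * (U u * Y).1 0 0 + 1 * (U u * Y).1 1 0 = _
        rw [hm10]; ring
      have hm3 : tr (U u * (U u * (U u * Y))) = t + s + s + s := by
        rw [tr_U_mul, hm210, hm2]
      rcases ht1 with h | h | h
      · apply tri_step h3 u Y
        · exact h
        · rw [hm, h, zero_add]; exact h1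
      · have h5 := tri_step h3 u (U u * (U u * Y)) (by rw [hm2, h]; linear_combination s * h3)
          (by
            rw [hm3, h]
            linear_combination h1 + (5 * s * s) * h3)
        have e1 : mk (U u * (U u * Y)) = mk (U u) * (mk (U u) * mk Y) := rfl
        rw [e1, closure_mul_left, closure_mul_left] at h5
        exact h5
      · have h5 := tri_step h3 u (U u * Y) (by rw [hm, h]; ring)
          (by rw [hm2, h]; linear_combination h1)
        have e1 : mk (U u * Y) = mk (U u) * mk Y := rfl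
        rw [e1, closure_mul_left] at h5
        exact h5

theorem three_count [Finite F] (h3 : (3 : F) = 0) {u : F} (hu : u ≠ 0) :
    Nat.card {Y : S F // Y.1 1 0 = 0 ∨ ((u * Y.1 1 0) * (u * Y.1 1 0) = 1 ∧
        (Y.1 0 0 + Y.1 1 1) * (Y.1 0 0 + Y.1 1 1) * (Y.1 0 0 + Y.1 1 1) =
          Y.1 0 0 + Y.1 1 1)} = Nat.card F * (Nat.card F - 1) + 6 * Nat.card F := by
  classical
  rw [card_or (fun Y : S F => Y.1 1 0 = 0), card_c_zero]
  have h0 := card_c_ne (F := F) (fun a c d => (u * c) * (u * c) = 1 ∧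
    (a + d) * (a + d) * (a + d) = a + d)
  have h0' : Nat.card {Y : S F // ¬ Y.1 1 0 = 0 ∧ ((u * Y.1 1 0) * (u * Y.1 1 0) = 1 ∧
        (Y.1 0 0 + Y.1 1 1) * (Y.1 0 0 + Y.1 1 1) * (Y.1 0 0 + Y.1 1 1) =
          Y.1 0 0 + Y.1 1 1)} = _ := h0
  rw [h0']
  have hne : (1 : F) ≠ -1 := by
    intro h
    apply two_ne h3
    linear_combination h
  have hc2 : Nat.card {c : F // (u * c) * (u * c) = 1} = 2 := by
    have := Nat.subtype_card ({u⁻¹, -u⁻¹} : Finset F) (p := fun c => (u * c) * (u * c) = 1) (by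
      intro c
      rw [Finset.mem_insert, Finset.mem_singleton]
      constructor
      · rintro (rfl | rfl)
        · rw [mul_inv_cancel₀ hu, mul_one]
        · rw [mul_neg, mul_inv_cancel₀ hu]; ring
      · intro h
        have h2 : (u * c - 1) * (u * c + 1) = 0 := by linear_combination h
        rcases mul_eq_zero.mp h2 with h | h
        · left; apply eq_inv_of_mul_eq_one_right; linear_combination h
        · right
          have : u * (-c) = 1 := by linear_combination -h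
          have := eq_inv_of_mul_eq_one_right this
          linear_combination -this)
    rw [this, Finset.card_pair]
    intro h
    apply hne
    have : u * u⁻¹ = u * (-u⁻¹) := by rw [← h]
    rw [mul_neg, mul_inv_cancel₀ hu] at this
    exact this
  have hc3 : Nat.card {t : F // t * t * t = t} = 3 := by
    have := Nat.subtype_card ({0, 1, -1} : Finset F) (p := fun t => t * t * t = t) (by
      intro t
      rw [Finset.mem_insert, Finset.mem_insert, Finset.mem_singleton]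
      constructor
      · rintro (rfl | rfl | rfl) <;> ring
      · intro h
        have h2 : t * ((t - 1) * (t + 1)) = 0 := by linear_combination h
        rcases mul_eq_zero.mp h2 with h | h
        · exact Or.inl h
        · rcases mul_eq_zero.mp h with h | h
          · right; left; linear_combination h
          · right; right; linear_combination h)
    rw [this, Finset.card_insert_of_notMem, Finset.card_pair hne]
    rw [Finset.mem_insert, Finset.mem_singleton, not_or]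
    exact ⟨zero_ne_one, fun h => one_ne_zero (α := F) (by linear_combination h)⟩
  have h4 : Nat.card {v : F × F × F // v.2.1 ≠ 0 ∧ (u * v.2.1) * (u * v.2.1) = 1 ∧
      (v.1 + v.2.2) * (v.1 + v.2.2) * (v.1 + v.2.2) = v.1 + v.2.2} =
      Nat.card (F × {c : F // (u * c) * (u * c) = 1} × {t : F // t * t * t = t}) := by
    refine Nat.card_congr ⟨fun v => (v.1.1, ⟨v.1.2.1, v.2.2.1⟩, ⟨v.1.1 + v.1.2.2, v.2.2.2⟩),
      fun w => ⟨(w.1, w.2.1, w.2.2 - w.1), ?_, w.2.1.2, ?_⟩, ?_, ?_⟩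
    · intro h
      have h' : (w.2.1 : F) = 0 := h
      have := w.2.1.2
      rw [h'] at this
      simp at this
    · have := w.2.2.2
      show (w.1 + (w.2.2 - w.1)) * (w.1 + (w.2.2 - w.1)) * (w.1 + (w.2.2 - w.1)) = w.1 + (w.2.2 - w.1)
      rw [add_sub_cancel]
      exact this
    · rintro ⟨⟨a, c, d⟩, h⟩
      apply Subtype.ext
      apply Prod.ext
      · rfl
      · apply Prod.ext
        · rfl
        · show a + d - a = d
          ring
    · rintro ⟨a, ⟨c, hc⟩, ⟨t, ht⟩⟩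
      apply Prod.ext
      · rfl
      · apply Prod.ext
        · rfl
        · apply Subtype.ext
          show a + (t - a) = t
          ring
  rw [h4, Nat.card_prod, Nat.card_prod, hc2, hc3]
  ring

/-- the involution -/
abbrev J (F : Type*) [Field F] : S F := mk2 0 (-1) 1 0 (by ring)

theorem tr_J_mul (Y : S F) : tr (J F * Y) = Y.1 0 1 - Y.1 1 0 := by
  rw [tr_mul]
  show (0 : F) * Y.1 0 0 + (-1) * Y.1 1 0 + (1 * Y.1 0 1 + 0 * Y.1 1 1) = _
  ring

theorem inv_iff [DecidableEq F] (h3 : (3 : F) = 0) (hns : ∀ z : F, z * z - 0 * z + 1 ≠ 0) (Y : S F) :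
    (mk (J F) * mk Y = mk Y * mk (J F) ∨ mk Y * mk Y = 1 ∨
      (mk (J F) * mk Y) * (mk (J F) * mk Y) = 1 ∨
      (∃ x₀ : OnePoint F, ιP F (mk (J F)) • x₀ = x₀ ∧ ιP F (mk Y) • x₀ = x₀) ∨
      (mk Y ^ 3 = 1 ∧ (mk (J F) * mk Y) ^ 3 = 1)) ↔
    (Y.1 0 0 + Y.1 1 1 = 0 ∨ ((Y.1 0 0 + Y.1 1 1 ≠ 0 ∧ Y.1 0 1 - Y.1 1 0 = 0) ∨
      ((Y.1 1 1 = Y.1 0 0 ∧ Y.1 0 1 = - Y.1 1 0 ∧ Y.1 0 0 ≠ 0 ∧ Y.1 1 0 ≠ 0) ∨
      ((Y.1 0 0 + Y.1 1 1) * (Y.1 0 0 + Y.1 1 1) = 1 ∧
        (Y.1 0 1 - Y.1 1 0) * (Y.1 0 1 - Y.1 1 0) = 1)))) := by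
  have e : mk (J F) * mk Y = mk (J F * Y) := rfl
  rw [mk_comm, mk_sq, e, mk_sq, mk_cube h3, mk_cube h3, tr_J_mul]
  have hJ00 : (J F).1 0 0 = 0 := rfl
  have hJ01 : (J F).1 0 1 = -1 := rfl
  have hJ10 : (J F).1 1 0 = 1 := rfl
  have hJ11 : (J F).1 1 1 = 0 := rfl
  have htr : tr Y = Y.1 0 0 + Y.1 1 1 := rfl
  rw [htr]
  -- the elements with `b = -c`, `d = a`
  have key : Y.1 1 1 = Y.1 0 0 → Y.1 0 1 = - Y.1 1 0 →
      (Y.1 0 0 + Y.1 1 1 = 0 ∨ ((Y.1 0 0 + Y.1 1 1 ≠ 0 ∧ Y.1 0 1 - Y.1 1 0 = 0) ∨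
      ((Y.1 1 1 = Y.1 0 0 ∧ Y.1 0 1 = - Y.1 1 0 ∧ Y.1 0 0 ≠ 0 ∧ Y.1 1 0 ≠ 0) ∨
      ((Y.1 0 0 + Y.1 1 1) * (Y.1 0 0 + Y.1 1 1) = 1 ∧
        (Y.1 0 1 - Y.1 1 0) * (Y.1 0 1 - Y.1 1 0) = 1)))) := by
    intro h1 h2
    by_cases ha : Y.1 0 0 = 0
    · left; rw [h1, ha, add_zero]
    by_cases hc : Y.1 1 0 = 0
    · by_cases hs : Y.1 0 0 + Y.1 1 1 = 0
      · exact Or.inl hs
      · right; left
        refine ⟨hs, ?_⟩
        rw [h2, hc]; ring
    · right; right; left
      exact ⟨h1, h2, ha, hc⟩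
  have key2 : Y.1 0 1 - Y.1 1 0 = 0 →
      (Y.1 0 0 + Y.1 1 1 = 0 ∨ ((Y.1 0 0 + Y.1 1 1 ≠ 0 ∧ Y.1 0 1 - Y.1 1 0 = 0) ∨
      ((Y.1 1 1 = Y.1 0 0 ∧ Y.1 0 1 = - Y.1 1 0 ∧ Y.1 0 0 ≠ 0 ∧ Y.1 1 0 ≠ 0) ∨
      ((Y.1 0 0 + Y.1 1 1) * (Y.1 0 0 + Y.1 1 1) = 1 ∧
        (Y.1 0 1 - Y.1 1 0) * (Y.1 0 1 - Y.1 1 0) = 1)))) := by
    intro h
    by_cases hs : Y.1 0 0 + Y.1 1 1 = 0
    · exact Or.inl hs
    · exact Or.inr (Or.inl ⟨hs, h⟩)
  constructor
  · rintro ((h | h) | (h | h | h) | (h | h | h) | ⟨x₀, h1, -⟩ | ⟨h1, h2⟩)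
    · have e := congrArg (fun A : S F => A.1 0 0) h
      have e' := congrArg (fun A : S F => A.1 0 1) h
      simp only [mul_00, mul_01, hJ00, hJ01, hJ10, hJ11] at e e'
      exact key (by linear_combination -e') (by linear_combination -e)
    · apply key2
      have e := congrArg (fun A : S F => A.1 0 0) h
      simp only [neg_ij, mul_00, hJ00, hJ01, hJ10] at e
      linear_combination e
    · exact Or.inl h
    · apply key <;> rw [h]
      · rw [one_11, one_00]
      · rw [one_01, one_10, neg_zero]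
    · apply key <;> rw [h]
      · rw [neg_ij, neg_ij, one_11, one_00]
      · rw [neg_ij, neg_ij, one_01, one_10, neg_zero, neg_zero]
    · exact key2 h
    · have e1 := congrArg (fun A : S F => A.1 0 0) h
      have e2 := congrArg (fun A : S F => A.1 0 1) h
      have e3 := congrArg (fun A : S F => A.1 1 0) h
      have e4 := congrArg (fun A : S F => A.1 1 1) h
      simp only [mul_00, mul_01, mul_10, mul_11, hJ00, hJ01, hJ10, hJ11, one_00, one_01, one_10,
        one_11] at e1 e2 e3 e4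
      exact key (by linear_combination -e2 - e3) (by linear_combination e4 - e1)
    · have e1 := congrArg (fun A : S F => A.1 0 0) h
      have e2 := congrArg (fun A : S F => A.1 0 1) h
      have e3 := congrArg (fun A : S F => A.1 1 0) h
      have e4 := congrArg (fun A : S F => A.1 1 1) h
      simp only [neg_ij, mul_00, mul_01, mul_10, mul_11, hJ00, hJ01, hJ10, hJ11, one_00, one_01,
        one_10, one_11] at e1 e2 e3 e4
      exact key (by linear_combination -e2 - e3) (by linear_combination e4 - e1)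
    · exfalso
      induction x₀ using OnePoint.rec with
      | infty =>
        have := (fix_infty (J F)).mp h1
        rw [hJ10] at this
        exact one_ne_zero this
      | coe z =>
        rw [fix_coe, hJ00, hJ01, hJ10, hJ11] at h1
        apply hns z
        linear_combination -h1
    · right; right; right
      exact ⟨h1, h2⟩
  · rintro (h | ⟨-, h⟩ | ⟨h1, h2, -, -⟩ | ⟨h1, h2⟩)
    · right; left; left; exact h
    · right; right; left; left; exact h
    · left; left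
      apply ext4
      · rw [mul_00, mul_00, hJ00, hJ01, hJ10, h2]; ring
      · rw [mul_01, mul_01, hJ00, hJ01, hJ11, h1]; ring
      · rw [mul_10, mul_10, hJ10, hJ11, hJ00, h1]; ring
      · rw [mul_11, mul_11, hJ10, hJ11, hJ01, h2]; ring
    · right; right; right; right; exact ⟨h1, h2⟩

theorem card_or_disj {α : Type*} [Finite α] (p r : α → Prop) (h : ∀ x, p x → r x → False) :
    Nat.card {x // p x ∨ r x} = Nat.card {x // p x} + Nat.card {x // r x} := by
  rw [card_or]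
  congr 1
  apply Nat.card_congr
  apply Equiv.subtypeEquivRight
  intro x
  constructor
  · exact fun h => h.2
  · exact fun hr => ⟨fun hp => h x hp hr, hr⟩

section counts

variable [Finite F]

theorem card_tr_zero (hns : ∀ z : F, z * z - 0 * z + 1 ≠ 0) :
    Nat.card {Y : S F // Y.1 0 0 + Y.1 1 1 = 0} = Nat.card F * (Nat.card F - 1) := by
  have hu : Nat.card Fˣ = Nat.card F - 1 := by rw [Nat.card_units]
  rw [← hu, ← Nat.card_prod]
  have hb : ∀ Y : S F, Y.1 0 0 + Y.1 1 1 = 0 → Y.1 0 1 ≠ 0 := by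
    intro Y h hb
    have hd := det_eq Y
    rw [hb] at hd
    apply hns (Y.1 0 0)
    linear_combination Y.1 0 0 * h - hd
  refine Nat.card_congr ⟨fun Y => (Y.1.1 0 0, Units.mk0 (Y.1.1 0 1) (hb _ Y.2)),
    fun w => ⟨mk2 w.1 w.2 ((-(1 + w.1 * w.1)) / w.2) (-w.1) ?_, ?_⟩, ?_, ?_⟩
  · have := w.2.ne_zero
    field_simp
    ring
  · show w.1 + (-w.1) = 0
    ring
  · rintro ⟨Y, hY⟩
    apply Subtype.ext
    apply ext4
    · rfl
    · rfl
    · show (-(1 + Y.1 0 0 * Y.1 0 0)) / Y.1 0 1 = Y.1 1 0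
      rw [div_eq_iff (hb Y hY)]
      linear_combination det_eq Y - Y.1 0 0 * hY
    · show - Y.1 0 0 = Y.1 1 1
      linear_combination -hY
  · rintro ⟨a, b⟩
    apply Prod.ext
    · rfl
    · apply Units.ext; rfl

theorem card_uu_zero (hns : ∀ z : F, z * z - 0 * z + 1 ≠ 0) :
    Nat.card {Y : S F // Y.1 0 1 - Y.1 1 0 = 0} = Nat.card F * (Nat.card F - 1) := by
  rw [← card_tr_zero hns]
  refine Nat.card_congr (Equiv.subtypeEquiv (Equiv.mulLeft (J F)) ?_)
  intro Y
  have h : (J F * Y).1 0 0 + (J F * Y).1 1 1 = Y.1 0 1 - Y.1 1 0 := tr_J_mul Y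
  show _ ↔ (J F * Y).1 0 0 + (J F * Y).1 1 1 = 0
  rw [h]

theorem card_both (hns : ∀ z : F, z * z - 0 * z + 1 ≠ 0) :
    Nat.card {Y : S F // Y.1 0 0 + Y.1 1 1 = 0 ∧ Y.1 0 1 - Y.1 1 0 = 0} = Nat.card F + 1 := by
  rw [← card_NN hns (-1) (neg_ne_zero.mpr one_ne_zero)]
  refine Nat.card_congr ⟨fun Y => ⟨(Y.1.1 0 0, Y.1.1 1 0), ?_⟩,
      fun v => ⟨mk2 v.1.1 v.1.2 v.1.2 (-v.1.1) ?_, ?_, ?_⟩, ?_, ?_⟩
  · have hd := det_eq Y.1
    unfold NN
    show Y.1.1 0 0 * Y.1.1 0 0 + 0 * Y.1.1 0 0 * Y.1.1 1 0 + Y.1.1 1 0 * Y.1.1 1 0 = -1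
    linear_combination -hd + Y.1.1 0 0 * Y.2.1 - Y.1.1 1 0 * Y.2.2
  · have := v.2
    unfold NN at this
    linear_combination -this
  · show v.1.1 + (- v.1.1) = 0
    ring
  · show v.1.2 - v.1.2 = 0
    ring
  · rintro ⟨Y, h1, h2⟩
    apply Subtype.ext
    apply ext4
    · rfl
    · show Y.1 1 0 = Y.1 0 1
      linear_combination -h2
    · rfl
    · show - Y.1 0 0 = Y.1 1 1
      linear_combination -h1
  · rintro ⟨⟨a, c⟩, h⟩
    rfl

theorem card_second (hns : ∀ z : F, z * z - 0 * z + 1 ≠ 0) :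
    Nat.card {Y : S F // Y.1 0 0 + Y.1 1 1 ≠ 0 ∧ Y.1 0 1 - Y.1 1 0 = 0} + (Nat.card F + 1) =
      Nat.card F * (Nat.card F - 1) := by
  rw [← card_uu_zero hns, ← card_both hns, add_comm, ← card_or_disj]
  · apply Nat.card_congr
    apply Equiv.subtypeEquivRight
    intro Y
    tauto
  · intro Y h1 h2
    exact h2.1 h1.1

theorem card_third (h3 : (3 : F) = 0) (hns : ∀ z : F, z * z - 0 * z + 1 ≠ 0) :
    Nat.card {Y : S F // Y.1 1 1 = Y.1 0 0 ∧ Y.1 0 1 = - Y.1 1 0 ∧ Y.1 0 0 ≠ 0 ∧ Y.1 1 0 ≠ 0} + 4 =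
      Nat.card F + 1 := by
  classical
  have hne : (1 : F) ≠ -1 := by
    intro h
    apply two_ne h3
    linear_combination h
  rw [← card_NN hns 1 one_ne_zero]
  have h1 : Nat.card {Y : S F // Y.1 1 1 = Y.1 0 0 ∧ Y.1 0 1 = - Y.1 1 0 ∧ Y.1 0 0 ≠ 0 ∧
      Y.1 1 0 ≠ 0} = Nat.card {v : F × F // NN 0 v = 1 ∧ v.1 ≠ 0 ∧ v.2 ≠ 0} := by
    refine Nat.card_congr ⟨fun Y => ⟨(Y.1.1 0 0, Y.1.1 1 0), ?_, Y.2.2.2.1, Y.2.2.2.2⟩,
      fun v => ⟨mk2 v.1.1 (-v.1.2) v.1.2 v.1.1 ?_, rfl, rfl, v.2.2.1, v.2.2.2⟩, ?_, ?_⟩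
    · have hd := det_eq Y.1
      unfold NN
      show Y.1.1 0 0 * Y.1.1 0 0 + 0 * Y.1.1 0 0 * Y.1.1 1 0 + Y.1.1 1 0 * Y.1.1 1 0 = 1
      linear_combination hd - Y.1.1 0 0 * Y.2.1 + Y.1.1 1 0 * Y.2.2.1
    · have := v.2.1
      unfold NN at this
      linear_combination this
    · rintro ⟨Y, h1, h2, -⟩
      apply Subtype.ext
      apply ext4
      · rfl
      · exact h2.symm
      · rfl
      · exact h1.symm
    · rintro ⟨⟨a, c⟩, h⟩
      rfl
  have h2 : Nat.card {v : F × F // NN 0 v = 1 ∧ (v.1 = 0 ∨ v.2 = 0)} = 4 := by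
    have := Nat.subtype_card ({(0, 1), (0, -1), (1, 0), (-1, 0)} : Finset (F × F))
      (p := fun v => NN 0 v = 1 ∧ (v.1 = 0 ∨ v.2 = 0)) (by
        rintro ⟨a, c⟩
        simp only [Finset.mem_insert, Finset.mem_singleton, Prod.mk.injEq]
        unfold NN
        constructor
        · rintro (⟨rfl, rfl⟩ | ⟨rfl, rfl⟩ | ⟨rfl, rfl⟩ | ⟨rfl, rfl⟩)
          · exact ⟨by ring, Or.inl rfl⟩
          · exact ⟨by ring, Or.inl rfl⟩
          · exact ⟨by ring, Or.inr rfl⟩
          · exact ⟨by ring, Or.inr rfl⟩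
        · rintro ⟨h, h0 | h0⟩
          · have h0' : a = 0 := h0
            have h' : a * a + 0 * a * c + c * c = 1 := h
            have : (c - 1) * (c + 1) = 0 := by rw [h0'] at h'; linear_combination h'
            rcases mul_eq_zero.mp this with h | h
            · left; exact ⟨h0', by linear_combination h⟩
            · right; left; exact ⟨h0', by linear_combination h⟩
          · have h0' : c = 0 := h0
            have h' : a * a + 0 * a * c + c * c = 1 := h
            have : (a - 1) * (a + 1) = 0 := by rw [h0'] at h'; linear_combination h'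
            rcases mul_eq_zero.mp this with h | h
            · right; right; left; exact ⟨by linear_combination h, h0'⟩
            · right; right; right; exact ⟨by linear_combination h, h0'⟩)
    rw [this]
    have h01 : (0 : F) ≠ 1 := zero_ne_one
    have h0m : (0 : F) ≠ -1 := fun h => one_ne_zero (α := F) (by linear_combination h)
    rw [Finset.card_insert_of_notMem, Finset.card_insert_of_notMem, Finset.card_pair]
    · intro h
      exact hne (Prod.mk.inj h).1
    · simp only [Finset.mem_insert, Finset.mem_singleton, Prod.mk.injEq, not_or]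
      exact ⟨fun h => h01 h.1, fun h => h0m h.1⟩
    · simp only [Finset.mem_insert, Finset.mem_singleton, Prod.mk.injEq, not_or]
      exact ⟨fun h => hne h.2, fun h => h01 h.1, fun h => h0m h.1⟩
  rw [h1, ← h2, ← card_or_disj]
  · apply Nat.card_congr
    apply Equiv.subtypeEquivRight
    intro v
    tauto
  · rintro v ⟨-, h1, h2⟩ ⟨-, h3 | h3⟩
    · exact h1 h3
    · exact h2 h3

theorem card_fourth (h3 : (3 : F) = 0) (hns : ∀ z : F, z * z - 0 * z + 1 ≠ 0) :
    Nat.card {Y : S F // (Y.1 0 0 + Y.1 1 1) * (Y.1 0 0 + Y.1 1 1) = 1 ∧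
        (Y.1 0 1 - Y.1 1 0) * (Y.1 0 1 - Y.1 1 0) = 1} = 4 * (Nat.card F + 1) := by
  classical
  have hne : (1 : F) ≠ -1 := by
    intro h
    apply two_ne h3
    linear_combination h
  have hc2 : Nat.card {c : F // c * c = 1} = 2 := by
    have := Nat.subtype_card ({1, -1} : Finset F) (p := fun c => c * c = 1) (by
      intro c
      rw [Finset.mem_insert, Finset.mem_singleton]
      constructor
      · rintro (rfl | rfl) <;> ring
      · intro h
        have h2 : (c - 1) * (c + 1) = 0 := by linear_combination h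
        rcases mul_eq_zero.mp h2 with h | h
        · left; linear_combination h
        · right; linear_combination h)
    rw [this, Finset.card_pair hne]
  rw [← card_NN hns 1 one_ne_zero]
  have h4 : 4 * Nat.card {v : F × F // NN 0 v = 1} =
      Nat.card ({c : F // c * c = 1} × {c : F // c * c = 1} × {v : F × F // NN 0 v = 1}) := by
    rw [Nat.card_prod, Nat.card_prod, hc2]
    ring
  rw [h4]
  refine Nat.card_congr ⟨fun Y => (⟨Y.1.1 0 0 + Y.1.1 1 1, Y.2.1⟩, ⟨Y.1.1 0 1 - Y.1.1 1 0, Y.2.2⟩,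
      ⟨(Y.1.1 0 0 - Y.1.1 1 1, Y.1.1 0 1 + Y.1.1 1 0), ?_⟩),
    fun w => ⟨mk2 (-(w.1 + w.2.2.1.1)) (-(w.2.1 + w.2.2.1.2)) (w.2.1 - w.2.2.1.2)
      (w.2.2.1.1 - w.1) ?_, ?_, ?_⟩, ?_, ?_⟩
  · have hd := det_eq Y.1
    have h5 := Y.2.1
    have h6 := Y.2.2
    unfold NN
    show (Y.1.1 0 0 - Y.1.1 1 1) * (Y.1.1 0 0 - Y.1.1 1 1) +
      0 * (Y.1.1 0 0 - Y.1.1 1 1) * (Y.1.1 0 1 + Y.1.1 1 0) +
      (Y.1.1 0 1 + Y.1.1 1 0) * (Y.1.1 0 1 + Y.1.1 1 0) = 1
    linear_combination h5 + h6 - 4 * hd - h3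
  · have h5 := w.1.2
    have h6 := w.2.1.2
    have h7 := w.2.2.2
    unfold NN at h7
    linear_combination h5 + h6 - h7
  · show (-((w.1 : F) + w.2.2.1.1) + (w.2.2.1.1 - w.1)) * (-((w.1 : F) + w.2.2.1.1) + (w.2.2.1.1 - w.1)) = 1
    linear_combination w.1.2 + (w.1 : F) * w.1 * h3
  · show (-((w.2.1 : F) + w.2.2.1.2) - (w.2.1 - w.2.2.1.2)) * (-((w.2.1 : F) + w.2.2.1.2) - (w.2.1 - w.2.2.1.2)) = 1
    linear_combination w.2.1.2 + (w.2.1 : F) * w.2.1 * h3
  · rintro ⟨Y, h1, h2⟩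
    apply Subtype.ext
    apply ext4
    · show -(Y.1 0 0 + Y.1 1 1 + (Y.1 0 0 - Y.1 1 1)) = Y.1 0 0
      linear_combination -Y.1 0 0 * h3
    · show -(Y.1 0 1 - Y.1 1 0 + (Y.1 0 1 + Y.1 1 0)) = Y.1 0 1
      linear_combination -Y.1 0 1 * h3
    · show Y.1 0 1 - Y.1 1 0 - (Y.1 0 1 + Y.1 1 0) = Y.1 1 0
      linear_combination -Y.1 1 0 * h3
    · show Y.1 0 0 - Y.1 1 1 - (Y.1 0 0 + Y.1 1 1) = Y.1 1 1
      linear_combination -Y.1 1 1 * h3
  · rintro ⟨⟨s, hs⟩, ⟨v, hv⟩, ⟨⟨e, f⟩, hef⟩⟩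
    apply Prod.ext
    · apply Subtype.ext
      show -(s + e) + (e - s) = s
      linear_combination -s * h3
    · apply Prod.ext
      · apply Subtype.ext
        show -(v + f) - (v - f) = v
        linear_combination -v * h3
      · apply Subtype.ext
        apply Prod.ext
        · show -(s + e) - (e - s) = e
          linear_combination -e * h3
        · show -(v + f) + (v - f) = f
          linear_combination -f * h3

theorem inv_count (h3 : (3 : F) = 0) (hns : ∀ z : F, z * z - 0 * z + 1 ≠ 0) :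
    Nat.card {Y : S F // (Y.1 0 0 + Y.1 1 1 = 0 ∨ ((Y.1 0 0 + Y.1 1 1 ≠ 0 ∧ Y.1 0 1 - Y.1 1 0 = 0) ∨
      ((Y.1 1 1 = Y.1 0 0 ∧ Y.1 0 1 = - Y.1 1 0 ∧ Y.1 0 0 ≠ 0 ∧ Y.1 1 0 ≠ 0) ∨
      ((Y.1 0 0 + Y.1 1 1) * (Y.1 0 0 + Y.1 1 1) = 1 ∧
        (Y.1 0 1 - Y.1 1 0) * (Y.1 0 1 - Y.1 1 0) = 1))))} = 2 * (Nat.card F * (Nat.card F + 1)) := by
  have h2 := two_ne h3
  rw [card_or_disj, card_or_disj, card_or_disj, card_tr_zero hns, card_fourth h3 hns]
  · have e2 := card_second hns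
    have e3 := card_third h3 hns
    have hq : 1 < Nat.card F := Finite.one_lt_card
    obtain ⟨m, hm⟩ := Nat.exists_eq_add_of_lt hq
    generalize Nat.card {Y : S F // Y.1 0 0 + Y.1 1 1 ≠ 0 ∧ Y.1 0 1 - Y.1 1 0 = 0} = A at *
    generalize Nat.card {Y : S F // Y.1 1 1 = Y.1 0 0 ∧ Y.1 0 1 = - Y.1 1 0 ∧ Y.1 0 0 ≠ 0 ∧
      Y.1 1 0 ≠ 0} = B at *
    rw [hm] at *
    have e0 : 1 + m + 1 - 1 = m + 1 := by omega
    rw [e0] at e2 ⊢
    have e4 : 2 * ((1 + m + 1) * (1 + m + 1 + 1)) = 2 * ((1 + m + 1) * (m + 1)) + 4 * (1 + m + 1) := by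
      ring
    rw [e4]
    generalize (1 + m + 1) * (m + 1) = C at *
    omega
  · rintro Y ⟨h1, h2', h4, h5⟩ ⟨h6, h7⟩
    have hd := det_eq Y
    rw [h1, h2'] at hd
    rw [h1] at h6
    rw [h2'] at h7
    apply one_ne_zero (α := F)
    -- 4 a^2 = 1, 4 c^2 = 1, a^2 + c^2 = 1
    linear_combination h3 - (h6 + h7 - 4 * hd)
  · rintro Y ⟨h1, h4⟩ (⟨h5, h6, h7, h8⟩ | ⟨h5, h6⟩)
    · rw [h6] at h4
      have : (2 : F) * Y.1 1 0 = 0 := by linear_combination -h4
      exact h8 ((mul_eq_zero.mp this).resolve_left h2)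
    · rw [h4] at h6
      simp at h6
  · rintro Y h1 (⟨h5, h6⟩ | ⟨h5, h6, h7, h8⟩ | ⟨h5, h6⟩)
    · exact h5 h1
    · rw [h5] at h1
      have : (2 : F) * Y.1 0 0 = 0 := by linear_combination h1
      exact h7 ((mul_eq_zero.mp this).resolve_left h2)
    · rw [h1] at h5
      simp at h5

end counts

end H86.SolPSLh
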