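import Mathlib
import Cfsg.Agent.Lib.H86.SolPSLh

/-! Solubilizers in `PSL₂(2^r)`, `PSL₂(3^r)`. -/

set_option autoImplicit false

namespace H86.SolPSLi

open Matrix H45.SL2 H86.SolPSLa H86.SolPSLc H86.SolPSLd H86.SolPSLe H86.SolPSLf H86.SolPSLg H86.SolPSLh
  H98.DicksonPSL
open scoped H98.Moebius

variable {F : Type*} [Field F]

/-- size of the solubilizer -/
noncomputable def solc (x : P F) : ℕ :=
  Nat.card {y : P F // Group.IsSolvable (Subgroup.closure ({x, y} : Set (P F)))}

theorem solc_conj {A X : S F} (h : IsConj A X) : solc (mk X) = solc (mk A) := by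
  obtain ⟨g, hg⟩ := isConj_iff.mp h
  have h1 := H42.SolCount.card_sol_equiv (MulAut.conj (mk g)) (mk A)
  have h2 : MulAut.conj (mk g) (mk A) = mk X := by
    rw [MulAut.conj_apply, ← hg]; rfl
  rw [h2] at h1
  exact h1

theorem solc_mul [Finite F] (x : P F) :
    Nat.card {Y : S F // Group.IsSolvable (Subgroup.closure ({x, mk Y} : Set (P F)))} =
      Nat.card (Subgroup.center (S F)) * solc x :=
  card_center_mul (fun y => Group.IsSolvable (Subgroup.closure ({x, y} : Set (P F))))

theorem tri [Finite F] (p : ℕ) [Fact p.Prime] [CharP F p] (X : S F) :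
    (orderOf (mk X) ∣ p ∧ ∃ c : F, c * c - tr X * c + 1 = 0 ∧ c * c = 1) ∨
    (orderOf (mk X) ∣ (Nat.card F - 1) / Nat.gcd 2 (Nat.card F - 1) ∧
      ∃ c : F, c * c - tr X * c + 1 = 0 ∧ c * c ≠ 1) ∨
    (orderOf (mk X) ∣ (Nat.card F + 1) / Nat.gcd 2 (Nat.card F - 1) ∧
      ∀ c : F, c * c - tr X * c + 1 ≠ 0) := by
  have h := H46.PSL2Orders.trichotomy_matrix p (Matrix.SpecialLinearGroup.toGL X) X.2
  rw [← H46.ProjOrder.orderOf_mk_eq] at h
  have ht : ((Matrix.SpecialLinearGroup.toGL X : Matrix.GeneralLinearGroup (Fin 2) F) :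
    Matrix (Fin 2) (Fin 2) F).trace = tr X := by
    rw [Matrix.trace_fin_two]; rfl
  rw [ht] at h
  exact h

theorem nf_split [Finite F] (X : S F) (c : F) (h : c * c - tr X * c + 1 = 0) (hc : c * c ≠ 1) :
    ∃ hc0 : c ≠ 0, IsConj (mk2 c 0 0 c⁻¹ (by rw [mul_inv_cancel₀ hc0]; ring)) X := by
  have hc0 : c ≠ 0 := by
    rintro rfl
    apply one_ne_zero (α := F)
    linear_combination h
  refine ⟨hc0, ?_⟩
  have ht : tr X = c + c⁻¹ := by
    field_simp
    linear_combination -h
  apply isConj_of_tr_eq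
  · rw [ht]; rfl
  · intro h4
    have h5 : (c + c⁻¹) ^ 2 = 4 := h4
    have h6 : (c - c⁻¹) ^ 2 = 0 := by
      have : c * c⁻¹ = 1 := mul_inv_cancel₀ hc0
      linear_combination h5 - 4 * this
    have h7 : c - c⁻¹ = 0 := by simpa using h6
    apply hc
    have h8 : c = c⁻¹ := by linear_combination h7
    calc c * c = c⁻¹ * c := by rw [← h8]
      _ = 1 := inv_mul_cancel₀ hc0

theorem nf_nonsplit [Finite F] (X : S F) (h : ∀ c : F, c * c - tr X * c + 1 ≠ 0) :
    IsConj (mk2 0 (-1) 1 (tr X) (by ring)) X := by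
  apply isConj_companion_of_tr
  intro h4
  exact disc_ne h (by linear_combination h4)

theorem nf_unip (X : S F) (c : F) (h : c * c - tr X * c + 1 = 0) (hc : c * c = 1)
    (hX : mk X ≠ 1) : ∃ u : F, u ≠ 0 ∧ solc (mk X) = solc (mk (U u)) := by
  have hc1 : c = 1 ∨ c = -1 := by
    have : (c - 1) * (c + 1) = 0 := by linear_combination hc
    rcases mul_eq_zero.mp this with h | h
    · left; linear_combination h
    · right; linear_combination h
  rcases hc1 with rfl | rfl
  · obtain ⟨u, hu, hconj⟩ := exists_unip X (by linear_combination -h)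
      (fun h1 => hX ((mk_eq_one X).mpr (Or.inl h1)))
    exact ⟨u, hu, solc_conj hconj⟩
  · obtain ⟨u, hu, hconj⟩ := exists_unip (-X) (by rw [tr_neg]; linear_combination -h)
      (fun h1 => hX ((mk_eq_one X).mpr (Or.inr (by rw [← h1, neg_neg]))))
    refine ⟨u, hu, ?_⟩
    have : mk X = mk (-X) := (mk_eq _ _).mpr (Or.inr (neg_neg X).symm)
    rw [this]
    exact solc_conj hconj

section even

variable [Finite F] {r : ℕ} (hr : r.Prime) (hF : Nat.card F = 2 ^ r)

include hr hF

theorem even_main (hch : CharP F 2) (x : P F) :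
    (orderOf x = 2 → solc x = 3 * 2 ^ r * (2 ^ r - 1)) ∧
    (x ≠ 1 → orderOf x ∣ 2 ^ r - 1 → solc x = 2 * 2 ^ r * (2 ^ r - 1)) ∧
    (x ≠ 1 → orderOf x ∣ 2 ^ r + 1 → solc x = 2 * (2 ^ r + 1)) := by
  classical
  have : Fact (Nat.Prime 2) := ⟨Nat.prime_two⟩
  have h2 : (2 : F) = 0 := CharP.cast_eq_zero F 2
  obtain ⟨X, rfl⟩ : ∃ X : S F, mk X = x := QuotientGroup.mk_surjective x
  have hcen := card_center_even (F := F) h2
  rw [← hF]
  have hq : Even (Nat.card F) := by rw [hF]; exact (Nat.even_pow.mpr ⟨even_two, hr.ne_zero⟩)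
  have hq2 : 2 ≤ Nat.card F := by
    rw [hF]
    calc 2 = 2 ^ 1 := by norm_num
      _ ≤ 2 ^ r := Nat.pow_le_pow_right (by norm_num) hr.pos
  obtain ⟨m, hm⟩ := hq
  have hgcd : Nat.gcd 2 (Nat.card F - 1) = 1 := by
    rw [← Nat.coprime_iff_gcd_eq_one]
    exact (Nat.Prime.coprime_iff_not_dvd Nat.prime_two).mpr (by omega)
  have htri := tri 2 X
  rw [hgcd, Nat.div_one, Nat.div_one] at htri
  have hcop1 : ∀ n : ℕ, n ∣ 2 → (n ∣ Nat.card F - 1 ∨ n ∣ Nat.card F + 1) → n = 1 := by
    intro n hn h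
    rcases (Nat.dvd_prime Nat.prime_two).mp hn with h' | h'
    · exact h'
    · exfalso
      rw [h'] at h
      omega
  have hcop2 : ∀ n : ℕ, n ∣ Nat.card F - 1 → n ∣ Nat.card F + 1 → n = 1 := by
    intro n h1 h2
    apply hcop1 n _ (Or.inl h1)
    have := Nat.dvd_sub h2 h1
    have e : Nat.card F + 1 - (Nat.card F - 1) = 2 := by omega
    rwa [e] at this
  have hsq : ∀ x : P F, x * x = 1 → orderOf x ∣ 2 := by
    intro x hx
    rw [orderOf_dvd_iff_pow_eq_one, pow_two]
    exact hx
  refine ⟨?_, ?_, ?_⟩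
  · intro hord
    have hx1 : mk X ≠ 1 := by
      intro h
      rw [h, orderOf_one] at hord
      omega
    rcases htri with ⟨-, c, hc, hcc⟩ | ⟨h, -⟩ | ⟨h, -⟩
    · obtain ⟨u, hu, he⟩ := nf_unip X c hc hcc hx1
      show solc (mk X) = _
      rw [he]
      have hcnt := solc_mul (mk (U u))
      rw [hcen, one_mul] at hcnt
      rw [← hcnt, ← even_count h2 hu]
      apply Nat.card_congr
      apply Equiv.subtypeEquivRight
      intro Y
      have hUU : mk (U u) * mk (U u) = 1 := by
        rw [mk_sq]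
        left
        show (1 : F) + 1 = 0
        linear_combination h2
      rw [even_two hr hF (mk (U u)) (mk Y) hUU, even_iff h2 hu]
    · exfalso
      have h3 := hcop1 (orderOf (mk X)) (by rw [hord]) (Or.inl h)
      rw [hord] at h3
      omega
    · exfalso
      have h3 := hcop1 (orderOf (mk X)) (by rw [hord]) (Or.inr h)
      rw [hord] at h3
      omega
  · intro hx1 hord
    have hne : ∀ n, orderOf (mk X) = n → n ≠ 1 := by
      rintro n hn rfl
      exact hx1 (orderOf_eq_one_iff.mp hn)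
    have hxx : mk X * mk X ≠ 1 := by
      intro h
      exact hne _ rfl (hcop1 _ (hsq _ h) (Or.inl hord))
    rcases htri with ⟨h, -⟩ | ⟨-, c, hc, hcc⟩ | ⟨h, -⟩
    · exact absurd (hcop1 _ h (Or.inl hord)) (hne _ rfl)
    · obtain ⟨hc0, hconj⟩ := nf_split X c hc hcc
      show solc (mk X) = _
      have hxx' : mk (mk2 c 0 0 c⁻¹ (by rw [mul_inv_cancel₀ hc0]; ring) : S F) *
          mk (mk2 c 0 0 c⁻¹ (by rw [mul_inv_cancel₀ hc0]; ring)) ≠ 1 := by
        intro h
        apply hxx
        obtain ⟨g, hg⟩ := isConj_iff.mp hconj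
        have e : mk X = mk g * mk (mk2 c 0 0 c⁻¹ (by rw [mul_inv_cancel₀ hc0]; ring) : S F) *
          (mk g)⁻¹ := by rw [← hg]; rfl
        rw [e]
        calc mk g * mk (mk2 c 0 0 c⁻¹ (by rw [mul_inv_cancel₀ hc0]; ring) : S F) * (mk g)⁻¹ *
            (mk g * mk (mk2 c 0 0 c⁻¹ (by rw [mul_inv_cancel₀ hc0]; ring) : S F) * (mk g)⁻¹) =
            mk g * (mk (mk2 c 0 0 c⁻¹ (by rw [mul_inv_cancel₀ hc0]; ring) : S F) *
              mk (mk2 c 0 0 c⁻¹ (by rw [mul_inv_cancel₀ hc0]; ring) : S F)) * (mk g)⁻¹ := by group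
          _ = 1 := by rw [h]; group
      rw [solc_conj hconj]
      have hcnt := solc_mul (mk (mk2 c 0 0 c⁻¹ (by rw [mul_inv_cancel₀ hc0]; ring) : S F))
      rw [hcen, one_mul] at hcnt
      rw [← hcnt, ← split_count]
      apply Nat.card_congr
      apply Equiv.subtypeEquivRight
      intro Y
      rw [even_high hr hF _ (mk Y) hxx', ← split_iff hc0 hcc]
      rfl
    · exact absurd (hcop2 _ hord h) (hne _ rfl)
  · intro hx1 hord
    have hne : ∀ n, orderOf (mk X) = n → n ≠ 1 := by
      rintro n hn rfl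
      exact hx1 (orderOf_eq_one_iff.mp hn)
    have hxx : mk X * mk X ≠ 1 := by
      intro h
      exact hne _ rfl (hcop1 _ (hsq _ h) (Or.inr hord))
    rcases htri with ⟨h, -⟩ | ⟨h, -⟩ | ⟨-, hns⟩
    · exact absurd (hcop1 _ h (Or.inr hord)) (hne _ rfl)
    · exact absurd (hcop2 _ h hord) (hne _ rfl)
    · have hconj := nf_nonsplit X hns
      show solc (mk X) = _
      have ht0 : tr X ≠ 0 := by
        intro h
        apply hns 1
        rw [h]
        linear_combination h2
      have hxx' : mk (mk2 0 (-1) 1 (tr X) (by ring) : S F) * mk (mk2 0 (-1) 1 (tr X) (by ring)) ≠ 1 := by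
        intro h
        rcases (mk_sq _).mp h with h | h | h
        · apply ht0
          have e : (0 : F) + tr X = 0 := h
          linear_combination e
        · have e := congrArg (fun A : S F => A.1 1 0) h
          exact one_ne_zero (α := F) e
        · have e := congrArg (fun A : S F => A.1 1 0) h
          have e' : (1 : F) = - 0 := e
          apply one_ne_zero (α := F)
          linear_combination e'
      rw [solc_conj hconj]
      have hcnt := solc_mul (mk (mk2 0 (-1) 1 (tr X) (by ring) : S F))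
      rw [hcen, one_mul] at hcnt
      rw [← hcnt, ← nonsplit_count hns]
      apply Nat.card_congr
      apply Equiv.subtypeEquivRight
      intro Y
      rw [even_high hr hF _ (mk Y) hxx', ← nonsplit_iff hns ht0]
      rfl

end even

section three

variable [Finite F] {r : ℕ} (hr : r.Prime) (hodd : Odd r) (hF : Nat.card F = 3 ^ r)

theorem arith_three {r : ℕ} (hodd : Odd r) : 3 ^ r % 4 = 3 := by
  obtain ⟨k, rfl⟩ := hodd
  induction k with
  | zero => norm_num
  | succ k ih =>
    have : 3 ^ (2 * (k + 1) + 1) = 3 ^ (2 * k + 1) * 9 := by ring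
    rw [this, Nat.mul_mod, ih]

include hr hodd hF

theorem three_main (hch : CharP F 3) (x : P F) :
    (orderOf x = 2 → solc x = 3 ^ r * (3 ^ r + 1)) ∧
    (orderOf x = 3 → 2 * solc x = 3 ^ r * (3 ^ r + 5)) ∧
    (x ≠ 1 → orderOf x ≠ 2 → orderOf x ∣ 3 ^ r - 1 → solc x = 3 ^ r * (3 ^ r - 1)) ∧
    (x ≠ 1 → orderOf x ≠ 2 → orderOf x ∣ 3 ^ r + 1 → solc x = 3 ^ r + 1) := by
  classical
  have : Fact (Nat.Prime 3) := ⟨Nat.prime_three⟩
  have h3 : (3 : F) = 0 := CharP.cast_eq_zero F 3
  have h2 := two_ne h3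
  obtain ⟨X, rfl⟩ : ∃ X : S F, mk X = x := QuotientGroup.mk_surjective x
  have hcen := card_center_odd (F := F) h2
  rw [← hF]
  have hq4 : Nat.card F % 4 = 3 := by rw [hF]; exact arith_three hodd
  have hq3 : 3 ∣ Nat.card F := by rw [hF]; exact dvd_pow_self 3 hr.ne_zero
  have hqpos : 0 < Nat.card F := Nat.card_pos
  have hgcd : Nat.gcd 2 (Nat.card F - 1) = 2 := Nat.gcd_eq_left (by omega)
  have htri := tri 3 X
  rw [hgcd] at htri
  have hdv1 : (Nat.card F - 1) / 2 ∣ Nat.card F - 1 := Nat.div_dvd_of_dvd (by omega)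
  have hdv2 : (Nat.card F + 1) / 2 ∣ Nat.card F + 1 := Nat.div_dvd_of_dvd (by omega)
  have hcop1 : ∀ n : ℕ, n ∣ 3 → (n ∣ Nat.card F - 1 ∨ n ∣ Nat.card F + 1) → n = 1 := by
    intro n hn h
    rcases (Nat.dvd_prime Nat.prime_three).mp hn with h' | h'
    · exact h'
    · exfalso
      rw [h'] at h
      omega
  have hcop2 : ∀ n : ℕ, n ∣ Nat.card F - 1 → n ∣ Nat.card F + 1 → n = 1 ∨ n = 2 := by
    intro n h1 h2
    have := Nat.dvd_sub h2 h1
    have e : Nat.card F + 1 - (Nat.card F - 1) = 2 := by omega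
    rw [e] at this
    exact (Nat.dvd_prime Nat.prime_two).mp this
  have hsq : ∀ x : P F, x * x = 1 → orderOf x = 1 ∨ orderOf x = 2 := by
    intro x hx
    apply (Nat.dvd_prime Nat.prime_two).mp
    rw [orderOf_dvd_iff_pow_eq_one, pow_two]
    exact hx
  have hconjsq : ∀ (A B : S F), IsConj A B → ∀ n : ℕ, mk A ^ n = 1 → mk B ^ n = 1 := by
    intro A B hAB n h
    obtain ⟨g, hg⟩ := isConj_iff.mp hAB
    have e : mk B = mk g * mk A * (mk g)⁻¹ := by rw [← hg]; rfl
    rw [e, conj_pow, h, mul_one, mul_inv_cancel]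
  refine ⟨?_, ?_, ?_, ?_⟩
  · intro hord
    have hx1 : mk X ≠ 1 := by
      intro h
      rw [h, orderOf_one] at hord
      omega
    rcases htri with ⟨h, -⟩ | ⟨h, -⟩ | ⟨-, hns⟩
    · exfalso; rw [hord] at h; omega
    · exfalso; rw [hord] at h; omega
    · have ht0 : tr X = 0 := by
        have hxx : mk X * mk X = 1 := by
          have := pow_orderOf_eq_one (mk X)
          rw [hord, pow_two] at this
          exact this
        rcases (mk_sq X).mp hxx with h | h
        · exact h
        · exact absurd ((mk_eq_one X).mpr h) hx1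
      have hconj := nf_nonsplit X hns
      have hJ : (mk2 0 (-1) 1 (tr X) (by ring) : S F) = H86.SolPSLh.J F := by
        apply ext4
        · rfl
        · rfl
        · rfl
        · exact ht0
      rw [hJ] at hconj
      rw [ht0] at hns
      show solc (mk X) = _
      rw [solc_conj hconj]
      have hcnt := solc_mul (mk (H86.SolPSLh.J F))
      rw [hcen] at hcnt
      apply Nat.eq_of_mul_eq_mul_left (by norm_num : 0 < 2)
      rw [← hcnt, ← inv_count h3 hns]
      apply Nat.card_congr
      apply Equiv.subtypeEquivRight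
      intro Y
      have hJJ : mk (H86.SolPSLh.J F) * mk (H86.SolPSLh.J F) = 1 := by
        rw [mk_sq]
        left
        show (0 : F) + 0 = 0
        ring
      rw [three_two hr hodd hF (mk (H86.SolPSLh.J F)) (mk Y) hJJ, ← inv_iff h3 hns]
  · intro hord
    have hx1 : mk X ≠ 1 := by
      intro h
      rw [h, orderOf_one] at hord
      omega
    rcases htri with ⟨-, c, hc, hcc⟩ | ⟨h, -⟩ | ⟨h, -⟩
    · obtain ⟨u, hu, he⟩ := nf_unip X c hc hcc hx1
      show 2 * solc (mk X) = _
      rw [he]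
      have hcnt := solc_mul (mk (U u))
      rw [hcen] at hcnt
      rw [← hcnt]
      have e : Nat.card F * (Nat.card F + 5) = Nat.card F * (Nat.card F - 1) + 6 * Nat.card F := by
        obtain ⟨m, hm⟩ := Nat.exists_eq_add_of_le hqpos
        rw [hm]
        simp only [Nat.succ_eq_add_one, zero_add, Nat.add_sub_cancel_left]
        ring
      rw [e, ← three_count h3 hu]
      apply Nat.card_congr
      apply Equiv.subtypeEquivRight
      intro Y
      exact three_iff hr hodd hF h3 hu Y
    · exfalso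
      have := hcop1 (orderOf (mk X)) (by rw [hord]) (Or.inl (h.trans hdv1))
      rw [hord] at this
      omega
    · exfalso
      have := hcop1 (orderOf (mk X)) (by rw [hord]) (Or.inr (h.trans hdv2))
      rw [hord] at this
      omega
  · intro hx1 hx2 hord
    have hne : orderOf (mk X) ≠ 1 := fun h => hx1 (orderOf_eq_one_iff.mp h)
    have hxx : mk X * mk X ≠ 1 := by
      intro h
      rcases hsq _ h with h | h
      · exact hne h
      · exact hx2 h
    have hx3 : mk X ^ 3 ≠ 1 := by
      intro h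
      exact hne (hcop1 _ (orderOf_dvd_of_pow_eq_one h) (Or.inl hord))
    rcases htri with ⟨h, -⟩ | ⟨-, c, hc, hcc⟩ | ⟨h, -⟩
    · exact absurd (hcop1 _ h (Or.inl hord)) hne
    · obtain ⟨hc0, hconj⟩ := nf_split X c hc hcc
      show solc (mk X) = _
      rw [solc_conj hconj]
      have hcnt := solc_mul (mk (mk2 c 0 0 c⁻¹ (by rw [mul_inv_cancel₀ hc0]; ring) : S F))
      rw [hcen] at hcnt
      apply Nat.eq_of_mul_eq_mul_left (by norm_num : 0 < 2)
      rw [← hcnt, ← mul_assoc, ← split_count]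
      apply Nat.card_congr
      apply Equiv.subtypeEquivRight
      intro Y
      rw [three_high hr hodd hF _ (mk Y)
        (fun h => hxx (by
          rw [← pow_two]
          exact hconjsq _ _ hconj 2 (by rw [pow_two]; exact h)))
        (fun h => hx3 (hconjsq _ _ hconj 3 h)), ← split_iff hc0 hcc]
      rfl
    · rcases hcop2 _ hord (h.trans hdv2) with h | h
      · exact absurd h hne
      · exact absurd h hx2
  · intro hx1 hx2 hord
    have hne : orderOf (mk X) ≠ 1 := fun h => hx1 (orderOf_eq_one_iff.mp h)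
    have hxx : mk X * mk X ≠ 1 := by
      intro h
      rcases hsq _ h with h | h
      · exact hne h
      · exact hx2 h
    have hx3 : mk X ^ 3 ≠ 1 := by
      intro h
      exact hne (hcop1 _ (orderOf_dvd_of_pow_eq_one h) (Or.inr hord))
    rcases htri with ⟨h, -⟩ | ⟨h, -⟩ | ⟨-, hns⟩
    · exact absurd (hcop1 _ h (Or.inr hord)) hne
    · rcases hcop2 _ (h.trans hdv1) hord with h | h
      · exact absurd h hne
      · exact absurd h hx2
    · have hconj := nf_nonsplit X hns
      have ht0 : tr X ≠ 0 := fun h => hxx ((mk_sq X).mpr (Or.inl h))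
      show solc (mk X) = _
      rw [solc_conj hconj]
      have hcnt := solc_mul (mk (mk2 0 (-1) 1 (tr X) (by ring) : S F))
      rw [hcen] at hcnt
      apply Nat.eq_of_mul_eq_mul_left (by norm_num : 0 < 2)
      rw [← hcnt, ← nonsplit_count hns]
      apply Nat.card_congr
      apply Equiv.subtypeEquivRight
      intro Y
      rw [three_high hr hodd hF _ (mk Y)
        (fun h => hxx (by
          rw [← pow_two]
          exact hconjsq _ _ hconj 2 (by rw [pow_two]; exact h)))
        (fun h => hx3 (hconjsq _ _ hconj 3 h)), ← nonsplit_iff hns ht0]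
      rfl

end three

end H86.SolPSLi
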