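import Mathlib
import Cfsg.Agent.Lib.H8.SuzSylow
import Cfsg.Agent.Lib.H50.FieldAut2

/-! Pairs `(τ, σ)` of additive maps with `N(τ a) = σ(N a)`, `N a = θ(a) a`, on `F` of order `2^(2m+1)`. -/

set_option autoImplicit false

namespace H86.SzAutA

open H8.SuzField H8.SuzSylow

variable {F : Type*} [Field F] [Fintype F] {m : ℕ}

structure IsPair (m : ℕ) (τ σ : F → F) : Prop where
  add : ∀ a b, τ (a + b) = τ a + τ b
  inj : ∀ a, τ a = 0 → a = 0
  sadd : ∀ x y, σ (x + y) = σ x + σ y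
  sinj : ∀ a, σ a = 0 → a = 0
  nrm : ∀ a, th m (τ a) * τ a = σ (th m a * a)

theorem T0aux (hF : Fintype.card F = 2 ^ (2 * m + 1)) (a b : F) :
    th m (a + b) + (a + b) = (th m a + a) + (th m b + b) := by
  rw [th_add hF]; ring

/-- the hyperplane `{θ u + u}` -/
def fT (hF : Fintype.card F = 2 ^ (2 * m + 1)) : F →+ F :=
  AddMonoidHom.mk' (fun u => th m u + u) (T0aux hF)

theorem ker_fT (hF : Fintype.card F = 2 ^ (2 * m + 1)) (u : F) : fT hF u = 0 ↔ u = 0 ∨ u = 1 := by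
  have two := two_eq_zero hF
  constructor
  · intro h
    have h1 : th m u = u := by
      have : th m u + u = 0 := h
      linear_combination this - u * two
    have h2 := th_th hF u
    rw [h1, h1] at h2
    have h3 : u * (u - 1) = 0 := by linear_combination -h2
    rcases mul_eq_zero.mp h3 with h4 | h4
    · exact Or.inl h4
    · exact Or.inr (by linear_combination h4)
  · rintro (rfl | rfl)
    · exact map_zero _
    · show th m (1 : F) + 1 = 0
      rw [th_one]
      linear_combination two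

/-- `T₀` -/
def T0 (hF : Fintype.card F = 2 ^ (2 * m + 1)) : AddSubgroup F := (fT hF).range

theorem index_T0 (hF : Fintype.card F = 2 ^ (2 * m + 1)) : (T0 (m := m) hF).index = 2 := by
  have h1 : Nat.card (fT (m := m) hF).ker = 2 := by
    have : ((fT (m := m) hF).ker : Set F) = {0, 1} := by
      ext u
      rw [SetLike.mem_coe, AddMonoidHom.mem_ker, ker_fT hF]
      rfl
    have h2 : Nat.card ((fT (m := m) hF).ker : Set F) = 2 := by
      rw [this, Nat.card_coe_set_eq, Set.ncard_pair zero_ne_one]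
    exact h2
  have h2 := (fT (m := m) hF).ker.card_mul_index
  have h3 : (fT (m := m) hF).ker.index = Nat.card (T0 (m := m) hF) := AddSubgroup.index_ker _
  have h4 := (T0 (m := m) hF).card_mul_index
  rw [h1, h3, mul_comm, ← h4] at h2
  exact (Nat.eq_of_mul_eq_mul_left Nat.card_pos h2).symm

theorem mem_T0 (hF : Fintype.card F = 2 ^ (2 * m + 1)) (x : F) : x ∈ T0 (m := m) hF ↔ ∃ u, th m u + u = x :=
  Iff.rfl

theorem N_add (hF : Fintype.card F = 2 ^ (2 * m + 1)) (a c : F) :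
    th m (a + c) * (a + c) = th m a * a + th m c * c + (th m a * c + th m c * a) := by
  rw [th_add hF]; ring

theorem IsPair.pol (hF : Fintype.card F = 2 ^ (2 * m + 1)) {τ σ : F → F} (h : IsPair m τ σ) (a c : F) :
    th m (τ a) * τ c + th m (τ c) * τ a = σ (th m a * c + th m c * a) := by
  have h1 := h.nrm (a + c)
  rw [h.add, N_add hF, N_add hF, h.sadd, h.sadd, h.nrm, h.nrm] at h1
  linear_combination h1

theorem IsPair.surj (hF : Fintype.card F = 2 ^ (2 * m + 1)) {τ σ : F → F} (h : IsPair m τ σ) :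
    Function.Surjective τ := by
  apply Finite.surjective_of_injective
  intro a b hab
  have two := two_eq_zero hF
  have h1 : τ (a + b) = 0 := by rw [h.add, hab]; linear_combination τ b * two
  have := h.inj _ h1
  linear_combination this - b * two

theorem IsPair.sinj' (hF : Fintype.card F = 2 ^ (2 * m + 1)) {τ σ : F → F} (h : IsPair m τ σ) :
    Function.Injective σ := by
  intro a b hab
  have two := two_eq_zero hF
  have h1 : σ (a + b) = 0 := by rw [h.sadd, hab]; linear_combination σ b * two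
  have := h.sinj _ h1
  linear_combination this - b * two

theorem IsPair.ssurj (hF : Fintype.card F = 2 ^ (2 * m + 1)) {τ σ : F → F} (h : IsPair m τ σ) :
    Function.Surjective σ :=
  Finite.surjective_of_injective (h.sinj' hF)

/-- key: `σ` maps the hyperplane `b T₀` to `σ(b) T₀`. -/
theorem IsPair.key (hF : Fintype.card F = 2 ^ (2 * m + 1)) {τ σ : F → F} (h : IsPair m τ σ) {b : F} (hb : b ≠ 0)
    (x : F) : b⁻¹ * x ∈ T0 (m := m) hF ↔ (σ b)⁻¹ * σ x ∈ T0 (m := m) hF := by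
  obtain ⟨a, ha, hab⟩ := exists_norm hF hb
  have hta : τ a ≠ 0 := fun h0 => ha (h.inj a h0)
  have htha : th m a ≠ 0 := fun h0 => ha (th_eq_zero.mp h0)
  have hthta : th m (τ a) ≠ 0 := fun h0 => hta (th_eq_zero.mp h0)
  have hσb : σ b = th m (τ a) * τ a := by rw [h.nrm, ← hab, mul_comm]
  rw [mem_T0, mem_T0]
  constructor
  · rintro ⟨u, hu⟩
    refine ⟨τ (a * u) / τ a, ?_⟩
    have hx : x = th m a * (a * u) + th m (a * u) * a := by
      have : x = b * (b⁻¹ * x) := (mul_inv_cancel_left₀ hb x).symm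
      rw [this, ← hu, ← hab, th_mul]
      ring
    rw [hx, ← h.pol hF, hσb, th_div]
    field_simp
    ring
  · rintro ⟨v, hv⟩
    obtain ⟨w, hw⟩ := h.surj hF (v * τ a)
    refine ⟨w / a, ?_⟩
    have hx : σ x = σ (th m a * w + th m w * a) := by
      have : σ x = σ b * ((σ b)⁻¹ * σ x) :=
        (mul_inv_cancel_left₀ (by rw [hσb]; exact mul_ne_zero hthta hta) _).symm
      rw [this, ← hv, hσb, ← h.pol hF, hw, th_mul]
      ring
    rw [h.sinj' hF hx, ← hab, th_div]
    field_simp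
    ring

/-- the map `x ↦ σ(x⁻¹)⁻¹` is additive. -/
theorem IsPair.psi (hF : Fintype.card F = 2 ^ (2 * m + 1)) {τ σ : F → F} (h : IsPair m τ σ) (x y : F) :
    (σ (x + y)⁻¹)⁻¹ = (σ x⁻¹)⁻¹ + (σ y⁻¹)⁻¹ := by
  have two := two_eq_zero hF
  have h0 : σ 0 = 0 := by
    have := h.sadd 0 0
    rw [add_zero] at this
    exact left_eq_add.mp this
  by_cases hx : x = 0
  · rw [hx, zero_add, inv_zero, h0, inv_zero, zero_add]
  by_cases hy : y = 0
  · rw [hy, add_zero, inv_zero, h0, inv_zero, add_zero]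
  by_cases hxy : x + y = 0
  · have : x = y := by linear_combination hxy - y * two
    rw [hxy, this, inv_zero, h0, inv_zero]
    linear_combination -(σ y⁻¹)⁻¹ * two
  by_contra hne
  set D := (σ x⁻¹)⁻¹ + (σ y⁻¹)⁻¹ + (σ (x + y)⁻¹)⁻¹ with hD
  have hD0 : D ≠ 0 := by
    intro h1
    apply hne
    rw [hD] at h1
    linear_combination h1 - (σ (x + y)⁻¹)⁻¹ * two + ((σ (x + y)⁻¹)⁻¹ - (σ x⁻¹)⁻¹ - (σ y⁻¹)⁻¹) * two
  have hall : ∀ z : F, z ∈ T0 (m := m) hF := by
    intro z
    obtain ⟨w, hw⟩ := h.ssurj hF (D⁻¹ * z)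
    have hz : z = D * σ w := by rw [hw, mul_inv_cancel_left₀ hD0]
    have k1 := h.key hF (inv_ne_zero hx) w
    have k2 := h.key hF (inv_ne_zero hy) w
    have k3 := h.key hF (inv_ne_zero hxy) w
    rw [inv_inv] at k1 k2 k3
    have e : z = (σ x⁻¹)⁻¹ * σ w + (σ y⁻¹)⁻¹ * σ w + (σ (x + y)⁻¹)⁻¹ * σ w := by
      rw [hz, hD]; ring
    rw [e, AddSubgroup.add_mem_iff_of_index_two (index_T0 hF), AddSubgroup.add_mem_iff_of_index_two (index_T0 hF),
      ← k1, ← k2, ← k3, add_mul, AddSubgroup.add_mem_iff_of_index_two (index_T0 hF)]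
  have htop : T0 (m := m) hF = ⊤ := by
    rw [eq_top_iff]
    intro z _
    exact hall z
  have := index_T0 (m := m) hF
  rw [htop, AddSubgroup.index_top] at this
  omega

/-- Hua -/
theorem IsPair.hua (hF : Fintype.card F = 2 ^ (2 * m + 1)) {τ σ : F → F} (h : IsPair m τ σ) (a b : F) :
    σ (a ^ 2 * b) = (σ a) ^ 2 * (σ b⁻¹)⁻¹ := by
  have two := two_eq_zero hF
  have h0 : σ 0 = 0 := by
    have := h.sadd 0 0
    rw [add_zero] at this
    exact left_eq_add.mp this
  by_cases ha : a = 0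
  · rw [ha, zero_pow two_ne_zero, zero_mul, h0, zero_pow two_ne_zero, zero_mul]
  by_cases hb : b = 0
  · rw [hb, mul_zero, h0, inv_zero, h0, inv_zero, mul_zero]
  have hσa : σ a ≠ 0 := fun h1 => ha (h.sinj _ h1)
  have hσb : σ b⁻¹ ≠ 0 := fun h1 => hb (inv_eq_zero.mp (h.sinj _ h1))
  by_cases hab : b⁻¹ + a = 0
  · have e : b⁻¹ = a := by linear_combination hab - a * two
    rw [e]
    have e2 : b = a⁻¹ := by rw [← e, inv_inv]
    rw [e2, pow_two, mul_assoc, mul_inv_cancel₀ ha, mul_one, pow_two, mul_assoc, mul_inv_cancel₀ hσa, mul_one]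
  have hσab : σ b⁻¹ + σ a ≠ 0 := by
    rw [← h.sadd]
    exact fun h1 => hab (h.sinj _ h1)
  have h1 : σ (a + a ^ 2 * b) = (σ (a⁻¹ + (b⁻¹ + a)⁻¹)⁻¹) := by
    congr 1
    have hab' : 1 + a * b ≠ 0 := by
      intro h2
      apply hab
      have : b⁻¹ + a = b⁻¹ * (1 + a * b) := by field_simp
      rw [this, h2, mul_zero]
    have e : a⁻¹ + (b⁻¹ + a)⁻¹ = (a + a ^ 2 * b)⁻¹ := by
      have e1 : (b⁻¹ + a) = b⁻¹ * (1 + a * b) := by field_simp
      have e2 : a + a ^ 2 * b = a * (1 + a * b) := by ring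
      rw [e1, e2, mul_inv, mul_inv, inv_inv]
      field_simp
      linear_combination (a * b) * two
    rw [e, inv_inv]
  have h2 := h.psi hF a⁻¹ (b⁻¹ + a)⁻¹
  rw [inv_inv, inv_inv, h.sadd b⁻¹ a] at h2
  have h3 : σ (a + a ^ 2 * b) = ((σ a)⁻¹ + (σ b⁻¹ + σ a)⁻¹)⁻¹ := by rw [h1, ← h2, inv_inv]
  rw [h.sadd] at h3
  have h4 : ((σ a)⁻¹ + (σ b⁻¹ + σ a)⁻¹)⁻¹ = σ a + (σ a) ^ 2 * (σ b⁻¹)⁻¹ := by
    have gen : ∀ A B : F, A ≠ 0 → B ≠ 0 → B + A ≠ 0 → (A⁻¹ + (B + A)⁻¹)⁻¹ = A + A ^ 2 * B⁻¹ := by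
      intro A B hA hB hAB
      have e : A⁻¹ + (B + A)⁻¹ = B / (A * (B + A)) := by
        field_simp
        linear_combination A * two
      rw [e, inv_div]
      field_simp
    exact gen _ _ hσa hσb hσab
  rw [h4] at h3
  exact add_left_cancel h3

theorem normalized (hF : Fintype.card F = 2 ^ (2 * m + 1)) {τ σ : F → F} (h : IsPair m τ σ) (h1 : τ 1 = 1) :
    ∃ i < 2 * m + 1, ∀ a, τ a = a ^ 2 ^ i := by
  have two := two_eq_zero hF
  have h0 : σ 0 = 0 := by
    have := h.sadd 0 0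
    rw [add_zero] at this
    exact left_eq_add.mp this
  have hs1 : σ 1 = 1 := by
    have := h.nrm 1
    rw [h1, th_one, one_mul] at this
    exact this.symm
  have hpsi : ∀ b, σ b = (σ b⁻¹)⁻¹ := by
    intro b
    have := h.hua hF 1 b
    rwa [one_pow, one_mul, hs1, one_pow, one_mul] at this
  have hsq : ∀ a b, σ (a ^ 2 * b) = (σ a) ^ 2 * σ b := by
    intro a b
    rw [h.hua hF, ← hpsi]
  have hsq1 : ∀ a, σ (a ^ 2) = (σ a) ^ 2 := by
    intro a
    have := hsq a 1
    rwa [mul_one, hs1, mul_one] at this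
  have hmul : ∀ x b, σ (x * b) = σ x * σ b := by
    intro x b
    have hx : x = (x ^ 2 ^ (2 * m)) ^ 2 := by
      rw [← pow_mul, ← pow_succ, ← hF, FiniteField.pow_card]
    rw [hx, hsq, hsq1]
  let f : F →+* F :=
    { toFun := σ
      map_one' := hs1
      map_mul' := hmul
      map_zero' := h0
      map_add' := h.sadd }
  let e : F ≃+* F := RingEquiv.ofBijective f (Finite.injective_iff_bijective.mp f.injective)
  have : Fact (Nat.Prime 2) := ⟨Nat.prime_two⟩
  have := charP_two hF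
  obtain ⟨j, hj, hj2⟩ := H50.FieldAut2.exists_pow 2 (F := F) (f := 2 * m + 1)
    (by rw [Nat.card_eq_fintype_card, hF]) e
  have hσ : ∀ x, σ x = x ^ 2 ^ j := hj2
  refine ⟨j, hj, fun a => ?_⟩
  by_cases ha : a = 0
  · rw [ha, zero_pow (by positivity)]
    have := h.add 0 0
    rw [add_zero] at this
    exact left_eq_add.mp this
  have h5 := h.nrm a
  rw [hσ, mul_pow, ← th_pow] at h5
  have hb : a ^ 2 ^ j ≠ 0 := pow_ne_zero _ ha
  have h6 : (τ a / a ^ 2 ^ j) * th m (τ a / a ^ 2 ^ j) = 1 := by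
    rw [th_div]
    have : th m (a ^ 2 ^ j) ≠ 0 := fun h7 => hb (th_eq_zero.mp h7)
    field_simp
    linear_combination h5
  have h7 := H8.SuzGroup.k_eq_one hF h6
  rwa [div_eq_one_iff_eq hb] at h7

/-- classification of the pairs -/
theorem classify (hF : Fintype.card F = 2 ^ (2 * m + 1)) {τ σ : F → F} (h : IsPair m τ σ) :
    ∃ c : F, c ≠ 0 ∧ ∃ i < 2 * m + 1, (∀ a, τ a = c * a ^ 2 ^ i) ∧
      ∀ x, σ x = (th m c * c) * x ^ 2 ^ i := by
  set c := τ 1 with hc
  have hc0 : c ≠ 0 := fun h0 => one_ne_zero (h.inj 1 h0)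
  have hN0 : th m c * c ≠ 0 := mul_ne_zero (fun h1 => hc0 (th_eq_zero.mp h1)) hc0
  have h' : IsPair m (fun a => c⁻¹ * τ a) (fun x => (th m c * c)⁻¹ * σ x) :=
    { add := fun a b => by
        show c⁻¹ * τ (a + b) = c⁻¹ * τ a + c⁻¹ * τ b
        rw [h.add]; ring
      inj := fun a ha => h.inj a (by
        rcases mul_eq_zero.mp ha with h1 | h1
        · exact absurd h1 (inv_ne_zero hc0)
        · exact h1)
      sadd := fun x y => by
        show (th m c * c)⁻¹ * σ (x + y) = (th m c * c)⁻¹ * σ x + (th m c * c)⁻¹ * σ y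
        rw [h.sadd x y]; ring
      sinj := fun a ha => h.sinj a (by
        rcases mul_eq_zero.mp ha with h1 | h1
        · exact absurd h1 (inv_ne_zero hN0)
        · exact h1)
      nrm := fun a => by
        show th m (c⁻¹ * τ a) * (c⁻¹ * τ a) = (th m c * c)⁻¹ * σ (th m a * a)
        rw [th_mul, ← h.nrm, th_inv, mul_inv]
        ring }
  obtain ⟨i, hi, hτ⟩ := normalized hF h' (inv_mul_cancel₀ hc0)
  have hτ' : ∀ a, τ a = c * a ^ 2 ^ i := by
    intro a
    rw [← hτ a]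
    show τ a = c * (c⁻¹ * τ a)
    rw [mul_inv_cancel_left₀ hc0]
  refine ⟨c, hc0, i, hi, hτ', ?_⟩
  intro x
  by_cases hx : x = 0
  · rw [hx, zero_pow (by positivity), mul_zero]
    have := h.sadd 0 0
    rw [add_zero] at this
    exact left_eq_add.mp this
  obtain ⟨y, hy, hyx⟩ := exists_norm hF hx
  rw [← hyx, mul_comm y, ← h.nrm, hτ', th_mul, mul_pow, th_pow]
  ring

end H86.SzAutA
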