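import Mathlib
import Cfsg.Prelude.Def_Transfer
import Cfsg.Agent.Lib.H86.SzAutA
import Cfsg.Agent.Lib.H24.SzIso
import Cfsg.Agent.Lib.H1.Cores

/-! The automorphism group of the Suzuki 2-group. -/

set_option autoImplicit false

namespace H86.SzAutB

open Cfsg H8.SuzField H8.SuzSylow H86.SzAutA

variable {F : Type*} [Field F] [Fintype F] {m : ℕ}

/-- the Suzuki 2-group -/
@[ext] structure U (hF : Fintype.card F = 2 ^ (2 * m + 1)) where
  a : F
  b : F

variable (hF : Fintype.card F = 2 ^ (2 * m + 1))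

instance : Group (U hF) where
  mul x y := ⟨x.a + y.a, x.b + y.b + th m x.a * y.a⟩
  one := ⟨0, 0⟩
  inv x := ⟨x.a, x.b + th m x.a * x.a⟩
  mul_assoc x y z := by
    apply U.ext
    · exact add_assoc _ _ _
    · show (x.b + y.b + th m x.a * y.a) + z.b + th m (x.a + y.a) * z.a =
        x.b + (y.b + z.b + th m y.a * z.a) + th m x.a * (y.a + z.a)
      rw [th_add hF]; ring
  one_mul x := by
    apply U.ext
    · exact zero_add _
    · show 0 + x.b + th m 0 * x.a = x.b
      rw [th_zero]; ring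
  mul_one x := by
    apply U.ext
    · exact add_zero _
    · show x.b + 0 + th m x.a * 0 = x.b
      ring
  inv_mul_cancel x := by
    have two := two_eq_zero hF
    apply U.ext
    · show x.a + x.a = 0
      linear_combination x.a * two
    · show x.b + th m x.a * x.a + x.b + th m x.a * x.a = 0
      linear_combination (x.b + th m x.a * x.a) * two

theorem mul_a (x y : U hF) : (x * y).a = x.a + y.a := rfl
theorem mul_b (x y : U hF) : (x * y).b = x.b + y.b + th m x.a * y.a := rfl
theorem one_a : (1 : U hF).a = 0 := rfl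
theorem one_b : (1 : U hF).b = 0 := rfl
theorem inv_a (x : U hF) : (x⁻¹).a = x.a := rfl

instance : Finite (U hF) := Finite.of_injective (fun x : U hF => (x.a, x.b)) (by
  intro x y h
  exact U.ext (congrArg Prod.fst h) (congrArg Prod.snd h))

theorem sq_a (x : U hF) : (x * x).a = 0 := by
  rw [mul_a]; linear_combination x.a * two_eq_zero hF

theorem sq_b (x : U hF) : (x * x).b = th m x.a * x.a := by
  rw [mul_b]; linear_combination x.b * two_eq_zero hF

theorem a_zero_iff (x : U hF) : x.a = 0 ↔ x * x = 1 := by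
  constructor
  · intro h
    apply U.ext
    · exact sq_a hF x
    · rw [sq_b, h, mul_zero]; rfl
  · intro h
    have := congrArg U.b h
    rw [sq_b, one_b] at this
    rcases mul_eq_zero.mp this with h1 | h1
    · exact th_eq_zero.mp h1
    · exact h1

theorem comm_of_a_zero (x y : U hF) (h : x.a = 0) : x * y = y * x := by
  apply U.ext
  · rw [mul_a, mul_a, add_comm]
  · rw [mul_b, mul_b, h, th_zero]; ring

/-- `g` preserves `Z` -/
theorem map_a_zero (g : MulAut (U hF)) (x : U hF) (h : x.a = 0) : (g x).a = 0 := by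
  rw [a_zero_iff] at *
  rw [← map_mul, h, map_one]

noncomputable def tau (g : MulAut (U hF)) (a : F) : F := (g ⟨a, 0⟩).a
noncomputable def sig (g : MulAut (U hF)) (b : F) : F := (g ⟨0, b⟩).b

theorem split (x : U hF) : x = ⟨x.a, 0⟩ * ⟨0, x.b⟩ := by
  apply U.ext
  · rw [mul_a]; exact (add_zero _).symm
  · rw [mul_b]
    show x.b = 0 + x.b + th m x.a * 0
    ring

theorem tau_spec (g : MulAut (U hF)) (x : U hF) : (g x).a = tau hF g x.a := by
  conv_lhs => rw [split hF x, map_mul, mul_a, map_a_zero hF g ⟨0, x.b⟩ rfl, add_zero]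
  rfl

theorem sig_spec (g : MulAut (U hF)) (x : U hF) (h : x.a = 0) : (g x).b = sig hF g x.b := by
  have : x = ⟨0, x.b⟩ := U.ext h rfl
  conv_lhs => rw [this]
  rfl

theorem isPair (g : MulAut (U hF)) : IsPair m (tau hF g) (sig hF g) where
  add a b := by
    have h1 : (g (⟨a, 0⟩ * ⟨b, 0⟩)).a = tau hF g (a + b) := tau_spec hF g _
    rw [← h1, map_mul, mul_a]
    rfl
  inj a ha := by
    have h1 : (g ⟨a, 0⟩).a = 0 := ha
    have h2 := map_a_zero hF g⁻¹ _ h1
    have h3 : g⁻¹ (g ⟨a, 0⟩) = (⟨a, 0⟩ : U hF) := g.symm_apply_apply _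
    rw [h3] at h2
    exact h2
  sadd x y := by
    have h1 : (g (⟨0, x⟩ * ⟨0, y⟩)).b = sig hF g (x + y) := by
      rw [sig_spec hF g _ (by rw [mul_a]; exact add_zero _), mul_b]
      congr 1
      show x + y + th m 0 * 0 = x + y
      ring
    have h2 : (g (⟨0, x⟩ : U hF)).a = 0 := map_a_zero hF g _ rfl
    rw [← h1, map_mul, mul_b, h2, th_zero, zero_mul, add_zero]
    rfl
  sinj b hb := by
    have h1 : (g (⟨0, b⟩ : U hF)).a = 0 := map_a_zero hF g _ rfl
    have h2 : g (⟨0, b⟩ : U hF) = 1 := U.ext h1 hb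
    have h3 : (⟨0, b⟩ : U hF) = 1 := g.injective (by rw [h2, map_one])
    exact congrArg U.b h3
  nrm a := by
    have h1 := sq_b hF (g ⟨a, 0⟩)
    rw [← map_mul, sig_spec hF g _ (sq_a hF _), sq_b] at h1
    exact h1.symm

theorem aut_form (g : MulAut (U hF)) :
    ∃ c : F, c ≠ 0 ∧ ∃ i < 2 * m + 1, (∀ x, (g x).a = c * x.a ^ 2 ^ i) ∧
      ∀ x, x.a = 0 → (g x).b = (th m c * c) * x.b ^ 2 ^ i := by
  obtain ⟨c, hc, i, hi, h1, h2⟩ := classify hF (isPair hF g)
  exact ⟨c, hc, i, hi, fun x => by rw [tau_spec, h1], fun x hx => by rw [sig_spec hF g x hx, h2]⟩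

theorem tau_mul (g h : MulAut (U hF)) (a : F) :
    tau hF (g * h) a = tau hF g (tau hF h a) := by
  have : tau hF (g * h) a = (g (h ⟨a, 0⟩)).a := rfl
  rw [this, tau_spec]
  rfl

theorem tau_one (a : F) : tau hF 1 a = a := rfl

/-- the action on `U/Z(U)` -/
noncomputable def Phi : MulAut (U hF) →* Equiv.Perm F where
  toFun g :=
    { toFun := tau hF g
      invFun := tau hF g⁻¹
      left_inv := fun a => by rw [← tau_mul, inv_mul_cancel, tau_one]
      right_inv := fun a => by rw [← tau_mul, mul_inv_cancel, tau_one] }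
  map_one' := by ext a; rfl
  map_mul' g h := by
    ext a
    exact tau_mul hF g h a

include hF in
theorem add_pow2 (i : ℕ) (a b : F) : (a + b) ^ 2 ^ i = a ^ 2 ^ i + b ^ 2 ^ i := by
  have := charP_two hF
  have : Fact (Nat.Prime 2) := ⟨Nat.prime_two⟩
  exact add_pow_expChar_pow _ _ _ _

/-- the automorphism `(a,b) ↦ (c a^{2^i}, N(c) b^{2^i})` -/
noncomputable def alphaHom (c : F) (i : ℕ) : U hF →* U hF :=
  MonoidHom.mk' (fun x => ⟨c * x.a ^ 2 ^ i, (th m c * c) * x.b ^ 2 ^ i⟩) (by
      intro x y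
      apply U.ext
      · refine Eq.trans ?_ (mul_a hF _ _).symm
        show c * (x.a + y.a) ^ 2 ^ i = c * x.a ^ 2 ^ i + c * y.a ^ 2 ^ i
        rw [add_pow2 hF]
        ring
      · refine Eq.trans ?_ (mul_b hF _ _).symm
        show (th m c * c) * (x.b + y.b + th m x.a * y.a) ^ 2 ^ i =
          (th m c * c) * x.b ^ 2 ^ i + (th m c * c) * y.b ^ 2 ^ i + th m (c * x.a ^ 2 ^ i) *
            (c * y.a ^ 2 ^ i)
        rw [add_pow2 hF, add_pow2 hF, mul_pow, th_mul, th_pow]
        ring)

theorem alphaHom_inj {c : F} (hc : c ≠ 0) (i : ℕ) :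
    Function.Injective (alphaHom hF c i) := by
  rw [injective_iff_map_eq_one]
  intro x hx
  have h1' : c * x.a ^ 2 ^ i = 0 := congrArg U.a hx
  have h2' : (th m c * c) * x.b ^ 2 ^ i = 0 := congrArg U.b hx
  have hN0 : th m c * c ≠ 0 := mul_ne_zero (fun h1 => hc (th_eq_zero.mp h1)) hc
  apply U.ext
  · exact pow_eq_zero_iff (by positivity) |>.mp ((mul_eq_zero.mp h1').resolve_left hc)
  · exact pow_eq_zero_iff (by positivity) |>.mp
      ((mul_eq_zero.mp h2').resolve_left hN0)

noncomputable def alpha {c : F} (hc : c ≠ 0) (i : ℕ) : MulAut (U hF) :=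
  MulEquiv.ofBijective (alphaHom hF c i)
    (Finite.injective_iff_bijective.mp (alphaHom_inj hF hc i))

theorem a_alpha {c : F} (hc : c ≠ 0) (i : ℕ) (x : U hF) :
    (alpha hF hc i x).a = c * x.a ^ 2 ^ i := rfl

include hF in
/-- powers `x ↦ x^{2^r}`, `0 < r < n`, are not the identity -/
theorem frob_ne {r : ℕ} (hr0 : 0 < r) (hr : r < 2 * m + 1) : ¬ ∀ a : F, a ^ 2 ^ r = a := by
  intro h
  have h1 : Fintype.card F ≤ 2 ^ r := by
    classical
    have hne : (Polynomial.X ^ 2 ^ r - Polynomial.X : Polynomial F) ≠ 0 :=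
      FiniteField.X_pow_card_pow_sub_X_ne_zero F (n := r) (p := 2) hr0.ne' (by norm_num)
    have hdeg : (Polynomial.X ^ 2 ^ r - Polynomial.X : Polynomial F).natDegree = 2 ^ r :=
      FiniteField.X_pow_card_pow_sub_X_natDegree_eq F (n := r) (p := 2) hr0.ne' (by norm_num)
    have hsub : (Finset.univ : Finset F) ⊆ (Polynomial.X ^ 2 ^ r - Polynomial.X : Polynomial F).roots.toFinset := by
      intro a _
      rw [Multiset.mem_toFinset, Polynomial.mem_roots hne, Polynomial.IsRoot.def]
      simp [h a]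
    calc Fintype.card F = (Finset.univ : Finset F).card := rfl
      _ ≤ _ := Finset.card_le_card hsub
      _ ≤ _ := Multiset.toFinset_card_le _
      _ ≤ _ := Polynomial.card_roots' _
      _ = 2 ^ r := hdeg
  rw [hF] at h1
  have := (Nat.pow_le_pow_iff_right (le_refl 2)).mp h1
  omega

theorem card_range : Nat.card (Phi hF).range = (2 ^ (2 * m + 1) - 1) * (2 * m + 1) := by
  have hc : Nat.card Fˣ = 2 ^ (2 * m + 1) - 1 := by rw [Nat.card_units, Nat.card_eq_fintype_card, hF]
  have hfin : Nat.card (Fin (2 * m + 1)) = 2 * m + 1 := Nat.card_fin _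
  rw [← hc]
  conv_rhs => rw [← hfin]
  rw [← Nat.card_prod]
  symm
  apply Nat.card_congr
  refine Equiv.ofBijective (fun w => (⟨Phi hF (alpha hF w.1.ne_zero w.2), _, rfl⟩ :
    (Phi hF).range)) ⟨?_, ?_⟩
  · rintro ⟨c, i⟩ ⟨d, j⟩ h
    have h1 : ∀ a : F, (c : F) * a ^ 2 ^ (i : ℕ) = d * a ^ 2 ^ (j : ℕ) := by
      intro a
      exact congrArg (fun f : (Phi hF).range => (f : Equiv.Perm F) a) h
    have hcd : (c : F) = d := by
      have := h1 1
      rwa [one_pow, one_pow, mul_one, mul_one] at this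
    have h2 : ∀ a : F, a ^ 2 ^ (i : ℕ) = a ^ 2 ^ (j : ℕ) := by
      intro a
      have := h1 a
      rw [hcd] at this
      exact mul_left_cancel₀ d.ne_zero this
    have hinj : ∀ (m : ℕ) (a b : F), a ^ 2 ^ m = b ^ 2 ^ m → a = b := by
      intro m a b hab
      have h3 : (a - b) ^ 2 ^ m = 0 := by
        have e : a = (a - b) + b := by ring
        rw [e, add_pow2 hF] at hab
        linear_combination hab
      have := pow_eq_zero_iff (by positivity) |>.mp h3
      linear_combination this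
    have key : ∀ s t : ℕ, s < t → t < 2 * m + 1 → (∀ a : F, a ^ 2 ^ s = a ^ 2 ^ t) → False := by
      intro s t hst ht h
      apply frob_ne hF (r := t - s) (by omega) (by omega)
      intro a
      apply hinj s
      rw [← pow_mul, ← pow_add, Nat.sub_add_cancel hst.le, h]
    have hij : i = j := by
      apply Fin.ext
      rcases lt_trichotomy (i : ℕ) j with h | h | h
      · exact (key _ _ h j.2 h2).elim
      · exact h
      · exact (key _ _ h i.2 (fun a => (h2 a).symm)).elim
    rw [Units.ext hcd, hij]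
  · rintro ⟨_, g, rfl⟩
    obtain ⟨c, hc, i, hi, h1, -⟩ := aut_form hF g
    refine ⟨(Units.mk0 c hc, ⟨i, hi⟩), ?_⟩
    apply Subtype.ext
    ext a
    show c * a ^ 2 ^ i = tau hF g a
    exact (h1 ⟨a, 0⟩).symm

/-! ### the kernel -/

theorem mem_ker (g : MulAut (U hF)) :
    g ∈ (Phi hF).ker ↔ ∀ x, (g x).a = x.a := by
  rw [MonoidHom.mem_ker]
  constructor
  · intro h x
    have := congrArg (fun f : Equiv.Perm F => f x.a) h
    rw [tau_spec]
    exact this
  · intro h
    ext a
    exact h ⟨a, 0⟩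

theorem ker_center {g : MulAut (U hF)} (hg : g ∈ (Phi hF).ker) (x : U hF)
    (hx : x.a = 0) : g x = x := by
  have h := (mem_ker hF g).mp hg
  have hz : ∀ y : U hF, g (y * y) = y * y := by
    intro y
    apply U.ext
    · rw [h]
    · rw [map_mul, sq_b, sq_b, h]
  by_cases hb : x.b = 0
  · have : x = 1 := U.ext hx hb
    rw [this, map_one]
  · obtain ⟨a, ha, hab⟩ := exists_norm hF hb
    have : x = ⟨a, 0⟩ * ⟨a, 0⟩ := by
      apply U.ext
      · rw [sq_a, hx]
      · rw [sq_b, ← hab, mul_comm]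
    rw [this, hz]

theorem ker_form {g : MulAut (U hF)} (hg : g ∈ (Phi hF).ker) (x : U hF) :
    (x⁻¹ * g x).a = 0 ∧ g (x⁻¹ * g x) = x⁻¹ * g x := by
  have h : (x⁻¹ * g x).a = 0 := by
    rw [mul_a, inv_a, (mem_ker hF g).mp hg]
    linear_combination x.a * two_eq_zero hF
  exact ⟨h, ker_center hF hg _ h⟩

theorem ker_sq {g : MulAut (U hF)} (hg : g ∈ (Phi hF).ker) : g * g = 1 := by
  ext1 x
  have h1 := ker_form hF hg x
  have h2 : g x = x * (x⁻¹ * g x) := by group
  show g (g x) = x
  calc g (g x) = g (x * (x⁻¹ * g x)) := by rw [← h2]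
    _ = g x * (x⁻¹ * g x) := by rw [map_mul, h1.2]
    _ = x * ((x⁻¹ * g x) * (x⁻¹ * g x)) := by
        conv_lhs => rw [h2]
        group
    _ = x := by rw [(a_zero_iff hF _).mp h1.1, mul_one]

theorem ker_comm {g h : MulAut (U hF)} (hg : g ∈ (Phi hF).ker) (hh : h ∈ (Phi hF).ker) :
    g * h = h * g := by
  ext1 x
  have h1 := ker_form hF hg x
  have h2 := ker_form hF hh x
  have e1 : g x = x * (x⁻¹ * g x) := by group
  have e2 : h x = x * (x⁻¹ * h x) := by group
  have hz1 := h1.1
  have hw1 := h2.1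
  show g (h x) = h (g x)
  generalize x⁻¹ * g x = z at e1 hz1
  generalize x⁻¹ * h x = w at e2 hw1
  rw [e1, e2, map_mul, map_mul, ker_center hF hg w hw1, ker_center hF hh z hz1, e1, e2,
    mul_assoc, mul_assoc, comm_of_a_zero hF z w hz1]

/-- the difference -/
noncomputable def del (g : MulAut (U hF)) (x : U hF) : F := (g x).b + x.b

theorem del_mul {g : MulAut (U hF)} (hg : g ∈ (Phi hF).ker) (x y : U hF) :
    del hF g (x * y) = del hF g x + del hF g y := by
  unfold del
  rw [map_mul, mul_b, mul_b, (mem_ker hF g).mp hg, (mem_ker hF g).mp hg]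
  linear_combination (th m x.a * y.a) * two_eq_zero hF

theorem del_center {g : MulAut (U hF)} (hg : g ∈ (Phi hF).ker) (x : U hF)
    (hx : x.a = 0) : del hF g x = 0 := by
  unfold del
  rw [ker_center hF hg x hx]
  linear_combination x.b * two_eq_zero hF

theorem del_congr {g : MulAut (U hF)} (hg : g ∈ (Phi hF).ker) (x y : U hF)
    (h : x.a = y.a) : del hF g x = del hF g y := by
  have e : x = y * (y⁻¹ * x) := by group
  rw [e, del_mul hF hg, del_center hF hg (y⁻¹ * x) (by
    rw [mul_a, inv_a, h]; linear_combination y.a * two_eq_zero hF), add_zero]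

/-- the automorphism `(a,b) ↦ (a, b + h a)` -/
noncomputable def betaHom (h : F →+ F) : U hF →* U hF :=
  MonoidHom.mk' (fun x => ⟨x.a, x.b + h x.a⟩) (by
      intro x y
      apply U.ext
      · rfl
      · refine Eq.trans ?_ (mul_b hF _ _).symm
        show x.b + y.b + th m x.a * y.a + h (x.a + y.a) = x.b + h x.a + (y.b + h y.a) + th m x.a * y.a
        rw [map_add]
        ring)

theorem betaHom_inj (h : F →+ F) : Function.Injective (betaHom hF h) := by
  rw [injective_iff_map_eq_one]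
  intro x hx
  have h1' : x.a = 0 := congrArg U.a hx
  have h2' : x.b + h x.a = 0 := congrArg U.b hx
  rw [h1', map_zero, add_zero] at h2'
  exact U.ext h1' h2'

noncomputable def beta (h : F →+ F) : MulAut (U hF) :=
  MulEquiv.ofBijective (betaHom hF h)
    (Finite.injective_iff_bijective.mp (betaHom_inj hF h))

theorem beta_mem (h : F →+ F) : beta hF h ∈ (Phi hF).ker := by
  rw [mem_ker]
  intro x
  rfl

theorem del_beta (h : F →+ F) (x : U hF) :
    del hF (beta hF h) x = h x.a := by
  unfold del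
  have : (beta hF h x).b = x.b + h x.a := rfl
  rw [this]
  linear_combination x.b * two_eq_zero hF

/-- the kernel -/
noncomputable def kerEquiv : (Phi hF).ker ≃ (F →+ F) where
  toFun g :=
    { toFun := fun a => del hF g ⟨a, 0⟩
      map_zero' := del_center hF g.2 _ rfl
      map_add' := fun a b => by
        rw [← del_mul hF g.2]
        exact del_congr hF g.2 _ _ rfl }
  invFun h := ⟨beta hF h, beta_mem hF h⟩
  left_inv g := by
    apply Subtype.ext
    ext1 x
    apply U.ext
    · rw [(mem_ker hF _).mp (beta_mem hF _), (mem_ker hF _).mp g.2]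
    · show x.b + del hF g ⟨x.a, 0⟩ = _
      rw [del_congr hF g.2 ⟨x.a, 0⟩ x rfl]
      unfold del
      linear_combination x.b * two_eq_zero hF
  right_inv h := by
    ext a
    show del hF (beta hF h) ⟨a, 0⟩ = h a
    rw [del_beta]

include hF in
theorem card_hom : Nat.card (F →+ F) = 2 ^ ((2 * m + 1) ^ 2) := by
  classical
  have : Fact (Nat.Prime 2) := ⟨Nat.prime_two⟩
  have hV : ∀ v : F, v + v = 0 := fun v => by linear_combination v * two_eq_zero hF
  letI : Module (ZMod 2) F := AddCommGroup.zmodModule (fun v => by rw [two_nsmul]; exact hV v)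
  have e : (F →+ F) ≃ (F →ₗ[ZMod 2] F) :=
    ⟨fun f => f.toZModLinearMap 2, fun f => f.toAddMonoidHom, fun f => rfl, fun f => rfl⟩
  have h1 : Module.finrank (ZMod 2) F = 2 * m + 1 := by
    have h := Module.natCard_eq_pow_finrank (K := ZMod 2) (V := F)
    rw [Nat.card_zmod, Nat.card_eq_fintype_card, hF] at h
    exact (Nat.pow_right_injective (le_refl 2) h).symm
  have hfinK : Module.Finite (ZMod 2) F := Module.Finite.of_finite
  rw [Nat.card_congr e, Module.natCard_eq_pow_finrank (K := ZMod 2), Nat.card_zmod,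
    Module.finrank_linearMap, h1]
  congr 1
  ring

theorem card_ker : Nat.card (Phi hF).ker = 2 ^ ((2 * m + 1) ^ 2) := by
  rw [Nat.card_congr (kerEquiv hF), card_hom hF]

theorem card_aut : Nat.card (MulAut (U hF)) =
    2 ^ ((2 * m + 1) ^ 2) * ((2 * m + 1) * (2 ^ (2 * m + 1) - 1)) := by
  have h := Subgroup.card_eq_card_quotient_mul_card_subgroup (Phi hF).ker
  have e : Nat.card (MulAut (U hF) ⧸ (Phi hF).ker) = Nat.card (Phi hF).range :=
    Nat.card_congr (QuotientGroup.quotientKerEquivRange (Phi hF)).toEquiv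
  rw [h, e, card_range hF, card_ker hF]
  ring

theorem ker_elab : Cfsg.IsElementaryAbelian 2 (Phi hF).ker := by
  refine ⟨⟨⟨fun a b => Subtype.ext (ker_comm hF a.2 b.2)⟩⟩, fun a ha => ?_⟩
  rw [pow_two]
  exact ker_sq hF ha

theorem core_eq : Cfsg.pCore 2 (MulAut (U hF)) = (Phi hF).ker := by
  have : Fact (Nat.Prime 2) := ⟨Nat.prime_two⟩
  apply le_antisymm
  · intro g hg
    have hN := H1.Cores.pCore_normal (G := MulAut (U hF)) 2
    have hP := H1.Cores.isPGroup_pCore (G := MulAut (U hF)) 2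
    obtain ⟨c, hc, i, hi, h1, -⟩ := aut_form hF g
    have hodd : ∀ d : F, d ≠ 0 → ∀ m : ℕ, d ^ 2 ^ m = 1 → d = 1 := by
      intro d _ m hd
      have : (d - 1) ^ 2 ^ m = 0 := by
        have e : d = (d - 1) + 1 := by ring
        rw [e, add_pow2 hF, one_pow] at hd
        linear_combination hd
      have := pow_eq_zero_iff (by positivity) |>.mp this
      linear_combination this
    have hscal : ∀ (f : MulAut (U hF)) (e : F), e ≠ 0 → f ∈ Cfsg.pCore 2 (MulAut (U hF)) →
        (∀ x, (f x).a = e * x.a) → e = 1 := by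
      intro f e he hf hfe
      obtain ⟨m, hm⟩ := hP ⟨f, hf⟩
      have hm' : f ^ 2 ^ m = 1 := congrArg Subtype.val hm
      have hit : ∀ (k : ℕ) (x : U hF), ((f ^ k) x).a = e ^ k * x.a := by
        intro k
        induction k with
        | zero => intro x; rw [pow_zero, pow_zero, one_mul]; rfl
        | succ k ih =>
          intro x
          rw [pow_succ' f]
          show (f ((f ^ k) x)).a = _
          rw [hfe, ih]
          ring
      have h3 := hit (2 ^ m) ⟨1, 0⟩
      rw [hm', mul_one] at h3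
      have h4 : (1 : F) = e ^ 2 ^ m := h3
      exact hodd e he m h4.symm
    have hi0 : i = 0 := by
      by_contra hne
      apply frob_ne hF (Nat.pos_of_ne_zero hne) hi
      intro d
      by_cases hd : d = 0
      · rw [hd, zero_pow (by positivity)]
      set δ := alpha hF hd 0 with hδ
      have hδx : ∀ x, (δ x).a = d * x.a := by
        intro x
        rw [hδ, a_alpha, pow_zero, pow_one]
      have hcm : g * (δ * g⁻¹ * δ⁻¹) ∈ Cfsg.pCore 2 (MulAut (U hF)) :=
        mul_mem hg (hN.conj_mem _ (inv_mem hg) δ)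
      have h5 := hscal (g * (δ * g⁻¹ * δ⁻¹)) (d ^ 2 ^ i / d) (div_ne_zero (pow_ne_zero _ hd) hd) hcm
        (by
          intro x
          obtain ⟨y, rfl⟩ : ∃ y, x = δ (g y) := ⟨g⁻¹ (δ⁻¹ x), by
            show x = δ (g (g.symm (δ.symm x)))
            rw [g.apply_symm_apply, δ.apply_symm_apply]⟩
          have e1 : (g * (δ * g⁻¹ * δ⁻¹)) (δ (g y)) = g (δ y) := by
            show g (δ (g.symm (δ.symm (δ (g y))))) = g (δ y)
            rw [δ.symm_apply_apply, g.symm_apply_apply]
          rw [e1, h1, hδx, hδx, h1, mul_pow]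
          field_simp)
      rw [div_eq_one_iff_eq hd] at h5
      exact h5
    rw [mem_ker]
    intro x
    rw [hi0] at h1
    have hc1 := hscal g c hc hg (fun x => by rw [h1, pow_zero, pow_one])
    rw [h1, hc1, pow_zero, pow_one, one_mul]
  · have hn : ((Phi hF).ker).Normal := inferInstance
    apply H1.Cores.le_pCore hn
    exact IsPGroup.of_card (n := (2 * m + 1) ^ 2) (card_ker hF)

/-- the explicit group is the Sylow subgroup -/
noncomputable def toTT : U hF ≃* TT (m := m) hF :=
  MulEquiv.ofBijective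
    (MonoidHom.mk' (fun x => (⟨tG hF x.a x.b, x.a, x.b, rfl⟩ : TT (m := m) hF)) (by
      intro x y
      apply Subtype.ext
      show tG hF (x * y).a (x * y).b = tG hF x.a x.b * tG hF y.a y.b
      rw [tG_mul]
      rfl)) (by
    constructor
    · intro x y h
      obtain ⟨h1, h2⟩ := tG_inj hF (congrArg Subtype.val h)
      exact U.ext h1 h2
    · rintro ⟨_, a, b, rfl⟩
      exact ⟨⟨a, b⟩, rfl⟩)

theorem sylow_equiv (hm : 1 ≤ m) (P : Sylow 2 ↥(Cfsg.Lie.Sz F (2 ^ (m + 1)))) :
    Nonempty (↥(P : Subgroup ↥(Cfsg.Lie.Sz F (2 ^ (m + 1)))) ≃* U hF) := by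
  have : Fact (Nat.Prime 2) := ⟨Nat.prime_two⟩
  let e := H24.SzIso.equiv hF hm
  have hfin : Finite (Cfsg.Sz F m) := inferInstance
  have hfin2 : Finite ↥(Cfsg.Lie.Sz F (2 ^ (m + 1))) := inferInstance
  let Q : Sylow 2 (Cfsg.Lie.Sz F (2 ^ (m + 1))) :=
    IsPGroup.toSylow (P := (TT (m := m) hF).map (e : _ →* _)) ((isPGroup_TT hF).map _) (by
      have h := odd_index hm hF
      rw [Subgroup.index_map_equiv]
      exact h)
  have hPQ := P.equiv Q
  have e2 := e.subgroupMap (TT (m := m) hF)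
  exact ⟨hPQ.trans (e2.symm.trans (toTT hF).symm)⟩

/-- S2556 -/
theorem final {S : Type*} [Group S] (e : S ≃* U hF) :
    Cfsg.IsElementaryAbelian 2 (Cfsg.pCore 2 (MulAut S)) ∧
      Nat.card ↥(Cfsg.pCore 2 (MulAut S)) = 2 ^ ((2 * m + 1) ^ 2) ∧
      Nat.card (MulAut S) = 2 ^ ((2 * m + 1) ^ 2) * ((2 * m + 1) * (2 ^ (2 * m + 1) - 1)) := by
  set E : MulAut S ≃* MulAut (U hF) := MulAut.congr e with hE
  have hmap := H1.Cores.map_equiv_pCore 2 E
  rw [core_eq hF] at hmap
  have hmem : ∀ g ∈ Cfsg.pCore 2 (MulAut S), E g ∈ (Phi hF).ker := by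
    intro g hg
    rw [← hmap]
    exact Subgroup.mem_map_of_mem _ hg
  have hel := ker_elab hF
  refine ⟨⟨⟨⟨fun a b => ?_⟩⟩, fun a ha => ?_⟩, ?_, ?_⟩
  · apply Subtype.ext
    apply E.injective
    show E (a * b) = E (b * a)
    rw [map_mul, map_mul]
    exact ker_comm hF (hmem a a.2) (hmem b b.2)
  · apply E.injective
    rw [map_pow, map_one]
    exact hel.2 _ (hmem a ha)
  · rw [← card_ker hF, ← hmap]
    exact (Subgroup.card_map_of_injective (f := (E : MulAut S →* MulAut (U hF))) E.injective).symm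
  · rw [Nat.card_congr E.toEquiv, card_aut hF]

end H86.SzAutB
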