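import Mathlib
import Cfsg.Prelude.Def_Transfer
import Cfsg.Agent.Lib.H86.U3AutC
import Cfsg.Agent.Lib.H1.Cores

/-! The automorphism group of the Sylow 2-subgroup `U` of `SU₃(2^n)`. -/

set_option autoImplicit false

namespace H86.U3AutD

open Cfsg H7.QuadExt H7.UnitSU H24.U3Syl H86.U3AutA H86.U3AutB H86.U3AutC

variable {K : Type*} [Field K] [Fintype K] {q : ℕ} (two : (2 : K) = 0) (hK : Fintype.card K = q ^ 2)

theorem tau_mul (g h : MulAut (U two hK)) (a : K) :
    tau two hK (g * h) a = tau two hK g (tau two hK h a) := by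
  have : tau two hK (g * h) a = pa two hK (g (h (sec two hK a))) := rfl
  rw [this, tau_spec]
  rfl

theorem tau_one (a : K) : tau two hK 1 a = a := rfl

/-- the action on `U/Z(U)` -/
noncomputable def Phi : MulAut (U two hK) →* Equiv.Perm K where
  toFun g :=
    { toFun := tau two hK g
      invFun := tau two hK g⁻¹
      left_inv := fun a => by rw [← tau_mul, inv_mul_cancel, tau_one]
      right_inv := fun a => by rw [← tau_mul, mul_inv_cancel, tau_one] }
  map_one' := by ext a; rfl
  map_mul' g h := by
    ext a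
    exact tau_mul two hK g h a

theorem Phi_apply (g : MulAut (U two hK)) (a : K) : Phi two hK g a = tau two hK g a := rfl

section gens

variable {n : ℕ} (hq : q = 2 ^ n)

include hq two in
theorem add_pow2 (i : ℕ) (a b : K) : (a + b) ^ 2 ^ i = a ^ 2 ^ i + b ^ 2 ^ i := by
  have : CharP K 2 := by
    have h' := ringChar.dvd (show ((2 : ℕ) : K) = 0 by exact_mod_cast two)
    rcases (Nat.dvd_prime Nat.prime_two).mp h' with h'' | h''
    · exfalso
      have : CharP K 1 := h'' ▸ ringChar.charP K
      exact (CharP.false_of_nontrivial_of_char_one (R := K))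
    · exact h'' ▸ ringChar.charP K
  have : Fact (Nat.Prime 2) := ⟨Nat.prime_two⟩
  exact add_pow_expChar_pow _ _ _ _

include two hK hq in
theorem good_alpha (c : K) (i : ℕ) {a b : K} (h : Good q a b) :
    Good q (c * a ^ 2 ^ i) (c ^ (q + 1) * b ^ 2 ^ i) := by
  unfold Good at *
  rw [mul_pow, norm_fixed hK, mul_pow, ← mul_add, ← pow_mul (a), mul_comm (2 ^ i) (q + 1), pow_mul, ← h,
    add_pow2 two hq, ← pow_mul, ← pow_mul, mul_comm q]

/-- the automorphism `u(a,b) ↦ u(c a^{2^i}, c^{q+1} b^{2^i})` -/
noncomputable def alphaHom (c : K) (i : ℕ) : U two hK →* U two hK :=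
  MonoidHom.mk' (fun x => mkU two hK (c * (pa two hK x) ^ 2 ^ i) (c ^ (q + 1) * (pb two hK x) ^ 2 ^ i)
    (good_alpha two hK hq c i (good two hK x))) (by
      intro x y
      apply ext_ab two hK
      · refine Eq.trans ?_ (pa_mul two hK _ _).symm
        show c * (pa two hK (x * y)) ^ 2 ^ i = c * (pa two hK x) ^ 2 ^ i + c * (pa two hK y) ^ 2 ^ i
        rw [pa_mul, add_pow2 two hq]
        ring
      · refine Eq.trans ?_ (pb_mul two hK _ _).symm
        show c ^ (q + 1) * (pb two hK (x * y)) ^ 2 ^ i = c ^ (q + 1) * (pb two hK x) ^ 2 ^ i +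
          c ^ (q + 1) * (pb two hK y) ^ 2 ^ i + (c * (pa two hK x) ^ 2 ^ i) ^ q *
            (c * (pa two hK y) ^ 2 ^ i)
        rw [pb_mul, add_pow2 two hq, add_pow2 two hq,
          mul_pow (pa two hK x ^ q), mul_pow c, ← pow_mul (pa two hK x), ← pow_mul (pa two hK x),
          mul_comm q]
        ring)

theorem alphaHom_inj {c : K} (hc : c ≠ 0) (i : ℕ) :
    Function.Injective (alphaHom two hK hq c i) := by
  rw [injective_iff_map_eq_one]
  intro x hx
  have h1 := congrArg (pa two hK) hx
  have h2 := congrArg (pb two hK) hx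
  rw [pa_one] at h1
  rw [pb_one] at h2
  have h1' : c * (pa two hK x) ^ 2 ^ i = 0 := h1
  have h2' : c ^ (q + 1) * (pb two hK x) ^ 2 ^ i = 0 := h2
  apply ext_ab two hK
  · rw [pa_one]
    exact pow_eq_zero_iff (by positivity) |>.mp ((mul_eq_zero.mp h1').resolve_left hc)
  · rw [pb_one]
    exact pow_eq_zero_iff (by positivity) |>.mp
      ((mul_eq_zero.mp h2').resolve_left (pow_ne_zero _ hc))

noncomputable def alpha {c : K} (hc : c ≠ 0) (i : ℕ) : MulAut (U two hK) :=
  MulEquiv.ofBijective (alphaHom two hK hq c i)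
    (Finite.injective_iff_bijective.mp (alphaHom_inj two hK hq hc i))

theorem pa_alpha {c : K} (hc : c ≠ 0) (i : ℕ) (x : U two hK) :
    pa two hK (alpha two hK hq hc i x) = c * (pa two hK x) ^ 2 ^ i := rfl

include hq in
theorem card_range : Nat.card (Phi two hK).range = (q ^ 2 - 1) * (2 * n) := by
  have hc : Nat.card Kˣ = q ^ 2 - 1 := by rw [Nat.card_units, Nat.card_eq_fintype_card, hK]
  have hfin : Nat.card (Fin (2 * n)) = 2 * n := Nat.card_fin _
  rw [← hc, ← hfin, ← Nat.card_prod]
  symm
  apply Nat.card_congr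
  refine Equiv.ofBijective (fun w => (⟨Phi two hK (alpha two hK hq w.1.ne_zero w.2), _, rfl⟩ :
    (Phi two hK).range)) ⟨?_, ?_⟩
  · rintro ⟨c, i⟩ ⟨d, j⟩ h
    have h1 : ∀ a : K, (c : K) * a ^ 2 ^ (i : ℕ) = d * a ^ 2 ^ (j : ℕ) := by
      intro a
      exact congrArg (fun f : (Phi two hK).range => (f : Equiv.Perm K) a) h
    have hcd : (c : K) = d := by
      have := h1 1
      rwa [one_pow, one_pow, mul_one, mul_one] at this
    have h2 : ∀ a : K, a ^ 2 ^ (i : ℕ) = a ^ 2 ^ (j : ℕ) := by
      intro a
      have := h1 a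
      rw [hcd] at this
      exact mul_left_cancel₀ d.ne_zero this
    have hinj : ∀ (m : ℕ) (a b : K), a ^ 2 ^ m = b ^ 2 ^ m → a = b := by
      intro m a b hab
      have h3 : (a - b) ^ 2 ^ m = 0 := by
        have e : a = (a - b) + b := by ring
        rw [e, add_pow2 two hq] at hab
        linear_combination hab
      have := pow_eq_zero_iff (by positivity) |>.mp h3
      linear_combination this
    have key : ∀ s t : ℕ, s < t → t < 2 * n → (∀ a : K, a ^ 2 ^ s = a ^ 2 ^ t) → False := by
      intro s t hst ht h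
      apply frob_ne hK hq (r := t - s) (by omega) (by omega)
      intro a
      apply hinj s
      rw [← pow_mul, ← pow_add, Nat.sub_add_cancel hst.le, h]
    have hij : i = j := by
      apply Fin.ext
      rcases lt_trichotomy (i : ℕ) j with h | h | h
      · exact (key _ _ h j.2 h2).elim
      · exact h
      · exact (key _ _ h i.2 (fun a => (h2 a).symm)).elim
    rw [Units.ext hcd, hij]
  · rintro ⟨_, g, rfl⟩
    obtain ⟨c, hc, i, hi, h1, -⟩ := aut_form two hK hq g
    refine ⟨(Units.mk0 c hc, ⟨i, hi⟩), ?_⟩
    apply Subtype.ext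
    ext a
    show c * a ^ 2 ^ i = tau two hK g a
    have := h1 (sec two hK a)
    rw [pa_sec] at this
    exact this.symm

/-! ### the kernel -/

theorem mem_ker (g : MulAut (U two hK)) :
    g ∈ (Phi two hK).ker ↔ ∀ x, pa two hK (g x) = pa two hK x := by
  rw [MonoidHom.mem_ker]
  constructor
  · intro h x
    have := congrArg (fun f : Equiv.Perm K => f (pa two hK x)) h
    rw [tau_spec]
    exact this
  · intro h
    ext a
    exact h (sec two hK a)

include hq in
theorem ker_center {g : MulAut (U two hK)} (hg : g ∈ (Phi two hK).ker) (x : U two hK)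
    (hx : pa two hK x = 0) : g x = x := by
  apply fix_center two hK hq g _ x hx
  intro y
  have h := (mem_ker two hK g).mp hg
  rw [h, h]

include hq in
theorem ker_form {g : MulAut (U two hK)} (hg : g ∈ (Phi two hK).ker) (x : U two hK) :
    pa two hK (x⁻¹ * g x) = 0 ∧ g (x⁻¹ * g x) = x⁻¹ * g x := by
  have h : pa two hK (x⁻¹ * g x) = 0 := by
    rw [pa_mul, pa_inv, (mem_ker two hK g).mp hg]
    linear_combination pa two hK x * two
  exact ⟨h, ker_center two hK hq hg _ h⟩

theorem center_sq (z : U two hK) (hz : pa two hK z = 0) : z * z = 1 := by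
  have := sq_eq two hK z
  apply ext_ab two hK
  · rw [this.1, pa_one]
  · rw [this.2, hz, pb_one, zero_pow (by omega)]

include hq in
theorem ker_sq {g : MulAut (U two hK)} (hg : g ∈ (Phi two hK).ker) : g * g = 1 := by
  ext1 x
  have h1 := ker_form two hK hq hg x
  have h2 : g x = x * (x⁻¹ * g x) := by group
  show g (g x) = x
  calc g (g x) = g (x * (x⁻¹ * g x)) := by rw [← h2]
    _ = g x * (x⁻¹ * g x) := by rw [map_mul, h1.2]
    _ = x * ((x⁻¹ * g x) * (x⁻¹ * g x)) := by
        conv_lhs => rw [h2]
        group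
    _ = x := by rw [center_sq two hK _ h1.1, mul_one]

include hq in
theorem ker_comm {g h : MulAut (U two hK)} (hg : g ∈ (Phi two hK).ker) (hh : h ∈ (Phi two hK).ker) :
    g * h = h * g := by
  ext1 x
  have h1 := ker_form two hK hq hg x
  have h2 := ker_form two hK hq hh x
  have e1 : g x = x * (x⁻¹ * g x) := by group
  have e2 : h x = x * (x⁻¹ * h x) := by group
  have hc := (mem_center two hK _).mpr h1.1
  show g (h x) = h (g x)
  have hz1 := h1.1
  have hw1 := h2.1
  generalize x⁻¹ * g x = z at e1 hc hz1
  generalize x⁻¹ * h x = w at e2 hw1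
  rw [e1, e2, map_mul, map_mul, ker_center two hK hq hg w hw1, ker_center two hK hq hh z hz1, e1, e2,
    mul_assoc, mul_assoc, Subgroup.mem_center_iff.mp hc]

/-- the difference -/
noncomputable def del (g : MulAut (U two hK)) (x : U two hK) : K := pb two hK (g x) + pb two hK x

theorem del_mul {g : MulAut (U two hK)} (hg : g ∈ (Phi two hK).ker) (x y : U two hK) :
    del two hK g (x * y) = del two hK g x + del two hK g y := by
  unfold del
  rw [map_mul, pb_mul, pb_mul, (mem_ker two hK g).mp hg, (mem_ker two hK g).mp hg]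
  linear_combination (pa two hK x ^ q * pa two hK y) * two

include hq in
theorem del_center {g : MulAut (U two hK)} (hg : g ∈ (Phi two hK).ker) (x : U two hK)
    (hx : pa two hK x = 0) : del two hK g x = 0 := by
  unfold del
  rw [ker_center two hK hq hg x hx]
  linear_combination pb two hK x * two

include hq in
theorem del_congr {g : MulAut (U two hK)} (hg : g ∈ (Phi two hK).ker) (x y : U two hK)
    (h : pa two hK x = pa two hK y) : del two hK g x = del two hK g y := by
  have e : x = y * (y⁻¹ * x) := by group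
  rw [e, del_mul two hK hg, del_center two hK hq hg (y⁻¹ * x) (by
    rw [pa_mul, pa_inv, h]; linear_combination pa two hK y * two), add_zero]

theorem del_fix {g : MulAut (U two hK)} (hg : g ∈ (Phi two hK).ker) (x : U two hK) :
    (del two hK g x) ^ q = del two hK g x := by
  have h1 := good two hK x
  have h2 := good two hK (g x)
  rw [(mem_ker two hK g).mp hg] at h2
  unfold Good at h1 h2
  unfold del
  rw [add_pow_q hK]
  linear_combination h1 + h2 - (pb two hK (g x) + pb two hK x) * two + (pa two hK x ^ (q + 1)) * two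

include two hK in
theorem good_beta (a b c : K) (h : Good q a b) (hc : c ^ q = c) : Good q a (b + c) := by
  unfold Good at *
  rw [add_pow_q hK, hc]
  linear_combination h + c * two

/-- the automorphism `u(a,b) ↦ u(a, b + h a)` -/
noncomputable def betaHom (h : K →+ K0 hK) : U two hK →* U two hK :=
  MonoidHom.mk' (fun x => mkU two hK (pa two hK x) (pb two hK x + h (pa two hK x))
    (good_beta two hK _ _ _ (good two hK x) ((mem_K0 hK _).mp (h (pa two hK x)).2))) (by
      intro x y
      apply ext_ab two hK
      · refine Eq.trans ?_ (pa_mul two hK _ _).symm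
        show pa two hK (x * y) = pa two hK x + pa two hK y
        rw [pa_mul]
      · refine Eq.trans ?_ (pb_mul two hK _ _).symm
        show pb two hK (x * y) + h (pa two hK (x * y)) = pb two hK x + h (pa two hK x) +
          (pb two hK y + h (pa two hK y)) + (pa two hK x) ^ q * pa two hK y
        rw [pb_mul, pa_mul, map_add]
        push_cast
        ring)

theorem betaHom_inj (h : K →+ K0 hK) : Function.Injective (betaHom two hK h) := by
  rw [injective_iff_map_eq_one]
  intro x hx
  have h1 := congrArg (pa two hK) hx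
  have h2 := congrArg (pb two hK) hx
  rw [pa_one] at h1
  rw [pb_one] at h2
  have h1' : pa two hK x = 0 := h1
  have h2' : pb two hK x + h (pa two hK x) = 0 := h2
  rw [h1', map_zero] at h2'
  apply ext_ab two hK
  · rw [pa_one, h1']
  · rw [pb_one]
    simpa using h2'

noncomputable def beta (h : K →+ K0 hK) : MulAut (U two hK) :=
  MulEquiv.ofBijective (betaHom two hK h)
    (Finite.injective_iff_bijective.mp (betaHom_inj two hK h))

theorem beta_mem (h : K →+ K0 hK) : beta two hK h ∈ (Phi two hK).ker := by
  rw [mem_ker]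
  intro x
  rfl

theorem del_beta (h : K →+ K0 hK) (x : U two hK) :
    del two hK (beta two hK h) x = h (pa two hK x) := by
  unfold del
  have : pb two hK (beta two hK h x) = pb two hK x + h (pa two hK x) := rfl
  rw [this]
  linear_combination pb two hK x * two

/-- the kernel -/
noncomputable def kerEquiv (hq : q = 2 ^ n) : (Phi two hK).ker ≃ (K →+ K0 hK) where
  toFun g :=
    { toFun := fun a => ⟨del two hK g (sec two hK a), del_fix two hK g.2 _⟩
      map_zero' := Subtype.ext (by
        show del two hK g (sec two hK 0) = 0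
        exact del_center two hK hq g.2 _ rfl)
      map_add' := fun a b => Subtype.ext (by
        show del two hK g (sec two hK (a + b)) = del two hK g (sec two hK a) + del two hK g (sec two hK b)
        rw [← del_mul two hK g.2]
        exact del_congr two hK hq g.2 _ _ (by rw [pa_mul]; rfl)) }
  invFun h := ⟨beta two hK h, beta_mem two hK h⟩
  left_inv g := by
    apply Subtype.ext
    ext1 x
    apply ext_ab two hK
    · rw [(mem_ker two hK _).mp (beta_mem two hK _), (mem_ker two hK _).mp g.2]
    · show pb two hK x + del two hK g (sec two hK (pa two hK x)) = _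
      rw [del_congr two hK hq g.2 (sec two hK (pa two hK x)) x rfl]
      unfold del
      linear_combination pb two hK x * two
  right_inv h := by
    ext a
    show del two hK (beta two hK h) (sec two hK a) = h a
    rw [del_beta]
    rfl

include two hq in
theorem card_hom : Nat.card (K →+ K0 hK) = 2 ^ (2 * n ^ 2) := by
  classical
  have : Fact (Nat.Prime 2) := ⟨Nat.prime_two⟩
  have hV : ∀ v : K, v + v = 0 := fun v => by linear_combination v * two
  have hW : ∀ v : K0 hK, v + v = 0 := fun v => Subtype.ext (hV v)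
  letI : Module (ZMod 2) K := AddCommGroup.zmodModule (fun v => by rw [two_nsmul]; exact hV v)
  letI : Module (ZMod 2) (K0 hK) := AddCommGroup.zmodModule (fun v => by rw [two_nsmul]; exact hW v)
  have e : (K →+ K0 hK) ≃ (K →ₗ[ZMod 2] K0 hK) :=
    ⟨fun f => f.toZModLinearMap 2, fun f => f.toAddMonoidHom, fun f => rfl, fun f => rfl⟩
  have h1 : Module.finrank (ZMod 2) K = 2 * n := by
    have h := Module.natCard_eq_pow_finrank (K := ZMod 2) (V := K)
    rw [Nat.card_zmod, Nat.card_eq_fintype_card, hK] at h
    have h' : 2 ^ (n * 2) = 2 ^ Module.finrank (ZMod 2) K := by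
      rw [← h, hq, ← pow_mul]
    have h'' : n * 2 = Module.finrank (ZMod 2) K := Nat.pow_right_injective (le_refl 2) h'
    omega
  have h2 : Module.finrank (ZMod 2) (K0 hK) = n := by
    have h := Module.natCard_eq_pow_finrank (K := ZMod 2) (V := K0 hK)
    rw [Nat.card_zmod, card_K0] at h
    have h' : 2 ^ n = 2 ^ Module.finrank (ZMod 2) (K0 hK) := by
      rw [← h]; exact hq.symm
    exact (Nat.pow_right_injective (le_refl 2) h').symm
  have hfinK : Module.Finite (ZMod 2) K := Module.Finite.of_finite
  have hfinK0 : Module.Finite (ZMod 2) (K0 hK) := Module.Finite.of_finite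
  rw [Nat.card_congr e, Module.natCard_eq_pow_finrank (K := ZMod 2), Nat.card_zmod,
    Module.finrank_linearMap, h1, h2]
  congr 1
  ring

include hq in
theorem card_ker : Nat.card (Phi two hK).ker = 2 ^ (2 * n ^ 2) := by
  rw [Nat.card_congr (kerEquiv two hK hq), card_hom two hK hq]

include hq in
theorem card_aut : Nat.card (MulAut (U two hK)) = 2 ^ (2 * n ^ 2) * (2 * n * (q ^ 2 - 1)) := by
  have h := Subgroup.card_eq_card_quotient_mul_card_subgroup (Phi two hK).ker
  have e : Nat.card (MulAut (U two hK) ⧸ (Phi two hK).ker) = Nat.card (Phi two hK).range :=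
    Nat.card_congr (QuotientGroup.quotientKerEquivRange (Phi two hK)).toEquiv
  rw [h, e, card_range two hK hq, card_ker two hK hq]
  ring

include hq in
theorem ker_elab : Cfsg.IsElementaryAbelian 2 (Phi two hK).ker := by
  refine ⟨⟨⟨fun a b => Subtype.ext (ker_comm two hK hq a.2 b.2)⟩⟩, fun a ha => ?_⟩
  rw [pow_two]
  exact ker_sq two hK hq ha

include hq in
theorem core_eq : Cfsg.pCore 2 (MulAut (U two hK)) = (Phi two hK).ker := by
  have : Fact (Nat.Prime 2) := ⟨Nat.prime_two⟩
  apply le_antisymm
  · intro g hg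
    have hN := H1.Cores.pCore_normal (G := MulAut (U two hK)) 2
    have hP := H1.Cores.isPGroup_pCore (G := MulAut (U two hK)) 2
    obtain ⟨c, hc, i, hi, h1, -⟩ := aut_form two hK hq g
    -- i = 0
    have hodd : ∀ d : K, d ≠ 0 → ∀ m : ℕ, d ^ 2 ^ m = 1 → d = 1 := by
      intro d _ m hd
      have : (d - 1) ^ 2 ^ m = 0 := by
        have e : d = (d - 1) + 1 := by ring
        rw [e, add_pow2 two hq, one_pow] at hd
        linear_combination hd
      have := pow_eq_zero_iff (by positivity) |>.mp this
      linear_combination this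
    -- an element of the core acting as a scalar is in the kernel
    have hscal : ∀ (f : MulAut (U two hK)) (e : K), e ≠ 0 → f ∈ Cfsg.pCore 2 (MulAut (U two hK)) →
        (∀ x, pa two hK (f x) = e * pa two hK x) → e = 1 := by
      intro f e he hf hfe
      obtain ⟨m, hm⟩ := hP ⟨f, hf⟩
      have hm' : f ^ 2 ^ m = 1 := congrArg Subtype.val hm
      have hit : ∀ (k : ℕ) (x : U two hK), pa two hK ((f ^ k) x) = e ^ k * pa two hK x := by
        intro k
        induction k with
        | zero => intro x; rw [pow_zero, pow_zero, one_mul]; rfl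
        | succ k ih =>
          intro x
          rw [pow_succ' f]
          show pa two hK (f ((f ^ k) x)) = _
          rw [hfe, ih]
          ring
      have h3 := hit (2 ^ m) (sec two hK 1)
      rw [hm', pa_sec, mul_one] at h3
      have h4 : (1 : K) = e ^ 2 ^ m := h3
      exact hodd e he m h4.symm
    have hi0 : i = 0 := by
      by_contra hne
      apply frob_ne hK hq (Nat.pos_of_ne_zero hne) hi
      intro d
      by_cases hd : d = 0
      · rw [hd, zero_pow (by positivity)]
      set δ := alpha two hK hq hd 0 with hδ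
      have hδx : ∀ x, pa two hK (δ x) = d * pa two hK x := by
        intro x
        rw [hδ, pa_alpha, pow_zero, pow_one]
      have hcm : g * (δ * g⁻¹ * δ⁻¹) ∈ Cfsg.pCore 2 (MulAut (U two hK)) :=
        mul_mem hg (hN.conj_mem _ (inv_mem hg) δ)
      have h5 := hscal (g * (δ * g⁻¹ * δ⁻¹)) (d ^ 2 ^ i / d) (div_ne_zero (pow_ne_zero _ hd) hd) hcm
        (by
          intro x
          -- write x = δ (g y)
          obtain ⟨y, rfl⟩ : ∃ y, x = δ (g y) := ⟨g⁻¹ (δ⁻¹ x), by
            show x = δ (g (g.symm (δ.symm x)))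
            rw [g.apply_symm_apply, δ.apply_symm_apply]⟩
          have e1 : (g * (δ * g⁻¹ * δ⁻¹)) (δ (g y)) = g (δ y) := by
            show g (δ (g.symm (δ.symm (δ (g y))))) = g (δ y)
            rw [δ.symm_apply_apply, g.symm_apply_apply]
          rw [e1, h1, hδx, hδx, h1, mul_pow]
          field_simp)
      rw [div_eq_one_iff_eq hd] at h5
      exact h5
    rw [mem_ker]
    intro x
    rw [hi0] at h1
    have hc1 := hscal g c hc hg (fun x => by rw [h1, pow_zero, pow_one])
    rw [h1, hc1, pow_zero, pow_one, one_mul]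
  · have hn : ((Phi two hK).ker).Normal := inferInstance
    apply H1.Cores.le_pCore hn
    exact IsPGroup.of_card (n := 2 * n ^ 2) (card_ker two hK hq)

include hq in
/-- S3162 -/
theorem final {S : Type*} [Group S] (e : S ≃* U two hK) :
    Cfsg.IsElementaryAbelian 2 (Cfsg.pCore 2 (MulAut S)) ∧
      Nat.card ↥(Cfsg.pCore 2 (MulAut S)) = 2 ^ (2 * n ^ 2) ∧
      Nat.card (MulAut S) = 2 ^ (2 * n ^ 2) * (2 * n * (q ^ 2 - 1)) := by
  set E : MulAut S ≃* MulAut (U two hK) := MulAut.congr e with hE
  have hmap := H1.Cores.map_equiv_pCore 2 E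
  rw [core_eq two hK hq] at hmap
  have hmem : ∀ g ∈ Cfsg.pCore 2 (MulAut S), E g ∈ (Phi two hK).ker := by
    intro g hg
    rw [← hmap]
    exact Subgroup.mem_map_of_mem _ hg
  have hel := ker_elab two hK hq
  refine ⟨⟨⟨⟨fun a b => ?_⟩⟩, fun a ha => ?_⟩, ?_, ?_⟩
  · apply Subtype.ext
    apply E.injective
    show E (a * b) = E (b * a)
    rw [map_mul, map_mul]
    exact ker_comm two hK hq (hmem a a.2) (hmem b b.2)
  · apply E.injective
    rw [map_pow, map_one]
    exact hel.2 _ (hmem a ha)
  · rw [← card_ker two hK hq, ← hmap]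
    exact (Subgroup.card_map_of_injective (f := (E : MulAut S →* MulAut (U two hK))) E.injective).symm
  · rw [Nat.card_congr E.toEquiv, card_aut two hK hq]

end gens

end H86.U3AutD
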